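import Cfsg.Agent.H21.An3

/-!
The abacus multiplicities `KK` (namespace `H21.An`).
* `KK`, `cf_eq_KK` (Murnaghan–Nakayama on the class of type `p ^ w`), `KK_succ`, `KK_coll`, `KK_move`
* `KK_two`, `KK_three` (explicit families), `KK_dvd` (`KK` divides `w !`), `exists_choose` (Kummer)
-/

set_option autoImplicit false
set_option linter.unusedSectionVars false
set_option linter.unusedVariables false

open MvPolynomial Finset Equiv H24.Sym

namespace H21.An

variable {n p w : ℕ} {ε q0 q : Fin n → ℕ}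

/-- number of standard multitableaux (with sign) -/
noncomputable def KK (ε q0 : Fin n → ℕ) (w : ℕ) (q : Fin n → ℕ) : ℤ :=
  cf q (psum (Fin n) ℤ 1 ^ w * ∑ τ ∈ univ.filter fun τ : Perm (Fin n) => ε ∘ τ = ε, (Perm.sign τ : ℤ) • mon (q0 ∘ τ))

theorem KK_succ : KK ε q0 (w + 1) q = ∑ i, if 1 ≤ q i then KK ε q0 w (Function.update q i (q i - 1)) else 0 := by
  rw [KK, pow_succ', mul_assoc, cf_psum_mul]; rfl

theorem sum_update_add (q : Fin n → ℕ) (i : Fin n) {k : ℕ} (h : k ≤ q i) :
    ∑ j, Function.update q i (q i - k) j + k = ∑ j, q j := by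
  rw [sum_update_of_mem (mem_univ i), sdiff_singleton_eq_erase, ← add_sum_erase _ q (mem_univ i)]; omega

theorem cf_psum_abacus (hε : ∀ i, ε i < p) (k : ℕ) (g : MvPolynomial (Fin n) ℤ) :
    cf (fun i => ε i + p * q i) (psum (Fin n) ℤ (p * k) * g) =
      ∑ i, if k ≤ q i then cf (fun j => ε j + p * Function.update q i (q i - k) j) g else 0 := by
  rw [cf_psum_mul]
  refine sum_congr rfl fun i _ => ?_
  by_cases h : k ≤ q i
  · rw [if_pos h, if_pos ((Nat.mul_le_mul_left p h).trans (Nat.le_add_left _ _))]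
    congr 2; ext j
    by_cases e : j = i
    · subst e; simp [Nat.mul_sub, Nat.add_sub_assoc (Nat.mul_le_mul_left p h)]
    · simp [e]
  · rw [if_neg h, if_neg]
    have := hε i
    have := Nat.mul_le_mul_left p (show q i + 1 ≤ k by omega)
    rw [mul_add] at this; omega

theorem cf_eq_KK (hε : ∀ i, ε i < p) (h0 : Core ε q0) (hw : ∑ i, q i = ∑ i, q0 i + w) {g : MvPolynomial (Fin n) ℤ}
    (hg : Alt g) : cf (fun i => ε i + p * q i) (psum (Fin n) ℤ p ^ w * g) =
      KK ε q0 w q * cf (fun i => ε i + p * q0 i) g := by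
  induction w generalizing q with
  | zero =>
    simp only [KK, pow_zero, one_mul, map_sum, map_zsmul, cf_mon]
    by_cases h : ∀ i j, ε i = ε j → q i = q j → i = j
    · have h1 := core_rho h
      have h2 : rho ε q = q := funext fun i => (sum_eq_sum_iff_of_le fun i _ => h1.le lt_of_rho_lt i).1
        (le_antisymm (sum_le_sum fun i _ => h1.le lt_of_rho_lt i) (hw.trans_le (h0.sum_le h1.1))) i (mem_univ _)
      obtain ⟨τ, h3, h4⟩ := h0.exists_perm h1
      rw [h2] at h4
      rw [sum_eq_single_of_mem τ (by simpa using h3) fun σ hσ e => by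
        rw [if_neg fun e' => e (Equiv.ext fun i => h0.1 _ _ ((congrFun (mem_filter.1 hσ).2 i).trans (congrFun h3 i).symm)
          (congrFun (e'.trans h4) i)), smul_zero], if_pos h4.symm, smul_eq_mul, mul_one, ← hg.cf_comp, h4]
      congr 2; ext i; simp [show ε (τ i) = ε i from congrFun h3 i]
    · push Not at h
      obtain ⟨i, j, h1, h2, h3⟩ := h
      rw [hg.cf_eq_zero fun hi => h3 (hi (by simp [h1, h2])), sum_eq_zero fun τ hτ => ?_, zero_mul]
      rw [if_neg, smul_zero]
      rintro rfl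
      have := congrFun (mem_filter.1 hτ).2
      exact h3 (τ.injective (h0.1 _ _ ((this i).trans (h1.trans (this j).symm)) h2))
  | succ w ih =>
    rw [pow_succ', mul_assoc, KK_succ, sum_mul]
    conv_lhs => enter [2, 1]; rw [← mul_one p]
    rw [cf_psum_abacus hε]
    refine sum_congr rfl fun i _ => ?_
    split_ifs with h
    · exact ih (by have := sum_update_add q i h; omega)
    · simp

theorem core_inj (hε : ∀ i, ε i < p) (h : ∀ i j, ε i = ε j → q i = q j → i = j) :
    Function.Injective fun i => ε i + p * q i := fun i j e => by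
  have e1 := congrArg (· % p) e
  simp only [Nat.add_mul_mod_self_left, Nat.mod_eq_of_lt (hε _)] at e1
  simp only [e1, add_right_inj] at e
  exact h i j e1 (Nat.eq_of_mul_eq_mul_left (Nat.zero_lt_of_lt (hε i)) e)

theorem cf_alt_ne_zero {b : Fin n → ℕ} (hb : Function.Injective b) : ∃ g, Alt g ∧ cf b g ≠ 0 := by
  obtain ⟨τ, hτ⟩ := exists_sort hb
  refine ⟨_, alt_alt (b ∘ τ), fun e => ?_⟩
  have := (alt_alt (b ∘ τ)).cf_comp τ b
  simp [cf_alt hτ hτ, e] at this

theorem KK_noninj (hε : ∀ i, ε i < p) (h0 : Core ε q0) (hw : ∑ i, q i = ∑ i, q0 i + w) {i j : Fin n} (h1 : ε i = ε j)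
    (h2 : q i = q j) (h3 : i ≠ j) : KK ε q0 w q = 0 := by
  obtain ⟨g, hg, h⟩ := cf_alt_ne_zero (core_inj hε h0.1)
  have := cf_eq_KK hε h0 hw hg
  rw [(hg.mul fun τ => by rw [map_pow, rename_psum]).cf_eq_zero fun hi => h3 (hi (by simp [h1, h2]))] at this
  exact (mul_eq_zero.1 this.symm).resolve_right h

theorem KK_coll (hε : ∀ i, ε i < p) (h0 : Core ε q0) {d : Fin n → ℕ} {l : Fin n} {k : ℕ} (hk : k ≤ (q0 + d) l)
    (hw : ∑ i, d i = w + k) (ht : d l < k) (hd : ∀ l', ε l' = ε l → q0 l' + k = q0 l + d l → d l' = 0) :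
    KK ε q0 w (Function.update (q0 + d) l ((q0 + d) l - k)) = 0 := by
  simp only [Pi.add_apply] at hk
  obtain ⟨l', h1, h2⟩ := h0.exists l (t := q0 l + d l - k) (by have := h0.2 l; omega)
  have h3 : l' ≠ l := fun e => by rw [e] at h2; omega
  refine KK_noninj hε h0 ?_ h1 (by simp [h3, hd l' h1 (by omega), h2]) h3
  have := sum_update_add (q0 + d) l hk
  simp only [Pi.add_apply, sum_add_distrib] at this ⊢
  omega

theorem update_add (q0 : Fin n → ℕ) {d : Fin n → ℕ} {l : Fin n} {k : ℕ} (h : k ≤ d l) :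
    Function.update (q0 + d) l ((q0 + d) l - k) = q0 + Function.update d l (d l - k) := by
  ext j; by_cases e : j = l
  · subst e; simp; omega
  · simp [e]

theorem KK_move (hε : ∀ i, ε i < p) (h0 : Core ε q0) {d : Fin n → ℕ} (hw : ∑ i, d i = w + 1)
    (hd : ∀ l l', ε l' = ε l → q0 l' + 1 = q0 l → d l = 0 → d l' = 0) :
    KK ε q0 (w + 1) (q0 + d) = ∑ l, if 1 ≤ d l then KK ε q0 w (q0 + Function.update d l (d l - 1)) else 0 := by
  rw [KK_succ]
  refine sum_congr rfl fun l _ => ?_
  by_cases h : 1 ≤ d l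
  · rw [if_pos h, if_pos (by simp; omega), update_add _ h]
  · rw [if_neg h]
    split_ifs with h'
    exacts [KK_coll hε h0 h' hw (by omega) fun l' a b => hd l l' a (by omega) (by omega), rfl]

theorem KK_zero (hε : ∀ i, ε i < p) (h0 : Core ε q0) : KK ε q0 0 q0 = 1 := by
  obtain ⟨g, hg, h⟩ := cf_alt_ne_zero (core_inj hε h0.1)
  have := cf_eq_KK (w := 0) hε h0 rfl hg
  rw [pow_zero, one_mul] at this
  exact (mul_eq_right₀ h).1 this.symm

/-- three beads: two on top of different runners and the second one on the second runner -/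
structure Bd (ε q0 : Fin n → ℕ) (i j j' : Fin n) : Prop where
  ne : ε i ≠ ε j
  eq : ε j' = ε j
  nx : q0 j' + 1 = q0 j
  ti : ∀ l, ε l = ε i → q0 l ≤ q0 i
  tj : ∀ l, ε l = ε j → q0 l ≤ q0 j

/-- displacement vector -/
def dv (i j j' : Fin n) (a c e : ℕ) : Fin n → ℕ := fun l => if l = i then a else if l = j then c else if l = j' then e else 0

variable {i j j' : Fin n}

theorem Bd.ne1 (h : Bd ε q0 i j j') : j ≠ i := fun e => h.ne (e ▸ rfl)
theorem Bd.ne2 (h : Bd ε q0 i j j') : j' ≠ i := fun e => h.ne (e ▸ h.eq)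
theorem Bd.ne3 (h : Bd ε q0 i j j') : j' ≠ j := fun e => by have := h.nx; rw [e] at this; omega

theorem Bd.sum {A : Type*} [AddCommMonoid A] (h : Bd ε q0 i j j') (f : Fin n → A)
    (hf : ∀ l, l ≠ i → l ≠ j → l ≠ j' → f l = 0) : ∑ l, f l = f i + f j + f j' := by
  rw [← sum_subset (subset_univ {i, j, j'}) fun l _ hl => by simp at hl; exact hf l hl.1 hl.2.1 hl.2.2,
    sum_insert (by simp [h.ne1.symm, h.ne2.symm]), sum_pair h.ne3.symm, add_assoc]

theorem Bd.sum_dv (h : Bd ε q0 i j j') (a c e : ℕ) : ∑ l, dv i j j' a c e l = a + c + e := by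
  rw [h.sum _ fun l a b c => by simp [dv, a, b, c]]; simp [dv, h.ne1, h.ne2, h.ne3]

theorem Bd.step (hε : ∀ i, ε i < p) (h0 : Core ε q0) (h : Bd ε q0 i j j') {a c e : ℕ} (hw : a + c + e = w + 1)
    (hc : c = 0 → e = 0) : KK ε q0 (w + 1) (q0 + dv i j j' a c e) =
      (if 1 ≤ a then KK ε q0 w (q0 + dv i j j' (a - 1) c e) else 0) +
      (if 1 ≤ c then KK ε q0 w (q0 + dv i j j' a (c - 1) e) else 0) +
      (if 1 ≤ e then KK ε q0 w (q0 + dv i j j' a c (e - 1)) else 0) := by
  rw [KK_move hε h0 ((h.sum_dv a c e).trans hw) fun l l' a1 a2 a3 => ?_, h.sum _ fun l a b c => by simp [dv, a, b, c]]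
  · simp only [dv, h.ne1, h.ne2, h.ne3, if_true, if_false]
    congr 5 <;> ext l <;> simp only [Function.update_apply, dv] <;> split_ifs <;> simp_all [h.ne1, h.ne2, h.ne3, h.ne1.symm, h.ne2.symm, h.ne3.symm]
  · have b1 : l' ≠ i := fun e => by have := h.ti l (by rw [← a1, e]); rw [e] at a2; omega
    have b2 : l' ≠ j := fun e => by have := h.tj l (by rw [← a1, e]); rw [e] at a2; omega
    simp only [dv, b1, b2, if_false]
    split_ifs with b3
    · obtain rfl : l = j := h0.1 _ _ (by rw [← a1, b3, h.eq]) (by rw [← a2, b3, h.nx])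
      exact hc (by simpa [dv, h.ne1] using a3)
    · rfl

theorem KK_two (hε : ∀ i, ε i < p) (h0 : Core ε q0) (h : Bd ε q0 i j j') {a c : ℕ} (hw : a + c = w) :
    KK ε q0 w (q0 + dv i j j' a c 0) = w.choose a := by
  induction w generalizing a c with
  | zero =>
    obtain ⟨rfl, rfl⟩ := Nat.add_eq_zero_iff.1 hw
    rw [show q0 + dv i j j' 0 0 0 = q0 by ext; simp [dv], KK_zero hε h0]; rfl
  | succ w ih =>
    rw [h.step hε h0 hw fun _ => rfl]
    rcases a with _ | a <;> rcases c with _ | c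
    · omega
    · simp [ih (a := 0) (c := c) (by omega)]
    · obtain rfl : a = w := by omega
      simp [ih (a := a) (c := 0) rfl]
    · simp [ih (a := a) (c := c + 1) (by omega), ih (a := a + 1) (c := c) (by omega), Nat.choose_succ_succ']

theorem KK_three (hε : ∀ i, ε i < p) (h0 : Core ε q0) (h : Bd ε q0 i j j') {a c : ℕ} (hw : a + c = w) :
    KK ε q0 (w + 1) (q0 + dv i j j' a c 1) = (w + 1).choose a * c := by
  have h1 : ∀ a, KK ε q0 (a + 1) (q0 + dv i j j' a 0 1) = 0 := fun a => KK_noninj hε h0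
    (by simp [sum_add_distrib, h.sum_dv]) h.eq (by simp [dv, h.ne1, h.ne2, h.ne3, h.nx]) h.ne3
  induction w generalizing a c with
  | zero =>
    obtain ⟨rfl, rfl⟩ := Nat.add_eq_zero_iff.1 hw
    simp [h1]
  | succ w ih =>
    rcases c with _ | c
    · simp [← hw, h1]
    rw [h.step hε h0 (by omega) (by omega)]
    rcases a with _ | a
    · simp [ih (a := 0) (c := c) (by omega), KK_two hε h0 h hw]
    · simp [ih (a := a) (c := c + 1) (by omega), ih (a := a + 1) (c := c) (by omega), KK_two hε h0 h hw,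
        Nat.choose_succ_succ' (w + 1) a]
      ring

theorem KK_four (hε : ∀ i, ε i < p) (h0 : Core ε q0) (h : Bd ε q0 i j j') {a c : ℕ} (hw : a + c = w + 2) (h3 : 1 ≤ w) :
    0 < ∑ l, if 2 ≤ (q0 + dv i j j' a c 0) l then
      KK ε q0 w (Function.update (q0 + dv i j j' a c 0) l ((q0 + dv i j j' a c 0) l - 2)) else 0 := by
  have h1 : ∀ l, (if 2 ≤ (q0 + dv i j j' a c 0) l then
      KK ε q0 w (Function.update (q0 + dv i j j' a c 0) l ((q0 + dv i j j' a c 0) l - 2)) else 0) =
      if 2 ≤ dv i j j' a c 0 l then KK ε q0 w (q0 + Function.update (dv i j j' a c 0) l (dv i j j' a c 0 l - 2)) else 0 := fun l => by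
    by_cases e : 2 ≤ dv i j j' a c 0 l
    · rw [if_pos e, if_pos (by simp; omega), update_add _ e]
    · rw [if_neg e]
      split_ifs with h'
      · refine KK_coll hε h0 h' (by rw [h.sum_dv]; omega) (by omega) fun l' a1 a2 => ?_
        have b1 : l' ≠ i := fun e => by have := h.ti l (by rw [← a1, e]); rw [e] at a2; omega
        have b2 : l' ≠ j := fun e => by have := h.tj l (by rw [← a1, e]); rw [e] at a2; omega
        simp [dv, b1, b2]
      · rfl
  have h2 : Function.update (dv i j j' a c 0) i (a - 2) = dv i j j' (a - 2) c 0 := by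
    ext l; simp only [Function.update_apply, dv]; split_ifs <;> rfl
  have h2' : Function.update (dv i j j' a c 0) j (c - 2) = dv i j j' a (c - 2) 0 := by
    ext l; simp only [Function.update_apply, dv]; split_ifs with e1 e2 <;> first | rfl | exact absurd (e1.symm.trans e2) h.ne1
  rw [sum_congr rfl fun l _ => h1 l, h.sum _ fun l a b c => by simp [dv, a, b, c]]
  simp only [show dv i j j' a c 0 i = a by simp [dv], show dv i j j' a c 0 j = c by simp [dv, h.ne1],
    show dv i j j' a c 0 j' = 0 by simp [dv, h.ne2, h.ne3], h2, h2']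
  by_cases ha : 2 ≤ a <;> by_cases hc : 2 ≤ c
  · have := Nat.choose_pos (show a - 2 ≤ w by omega)
    simp [ha, hc, KK_two hε h0 h (show a - 2 + c = w by omega), KK_two hε h0 h (show a + (c - 2) = w by omega)]
    omega
  · simp [ha, hc, KK_two hε h0 h (show a - 2 + c = w by omega), Nat.choose_pos (show a - 2 ≤ w by omega)]
  · simp [ha, hc, KK_two hε h0 h (show a + (c - 2) = w by omega), Nat.choose_pos (show a ≤ w by omega)]
  · omega

theorem cf_pow_mon (e : Fin n → ℕ) (hw : ∑ i, q i = ∑ i, e i + w) :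
    cf q (psum (Fin n) ℤ 1 ^ w * mon e) * ∏ i, ((q i).factorial : ℤ) = w.factorial * ∏ i, ((q i).descFactorial (e i) : ℤ) := by
  rw [mul_comm _ (mon e), cf_mon_mul]
  split_ifs with h
  · have h1 : ∑ i, (q i - e i) = w := by rw [sum_tsub_distrib _ fun i _ => h i]; omega
    have h2 := Nat.multinomial_spec univ fun i => q i - e i
    simp only [psum, pow_one, cf, coeffAddMonoidHom_apply]
    rw [coeff_sum_X_pow_of_fintype, if_pos (by rw [Finsupp.sum_fintype _ _ (by simp)]; simpa using h1),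
      Finsupp.multinomial_eq_of_support_subset (subset_univ _), ← h1, ← h2]
    simp only [← Nat.factorial_mul_descFactorial (h _)]
    push_cast
    rw [prod_mul_distrib]; simp; ring
  · push Not at h
    obtain ⟨i, hi⟩ := h
    rw [zero_mul, prod_eq_zero (mem_univ i) (by simpa using hi), mul_zero]

theorem vand_dvd {m : ℕ} {x : Fin m → ℕ} (hx : StrictMono x) :
    (Matrix.of fun s t : Fin m => ((x s).descFactorial t : ℤ)).det ∣ ∏ s, ((x s).factorial : ℤ) := by
  have := Matrix.det_eval_matrixOfPolynomials_eq_det_vandermonde (fun s => (x s : ℤ)) (fun t => descPochhammer ℤ t)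
    (fun t => descPochhammer_natDegree ℤ t) fun t => monic_descPochhammer ℤ t
  simp only [descPochhammer_eval_eq_descFactorial] at this
  rw [← this, Matrix.det_vandermonde, prod_comm' (t' := univ) (s' := fun t => Iio t) (by simp)]
  refine prod_dvd_prod_of_dvd _ _ fun t _ => ?_
  rw [prod_congr rfl fun s hs => (Nat.cast_sub (hx (mem_Iio.1 hs)).le).symm, ← Nat.cast_prod, Int.natCast_dvd_natCast,
    ← prod_Ico_id_eq_factorial, ← prod_image (f := fun k => k) (g := fun s => x t - x s) fun s hs s' hs' e => hx.injective (by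
      have := hx (mem_Iio.1 hs); have := hx (mem_Iio.1 hs'); simp only at e; omega)]
  refine prod_dvd_prod_of_subset _ _ _ fun k hk => ?_
  obtain ⟨s, hs, rfl⟩ := mem_image.1 hk
  have := hx (mem_Iio.1 hs)
  exact mem_Ico.2 ⟨by omega, by omega⟩

theorem KK_dvd (h0 : Core ε q0) (hq : ∀ i j, ε i = ε j → q0 i < q0 j → q i < q j) (hw : ∑ i, q i = ∑ i, q0 i + w) :
    KK ε q0 w q ∣ w.factorial := by
  let A : Matrix (Fin n) (Fin n) ℤ := .of fun i j => if ε j = ε i then ((q i).descFactorial (q0 j) : ℤ) else 0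
  have h1 : KK ε q0 w q * ∏ i, ((q i).factorial : ℤ) = w.factorial * A.det := by
    simp only [KK, mul_sum, map_sum, sum_mul, mul_smul_comm, map_zsmul, smul_mul_assoc]
    rw [← Matrix.det_transpose, Matrix.det_apply, mul_sum, sum_filter]
    refine sum_congr rfl fun τ _ => ?_
    simp only [A, Matrix.transpose_apply, Matrix.of_apply, prod_ite_zero, mem_univ, forall_true_left, funext_iff,
      Function.comp_apply]
    split_ifs
    · rw [cf_pow_mon _ (by rw [hw]; congr 1; exact (Equiv.sum_comp τ q0).symm)]; simp [Units.smul_def]; ring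
    · simp
  have h2 : A.det ∣ ∏ i, ((q i).factorial : ℤ) := by
    rw [Matrix.BlockTriangular.det (M := A) (b := ε) fun i j h => if_neg h.ne,
      ← prod_fiberwise_of_maps_to (g := ε) (t := univ.image ε) fun i _ => mem_image_of_mem _ (mem_univ i)]
    refine prod_dvd_prod_of_dvd _ _ fun a _ => ?_
    let e : {i // ε i = a} ≃ Fin #{i | ε i = a} := Equiv.ofBijective (fun i => ⟨q0 i, by simpa [i.2] using h0.2 i⟩)
      ((Fintype.bijective_iff_injective_and_card _).2 ⟨fun i j e => Subtype.ext (h0.1 _ _ (i.2.trans j.2.symm)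
        (congrArg Fin.val e)), by simp [Fintype.card_subtype]⟩)
    have he : ∀ s, q0 (e.symm s) = s := fun s => congrArg Fin.val (e.apply_symm_apply s)
    have := vand_dvd (x := fun s => q (e.symm s)) fun s t h => hq _ _ ((e.symm s).2.trans (e.symm t).2.symm) (by rwa [he, he])
    rw [Equiv.prod_comp e.symm fun i => ((q i).factorial : ℤ), ← prod_subtype (univ.filter fun i => ε i = a) (by simp)
      fun i => ((q i).factorial : ℤ)] at this
    rw [← Matrix.det_reindex_self e]
    refine (congrArg Matrix.det ?_).dvd.trans this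
    ext s t
    simp [A, Matrix.toSquareBlock_def, (e.symm s).2, (e.symm t).2, he]
  obtain ⟨c, hc⟩ := h2
  have h3 : A.det ≠ 0 := left_ne_zero_of_mul (hc ▸ prod_ne_zero_iff.2 fun i _ => by simpa using Nat.factorial_ne_zero _)
  exact ⟨c, mul_right_cancel₀ h3 (by rw [← h1, hc]; ring)⟩

theorem exists_choose (hp : p.Prime) (hw : p ≤ w) : (∃ a ≤ w, (w.choose a).factorization p = 1) ∨
    (w % p ≠ 0 ∧ p + 1 ≤ w ∧ (w.choose (p + 1)).factorization p = 0) := by
  have h0 := hp.pos
  obtain ⟨k, c, hc, e⟩ := Nat.exists_eq_pow_mul_and_not_dvd (show w / p ≠ 0 from (Nat.div_pos hw h0).ne') p hp.ne_one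
  have e' : w = w % p + p ^ (k + 1) * c := by rw [pow_succ', mul_assoc, ← e, Nat.mod_add_div]
  have hr := Nat.mod_lt w h0
  have h1 : ∀ i, k + 2 ≤ i → p ^ (k + 1) + w % p ≤ w % p ^ i := fun i hi => by
    refine le_trans ?_ (Nat.mod_mod_of_dvd w (pow_dvd_pow p hi) ▸ Nat.mod_le _ _)
    have h2 : w / p ^ (k + 1) = c := by
      rw [pow_succ', ← Nat.div_div_eq_div_mul, e, Nat.mul_div_cancel_left _ (pow_pos h0 _)]
    have h3 : w % p ^ (k + 1) = w % p := by
      conv_lhs => rw [e', Nat.add_mul_mod_self_left, Nat.mod_eq_of_lt (hr.trans_le (Nat.le_self_pow (by omega) _))]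
    rw [Nat.mod_pow_succ, h2, h3, add_comm]
    exact Nat.add_le_add_left (Nat.le_mul_of_pos_right _ (Nat.pos_of_ne_zero fun e => hc (Nat.dvd_of_mod_eq_zero e))) _
  have h2 : ∀ a i, a ≤ w % p ^ i → ¬ p ^ i ≤ a % p ^ i + (w - a) % p ^ i := fun a i h => by
    have := Nat.mod_lt w (pow_pos h0 i)
    rw [Nat.mod_eq_of_lt (by omega), show w - a = w % p ^ i - a + p ^ i * (w / p ^ i) by
      have := Nat.mod_add_div w (p ^ i); omega, Nat.add_mul_mod_self_left, Nat.mod_eq_of_lt (by omega)]
    omega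
  have h3 : p ^ (k + 1) ≤ w := ((Nat.le_add_right _ _).trans (h1 _ le_rfl)).trans (Nat.mod_le _ _)
  have h4 : p ^ k < p ^ (k + 1) := Nat.pow_lt_pow_right hp.one_lt (by omega)
  by_cases h : k = 0 ∧ w % p ≠ 0
  · have h5 := h1 _ le_rfl
    have := Nat.mod_le w (p ^ (k + 2))
    rw [h.1, zero_add, pow_one] at h5
    refine .inr ⟨h.2, by have := h.2; have := Nat.mod_le w (p ^ (0 + 2)); omega, ?_⟩
    rw [Nat.factorization_choose hp (by have := h.2; have := Nat.mod_le w (p ^ (0 + 2)); omega) (Nat.lt_succ_self _),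
      card_eq_zero, filter_eq_empty_iff]
    intro i hi
    rcases (mem_Ico.1 hi).1.eq_or_lt with rfl | hi
    · rw [pow_one, Nat.add_mod_left, Nat.mod_eq_of_lt hp.one_lt, show w - (p + 1) = w % p - 1 + p * (w / p - 1) by
        have := Nat.mod_add_div w p; have := h.2; rw [Nat.mul_sub]; have := Nat.mul_le_mul_left p (Nat.div_pos hw h0); omega,
        Nat.add_mul_mod_self_left, Nat.mod_eq_of_lt (by omega)]
      have := h.2; omega
    · have := h1 i (by omega)
      rw [h.1, zero_add, pow_one] at this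
      exact h2 _ _ (by have := h.2; omega)
  · have h5 : w % p < p ^ k := by
      rcases k with _ | k
      · simpa using h
      · exact hr.trans_le (Nat.le_self_pow (by omega) _)
    refine .inl ⟨p ^ k, by omega, ?_⟩
    rw [Nat.factorization_choose hp (by omega) (Nat.lt_succ_self _), card_eq_one]
    refine ⟨k + 1, eq_singleton_iff_unique_mem.2 ⟨mem_filter.2 ⟨mem_Ico.2 ⟨by omega,
      Nat.lt_succ_of_le (Nat.le_log_of_pow_le hp.one_lt h3)⟩, ?_⟩, fun i hi => by_contra fun hi' => ?_⟩⟩
    · obtain ⟨c, rfl⟩ := Nat.exists_eq_add_one_of_ne_zero (show c ≠ 0 by rintro rfl; simp at hc)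
      rw [Nat.mod_eq_of_lt h4, show w - p ^ k = w % p + p ^ (k + 1) - p ^ k + p ^ (k + 1) * c by rw [mul_add] at e'; omega,
        Nat.add_mul_mod_self_left, Nat.mod_eq_of_lt (by omega)]
      omega
    · have h6 := (mem_filter.1 hi).2
      rcases lt_or_gt_of_ne hi' with h7 | h7
      · rw [Nat.mod_eq_zero_of_dvd (pow_dvd_pow p (by omega)), zero_add] at h6
        exact (Nat.mod_lt _ (pow_pos h0 i)).not_ge h6
      · exact h2 _ _ (by have := h1 i h7; omega) h6

theorem exists_bd (hp : 1 < p) (hε : ∀ i, ε i < p) (h0 : Core ε q0) (hw : 2 ≤ w)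
    (h : ∑ i, (ε i + p * q0 i) + p * w = n + ∑ i : Fin n, i.val) (hn : p * w ≤ n) : ∃ i j j', Bd ε q0 i j j' := by
  obtain ⟨τ, hτ⟩ := exists_sort (core_inj hε h0.1)
  set c := (fun i => ε i + p * q0 i) ∘ τ
  have h0' : ∀ (v : Fin n) (k : ℕ) (s : Fin n), s.val = v + k → c v + k ≤ c s := fun v k => by
    induction k with
    | zero => exact fun s h => by rw [show s = v from Fin.ext h]; rfl
    | succ k ih => exact fun s h => (Nat.succ_le_succ (ih ⟨v + k, by omega⟩ rfl)).trans (hτ (Fin.lt_def.2 (by simp; omega)))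
  have h0'' : ∀ s : Fin n, s.val ≤ c s := core_val.le fun i j _ h => hτ h
  have h1 : ∀ r < p, ∀ t < w, ∃ i, ε i = r ∧ q0 i = t := fun r hr t ht => by
    have h2 : r + p * t < p * w := by have := Nat.mul_le_mul_left p (show t + 1 ≤ w from ht); rw [mul_add] at this; omega
    let v : Fin n := ⟨r + p * t, h2.trans_le hn⟩
    have h3 : c v = v := le_antisymm (by_contra fun h4 => by
      have h5 : ∑ s : Fin n, (s.val + if v ≤ s then 1 else 0) ≤ ∑ s, c s := sum_le_sum fun s _ => by
        split_ifs with h6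
        · have := h0' v (s - v) s (by have := Fin.le_def.1 h6; omega)
          have := Fin.le_def.1 h6
          omega
        · exact h0'' s
      rw [sum_add_distrib, sum_boole, show ∑ s, c s = _ from Equiv.sum_comp τ fun i => ε i + p * q0 i,
        show (univ.filter fun s => v ≤ s) = Ici v by ext; simp, Fin.card_Ici] at h5
      simp only [v, Nat.cast_id] at h5
      omega) (h0'' v)
    have e1 := congrArg (· % p) h3
    simp only [c, v, Function.comp_apply, Nat.add_mul_mod_self_left, Nat.mod_eq_of_lt (hε _), Nat.mod_eq_of_lt hr] at e1 h3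
    exact ⟨_, e1, Nat.eq_of_mul_eq_mul_left (show 0 < p by omega) (by rw [e1] at h3; exact Nat.add_left_cancel h3)⟩
  obtain ⟨i0, a0, -⟩ := h1 0 (by omega) 0 (by omega)
  obtain ⟨j0, b0, b1⟩ := h1 1 hp 1 hw
  obtain ⟨i, a1, a2⟩ := exists_max_image (univ.filter fun i => ε i = 0) q0 ⟨i0, by simpa using a0⟩
  obtain ⟨j, b2, b3⟩ := exists_max_image (univ.filter fun i => ε i = 1) q0 ⟨j0, by simpa using b0⟩
  simp only [mem_filter, mem_univ, true_and] at a1 a2 b2 b3
  have := b3 j0 b0
  obtain ⟨j', c1, c2⟩ := h0.exists j (t := q0 j - 1) (by have := h0.2 j; omega)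
  exact ⟨i, j, j', by omega, c1, by omega, fun l hl => a2 l (hl.trans a1), fun l hl => b3 l (hl.trans b2)⟩

end H21.An
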