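import Cfsg.Agent.H21.Quot
import Cfsg.Agent.H06.Degree
import Cfsg.Agent.H07.Deg

/-!
Characters of degree `p` of Sylow subgroups of symmetric and alternating groups (namespace `H21.An`).
* `deg_p`, `idx_p`, `chain`, `exists_deg_p`
-/

set_option autoImplicit false
set_option linter.unusedSectionVars false
set_option linter.unusedVariables false

open Equiv Cfsg H05 H21 MulAction
open scoped commutatorElement

namespace H21.An

variable {p : ℕ} [hp : Fact p.Prime]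

theorem deg_p {X : Type*} [Group X] [Finite X] {H K : Subgroup X} [H.Normal] (hi : H.index = p)
    (hK : ∀ a ∈ H, ∀ b ∈ H, ⁅a, b⁆ ∈ K) {x y : X} (h : ⁅x, y⁆ ∉ K) : ∃ φ : IrrCharacter X, charDegree φ.1 = p := by
  have h1 : ⁅H, H⁆ ≤ K := Subgroup.commutator_le.2 hK
  let f := QuotientGroup.mk' ⁅H, H⁆
  have hf : Function.Surjective f := QuotientGroup.mk'_surjective _
  obtain ⟨φ, hφ⟩ := H07.exists_deg_ne_one (G := X ⧸ ⁅H, H⁆) fun hc => h (h1 ((QuotientGroup.eq_one_iff _).1 (by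
    change f _ = 1
    rw [map_commutatorElement, commutatorElement_eq_one_iff_mul_comm]; exact hc.1.1 _ _)))
  haveI := Subgroup.Normal.map ‹H.Normal› f hf
  haveI : IsMulCommutative (H.map f) := ⟨⟨by
    rintro ⟨_, a, ha, rfl⟩ ⟨_, b, hb, rfl⟩
    exact Subtype.ext (commutatorElement_eq_one_iff_mul_comm.1 (by
      rw [← map_commutatorElement]; exact (QuotientGroup.eq_one_iff _).2 (Subgroup.commutator_mem_commutator ha hb)))⟩⟩
  have h2 := H06.ito_charDegree_dvd_index φ.2 (H.map f)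
  rw [Subgroup.index_map_eq _ hf (by rw [QuotientGroup.ker_mk']; exact Subgroup.commutator_le_left _ _), hi] at h2
  exact ⟨infl hf φ, (charDegree_infl hf φ).trans (((Nat.dvd_prime hp.1).1 h2).resolve_left hφ)⟩

theorem idx_p {Y : Type*} [Group Y] [Finite Y] (hY : IsPGroup p Y) {H : Subgroup Y} (hi : H.index = p) :
    H.Normal ∧ ∀ a b : Y, ⁅a, b⁆ ∈ H := by
  obtain ⟨k, hk⟩ := IsPGroup.iff_card.1 hY
  haveI : H.Normal := Subgroup.normal_of_index_eq_minFac_card (by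
    rw [hi, hk, hp.1.pow_minFac]
    rintro rfl
    exact hp.1.ne_one (Nat.dvd_one.1 (by rw [← hi, ← pow_zero p, ← hk]; exact H.index_dvd_card)))
  haveI := isCyclic_of_prime_card (α := Y ⧸ H) hi
  refine ⟨‹_›, fun a b => (QuotientGroup.eq_one_iff _).1 ?_⟩
  change QuotientGroup.mk' H _ = 1
  rw [map_commutatorElement, commutatorElement_eq_one_iff_mul_comm]
  exact (IsCyclic.commutative (α := Y ⧸ H)).1.1 _ _

theorem chain {Y : Type*} [Group Y] [Finite Y] (hY : IsPGroup p Y) {S : Subgroup Y} (hS : p ^ 2 ≤ S.index) :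
    ∃ K H : Subgroup Y, S ≤ K ∧ K ≤ H ∧ K.index = p ^ 2 ∧ H.index = p ∧ H.Normal ∧ ∀ a ∈ H, ∀ b ∈ H, ⁅a, b⁆ ∈ K := by
  obtain ⟨k, hk⟩ := IsPGroup.iff_card.1 hY
  obtain ⟨s, hs⟩ := IsPGroup.iff_card.1 (hY.to_subgroup S)
  have h1 : s + 2 ≤ k := (Nat.pow_le_pow_iff_right hp.1.one_lt).1 (by
    rw [← hk, ← S.card_mul_index, hs, pow_add]; exact Nat.mul_le_mul_left _ hS)
  obtain ⟨m, rfl⟩ : ∃ m, k = m + 2 := ⟨k - 2, by omega⟩
  obtain ⟨K, k1, k2⟩ := Sylow.exists_subgroup_card_pow_prime_le p (m := m) (hk ▸ pow_dvd_pow p (by omega)) S hs (by omega)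
  obtain ⟨H, h2, h3⟩ := Sylow.exists_subgroup_card_pow_prime_le p (m := m + 1) (hk ▸ pow_dvd_pow p (by omega)) K k1 (by omega)
  have h4 : K.index = p ^ 2 := Nat.eq_of_mul_eq_mul_left (pow_pos hp.1.pos m) (by rw [← k1, K.card_mul_index, hk, k1, pow_add])
  have h5 : H.index = p := Nat.eq_of_mul_eq_mul_left (pow_pos hp.1.pos (m + 1)) (by
    rw [← h2, H.card_mul_index, hk, h2, ← pow_succ])
  have h6 : (K.subgroupOf H).index = p := Nat.eq_of_mul_eq_mul_right hp.1.pos (by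
    have := Subgroup.relIndex_mul_index h3
    rwa [h4, h5, pow_two] at this)
  exact ⟨K, H, k2, h3, h4, h5, (idx_p hY h5).1, fun a ha b hb => (idx_p (hY.to_subgroup H) h6).2 ⟨a, ha⟩ ⟨b, hb⟩⟩

variable {α : Type*} [Fintype α] [DecidableEq α] {P : Subgroup (Perm α)}

/-- permutations acting on each orbit of `H` as some element of `H` -/
def EE (H : Subgroup P) : Subgroup (Perm α) where
  carrier := {g | ∀ b, ∃ k ∈ H, ∀ h ∈ H, g (h.1 b) = k.1 (h.1 b)}
  one_mem' b := ⟨1, one_mem _, fun _ _ => rfl⟩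
  mul_mem' {g g'} h h' b := by
    obtain ⟨k, k1, k2⟩ := h b
    obtain ⟨k', k1', k2'⟩ := h' b
    exact ⟨k * k', mul_mem k1 k1', fun x hx => by rw [Perm.mul_apply, k2' x hx]; exact k2 _ (mul_mem k1' hx)⟩
  inv_mem' {g} h b := by
    obtain ⟨k, k1, k2⟩ := h b
    refine ⟨k⁻¹, inv_mem k1, fun x hx => Perm.inv_eq_iff_eq.2 ?_⟩
    simpa using (k2 _ (mul_mem (inv_mem k1) hx)).symm

theorem EE_le (hP : IsPGroup p P)
    (hmax : ∀ Q : Subgroup (Perm α), IsPGroup p Q → P ≤ Q → (∀ b : α, P ≤ stabilizer _ b → Q ≤ stabilizer _ b) → Q ≤ P)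
    (H : Subgroup P) [hH : H.Normal] : EE H ≤ P := by
  obtain ⟨m, hm⟩ := IsPGroup.iff_card.1 hP
  refine le_sup_right.trans (hmax _ (hP.to_sup_of_normal_right' (K := EE H) (fun g => ⟨m, Subtype.ext (Perm.ext fun b => ?_)⟩)
    fun x hx => Subgroup.mem_normalizer_fintype fun g hg b => ?_) le_sup_left fun b hb => sup_le hb fun g hg => ?_)
  · obtain ⟨k, k1, k2⟩ := g.2 b
    have : ∀ j : ℕ, (g.1 ^ j) b = (k ^ j).1 b := fun j => by
      induction j with
      | zero => rfl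
      | succ j ih => rw [pow_succ', Perm.mul_apply, ih, k2 _ (pow_mem k1 j), pow_succ']; rfl
    rw [Subgroup.coe_pow, this, ← hm, pow_card_eq_one']; rfl
  · obtain ⟨k, k1, k2⟩ := hg (x⁻¹ b)
    refine ⟨⟨x, hx⟩ * k * ⟨x, hx⟩⁻¹, hH.conj_mem _ k1 _, fun h hh => ?_⟩
    simpa using k2 _ (hH.conj_mem' _ hh ⟨x, hx⟩)
  · obtain ⟨k, k1, k2⟩ := hg b
    exact (k2 1 (one_mem _)).trans (hb k.2)

theorem exists_deg_p (hP : IsPGroup p P)
    (hmax : ∀ Q : Subgroup (Perm α), IsPGroup p Q → P ≤ Q → (∀ b : α, P ≤ stabilizer _ b → Q ≤ stabilizer _ b) → Q ≤ P)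
    {X : Type*} [Group X] [Finite X] (f : X →* P) {c t : P} (hc : c.1.IsCycle) (hc' : p ^ 2 ≤ c.1.support.card)
    (hd : Perm.Disjoint c.1 t.1) (ht : t = 1 ∨ t.1.IsSwap) (hf : ∀ g, g ∈ f.range ∨ g * t ∈ f.range) :
    ∃ φ : IrrCharacter X, charDegree φ.1 = p := by
  classical
  obtain ⟨a, ha, ha'⟩ := hc
  have h1 : (c.1.support : Set α) ⊆ orbit P a := fun b hb => by
    obtain ⟨k, rfl⟩ := ha' (Perm.mem_support.1 hb)
    exact ⟨c ^ k, rfl⟩
  have h2 : p ^ 2 ≤ (orbit P a).ncard := hc'.trans (Set.ncard_coe_finset _ ▸ Set.ncard_le_ncard h1)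
  obtain ⟨K, H, k1, k2, k3, k4, k5, k6⟩ := chain hP (S := stabilizer P a) (index_stabilizer P a ▸ h2)
  have k7 : ∀ g : P, g.1 a = a → g ∈ K := fun g hg => k1 hg
  obtain ⟨h, h3, h4⟩ : ∃ h ∈ H, h ∉ K := by
    by_contra! e
    rw [le_antisymm k2 e, k4, pow_two] at k3
    exact hp.1.ne_one (Nat.eq_of_mul_eq_mul_left hp.1.pos (by rw [← k3, mul_one]))
  obtain ⟨x, hx⟩ : ∃ x, x ∉ H := by
    by_contra! e
    exact hp.1.ne_one (by rw [← k4, (Subgroup.eq_top_iff' H).2 e, Subgroup.index_top])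
  have h5 : ∀ k ∈ H, ∀ b, (∃ l ∈ H, l.1 a = k.1 b) ↔ ∃ l ∈ H, l.1 a = b := fun k hk b =>
    ⟨fun ⟨l, l1, l2⟩ => ⟨k⁻¹ * l, mul_mem (inv_mem hk) l1, by simp [l2]⟩,
      fun ⟨l, l1, l2⟩ => ⟨k * l, mul_mem hk l1, by simp [l2]⟩⟩
  let y : P := ⟨Perm.ofSubtype (h.1.subtypePerm (p := fun b => ∃ l ∈ H, l.1 a = b) (h5 h h3)), EE_le hP hmax H fun b => by
    by_cases hb : ∃ l ∈ H, l.1 a = b
    · exact ⟨h, h3, fun k hk => Perm.ofSubtype_subtypePerm_of_mem _ ((h5 k hk b).2 hb)⟩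
    · exact ⟨1, one_mem _, fun k hk => Perm.ofSubtype_subtypePerm_of_not_mem _ (mt (h5 k hk b).1 hb)⟩⟩
  have h6 : ⁅x, y⁆ ∉ K := fun e => h4 (by
    have a1 : x * y * x⁻¹ ∈ K := k7 _ (by
      have : y.1 (x.1⁻¹ a) = x.1⁻¹ a := Perm.ofSubtype_subtypePerm_of_not_mem _ fun ⟨l, l1, l2⟩ =>
        hx ((mul_mem_cancel_right l1).1 (k2 (k7 _ (by simp [l2]))))
      exact (congrArg x.1 this).trans (by simp))
    have a2 : h⁻¹ * y ∈ K := k7 _ (by
      have : y.1 a = h.1 a := Perm.ofSubtype_subtypePerm_of_mem _ ⟨1, one_mem _, rfl⟩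
      simp [this])
    exact inv_mem_iff.1 ((mul_mem_cancel_right (inv_mem_iff.1 ((mul_mem_cancel_left a1).1 e))).1 a2))
  have h7 : t ∈ K.normalCore := fun g => by
    rcases ht with rfl | ht
    · simp
    by_cases e : K ≤ stabilizer P a
    · have a1 := Set.eq_of_subset_of_ncard_le h1 (by
        rw [← index_stabilizer, le_antisymm k1 e, k3, Set.ncard_coe_finset]; exact hc')
      have a2 : t.1 (g.1⁻¹ a) = g.1⁻¹ a := (hd _).resolve_left (Perm.mem_support.1 (a1.ge ⟨g⁻¹, rfl⟩))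
      exact k7 _ ((congrArg g.1 a2).trans (by simp))
    · obtain ⟨k, a1, a2⟩ := SetLike.not_le_iff_exists.1 e
      obtain ⟨b, b', -, hb⟩ := ht
      have a3 : (g * t * g⁻¹).1 = swap (g.1 b) (g.1 b') := by simp [hb, swap_apply_apply]
      by_cases a4 : (g * t * g⁻¹).1 a = a
      · exact k7 _ a4
      by_cases a5 : (g * t * g⁻¹).1 (k.1 a) = k.1 a
      · exact (mul_mem_cancel_left (inv_mem a1)).1 ((mul_mem_cancel_right a1).1 (k7 _ (by
          rw [Subgroup.coe_mul, Subgroup.coe_mul, Perm.mul_apply, Perm.mul_apply, a5]; simp)))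
      refine (mul_mem_cancel_left (inv_mem a1)).1 (k7 _ ?_)
      rw [Subgroup.coe_mul, Perm.mul_apply, Subgroup.coe_inv, Perm.inv_eq_iff_eq, a3]
      rw [a3] at a4 a5
      have a6 : k.1 a ≠ a := a2
      rcases swap_apply_ne_self_iff.1 a4 with ⟨-, e1 | e1⟩ <;> rcases swap_apply_ne_self_iff.1 a5 with ⟨-, e2 | e2⟩ <;>
        simp_all
  have h8 : ∀ g, ∃ g', QuotientGroup.mk' K.normalCore (f g') = QuotientGroup.mk' K.normalCore g := fun g => by
    rcases hf g with ⟨g', e⟩ | ⟨g', e⟩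
    · exact ⟨g', by rw [e]⟩
    · exact ⟨g', by rw [e, map_mul, show QuotientGroup.mk' K.normalCore t = 1 from (QuotientGroup.eq_one_iff _).2 h7, mul_one]⟩
  obtain ⟨x', hx'⟩ := h8 x
  obtain ⟨y', hy'⟩ := h8 y
  refine deg_p (H := H.comap f) (K := K.comap f) (x := x') (y := y') (((Nat.dvd_prime hp.1).1 (by
    rw [Subgroup.index_comap, ← k4]; exact Subgroup.relIndex_dvd_index_of_normal _ _)).resolve_left fun e => hx ?_)
    (fun a ha b hb => by rw [Subgroup.mem_comap, map_commutatorElement]; exact k6 _ ha _ hb) fun e => h6 ?_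
  · have a1 : f x' ∈ H := (Subgroup.index_eq_one.1 e).ge (Subgroup.mem_top x')
    exact (mul_mem_cancel_left (inv_mem a1)).1 (k2 (K.normalCore_le (QuotientGroup.eq.1 hx')))
  · have a1 : QuotientGroup.mk' K.normalCore (f ⁅x', y'⁆) = QuotientGroup.mk' K.normalCore ⁅x, y⁆ := by
      rw [map_commutatorElement, map_commutatorElement, map_commutatorElement, hx', hy']
    exact (mul_mem_cancel_left (inv_mem (show f ⁅x', y'⁆ ∈ K from e))).1 (K.normalCore_le (QuotientGroup.eq.1 a1))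

end H21.An
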