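import Mathlib
import Cfsg.Agent.S0071
import Cfsg.Agent.S0009
import Cfsg.Agent.S0008
import Cfsg.Agent.H02.Fitting

set_option autoImplicit false

namespace H21.Bw
open Subgroup Cfsg
open scoped Pointwise

variable {G : Type*} [Group G]

/-- left-normed commutator values of length `k + 1` -/
def Val : ℕ → G → Prop
  | 0, _ => True
  | k + 1, x => ∃ a b : G, Val k a ∧ x = a * b * a⁻¹ * b⁻¹

lemma Val.map {H : Type*} [Group H] (f : G →* H) : ∀ {k : ℕ} {x : G}, Val k x → Val k (f x)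
  | 0, _, _ => trivial
  | _ + 1, _, ⟨a, b, ha, hx⟩ => ⟨f a, f b, ha.map f, by simp [hx]⟩

lemma Val.conj {k : ℕ} {x : G} (h : Val k x) (g : G) : Val k (g * x * g⁻¹) :=
  h.map (MulAut.conj g).toMonoidHom

lemma Val.mem : ∀ {k : ℕ} {x : G}, Val k x → x ∈ (⊤ : Subgroup G).lowerCentralSeries k
  | 0, _, _ => mem_top _
  | _ + 1, _, ⟨_, b, ha, hx⟩ => hx ▸ commutator_mem_commutator ha.mem (mem_top b)

lemma val_list (k : ℕ) (x : G) : Val k x ↔
    ∃ (a : G) (l : List G), l.length = k ∧ x = l.foldl (fun a b => a * b * a⁻¹ * b⁻¹) a := by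
  induction k generalizing x with
  | zero => exact ⟨fun _ => ⟨x, [], rfl, rfl⟩, fun _ => trivial⟩
  | succ k ih =>
    constructor
    · rintro ⟨a, b, ha, rfl⟩
      obtain ⟨c, l, hl, rfl⟩ := (ih a).1 ha
      exact ⟨c, l ++ [b], by simp [hl], by simp⟩
    · rintro ⟨a, l, hl, rfl⟩
      rcases List.eq_nil_or_concat l with rfl | ⟨l', b, rfl⟩
      · simp at hl
      · exact ⟨_, b, (ih _).2 ⟨a, l', by simpa using hl, rfl⟩, by simp⟩

lemma val_iff (k : ℕ) (x : G) : (∃ f : Fin (k + 1) → G,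
    x = ((List.ofFn f).tail).foldl (fun a b => a * b * a⁻¹ * b⁻¹) (f 0)) ↔ Val k x := by
  rw [val_list]
  constructor
  · rintro ⟨f, rfl⟩
    exact ⟨f 0, _, by simp, rfl⟩
  · rintro ⟨a, l, rfl, rfl⟩
    exact ⟨Fin.cons a l.get, by simp [List.ofFn_succ]⟩

lemma closure_normal {s : Set G} (h : ∀ x ∈ s, ∀ g, g * x * g⁻¹ ∈ s) : (closure s).Normal := ⟨fun n hn g => by
  induction hn using closure_induction with
  | mem x hx => exact subset_closure (h x hx g)
  | one => simp
  | mul x y _ _ hx hy => simpa [mul_assoc] using mul_mem hx hy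
  | inv x _ hx => simpa [mul_assoc] using inv_mem hx⟩

lemma lcs_le (k : ℕ) : (⊤ : Subgroup G).lowerCentralSeries k ≤ Subgroup.closure {x : G | Val k x} := by
  induction k with
  | zero => exact fun x _ => Subgroup.subset_closure (show Val 0 x from trivial)
  | succ k ih =>
    have hN : (Subgroup.closure {x : G | Val (k + 1) x}).Normal := closure_normal fun x hx g => Val.conj hx g
    rw [Subgroup.lowerCentralSeries_succ, commutator_le]
    intro g hg h _
    have hg' := ih hg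
    clear hg
    induction hg' using closure_induction with
    | mem x hx => exact Subgroup.subset_closure ⟨x, h, hx, rfl⟩
    | one => simp
    | mul x y _ _ hx hy =>
      have := mul_mem (hN.conj_mem _ hy x) hx
      convert this using 1
      simp only [commutatorElement_def]; group
    | inv x _ hx =>
      have := hN.conj_mem _ (inv_mem hx) x⁻¹
      convert this using 1
      simp only [commutatorElement_def]; group

/-- the commutator map -/
def ph (x n : G) : G := n * x * n⁻¹ * x⁻¹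

lemma val_iter (x n : G) : ∀ k : ℕ, Val k ((ph x)^[k] n)
  | 0 => trivial
  | k + 1 => ⟨_, x, val_iter x n k, by rw [Function.iterate_succ_apply']; rfl⟩

lemma iter_mem {x n : G} {S : Subgroup G} (hS : ∀ m ∈ S, x * m * x⁻¹ ∈ S) (hn : n ∈ S) :
    ∀ k : ℕ, (ph x)^[k] n ∈ S
  | 0 => hn
  | k + 1 => by
    rw [Function.iterate_succ_apply']
    have h := iter_mem hS hn k
    have := mul_mem h (hS _ (inv_mem h))
    simpa [ph, mul_assoc] using this

lemma iter_ne {x n : G} {S : Subgroup G} (hS : ∀ m ∈ S, x * m * x⁻¹ ∈ S)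
    (hc : ∀ m ∈ S, (orderOf m).Coprime (orderOf x)) (hn : n ∈ S) (h : ph x n ≠ 1) :
    ∀ k : ℕ, (ph x)^[k + 1] n ≠ 1
  | 0 => h
  | k + 1 => fun h1 => by
    apply iter_ne hS hc hn h k
    have hm := iter_mem hS hn (k + 1)
    rw [Function.iterate_succ_apply'] at h1
    have h2 : Commute ((ph x)^[k + 1] n) x := commutatorElement_eq_one_iff_commute.1 h1
    have h3 : (ph x)^[k + 1] n * x = (ph x)^[k] n * x * ((ph x)^[k] n)⁻¹ := by
      rw [Function.iterate_succ_apply']; simp [ph]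
    have h4 : ((ph x)^[k + 1] n) ^ orderOf x = 1 := by
      have := h2.mul_pow (orderOf x)
      rw [h3, conj_pow, pow_orderOf_eq_one] at this
      simpa using this.symm
    exact orderOf_eq_one_iff.1 ((hc _ hm).eq_one_of_dvd (orderOf_dvd_of_pow_eq_one h4))

/-- the hypothesis -/
def Hyp (k : ℕ) (G : Type*) [Group G] : Prop := ∀ x y : G, Val k x → Val k y →
  (orderOf x).Coprime (orderOf y) →
    (∀ r : ℕ, r.Prime → r ∣ orderOf x * orderOf y → r ∣ orderOf (x * y)) ∨ orderOf x * orderOf y ≤ orderOf (x * y)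

lemma Hyp.sub {k : ℕ} (h : Hyp k G) (L : Subgroup G) : Hyp k L := fun x y hx hy hc => by
  have := h x y (hx.map L.subtype) (hy.map L.subtype) (by simpa using hc)
  rw [← Subgroup.coe_mul] at this
  simpa only [Subgroup.orderOf_coe] using this

variable [Finite G] {k : ℕ}

lemma Hyp.comm (h : Hyp k G) {x n : G} (hx : Val k x) {S : Subgroup G} (hS : ∀ m ∈ S, x * m * x⁻¹ ∈ S)
    (hc : ∀ m ∈ S, (orderOf m).Coprime (orderOf x)) (hn : n ∈ S) : n * x = x * n := by
  by_contra hne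
  have h0 : ph x n ≠ 1 := fun h => hne (commutatorElement_eq_one_iff_mul_comm.1 h)
  have h1 := iter_ne hS hc hn h0 k
  have hm := iter_mem hS hn (k + 1)
  have hv : Val k ((ph x)^[k + 1] n) := val_iter x _ k
  have h3 : orderOf ((ph x)^[k + 1] n * x) = orderOf x := by
    have : (ph x)^[k + 1] n * x = MulAut.conj ((ph x)^[k] n) x := by
      rw [Function.iterate_succ_apply']; simp [ph]
    rw [this, MulEquiv.orderOf_eq]
  have hne1 : orderOf ((ph x)^[k + 1] n) ≠ 1 := fun h => h1 (orderOf_eq_one_iff.1 h)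
  rcases h _ _ hv hx (hc _ hm) with h4 | h4
  · have hp := Nat.minFac_prime hne1
    have h5 := h4 _ hp ((Nat.minFac_dvd _).mul_right _)
    rw [h3] at h5
    exact hp.one_lt.ne' (Nat.eq_one_of_dvd_coprimes (hc _ hm) (Nat.minFac_dvd _) h5)
  · rw [h3] at h4
    have h5 := orderOf_pos x
    have h6 := orderOf_pos ((ph x)^[k + 1] n)
    have : orderOf ((ph x)^[k + 1] n) ≤ 1 := Nat.le_of_mul_le_mul_right (by simpa using h4) h5
    omega

/-- generated by the `p`-elements that are values -/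
def W (k p : ℕ) (G : Type*) [Group G] : Subgroup G := Subgroup.closure {x | Val k x ∧ ∃ n, x ^ p ^ n = 1}

instance W_normal (p : ℕ) : (W k p G).Normal := closure_normal fun x hx g =>
  ⟨hx.1.conj g, by obtain ⟨n, hn⟩ := hx.2; exact ⟨n, by rw [conj_pow, hn]; simp⟩⟩

omit [Finite G] in
lemma W_le (p : ℕ) : W k p G ≤ (⊤ : Subgroup G).lowerCentralSeries k :=
  (Subgroup.closure_le _).2 fun _ hx => hx.1.mem

omit [Finite G] in
lemma lcs_le_W {p : ℕ} {P : Subgroup G} (hP : IsPGroup p P) : P.lowerCentralSeries k ≤ W k p G := by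
  rw [← top_subtype_lowerCentralSeries]
  refine (map_mono (lcs_le k)).trans ?_
  rw [MonoidHom.map_closure]
  refine Subgroup.closure_mono ?_
  rintro _ ⟨x, hx, rfl⟩
  obtain ⟨n, hn⟩ := hP x
  exact ⟨Val.map P.subtype hx, n, by rw [← map_pow, hn, map_one]⟩

lemma lift_norm {p : ℕ} [Fact p.Prime] (N : Subgroup G) [N.Normal] (Q : Subgroup (G ⧸ N))
    (hQ : IsPGroup p Q) {g : G ⧸ N} (hg : g ∈ normalizer (Q : Set (G ⧸ N))) :
    ∃ (P : Subgroup G) (a : G), IsPGroup p P ∧ (a : G ⧸ N) = g ∧ (∀ m ∈ P, a * m * a⁻¹ ∈ P) ∧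
      ∀ h ∈ Q, ∃ m ∈ P, (m : G ⧸ N) = h := by
  obtain ⟨a, rfl⟩ := QuotientGroup.mk_surjective g
  let T := Q.comap (QuotientGroup.mk' N)
  have haT : a ∈ normalizer (T : Set G) := by
    rw [mem_normalizer_iff] at hg ⊢
    intro h
    simpa [T] using hg (h : G ⧸ N)
  obtain ⟨P0⟩ : Nonempty (Sylow p T) := inferInstance
  let f : T →* Q := ((QuotientGroup.mk' N).comp T.subtype).codRestrict Q fun x => x.2
  have hf : Function.Surjective f := by
    rintro ⟨h, hh⟩
    obtain ⟨x, rfl⟩ := QuotientGroup.mk_surjective h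
    exact ⟨⟨x, hh⟩, rfl⟩
  have hsurj : ∀ h ∈ Q, ∃ m : T, m ∈ P0 ∧ ((m : G) : G ⧸ N) = h := fun h hh => by
    have h1 : ((P0.mapSurjective hf : Sylow p Q) : Subgroup Q) = ⊤ :=
      ((P0.mapSurjective hf).is_maximal' (hQ.to_subgroup ⊤) le_top).symm
    have h2 : (⟨h, hh⟩ : Q) ∈ (P0 : Subgroup T).map f := by
      rw [← Sylow.coe_mapSurjective hf, h1]; trivial
    obtain ⟨m, hm, hm'⟩ := h2
    exact ⟨m, hm, congrArg Subtype.val hm'⟩
  let φ : MulAut T := T.normalizerMonoidHom ⟨a, haT⟩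
  obtain ⟨c, hc⟩ := MulAction.exists_smul_eq T (φ • P0) P0
  have hca : ∀ m : T, m ∈ P0 → c * φ m * c⁻¹ ∈ P0 := fun m hm => by
    have h1 : φ m ∈ ((φ • P0 : Sylow p T) : Subgroup T) := by
      rw [Sylow.pointwise_smul_def]; exact Subgroup.smul_mem_pointwise_smul _ _ _ hm
    have h2 : c * φ m * c⁻¹ ∈ ((c • φ • P0 : Sylow p T) : Subgroup T) := by
      rw [Sylow.coe_subgroup_smul]; exact Subgroup.smul_mem_pointwise_smul _ (MulAut.conj c) _ h1
    rwa [hc] at h2
  obtain ⟨u, hu, hu'⟩ := hsurj _ c.2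
  refine ⟨(P0 : Subgroup T).map T.subtype, (u : G)⁻¹ * c * a, P0.isPGroup'.map _, ?_, ?_, fun h hh => ?_⟩
  · simp [hu']
  · rintro _ ⟨m, hm, rfl⟩
    refine ⟨u⁻¹ * (c * φ m * c⁻¹) * u, mul_mem (mul_mem (inv_mem hu) (hca m hm)) hu, ?_⟩
    have : ((φ m : T) : G) = a * m * a⁻¹ := rfl
    simp [this, mul_assoc]
  · obtain ⟨m, hm, hm'⟩ := hsurj h hh
    exact ⟨m, ⟨m, hm, rfl⟩, hm'⟩

lemma ph_map {H : Type*} [Group H] (f : G →* H) (x n : G) :
    ∀ j : ℕ, f ((ph x)^[j] n) = (ph (f x))^[j] (f n)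
  | 0 => rfl
  | j + 1 => by
    rw [Function.iterate_succ_apply', Function.iterate_succ_apply', ← ph_map f x n j]; simp [ph]

lemma exists_compl {p : ℕ} [Fact p.Prime] (P : Sylow p (G ⧸ W k p G)) :
    ∃ N : Subgroup (G ⧸ W k p G), N.Normal ∧ N.IsComplement' (P : Subgroup (G ⧸ W k p G)) := by
  refine (Cfsg.Agent.S0071.result P).2 fun Q hQ g hg hc => ?_
  have hQp : IsPGroup p Q := P.isPGroup'.to_le hQ
  obtain ⟨P0, a, h1, rfl, h3, h4⟩ := lift_norm _ Q hQp hg
  rw [mem_centralizer_iff]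
  intro h hh
  by_contra hne
  obtain ⟨m, hm, rfl⟩ := h4 h hh
  refine iter_ne (S := Q) (fun y hy => (mem_normalizer_iff.1 hg y).1 hy) (fun y hy => ?_) hh
    (fun h => hne (commutatorElement_eq_one_iff_mul_comm.1 h)) k ?_
  · obtain ⟨n, hn⟩ := hQp ⟨y, hy⟩
    have : orderOf y ∣ p ^ n := orderOf_dvd_of_pow_eq_one (congrArg Subtype.val hn)
    exact ((hc.pow_right n).symm.coprime_dvd_left this)
  · have h5 := ph_map (QuotientGroup.mk' (W k p G)) a m (k + 1)
    simp only [QuotientGroup.mk'_apply] at h5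
    rw [← h5, QuotientGroup.eq_one_iff]
    obtain ⟨n, hn⟩ := h1 ⟨_, iter_mem h3 hm (k + 1)⟩
    exact Subgroup.subset_closure ⟨val_iter a _ k, n, congrArg Subtype.val hn⟩

lemma mem_W {p : ℕ} [Fact p.Prime] {x : G} (hx : x ∈ (⊤ : Subgroup G).lowerCentralSeries k) {n : ℕ}
    (hn : x ^ p ^ n = 1) : x ∈ W k p G := by
  obtain ⟨P⟩ : Nonempty (Sylow p G) := inferInstance
  let π := QuotientGroup.mk' (W k p G)
  have hπ : Function.Surjective π := QuotientGroup.mk'_surjective _
  obtain ⟨N, hN, hc⟩ := exists_compl (P.mapSurjective hπ)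
  let f := (QuotientGroup.mk' N).comp π
  have hf : (P : Subgroup G).map f = (⊤ : Subgroup G).map f := by
    refine le_antisymm (map_mono le_top) ?_
    rintro _ ⟨y, -, rfl⟩
    obtain ⟨⟨⟨a, ha⟩, ⟨b, hb⟩⟩, hab⟩ := hc.2 (π y)
    rw [Sylow.coe_mapSurjective] at hb
    obtain ⟨c, hc', rfl⟩ := hb
    refine ⟨c, hc', ?_⟩
    have hab' : a * π c = π y := hab
    simp only [f, MonoidHom.comp_apply]
    rw [← hab', map_mul, QuotientGroup.mk'_apply N a, (QuotientGroup.eq_one_iff a).2 ha, one_mul]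
  have h1 : f x ∈ ((P : Subgroup G).lowerCentralSeries k).map f := by
    rw [map_lowerCentralSeries, hf, ← map_lowerCentralSeries]
    exact mem_map_of_mem f hx
  obtain ⟨y, hy, hy'⟩ := h1
  have h2 : π y = 1 := (QuotientGroup.eq_one_iff y).2 (lcs_le_W P.isPGroup' hy)
  have h3 : π x ∈ N := by
    rw [← QuotientGroup.eq_one_iff]
    have : f x = 1 := by rw [← hy']; simp only [f, MonoidHom.comp_apply]; rw [h2, map_one]
    exact this
  have h4 : orderOf (π x) ∣ p ^ n := orderOf_dvd_of_pow_eq_one (by rw [← map_pow, hn, map_one])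
  have h5 : orderOf (π x) ∣ Nat.card N := Subgroup.orderOf_dvd_natCard N h3
  have h6 : ¬ p ∣ Nat.card N := by rw [← hc.index_eq_card]; exact Sylow.not_dvd_index _
  have h7 : orderOf (π x) = 1 := Nat.eq_one_of_dvd_coprimes
    (((Nat.Prime.coprime_iff_not_dvd Fact.out).2 h6).pow_left n) h4 h5
  exact (QuotientGroup.eq_one_iff x).1 (orderOf_eq_one_iff.1 h7)

lemma Hyp.W_comm (h : Hyp k G) {p q : ℕ} (hp : p.Prime) (hq : q.Prime) (hpq : p ≠ q) :
    W k p G ≤ centralizer (pCore q G : Set G) := by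
  refine (Subgroup.closure_le _).2 fun x hx => mem_centralizer_iff.2 fun n hn => ?_
  refine h.comm hx.1 (S := pCore q G) (fun m hm => Normal.conj_mem inferInstance m hm x) (fun m hm => ?_) hn
  obtain ⟨a, ha⟩ := hx.2
  obtain ⟨b, hb⟩ := H02.pCore_isPGroup q G ⟨m, hm⟩
  exact Nat.Coprime.coprime_dvd_left (orderOf_dvd_of_pow_eq_one (congrArg Subtype.val hb))
    (Nat.Coprime.coprime_dvd_right (orderOf_dvd_of_pow_eq_one ha) (Nat.coprime_pow_primes b a hq hp hpq.symm))

lemma Hyp.W_nil (h : Hyp k G) (hF : centralizer (fittingSubgroup G : Set G) ≤ fittingSubgroup G)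
    {p : ℕ} (hp : p.Prime) : Group.IsNilpotent (W k p G) := by
  have key : ∀ (q : ℕ) (_ : Fact q.Prime) (P : Sylow q (W k p G)), q ≠ p →
      (P : Subgroup (W k p G)) ≤ center _ := fun q hq P hqp y hy => by
    obtain ⟨n, hn⟩ := P.isPGroup' ⟨y, hy⟩
    have hn' : (y : G) ^ q ^ n = 1 := congrArg (fun z : P => ((z : W k p G) : G)) hn
    have h1 : (y : G) ∈ W k q G := mem_W (W_le p y.2) hn'
    have h2 : (y : G) ∈ fittingSubgroup G := by
      refine hF ?_
      rw [Cfsg.Agent.S0009.result, ← Subgroup.zpowers_le, Subgroup.le_centralizer_iff, iSup_le_iff]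
      intro r
      rw [Subgroup.le_centralizer_iff, Subgroup.zpowers_le]
      by_cases hr : p = r
      · exact h.W_comm hq.out r.2 (hr ▸ hqp) h1
      · exact h.W_comm hp r.2 hr y.2
    have h3 : (y : G) ∈ pCore q G := by
      rw [← Subgroup.zpowers_le] at h2 ⊢
      refine H02.le_pCore_of_le_sup ?_ (h2.trans ?_)
      · obtain ⟨j, -, hj⟩ := (Nat.dvd_prime_pow hq.out).1 (orderOf_dvd_of_pow_eq_one hn')
        exact IsPGroup.of_card (by rw [Nat.card_zpowers, hj])
      · rw [Cfsg.Agent.S0009.result]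
        exact H02.iSup_pCore_le_pCore_sup_pPrimeCore hq.out
    rw [Subgroup.mem_center_iff]
    intro w
    exact Subtype.ext (mem_centralizer_iff.1 (h.W_comm hp hq.out hqp.symm w.2) _ h3).symm
  refine H02.isNilpotent_of_sylow_normal fun q hq P => ?_
  by_cases hqp : q = p
  · subst hqp
    rw [← normalizer_eq_top_iff]
    refine H02.eq_top_of_forall_sylow_le fun r hr => ?_
    by_cases hrq : r = q
    · subst hrq; exact ⟨P, le_normalizer⟩
    · obtain ⟨R⟩ : Nonempty (Sylow r (W k q G)) := inferInstance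
      exact ⟨R, (key r hr R hrq).trans (center_le_normalizer _)⟩
  · exact ⟨fun n hn g => by rw [mem_center_iff.1 (key q hq P hqp hn) g]; simpa using hn⟩

lemma Hyp.nil (h : Hyp k G) (hF : centralizer (fittingSubgroup G : Set G) ≤ fittingSubgroup G) :
    Group.IsNilpotent ((⊤ : Subgroup G).lowerCentralSeries k) := by
  have := Cfsg.Agent.S0008.result (G := G)
  refine H02.isNilpotent_of_le (K := fittingSubgroup G) ?_
  rw [← subgroupOf_eq_top]
  refine H02.eq_top_of_forall_sylow_le fun p hp => ?_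
  obtain ⟨P⟩ : Nonempty (Sylow p ((⊤ : Subgroup G).lowerCentralSeries k)) := inferInstance
  refine ⟨P, fun y hy => ?_⟩
  obtain ⟨n, hn⟩ := P.isPGroup' ⟨y, hy⟩
  exact H02.le_fitting (h.W_nil hF hp.out) (mem_W y.2
    (congrArg (fun z : P => ((z : (⊤ : Subgroup G).lowerCentralSeries k) : G)) hn))

end H21.Bw
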