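import Mathlib
import Cfsg.Agent.H21.Bw1
import Cfsg.Agent.S0200
import Cfsg.Agent.S0205
import Cfsg.Agent.S0215
import Cfsg.Agent.S1265

set_option autoImplicit false

namespace H21.Bw
open Subgroup Cfsg

section Simple
variable {S : Type*} [Group S] [Finite S] [IsSimpleGroup S]

lemma exists_conj_comm (hS : ¬ ∀ a b : S, a * b = b * a) {u : S} (hu : orderOf u = 2) :
    ∃ g : S, g * u * g⁻¹ ≠ u ∧ Commute u (g * u * g⁻¹) := by
  have hz : IsPGroup 2 (zpowers u) := IsPGroup.of_card (n := 1) (by rw [Nat.card_zpowers, hu, pow_one])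
  obtain ⟨P, hP⟩ := hz.exists_le_sylow
  have huP : u ∈ P := hP (mem_zpowers u)
  have hu1 : u ≠ 1 := fun h => by simp [h] at hu
  by_cases hc : ∀ y ∈ (P : Subgroup S), y * u = u * y
  · by_contra hcon
    push Not at hcon
    obtain ⟨N, hN, hodd, hcomm⟩ := Cfsg.Agent.S0215.result P u hu huP fun g hg => by
      by_contra hne
      exact hcon g hne (hc _ hg).symm
    rcases hN.eq_bot_or_eq_top with rfl | rfl
    · have h1 : u ∈ center S := mem_center_iff.2 fun g =>
        (commutatorElement_eq_one_iff_mul_comm.1 (mem_bot.1 (hcomm g))).symm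
      rcases (inferInstance : (center S).Normal).eq_bot_or_eq_top with h | h
      · exact hu1 (mem_bot.1 (h ▸ h1))
      · exact hS fun a b => mem_center_iff.1 (h ▸ mem_top b) a
    · have := Subgroup.orderOf_dvd_natCard ⊤ (mem_top u)
      rw [hu] at this
      exact (Nat.not_even_iff_odd.2 hodd) (even_iff_two_dvd.2 this)
  · push Not at hc
    obtain ⟨y, hy, hne⟩ := hc
    have := P.isPGroup'.isNilpotent
    have hlt : (P : Subgroup S) ⊓ centralizer {u} < P :=
      lt_of_le_of_ne inf_le_left fun h => hne (mem_centralizer_singleton_iff.1 (mem_inf.1 (h.ge hy)).2)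
    obtain ⟨x, hx, hx'⟩ := SetLike.exists_of_lt (H02.lt_inf_normalizer_of_lt_nilpotent hlt)
    refine ⟨x, fun h => hx' ⟨hx.1, mem_centralizer_singleton_iff.2 (mul_inv_eq_iff_eq_mul.1 h)⟩, ?_⟩
    have h1 := (mem_normalizer_iff.1 hx.2 u).1 ⟨huP, mem_centralizer_singleton_iff.2 rfl⟩
    exact (mem_centralizer_singleton_iff.1 h1.2).symm

lemma exists_inv2 (hS : ¬ ∀ a b : S, a * b = b * a) : ∃ u : S, orderOf u = 2 := by
  refine exists_prime_orderOf_dvd_card' 2 ?_
  by_contra h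
  have := Cfsg.Agent.S0205.result (G := S) (Nat.odd_iff.2 (by omega))
  exact hS (IsSimpleGroup.comm_iff_isSolvable.2 this)

lemma exists_odd (hS : ¬ ∀ a b : S, a * b = b * a) {u : S} (hu : orderOf u = 2) :
    ∃ h : S, h ≠ 1 ∧ Odd (orderOf h) ∧ u * h * u⁻¹ = h⁻¹ := by
  refine Cfsg.Agent.S0200.result u hu fun N hN h2 huN => ?_
  rcases hN.eq_bot_or_eq_top with rfl | rfl
  · simp [mem_bot.1 huN] at hu
  · have : IsPGroup 2 S := h2.of_equiv topEquiv
    have := this.isNilpotent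
    exact hS (IsSimpleGroup.comm_iff_isSolvable.2 inferInstance)

end Simple

variable {G : Type*} [Group G] [Finite G] {k : ℕ}

lemma step [IsSimpleGroup (G ⧸ center G)] (hS : ¬ ∀ a b : G ⧸ center G, a * b = b * a) {x : G}
    (hx : orderOf (x : G ⧸ center G) = 2) :
    ∃ g : G, orderOf ((x * g * x⁻¹ * g⁻¹ : G) : G ⧸ center G) = 2 ∧ (x * g * x⁻¹ * g⁻¹) ^ 4 = 1 := by
  obtain ⟨g, h1, h2⟩ := exists_conj_comm hS hx
  obtain ⟨g, rfl⟩ := QuotientGroup.mk_surjective g
  have hx2 : (x : G ⧸ center G) * x = 1 := by rw [← sq, ← hx, pow_orderOf_eq_one]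
  have hxi : (x : G ⧸ center G)⁻¹ = x := inv_eq_of_mul_eq_one_right hx2
  have hz : x * x ∈ center G := (QuotientGroup.eq_one_iff _).1 hx2
  set w := g * x⁻¹ * g⁻¹ with hw
  have hwq : (w : G ⧸ center G) = g * x * (g : G ⧸ center G)⁻¹ := by simp [hw, hxi]
  have he : x * g * x⁻¹ * g⁻¹ = x * w := by simp [hw, mul_assoc]
  have hc : x⁻¹ * w * x * w⁻¹ ∈ center G := by
    rw [← QuotientGroup.eq_one_iff]
    simp only [QuotientGroup.mk_mul, QuotientGroup.mk_inv, hwq]
    rw [mul_assoc _ _ (x : G ⧸ center G), ← h2.eq]; group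
  set c := x⁻¹ * w * x * w⁻¹ with hcd
  have hww : w * w = (x * x)⁻¹ := by
    have : w * w = g * (x * x)⁻¹ * g⁻¹ := by rw [hw]; group
    rw [this, mem_center_iff.1 (inv_mem hz) g]; group
  have hcc : c * c = 1 := by
    have h3 : w * x * w⁻¹ = x * c := by rw [hcd]; group
    have h4 : w * (x * x) * w⁻¹ = x * x := by rw [mem_center_iff.1 hz w]; group
    have h5 : x * c * (x * c) = x * x := by rw [← h3, ← h4]; group
    have h6 : x * c * (x * c) = x * x * (c * c) := by
      rw [mul_assoc x c, ← mul_assoc c x, ← mem_center_iff.1 hc x]; group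
    rw [h6] at h5
    exact mul_left_cancel (h5.trans (mul_one _).symm)
  have hsq : x * w * (x * w) = c := by
    have : x * w * (x * w) = x * x * c * (w * w) := by rw [hcd]; group
    rw [this, hww, mem_center_iff.1 hc (x * x)]; group
  refine ⟨g, ?_, ?_⟩
  · rw [he]
    refine orderOf_eq_prime ?_ fun h => h1 ?_
    · rw [sq, ← QuotientGroup.mk_mul, hsq, QuotientGroup.eq_one_iff]; exact hc
    · rw [QuotientGroup.mk_mul, hwq] at h
      rw [← hxi.symm.trans (inv_eq_of_mul_eq_one_right h)]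
  · rw [he, show (4 : ℕ) = 2 * 2 from rfl, pow_mul, sq, sq, hsq, hcc]

lemma Hyp.not_quasi (h : Hyp k G) (hq : IsQuasisimple G) : False := by
  have := hq.2
  have hS : ¬ ∀ a b : G ⧸ center G, a * b = b * a := fun hc => by
    have h1 : commutator G ≤ center G := by
      rw [commutator_def, commutator_le]
      intro a _ b _
      rw [← QuotientGroup.eq_one_iff]
      have := commutatorElement_eq_one_iff_mul_comm.2 (hc a b)
      simpa [commutatorElement_def] using this
    rw [hq.1.commutator_eq_top] at h1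
    obtain ⟨a, ha⟩ := exists_ne (1 : G ⧸ center G)
    obtain ⟨a, rfl⟩ := QuotientGroup.mk_surjective a
    exact ha ((QuotientGroup.eq_one_iff a).2 (h1 (mem_top a)))
  have key : ∀ j : ℕ, ∃ x : G, Val j x ∧ orderOf (x : G ⧸ center G) = 2 ∧ x ^ 4 = 1 := fun j => by
    induction j with
    | zero =>
      obtain ⟨u, hu⟩ := exists_inv2 hS
      obtain ⟨u, rfl⟩ := QuotientGroup.mk_surjective u
      obtain ⟨g, h1, h2⟩ := step hS hu
      exact ⟨_, trivial, h1, h2⟩
    | succ j ih =>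
      obtain ⟨x, h0, hx, -⟩ := ih
      obtain ⟨g, h1, h2⟩ := step hS hx
      exact ⟨_, ⟨x, g, h0, rfl⟩, h1, h2⟩
  obtain ⟨x, hv, hx, hx4⟩ := key k
  obtain ⟨y, hy1, hy2, hy3⟩ := exists_odd hS hx
  obtain ⟨y, rfl⟩ := QuotientGroup.mk_surjective y
  have hz : x * x ∈ center G := (QuotientGroup.eq_one_iff _).1 (by
    rw [QuotientGroup.mk_mul, ← sq, ← hx, pow_orderOf_eq_one])
  set w := y * x * y⁻¹ * x⁻¹ with hw
  have hwq : (w : G ⧸ center G) = (y : G ⧸ center G) ^ 2 := by
    have : (x : G ⧸ center G) * (y : G ⧸ center G)⁻¹ * (x : G ⧸ center G)⁻¹ = y := by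
      have := congrArg (·⁻¹) hy3
      simpa [mul_assoc] using this
    simp only [hw, QuotientGroup.mk_mul, QuotientGroup.mk_inv]
    rw [mul_assoc, mul_assoc, ← mul_assoc (x : G ⧸ center G), this, sq]
  have hinv : x * w * x⁻¹ = w⁻¹ := by
    have h1 : x * w * x⁻¹ = x * y * x⁻¹ * (x * x * y⁻¹ * (x * x)⁻¹) := by rw [hw]; group
    rw [h1, ← mem_center_iff.1 hz y⁻¹, hw]; group
  set n := orderOf (y : G ⧸ center G) with hn
  have hwn : w ^ n ∈ center G := by
    rw [← QuotientGroup.eq_one_iff, QuotientGroup.mk_pow, hwq, ← pow_mul, mul_comm, pow_mul, hn,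
      pow_orderOf_eq_one, one_pow]
  have hvn : (w ^ 2) ^ n = 1 := by
    have h1 : x * w ^ n * x⁻¹ = (w ^ n)⁻¹ := by rw [← conj_pow, hinv, inv_pow]
    rw [mem_center_iff.1 hwn x, mul_inv_cancel_right] at h1
    rw [← pow_mul, mul_comm, pow_mul, sq]
    exact mul_eq_one_iff_eq_inv.2 h1
  have hinv2 : x * w ^ 2 * x⁻¹ = (w ^ 2)⁻¹ := by rw [← conj_pow, hinv, inv_pow]
  have hcomm := h.comm hv (S := zpowers (w ^ 2)) (n := w ^ 2) (fun m hm => by
      obtain ⟨i, rfl⟩ := mem_zpowers_iff.1 hm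
      rw [← conj_zpow, hinv2]
      exact zpow_mem (inv_mem (mem_zpowers _)) i) (fun m hm => by
      have h1 : orderOf m ∣ n := (orderOf_dvd_of_mem_zpowers hm).trans (orderOf_dvd_of_pow_eq_one hvn)
      refine Nat.Coprime.coprime_dvd_left h1 (Nat.Coprime.coprime_dvd_right (orderOf_dvd_of_pow_eq_one hx4) ?_)
      exact Nat.Coprime.pow_right 2 (Nat.coprime_two_right.2 hy2)) (mem_zpowers _)
  rw [← hcomm, mul_inv_cancel_right] at hinv2
  have h4 : (y : G ⧸ center G) ^ 2 ^ 3 = 1 := by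
    have h5 : w ^ 4 = 1 := by
      rw [show (4 : ℕ) = 2 + 2 from rfl, pow_add]; exact mul_eq_one_iff_eq_inv.2 hinv2
    have h6 : ((w ^ 4 : G) : G ⧸ center G) = 1 := by rw [h5]; rfl
    rw [QuotientGroup.mk_pow, hwq, ← pow_mul] at h6
    exact h6
  exact hy1 (orderOf_eq_one_iff.1 ((Nat.Coprime.pow_right 3 (Nat.coprime_two_right.2 hy2)).eq_one_of_dvd
    (orderOf_dvd_of_pow_eq_one h4)))

theorem main (k : ℕ) : Group.IsNilpotent ((⊤ : Subgroup G).lowerCentralSeries k) ↔ Hyp k G := by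
  refine ⟨fun hn x y hx hy hc => Or.inr ?_, fun h => h.nil ?_⟩
  · have h1 : Commute (⟨x, hx.mem⟩ : (⊤ : Subgroup G).lowerCentralSeries k) ⟨y, hy.mem⟩ :=
      H02.commute_of_coprime_of_isNilpotent (by simpa using hc)
    have h2 : Commute x y := congrArg Subtype.val h1
    exact (h2.orderOf_mul_eq_mul_orderOf_of_coprime hc).ge
  · have h1 : layer G = ⊥ := by
      rw [layer, sSup_eq_bot]
      exact fun K hK => ((h.sub K).not_quasi hK.2).elim
    have := Cfsg.Agent.S1265.result (G := G)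
    rwa [generalizedFittingSubgroup, h1, bot_sup_eq] at this

end H21.Bw
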