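import Mathlib
import Cfsg.Agent.BG.Api
import Cfsg.Agent.H02.PCore
import Cfsg.Agent.H02.Fitting
import Cfsg.Agent.H02.Zipper

/-!
# Casolo's subnormalizer count (namespace `H21.Cas`)

* `subn_iff` : a `p`-subgroup `H` is subnormal in `⟨H, g⟩` iff `g` normalizes a `p`-subgroup containing `H`;
* `w` : Möbius weights of the poset of `g`-invariant `p`-subgroups of `L`; `sum_w`, `main`;
* `card_cj_fiber`, `card_subn`.
-/

set_option autoImplicit false

namespace H21.Cas

open BG Cfsg Finset Classical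

variable {G : Type*} [Group G] [Finite G] {p : ℕ} {L L' H Q T : Subgroup G} {g : G}

theorem subn_iff (hp : p.Prime) (hH : IsPGroup p H) :
    (H.subgroupOf (H ⊔ Subgroup.zpowers g)).IsSubnormal ↔ ∃ R, H ≤ R ∧ IsPGroup p R ∧ g ∈ N_(R) := by
  constructor
  · intro h
    refine ⟨pCoreOf p (H ⊔ Subgroup.zpowers g), ?_, H02.pCoreOf_isPGroup _,
      H02.le_normalizer_pCoreOf _ (Subgroup.mem_sup_right (Subgroup.mem_zpowers g))⟩
    have := Subgroup.map_mono (f := (H ⊔ Subgroup.zpowers g).subtype) (H02.le_pCore_of_subnormal h (hH.comap_subtype))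
    rwa [Subgroup.map_subgroupOf_eq_of_le le_sup_left] at this
  · rintro ⟨R, h1, h2, h3⟩
    haveI := Fact.mk hp
    haveI : (R.subgroupOf (H ⊔ Subgroup.zpowers g)).Normal :=
      Subgroup.normal_subgroupOf_of_le_normalizer (sup_le (h1.trans (le_norm R)) (Subgroup.zpowers_le.2 h3))
    exact H02.isSubnormal_of_le_fitting ((Subgroup.subgroupOf_mono _ h1).trans
      (H02.le_fitting (h2.comap_subtype).isNilpotent))

noncomputable local instance : Fintype (Subgroup G) := Fintype.ofFinite _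
noncomputable local instance : Fintype G := Fintype.ofFinite _

/-- `g`-invariant `p`-subgroups of `L` -/
def PP (p : ℕ) (L : Subgroup G) (g : G) (Q : Subgroup G) : Prop := Q ≤ L ∧ IsPGroup p Q ∧ g ∈ N_(Q)

/-- Möbius weights -/
noncomputable def w (p : ℕ) (L : Subgroup G) (g : G) : Subgroup G → ℤ :=
  wellFounded_gt.fix fun Q f => if PP p L g Q then 1 - ∑ R : {R // Q < R}, f R.1 R.2 else 0

theorem w_eq : w p L g Q = if PP p L g Q then 1 - ∑ R with Q < R, w p L g R else 0 := by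
  rw [w, WellFounded.fix_eq, ← w, sum_subtype (p := fun R => Q < R) _ (by simp)]

theorem w_zero (h : ¬ PP p L g Q) : w p L g Q = 0 := by rw [w_eq, if_neg h]

theorem sum_le_eq (f : Subgroup G → ℤ) : ∑ R with Q ≤ R, f R = f Q + ∑ R with Q < R, f R := by
  rw [← sum_insert (by simp)]
  exact sum_congr (by ext R; simp [le_iff_eq_or_lt, eq_comm]) fun _ _ => rfl

theorem sum_w (h : PP p L g Q) : ∑ R with Q ≤ R, w p L g R = 1 := by
  rw [sum_le_eq, w_eq, if_pos h, sub_add_cancel]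

theorem sum_w' : ∑ R with H ≤ R, w p L g R = if ∃ R, H ≤ R ∧ PP p L g R then 1 else 0 := by
  split_ifs with h
  · obtain ⟨Q, hQ, hm⟩ := wellFounded_lt.has_min {R | H ≤ R ∧ PP p L g R} h
    rw [← sum_w hQ.2]
    refine (sum_subset (fun R hR => by simpa using hQ.1.trans (by simpa using hR)) fun R h1 h2 => w_zero fun h3 => ?_).symm
    refine hm (Q ⊓ R) ⟨le_inf hQ.1 (by simpa using h1), inf_le_left.trans hQ.2.1, pg_le hQ.2.2.1 inf_le_left,
      Subgroup.inf_normalizer_le_normalizer_inf ⟨hQ.2.2.2, h3.2.2⟩⟩ (inf_lt_left.2 (by simpa using h2))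
  · exact sum_eq_zero fun R hR => w_zero fun h1 => h ⟨R, by simpa using hR, h1⟩

theorem w_sub (hle : L' ≤ L) (hg : g ∈ L') (T : Subgroup G) : w p L' g T = ∑ R with R ⊓ L' = T, w p L g R := by
  induction T using WellFoundedGT.induction with
  | ind T ih =>
  by_cases h : PP p L' g T
  · rw [w_eq, if_pos h, sum_congr rfl fun R hR => ih R (by simpa using hR), sub_eq_iff_eq_add,
      ← sum_le_eq fun T => ∑ R with R ⊓ L' = T, w p L g R, ← sum_w (⟨h.1.trans hle, h.2⟩ : PP p L g T),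
      ← sum_fiberwise_of_maps_to (t := {T' | T ≤ T'}) (g := fun R => R ⊓ L') (by simp [h.1])]
    refine sum_congr rfl fun T' hT' => sum_congr ?_ fun _ _ => rfl
    ext R
    simp only [mem_filter, mem_univ, true_and, and_iff_right_iff_imp] at hT' ⊢
    exact fun e => hT'.trans (e ▸ inf_le_left)
  · rw [w_zero h]
    refine (sum_eq_zero fun R hR => w_zero fun h1 => h ?_).symm
    obtain rfl : R ⊓ L' = T := by simpa using hR
    exact ⟨inf_le_right, pg_le h1.2.1 inf_le_left, Subgroup.inf_normalizer_le_normalizer_inf ⟨h1.2.2, le_norm _ hg⟩⟩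

theorem w_norm (hp : p.Prime) (hg : g ∈ L ⊓ N_(Q)) (hQ : Q ≤ L) : w p (L ⊓ N_(Q)) g Q = w p L g Q := by
  rw [w_sub inf_le_left hg]
  refine sum_eq_single_of_mem Q (by simp [hQ, le_norm]) fun R hR hne => w_zero fun h => hne ?_
  have e : R ⊓ (L ⊓ N_(Q)) = Q := by simpa using hR
  exact (nil_eq_of_norm_le (pg_nil hp h.2.1) (e ▸ inf_le_left)
    ((le_inf inf_le_left (le_inf (inf_le_left.trans h.1) inf_le_right)).trans e.le)).symm

theorem card_cj_fiber (L A : Subgroup G) {k : G} (hk : k ∈ L) :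
    #{x | x ∈ L ∧ cj x A = cj k A} = Nat.card ↥(L ⊓ N_(A)) := by
  rw [Nat.card_eq_fintype_card, Fintype.card_subtype]
  refine card_bij' (fun x _ => k⁻¹ * x) (fun y _ => k * y) (fun x hx => ?_) (fun y hy => ?_) (by simp) (by simp)
  · simp only [mem_filter, mem_univ, true_and] at hx ⊢
    exact ⟨L.mul_mem (L.inv_mem hk) hx.1, cj_eq_cj_iff.1 hx.2⟩
  · simp only [mem_filter, mem_univ, true_and] at hy ⊢
    exact ⟨L.mul_mem hk hy.1, cj_mul_of_mem_norm hy.2⟩

theorem card_cj (L A : Subgroup G) (S : Subgroup G → Prop) :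
    #{x | x ∈ L ∧ S (cj x A)} = #{K | S K ∧ ∃ k ∈ L, K = cj k A} * Nat.card ↥(L ⊓ N_(A)) := by
  rw [card_eq_sum_card_fiberwise (f := fun x => cj x A) (t := ({K | S K ∧ ∃ k ∈ L, K = cj k A} : Finset _)) (fun x hx => by
    simp only [coe_filter, mem_univ, true_and, Set.mem_setOf_eq] at hx ⊢
    exact ⟨hx.2, x, hx.1, rfl⟩), ← smul_eq_mul, ← sum_const]
  refine sum_congr rfl fun K hK => ?_
  obtain ⟨h1, k, hk, rfl⟩ : S K ∧ ∃ k ∈ L, K = cj k A := by simpa using hK
  rw [← card_cj_fiber L A hk]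
  congr 1
  ext x
  simp only [mem_filter, mem_univ, true_and, and_congr_left_iff, and_iff_left_iff_imp]
  exact fun e _ => e ▸ h1

theorem sum_sylow (hp : p.Prime) (L : Subgroup G) :
    ∑ R, (if IsSylowIn p R L then (Nat.card ↥(L ⊓ N_(R)) : ℤ) else 0) = Nat.card L := by
  obtain ⟨P, hP⟩ := sylow_exists hp L
  have := card_cj L P fun _ => True
  simp only [and_true, true_and] at this
  rw [Nat.card_eq_fintype_card (α := L), Fintype.card_subtype, this, ← sum_filter, ← smul_eq_mul, ← sum_const, Nat.cast_sum]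
  refine sum_congr (filter_congr fun R _ => ⟨sylow_trans hp hP, ?_⟩) fun R hR => ?_
  · rintro ⟨k, hk, rfl⟩; exact hP.cj_of_mem hk
  · obtain ⟨k, hk, rfl⟩ : ∃ k ∈ L, R = cj k P := by simpa using hR
    rw [← cj_norm, ← BG.card_cj k (L ⊓ N_(P)), cj_inf, cj_of_mem hk]

theorem main (hp : p.Prime) (L Q : Subgroup G) :
    ∑ g with g ∈ L, w p L g Q = if IsSylowIn p Q L then (Nat.card ↥(L ⊓ N_(Q)) : ℤ) else 0 := by
  induction L using WellFoundedLT.induction generalizing Q with
  | ind L ihL =>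
  induction Q using WellFoundedGT.induction with
  | ind Q ihQ =>
  by_cases h : Q ≤ L ∧ IsPGroup p Q
  swap
  · rw [if_neg fun h1 => h ⟨h1.le, h1.pg hp⟩]
    exact sum_eq_zero fun g _ => w_zero fun h1 => h ⟨h1.1, h1.2.1⟩
  by_cases hn : L ≤ N_(Q)
  · rw [sum_congr rfl fun g hg => w_eq.trans (if_pos ⟨h.1, h.2, hn (by simpa using hg)⟩), sum_sub_distrib, sum_comm,
      sum_congr rfl fun R hR => ihQ R (by simpa using hR), sub_eq_iff_eq_add,
      ← sum_le_eq fun R => if IsSylowIn p R L then (Nat.card ↥(L ⊓ N_(R)) : ℤ) else 0,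
      sum_subset (subset_univ _) fun R _ hR => if_neg fun h1 => hR (by
        simpa using h1.le_of_norm_pg hp h.2 h.1 (h1.le.trans hn)), sum_sylow hp, Nat.card_eq_fintype_card,
      Fintype.card_subtype]
    simp
  · rw [← sum_subset (s₁ := ({g | g ∈ L ⊓ N_(Q)} : Finset G)) (fun g hg => by
      simp only [mem_filter, mem_univ, true_and] at hg ⊢; exact hg.1) fun g h1 h2 => w_zero fun h3 => h2 (by
      simp only [mem_filter, mem_univ, true_and] at h1 ⊢; exact ⟨h1, h3.2.2⟩),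
      sum_congr rfl fun g hg => (w_norm hp (by simpa using hg) h.1).symm, ihL _ (inf_lt_left.2 hn), inf_assoc, inf_idem]
    exact if_congr ⟨fun h1 => h1.of_norm hp h.1, fun h1 => h1.sub (le_inf h.1 (le_norm Q)) inf_le_left⟩ rfl rfl

theorem card_subn (hp : p.Prime) (H : Subgroup G) {P : Subgroup G} (hP : IsSylowIn p P ⊤) :
    Nat.card {g : G // ∃ R, H ≤ R ∧ IsPGroup p R ∧ g ∈ N_(R)} = Nat.card {x : G // H ≤ cj x P} := by
  have h1 := card_cj ⊤ P fun K => H ≤ K
  have h2 : ∑ R with H ≤ R, ∑ g with g ∈ (⊤ : Subgroup G), w p ⊤ g R = #{g : G | ∃ R, H ≤ R ∧ IsPGroup p R ∧ g ∈ N_(R)} := by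
    rw [sum_comm, sum_congr rfl fun g _ => sum_w']
    simp [PP]
  simp only [Subgroup.mem_top, true_and] at h1
  rw [Nat.card_eq_fintype_card, Fintype.card_subtype, Nat.card_eq_fintype_card, Fintype.card_subtype, h1]
  zify
  rw [← h2, sum_congr rfl fun R _ => main hp ⊤ R, ← sum_filter, filter_filter, ← nsmul_eq_mul, ← sum_const]
  refine sum_congr (filter_congr fun R _ => and_congr_right fun _ => ⟨fun h => ?_, ?_⟩) fun R hR => ?_
  · obtain ⟨k, -, hk⟩ := sylow_trans hp hP h; exact ⟨k, hk⟩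
  · rintro ⟨k, rfl⟩; exact hP.cj_of_mem (Subgroup.mem_top k)
  · obtain ⟨-, k, rfl⟩ : H ≤ R ∧ ∃ k, R = cj k P := by simpa using hR
    rw [← cj_norm, ← BG.card_cj k (⊤ ⊓ N_(P)), cj_inf, cj_top]

theorem card_cj' (A : Subgroup G) (S : Subgroup G → Prop) :
    Nat.card {x : G // S (cj x A)} = Nat.card {K // S K ∧ ∃ k, K = cj k A} * Nat.card N_(A) := by
  have h1 := card_cj ⊤ A S
  simp only [Subgroup.mem_top, true_and, top_inf_eq] at h1
  rw [Nat.card_eq_fintype_card, Fintype.card_subtype, Nat.card_eq_fintype_card (α := {K // _}), Fintype.card_subtype]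
  convert h1

end H21.Cas
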