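import Cfsg.Agent.H19.Cm0
import Cfsg.Agent.S0111
import Cfsg.Agent.S0112
import Cfsg.Agent.S0113

/-! Part (4b) of the 3-local characterization of `A₈`: a four-group self-centralizing in a Sylow 2-subgroup fuses all involutions. -/

set_option autoImplicit false
set_option synthInstance.maxSize 4000

namespace H21.Cm
open Subgroup H19.Cm

variable {G : Type*} [Group G] [Finite G] {f : L →* G} {s : G}

theorem one_class (h2 : I2 G) (T : Sylow 2 G) (V : Subgroup T) (hV : Nat.card V = 4) (hC : centralizer (V : Set T) = V)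
    (a : V) (ha : orderOf a = 2) {x y : G} (hx : orderOf x = 2) (hy : orderOf y = 2) : IsConj x y := by
  obtain ⟨n, hn⟩ := IsPGroup.iff_card.1 T.isPGroup'
  obtain ⟨C, c1, c2⟩ : ∃ C : Subgroup T, IsCyclic C ∧ C.index = 2 := by
    by_cases h3 : 3 ≤ n
    · exact Cfsg.Agent.S0113.result n h3 hn (Cfsg.Agent.S0112.result n hn V hV hC)
    · refine ⟨zpowers (a : T), inferInstance, ?_⟩
      have e := (zpowers (a : T)).card_mul_index
      have l := V.card_le_card_group
      rw [Nat.card_zpowers, orderOf_coe, ha, hn] at e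
      rw [hV, hn] at l
      have : n ≤ 2 := by omega
      interval_cases n <;> omega
  have key : ∀ x : G, orderOf x = 2 → ∃ c : C, orderOf c = 2 ∧ IsConj x ((c : T) : G) := fun x hx => by
    obtain ⟨P, hP⟩ := (IsPGroup.of_card (p := 2) (n := 1) ((Nat.card_zpowers x).trans hx)).exists_le_sylow
    obtain ⟨g, rfl⟩ := MulAction.exists_smul_eq G T P
    have m : g⁻¹ * x * g⁻¹⁻¹ ∈ (T : Subgroup G) := by
      have := hP (mem_zpowers x)
      rw [Sylow.coe_subgroup_smul, mem_pointwise_smul_iff_inv_smul_mem] at this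
      simpa using this
    have c : IsConj x (g⁻¹ * x * g⁻¹⁻¹) := isConj_iff.2 ⟨_, rfl⟩
    have o : ∀ {y : G}, IsConj x y → orderOf y = 2 := fun c => (SemiconjBy.orderOf_eq _ c.choose_spec).symm.trans hx
    have fin : ∀ y, IsConj x y → y ∈ C.map (T : Subgroup G).subtype → ∃ c : C, orderOf c = 2 ∧ IsConj x ((c : T) : G) := by
      rintro _ c ⟨t, ht, rfl⟩
      exact ⟨⟨t, ht⟩, by rw [← orderOf_coe, ← orderOf_coe]; exact o c, c⟩
    by_cases k : g⁻¹ * x * g⁻¹⁻¹ ∈ C.map (T : Subgroup G).subtype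
    · exact fin _ c k
    · rcases Cfsg.Agent.S0111.result T _ (map_subtype_le C) (by
        rw [relIndex, subgroupOf, comap_map_eq_self_of_injective (subtype_injective _), c2]) _ (o c) m k with ⟨M, -, i, -⟩ | ⟨k, hk⟩
      · exact absurd i (h2 M)
      · exact fin _ (c.trans (isConj_iff.2 ⟨k, rfl⟩)) hk
  obtain ⟨c, o, e⟩ := key x hx
  obtain ⟨d, o', e'⟩ := key y hy
  obtain rfl : c = d := by
    classical
    have := Fintype.ofFinite C
    have k := IsCyclic.card_orderOf_eq_totient (α := C) (d := 2) (o.symm.dvd.trans orderOf_dvd_card)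
    exact Finset.card_le_one.1 (k.trans Nat.totient_two).le _ (by simpa using o) _ (by simpa using o')
  exact e.trans e'.symm

/-- the four-group -/
def V0 : Subgroup L where
  carrier := {x | x = 1 ∨ x = A ∨ x = A' ∨ x = A * A'}
  one_mem' := .inl rfl
  mul_mem' := by rintro _ _ (rfl | rfl | rfl | rfl) (rfl | rfl | rfl | rfl) <;> simp only [Set.mem_setOf_eq] <;> decide +kernel
  inv_mem' := by rintro _ (rfl | rfl | rfl | rfl) <;> simp only [Set.mem_setOf_eq] <;> decide +kernel

theorem cV0 : Nat.card V0 = 4 := by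
  change Nat.card {x : L // x = 1 ∨ x = A ∨ x = A' ∨ x = A * A'} = 4
  rw [Nat.card_eq_fintype_card]
  decide +kernel

theorem cen : ∀ x : L, x * A = A * x → x * A' = A' * x → x * Z = Z * x →
    (x = 1 ∨ x = A ∨ x = A' ∨ x = A * A') ∨ x ^ 2 ≠ 1 ∧ (x ^ 2) ^ 3 = 1 := by decide +kernel

theorem cm : ∀ x : L, (x = 1 ∨ x = A ∨ x = A' ∨ x = A * A') → ∀ y : L, (y = 1 ∨ y = A ∨ y = A' ∨ y = A * A') → x * y = y * x := by
  rintro _ (rfl | rfl | rfl | rfl) _ (rfl | rfl | rfl | rfl) <;> decide +kernel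

theorem nga (h : Hy f s) (us : US f s) (h2 : I2 G) : ¬ Ga f := fun ga => by
  have c4 : Nat.card (V0.map f) = 4 := (card_map_of_injective h.inj).trans cV0
  obtain ⟨T, hT⟩ := (IsPGroup.of_card (p := 2) (n := 2) c4).exists_le_sylow
  have mA : f A ∈ V0.map f := ⟨A, .inr (.inl rfl), rfl⟩
  have mA' : f A' ∈ V0.map f := ⟨A', .inr (.inr (.inl rfl)), rfl⟩
  have o : ∀ x : L, x ^ 2 = 1 → x ≠ 1 → orderOf (f x) = 2 := fun x a b => (orderOf_injective f h.inj x).trans (orderOf_eq_prime a b)
  refine us (one_class h2 T ((V0.map f).subgroupOf T) ((Nat.card_congr (subgroupOfEquivOfLe hT).toEquiv).trans c4)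
    (le_antisymm (fun g hg => ?_) fun g hg k hk => ?_) ⟨⟨f A, hT mA⟩, mA⟩ ?_ (o U (by decide +kernel) (by decide +kernel))
    (orderOf_eq_prime (by rw [sq, h.s2]) fun e => ?_))
  · have a : (g : G) * f A = f A * g := (congrArg Subtype.val (hg ⟨_, hT mA⟩ mA)).symm
    have b : (g : G) * f A' = f A' * g := (congrArg Subtype.val (hg ⟨_, hT mA'⟩ mA')).symm
    obtain ⟨x, e, c⟩ := h.cz (g := g) (mem_centralizer_singleton_iff.1 ((closure_le (centralizer {f Z})).2 (by
      rintro _ (rfl | rfl | rfl) <;> exact mem_centralizer_singleton_iff.2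
        ((map_mul f _ _).symm.trans ((congrArg f (by decide +kernel)).trans (map_mul f _ _)))) (ga g a b)))
    rw [← e, ← map_mul, ← map_mul] at a b
    refine (cen x (h.inj a) (h.inj b) c).elim (fun k => ⟨x, k, e⟩) fun ⟨k1, k2⟩ => absurd ?_ k1
    obtain ⟨n, hn⟩ := T.isPGroup' (g ^ 2)
    have hn : (x ^ 2) ^ 2 ^ n = 1 := h.inj (by rw [map_pow, map_pow, e, map_one]; exact congrArg Subtype.val hn)
    exact orderOf_eq_one_iff.1 (Nat.eq_one_of_dvd_coprimes ((by norm_num : Nat.Coprime 2 3).pow_left n)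
      (orderOf_dvd_of_pow_eq_one hn) (orderOf_dvd_of_pow_eq_one k2))
  · obtain ⟨x, hx, e⟩ := hg
    obtain ⟨y, hy, e'⟩ := hk
    refine Subtype.ext ?_
    change (T : Subgroup G).subtype k * (T : Subgroup G).subtype g = (T : Subgroup G).subtype g * (T : Subgroup G).subtype k
    rw [← e, ← e', ← map_mul, ← map_mul, cm y hy x hx]
  · rw [← orderOf_coe, ← orderOf_coe]
    exact o A (by decide +kernel) (by decide +kernel)
  · have := h.sz
    rw [e, one_mul, mul_one] at this
    exact absurd (h.inj this) (by decide +kernel)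

end H21.Cm
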