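import Mathlib

set_option autoImplicit false

namespace H21.Der
open Finset

lemma pow_desc (m r : ℕ) (h : r ≤ m) : ∀ i : ℕ, m ^ i * r.descFactorial i ≤ r ^ i * m.descFactorial i
  | 0 => by simp
  | i + 1 => by
    have ih := pow_desc m r h i
    have h1 : m * (r - i) ≤ r * (m - i) := by
      rw [Nat.mul_sub, Nat.mul_sub, mul_comm m r]
      exact Nat.sub_le_sub_left (Nat.mul_le_mul_right i h) _
    rw [Nat.descFactorial_succ, Nat.descFactorial_succ, pow_succ, pow_succ]
    calc m ^ i * m * ((r - i) * r.descFactorial i) = (m * (r - i)) * (m ^ i * r.descFactorial i) := by ring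
      _ ≤ (r * (m - i)) * (r ^ i * m.descFactorial i) := Nat.mul_le_mul h1 ih
      _ = _ := by ring

lemma pow_le_choose' (m r : ℕ) (h : r ≤ m) : m ^ r ≤ r ^ r * m.choose r := by
  have h1 := pow_desc m r h r
  rw [Nat.descFactorial_self, Nat.descFactorial_eq_factorial_mul_choose] at h1
  have h2 : r.factorial * m ^ r ≤ r.factorial * (r ^ r * m.choose r) := by
    calc r.factorial * m ^ r = m ^ r * r.factorial := by ring
      _ ≤ _ := h1
      _ = _ := by ring
  exact Nat.le_of_mul_le_mul_left h2 (Nat.factorial_pos r)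

lemma choose_mono' (m r k : ℕ) (h : r ≤ k) (hk : 2 * k ≤ m) : m.choose r ≤ m.choose k := by
  induction k, h using Nat.le_induction with
  | base => exact le_rfl
  | succ n hn ih => exact (ih (by omega)).trans (Nat.choose_le_succ_of_lt_half_left (by omega))

lemma choose_le_pi (m k r : ℕ) (hm : 0 < m) (hk : k ≤ m) (hmax : ∀ s : ℕ, s.Prime → s ∣ m.choose k → s ≤ r) :
    m.choose k ≤ m ^ ((range (r + 1)).filter Nat.Prime).card := by
  have h0 : m.choose k ≠ 0 := (Nat.choose_pos hk).ne'
  calc m.choose k = ∏ p ∈ (m.choose k).primeFactors, p ^ (m.choose k).factorization p :=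
        (Nat.factorization_prod_pow_eq_self h0).symm
    _ ≤ m ^ (m.choose k).primeFactors.card :=
        Finset.prod_le_pow_card _ _ _ fun p _ => Nat.pow_factorization_choose_le hm
    _ ≤ _ := by
        refine Nat.pow_le_pow_right hm (Finset.card_le_card fun p hp => ?_)
        have hp' := Nat.mem_primeFactors.1 hp
        exact mem_filter.2 ⟨mem_range.2 (Nat.lt_succ_of_le (hmax p hp'.1 hp'.2.1)), hp'.1⟩

lemma pi_le (r : ℕ) (hr : 9 ≤ r) : ((range (r + 1)).filter Nat.Prime).card ≤ r / 2 := by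
  have h : ((range (r + 1)).filter Nat.Prime).card ≤ (Icc 1 (r / 2)).card := by
    refine Finset.card_le_card_of_injOn (fun p => if p = 2 then 4 else p / 2) ?_ ?_
    · intro p hp
      have hp' := mem_filter.1 (Finset.mem_coe.1 hp)
      have h1 := mem_range.1 hp'.1
      have h2 := hp'.2.two_le
      simp only [Finset.coe_Icc, Set.mem_Icc]
      split_ifs <;> omega
    · intro p hp q hq hpq
      have hp' := (mem_filter.1 (Finset.mem_coe.1 hp)).2
      have hq' := (mem_filter.1 (Finset.mem_coe.1 hq)).2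
      have h9 : ¬ Nat.Prime 9 := by norm_num
      simp only at hpq
      rcases hp'.eq_two_or_odd with h1 | h1 <;> rcases hq'.eq_two_or_odd with h2 | h2
      · omega
      · have : q ≠ 2 := by omega
        rw [if_pos h1, if_neg this] at hpq
        exact absurd hq' (by rw [show q = 9 by omega]; exact h9)
      · have : p ≠ 2 := by omega
        rw [if_pos h2, if_neg this] at hpq
        exact absurd hp' (by rw [show p = 9 by omega]; exact h9)
      · rw [if_neg (by omega), if_neg (by omega)] at hpq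
        omega
  simpa using h

/-- weak form of Sylvester's theorem -/
lemma nt (m k r : ℕ) (hr : r.Prime) (hk : 2 * k ≤ m)
    (hmax : ∀ s : ℕ, s.Prime → s ∣ m.choose k → s ≤ r) : m < r * r ∨ k < r := by
  by_contra hcon
  push Not at hcon
  obtain ⟨h1, h2⟩ := hcon
  have hr2 := hr.two_le
  have hm : 0 < m := by nlinarith
  have hU := (choose_mono' m r k h2 hk).trans (choose_le_pi m k r hm (by omega) hmax)
  have hD := Nat.descFactorial_eq_factorial_mul_choose m r
  by_cases h9 : 9 ≤ r
  · have h3 := pi_le r h9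
    have hodd : r % 2 = 1 := hr.eq_two_or_odd.resolve_left (by omega)
    have h4 : m ^ r ≤ r ^ r * m ^ (r / 2) :=
      (pow_le_choose' m r (by omega)).trans
        (Nat.mul_le_mul_left _ (hU.trans (Nat.pow_le_pow_right hm h3)))
    have h5 : m ^ r * m ^ r ≤ m ^ r * m ^ (r - 1) := by
      calc m ^ r * m ^ r ≤ (r ^ r * m ^ (r / 2)) * (r ^ r * m ^ (r / 2)) := Nat.mul_le_mul h4 h4
        _ = (r * r) ^ r * m ^ (r / 2 + r / 2) := by rw [mul_pow, pow_add]; ring
        _ ≤ m ^ r * m ^ (r - 1) := by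
          rw [show r / 2 + r / 2 = r - 1 by omega]
          exact Nat.mul_le_mul_right _ (Nat.pow_le_pow_left h1 r)
    have h6 := Nat.le_of_mul_le_mul_left h5 (pow_pos hm r)
    have h7 := (Nat.pow_le_pow_iff_right (by nlinarith : 1 < m)).1 h6
    omega
  · have hP := Nat.pow_sub_le_descFactorial m r
    have hr' : r = 2 ∨ r = 3 ∨ r = 5 ∨ r = 7 := by
      have : r < 9 := by omega
      interval_cases r <;> simp_all <;> norm_num at hr
    rcases hr' with rfl | rfl | rfl | rfl
    · rw [show ((range (2 + 1)).filter Nat.Prime).card = 1 by decide] at hU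
      obtain ⟨a, rfl⟩ : ∃ a, m = a + 4 := ⟨m - 4, by omega⟩
      simp only [Nat.descFactorial_succ, Nat.descFactorial_zero, Nat.factorial] at hD
      rw [show a + 4 - 1 = a + 3 by omega, show a + 4 - 0 = a + 4 by omega] at hD
      nlinarith
    · rw [show ((range (3 + 1)).filter Nat.Prime).card = 2 by decide] at hU
      obtain ⟨a, rfl⟩ : ∃ a, m = a + 9 := ⟨m - 9, by omega⟩
      simp only [Nat.descFactorial_succ, Nat.descFactorial_zero, Nat.factorial] at hD
      rw [show a + 9 - 2 = a + 7 by omega, show a + 9 - 1 = a + 8 by omega, show a + 9 - 0 = a + 9 by omega] at hD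
      nlinarith [Nat.zero_le (a ^ 3), Nat.zero_le (a ^ 2)]
    · rw [show ((range (5 + 1)).filter Nat.Prime).card = 3 by decide] at hU
      obtain ⟨a, rfl⟩ : ∃ a, m = a + 25 := ⟨m - 25, by omega⟩
      rw [show a + 25 + 1 - 5 = a + 21 by omega, hD, show Nat.factorial 5 = 120 by rfl] at hP
      have h3 : (a + 21) ^ 5 ≤ 120 * (a + 25) ^ 3 := hP.trans (Nat.mul_le_mul_left _ hU)
      nlinarith [Nat.zero_le (a ^ 5), Nat.zero_le (a ^ 4), Nat.zero_le (a ^ 3), Nat.zero_le (a ^ 2)]
    · rw [show ((range (7 + 1)).filter Nat.Prime).card = 4 by decide] at hU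
      obtain ⟨a, rfl⟩ : ∃ a, m = a + 49 := ⟨m - 49, by omega⟩
      rw [show a + 49 + 1 - 7 = a + 43 by omega, hD, show Nat.factorial 7 = 5040 by rfl] at hP
      have h3 : (a + 43) ^ 7 ≤ 5040 * (a + 49) ^ 4 := hP.trans (Nat.mul_le_mul_left _ hU)
      nlinarith [Nat.zero_le (a ^ 7), Nat.zero_le (a ^ 6), Nat.zero_le (a ^ 5), Nat.zero_le (a ^ 4),
        Nat.zero_le (a ^ 3), Nat.zero_le (a ^ 2)]

lemma lucas (m k r : ℕ) (hr : r.Prime) (hkm : k ≤ m) (h : m < r * r ∨ k < r) (h0 : k % r ≤ m % r) :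
    ¬ r ∣ m.choose k := by
  have := Fact.mk hr
  intro hd
  have h1 := (Choose.choose_modEq_choose_mod_mul_choose_div_nat (n := m) (k := k) (p := r))
  have h2 := (Nat.modEq_zero_iff_dvd).1 (h1.symm.trans ((Nat.modEq_zero_iff_dvd).2 hd))
  have key : ∀ a b : ℕ, a < r → b ≤ a → ¬ r ∣ a.choose b := fun a b ha hb h =>
    absurd ((hr.dvd_factorial).1 (h.trans (Dvd.intro _ (by
      rw [← Nat.choose_mul_factorial_mul_factorial hb, mul_assoc])))) (by omega)
  rcases (Nat.Prime.dvd_mul hr).1 h2 with h3 | h3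
  · exact key _ _ (Nat.mod_lt _ hr.pos) h0 h3
  · rcases h with h | h
    · exact key _ _ (Nat.div_lt_of_lt_mul h) (Nat.div_le_div_right hkm) h3
    · rw [Nat.div_eq_of_lt h, Nat.choose_zero_right] at h3
      exact hr.one_lt.ne' (Nat.dvd_one.1 h3)

end H21.Der
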