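import Mathlib
import Cfsg.Agent.S0713
import Cfsg.Agent.S2119
import Cfsg.Agent.H21.Der1

set_option autoImplicit false

namespace H21.Der
open Equiv Equiv.Perm MulAction SubMulAction

section Perm
variable {α : Type*} [Fintype α] [DecidableEq α]

theorem prim_of_cycle {G : Subgroup (Perm α)} [IsPretransitive G α] {g : Perm α} (hgc : g.IsCycle)
    (hp : g.support.card.Prime) (hg : g ∈ G) (hn : Fintype.card α < 2 * g.support.card) :
    IsPreprimitive G α := by
  have hc : Nat.card (ofFixingSubgroup G (g.support : Set α)ᶜ) = g.support.card := by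
    rw [← Set.ncard_coe_finset, ← Nat.card_coe_set_eq]
    exact Nat.card_congr (Equiv.subtypeEquivRight fun z => by simp [mem_ofFixingSubgroup_iff])
  have := isPretransitive_of_isCycle_mem hgc hg
  have : IsPreprimitive (fixingSubgroup G (g.support : Set α)ᶜ)
      (ofFixingSubgroup G (g.support : Set α)ᶜ) := IsPreprimitive.of_prime_card (hc ▸ hp)
  refine IsPreprimitive.of_card_lt (f := ofFixingSubgroup_equivariantMap G (g.support : Set α)ᶜ) ?_
  rw [← Set.image_univ, Set.ncard_image_of_injective _ ofFixingSubgroup_equivariantMap_injective,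
    Set.ncard_univ, hc, Nat.card_eq_fintype_card]
  exact hn

theorem exists_rep {r a : ℕ} (hr : r.Prime) (ha : a ≠ 0) (har : a * r ≤ Fintype.card α) :
    ∃ g : Perm α, orderOf g = r ∧ g.support.card = a * r ∧ sign g = (-1) ^ (a * r + a) ∧
      (a = 1 → g.IsCycle) := by
  have := Fact.mk hr
  obtain ⟨g, hg⟩ := (Equiv.Perm.exists_with_cycleType_iff α (m := Multiset.replicate a r)).2
    ⟨by simpa using har, fun x hx => by rw [Multiset.eq_of_mem_replicate hx]; exact hr.two_le⟩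
  refine ⟨g, orderOf_eq_prime (pow_prime_eq_one_iff.2 fun c hc => ?_) fun h => ?_, ?_, ?_, fun h => ?_⟩
  · rw [hg] at hc; exact Multiset.eq_of_mem_replicate hc
  · rw [h, cycleType_one] at hg
    have := congrArg Multiset.card hg
    simp at this; exact ha this.symm
  · rw [← sum_cycleType, hg]; simp
  · rw [sign_of_cycleType, hg]; simp
  · rw [← card_cycleType_eq_one, hg]; simpa using h

theorem fixcount {g : Perm α} {r : ℕ} (hr : r.Prime) (hg : orderOf g = r) (S : Finset α)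
    (hS : ∀ x ∈ S, g x ∈ S) : ∃ f, f + g.support.card ≤ Fintype.card α ∧ f ≡ S.card [MOD r] := by
  have := Fact.mk hr
  have h1 : ∀ x, g x ∈ S ↔ x ∈ S := fun x => by
    refine ⟨fun h => ?_, hS x⟩
    have h2 : ∀ n : ℕ, (g ^ n) (g x) ∈ S := fun n => by
      induction n with
      | zero => simpa using h
      | succ n ih => rw [pow_succ', Perm.mul_apply]; exact hS _ ih
    have h3 := h2 (r - 1)
    rwa [← Perm.mul_apply, ← pow_succ, Nat.sub_add_cancel hr.one_le, ← hg, pow_orderOf_eq_one] at h3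
  let σ : Perm {x // x ∈ S} := g.subtypePerm h1
  have hσ : σ ^ r ^ 1 = 1 := by
    ext x
    have : g ^ r = 1 := by rw [← hg, pow_orderOf_eq_one]
    simp [σ, subtypePerm_pow, this]
  refine ⟨σ.supportᶜ.card, ?_, by simpa using card_compl_support_modEq hσ⟩
  have h4 : σ.supportᶜ.card ≤ g.supportᶜ.card := by
    refine Finset.card_le_card_of_injOn Subtype.val (fun x hx => ?_) Subtype.val_injective.injOn
    have hx' : σ x = x := by simpa using hx
    have : g x = x := congrArg Subtype.val hx'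
    simpa using this
  have h5 := Finset.card_add_card_compl g.support
  omega

end Perm

lemma not_sq_dvd {r : ℕ} (hr : r.Prime) : ∀ n : ℕ, n < 2 * r → ¬ r * r ∣ n.factorial
  | 0 => fun _ h => hr.one_lt.ne' (Nat.dvd_one.1 ((Dvd.intro _ rfl).trans h))
  | n + 1 => fun hn h => by
    rw [Nat.factorial_succ] at h
    by_cases h1 : r ∣ n + 1
    · obtain ⟨c, hc⟩ := h1
      have hc1 : c = 1 := by
        rcases c with _ | _ | c
        · omega
        · rfl
        · nlinarith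
      subst hc1
      rw [hc, mul_one] at h
      have := (hr.dvd_factorial).1 (Nat.dvd_of_mul_dvd_mul_left hr.pos h)
      omega
    · have h2 : (r * r).Coprime (n + 1) :=
        Nat.Coprime.mul_left ((Nat.Prime.coprime_iff_not_dvd hr).2 h1) ((Nat.Prime.coprime_iff_not_dvd hr).2 h1)
      exact not_sq_dvd hr n (by omega) (h2.dvd_of_dvd_mul_left h)

section Core
variable {K Ω : Type*} [Group K] [Finite K] [MulAction K Ω] {m : ℕ}

lemma exists_fix {g : K} {s : ℕ} (hs : s.Prime) (hg : orderOf g = s) (h : ¬ s ∣ Nat.card Ω) :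
    ∃ ω : Ω, g • ω = ω := by
  have := Fact.mk hs
  have hP : IsPGroup s (Subgroup.zpowers g) := IsPGroup.of_card (n := 1) (by rw [Nat.card_zpowers, hg, pow_one])
  obtain ⟨ω, hω⟩ := hP.nonempty_fixed_point_of_prime_not_dvd_card Ω h
  exact ⟨ω, hω ⟨g, Subgroup.mem_zpowers g⟩⟩

variable [IsPretransitive K Ω] (ψ : K →* Perm (Fin m)) (hψ : Function.Injective ψ)
include hψ

lemma card_mul (ω : Ω) : Nat.card Ω * Nat.card (stabilizer K ω) ∣ m.factorial := by
  rw [← index_stabilizer_of_transitive K ω, Subgroup.index_mul_card]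
  simpa [Fintype.card_perm] using Subgroup.card_dvd_of_injective ψ hψ

lemma big [Nonempty Ω] {r : ℕ} (hr : r.Prime) (hm : m < 2 * r) (hrd : r ∣ Nat.card Ω) :
    ∃ g : K, orderOf g = r ∧ ∀ ω : Ω, g • ω ≠ ω := by
  have := Fact.mk hr
  obtain ⟨ω0⟩ := ‹Nonempty Ω›
  obtain ⟨g, hg⟩ := exists_prime_orderOf_dvd_card' (G := K) r (hrd.trans (by
    rw [← index_stabilizer_of_transitive K ω0]; exact Subgroup.index_dvd_card _))
  refine ⟨g, hg, fun ω h => not_sq_dvd hr m hm ?_⟩
  refine (Nat.mul_dvd_mul hrd ?_).trans (card_mul ψ hψ ω)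
  rw [← hg]
  exact Subgroup.orderOf_dvd_natCard _ (mem_stabilizer_iff.2 h)

variable (hA : ∀ a ∈ alternatingGroup (Fin m), ∃ g, ψ g = a)
include hA

lemma notA [FaithfulSMul K Ω] (hm : 5 ≤ m) (ω : Ω) :
    ¬ alternatingGroup (Fin m) ≤ (stabilizer K ω).map ψ := by
  intro h
  have := alternatingGroup.nontrivial_of_three_le_card (α := Fin m) (by simp; omega)
  obtain ⟨⟨a, ha⟩, ha1⟩ := exists_ne (1 : alternatingGroup (Fin m))
  obtain ⟨g, rfl⟩ := hA a ha
  have : g = 1 := by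
    refine FaithfulSMul.eq_of_smul_eq_smul (α := Ω) fun ω' => ?_
    obtain ⟨x, rfl⟩ := exists_smul_eq K ω ω'
    have h1 : ψ (x⁻¹ * g * x) ∈ alternatingGroup (Fin m) := by
      rw [map_mul, map_mul, map_inv]
      exact Subgroup.Normal.conj_mem' inferInstance _ ha _
    obtain ⟨y, hy, hy'⟩ := h h1
    rw [hψ hy'] at hy
    have h2 : (x⁻¹ * g * x) • ω = ω := hy
    rw [mul_smul, mul_smul, inv_smul_eq_iff] at h2
    rw [h2, one_smul]
  exact ha1 (Subtype.ext (by simp [this]))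

omit [IsPretransitive K Ω] in
lemma lift {r a : ℕ} (hr : r.Prime) (ha : a ≠ 0) (har : a * r ≤ m) (he : Even (a * r + a)) :
    ∃ g : K, orderOf g = r ∧ orderOf (ψ g) = r ∧ (ψ g).support.card = a * r ∧ (a = 1 → (ψ g).IsCycle) := by
  obtain ⟨c, h1, h2, h3, h4⟩ := exists_rep (α := Fin m) hr ha (by simpa using har)
  obtain ⟨g, rfl⟩ := hA c (by rw [mem_alternatingGroup, h3, he.neg_one_pow])
  exact ⟨g, by rw [← orderOf_injective ψ hψ, h1], h1, h2, h4⟩

omit hψ hA [Finite K] in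
lemma exists_inv (ω0 : Ω) (h : ¬ IsPretransitive ((stabilizer K ω0).map ψ) (Fin m)) :
    ∃ S : Finset (Fin m), 1 ≤ S.card ∧ 2 * S.card ≤ m ∧ ∀ g : K, g • ω0 = ω0 → ∀ x ∈ S, ψ g x ∈ S := by
  classical
  obtain ⟨a, b, hab⟩ : ∃ a b : Fin m, ∀ g : K, g • ω0 = ω0 → ψ g a ≠ b := by
    by_contra hc
    push Not at hc
    refine h ⟨fun a b => ?_⟩
    obtain ⟨g, h1, h2⟩ := hc a b
    exact ⟨⟨ψ g, g, h1, rfl⟩, h2⟩
  let O : Finset (Fin m) := Finset.univ.filter fun x => ∃ g : K, g • ω0 = ω0 ∧ ψ g a = x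
  have hO : ∀ x, x ∈ O ↔ ∃ g : K, g • ω0 = ω0 ∧ ψ g a = x := fun x => by simp [O]
  have hinv : ∀ g : K, g • ω0 = ω0 → ∀ x ∈ O, ψ g x ∈ O := fun g hg x hx => by
    obtain ⟨y, hy, rfl⟩ := (hO x).1 hx
    exact (hO _).2 ⟨g * y, by rw [mul_smul, hy, hg], by simp⟩
  have hc := Finset.card_add_card_compl O
  rw [Fintype.card_fin] at hc
  by_cases h2 : 2 * O.card ≤ m
  · exact ⟨O, Finset.card_pos.2 ⟨a, (hO a).2 ⟨1, one_smul _ _, by simp⟩⟩, h2, hinv⟩
  · refine ⟨Oᶜ, Finset.card_pos.2 ⟨b, Finset.mem_compl.2 fun hb => ?_⟩, by omega, fun g hg x hx => ?_⟩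
    · obtain ⟨g, h1, h3⟩ := (hO b).1 hb
      exact hab g h1 h3
    · refine Finset.mem_compl.2 fun h3 => Finset.mem_compl.1 hx ?_
      have := hinv g⁻¹ (inv_smul_eq_iff.2 hg.symm) _ h3
      simpa using this

omit hψ [Finite K] in
lemma card_eq_choose (hm : 5 ≤ m) (ω0 : Ω) (hco : IsCoatom (stabilizer K ω0)) (S : Finset (Fin m))
    (h1 : 1 ≤ S.card) (h2 : 2 * S.card ≤ m) (hS : ∀ g : K, g • ω0 = ω0 → ∀ x ∈ S, ψ g x ∈ S) :
    Nat.card Ω = m.choose S.card := by
  letI : MulAction K (Set.powersetCard (Fin m) S.card) := MulAction.compHom _ ψ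
  have hs : ∀ (g : K) (t : Set.powersetCard (Fin m) S.card), g • t = ψ g • t := fun _ _ => rfl
  have hp := Set.powersetCard.isPretransitive_alternatingGroup (α := Fin m) (n := S.card) (by simp; omega)
  have : IsPretransitive K (Set.powersetCard (Fin m) S.card) := ⟨fun s t => by
    obtain ⟨⟨a, ha⟩, h⟩ := exists_smul_eq (alternatingGroup (Fin m)) s t
    obtain ⟨g, rfl⟩ := hA a ha
    exact ⟨g, h⟩⟩
  let s0 : Set.powersetCard (Fin m) S.card := Set.powersetCard.ofCard rfl
  have hi : (stabilizer K s0).index = m.choose S.card := by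
    rw [index_stabilizer_of_transitive, Set.powersetCard.card]; simp
  have hle : stabilizer K ω0 ≤ stabilizer K s0 := fun g hg => by
    rw [mem_stabilizer_iff, hs, Set.powersetCard.eq_iff_subset, Set.powersetCard.coe_smul]
    intro y hy
    obtain ⟨x, hx, rfl⟩ := Finset.mem_smul_finset.1 hy
    exact hS g hg x hx
  have hne : stabilizer K s0 ≠ ⊤ := fun h => by
    rw [h, Subgroup.index_top] at hi
    have := choose_mono' m 1 S.card h1 h2
    rw [Nat.choose_one_right] at this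
    omega
  rw [← hi, (hco.le_iff.1 hle).resolve_left hne, index_stabilizer_of_transitive]

theorem core [FaithfulSMul K Ω] [Nonempty Ω] (hm : 5 ≤ m)
    (hmax : m = 6 ∨ ∀ ω : Ω, IsCoatom (stabilizer K ω)) {r : ℕ} (hr : r.Prime) (hrd : r ∣ Nat.card Ω)
    (hle : ∀ s : ℕ, s.Prime → s ∣ Nat.card Ω → s ≤ r) : ∃ g : K, orderOf g = r ∧ ∀ ω : Ω, g • ω ≠ ω := by
  by_cases hbig : m < 2 * r
  · exact big ψ hψ hr hbig hrd
  have hr2 := hr.two_le
  obtain ⟨p, hp, hp1, hp2⟩ := Nat.exists_prime_lt_and_le_two_mul (m / 2) (by omega)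
  have hpo : p % 2 = 1 := hp.eq_two_or_odd.resolve_left (by omega)
  obtain ⟨c, hc1, hc2, hc3, hc4⟩ := lift ψ hψ hA hp one_ne_zero (by omega)
    (Nat.even_iff.2 (by omega))
  rw [one_mul] at hc3
  obtain ⟨ω1, hω1⟩ : ∃ ω : Ω, c • ω = ω := exists_fix hp hc1 fun h => by have := hle p hp h; omega
  have h3 : r = 2 → ¬ 3 ∣ Nat.card Ω := fun h h' => by have := hle 3 Nat.prime_three h'; omega
  by_cases htr : ∀ ω : Ω, IsPretransitive ((stabilizer K ω).map ψ) (Fin m)
  · have hprim : ∀ ω : Ω, IsPreprimitive ((stabilizer K ω).map ψ) (Fin m) := fun ω => by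
      obtain ⟨x, rfl⟩ := exists_smul_eq K ω1 ω
      have := htr (x • ω1)
      have h1 : (ψ x * ψ c * (ψ x)⁻¹).support.card = p := by rw [card_support_conj, hc3]
      refine prim_of_cycle (g := ψ x * ψ c * (ψ x)⁻¹) (hc4 rfl).conj (h1 ▸ hp)
        ⟨x * c * x⁻¹, ?_, by simp⟩ (by rw [h1, Fintype.card_fin]; omega)
      show (x * c * x⁻¹) • x • ω1 = x • ω1
      rw [mul_smul, inv_smul_smul, mul_smul, hω1]
    rcases hr.eq_two_or_odd with h | h
    · obtain ⟨g, hg1, -, hg3, -⟩ := lift ψ hψ hA Nat.prime_three one_ne_zero (by omega) (by decide)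
      obtain ⟨ω, hω⟩ : ∃ ω : Ω, g • ω = ω := exists_fix Nat.prime_three hg1 (h3 h)
      exact absurd (alternatingGroup_le_of_isPreprimitive_of_isThreeCycle_mem (hprim ω)
        (card_support_eq_three_iff.1 hg3) ⟨g, hω, rfl⟩) (notA ψ hψ hA hm ω)
    · obtain ⟨g, hg1, -, hg3, hg4⟩ := lift ψ hψ hA hr one_ne_zero (by omega) (Nat.even_iff.2 (by omega))
      refine ⟨g, hg1, fun ω hω => notA ψ hψ hA hm ω ?_⟩
      exact Cfsg.Agent.S0713.result _ (hprim ω) hr (by simpa using hm) (by simp; omega) (hg4 rfl)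
        (by rw [hg3, one_mul]) ⟨g, hω, rfl⟩
  push Not at htr
  obtain ⟨ω0, h0⟩ := htr
  obtain ⟨S, hS1, hS2, hS⟩ := exists_inv ψ ω0 h0
  have key : ∀ (g : K) (s : ℕ) (ω : Ω), s.Prime → orderOf (ψ g) = s → g • ω = ω →
      ∃ f, f + (ψ g).support.card ≤ m ∧ f ≡ S.card [MOD s] := fun g s ω hs hg hω => by
    obtain ⟨x, rfl⟩ := exists_smul_eq K ω0 ω
    have h1 : ψ (x⁻¹ * g * x) = (ψ x)⁻¹ * ψ g * (ψ x)⁻¹⁻¹ := by simp
    have h2 : (x⁻¹ * g * x) • ω0 = ω0 := by rw [mul_smul, mul_smul, hω, inv_smul_smul]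
    obtain ⟨f, hf1, hf2⟩ := fixcount (g := ψ (x⁻¹ * g * x)) hs
      (by rw [← lcm_cycleType, h1, cycleType_conj, lcm_cycleType, hg]) S (hS _ h2)
    rw [h1, card_support_conj, Fintype.card_fin] at hf1
    exact ⟨f, hf1, hf2⟩
  rcases hmax with rfl | hmax
  · have hp5 : p = 5 := by omega
    obtain ⟨f, hf1, hf2⟩ := key c p ω1 hp hc2 hω1
    rw [hc3] at hf1
    subst hp5
    have hk : S.card = 1 := by unfold Nat.ModEq at hf2; omega
    obtain ⟨g, hg1, hg2, hg3, -⟩ := lift ψ hψ hA Nat.prime_three two_ne_zero (by omega) (by decide)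
    have hg : ∀ ω : Ω, g • ω ≠ ω := fun ω hω => by
      obtain ⟨f, hf1, hf2⟩ := key g 3 ω Nat.prime_three hg2 hω
      rw [hg3] at hf1
      unfold Nat.ModEq at hf2; omega
    rcases (by omega : r = 2 ∨ r = 3) with h | h
    · obtain ⟨ω, hω⟩ : ∃ ω : Ω, g • ω = ω := exists_fix Nat.prime_three hg1 (h3 h)
      exact absurd hω (hg ω)
    · exact ⟨g, h ▸ hg1, hg⟩
  have hcard := card_eq_choose ψ hA hm ω0 (hmax ω0) S hS1 hS2 hS
  rw [hcard] at hrd hle
  have hnt := nt m S.card r hr hS2 hle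
  have hdm := Nat.div_add_mod m r
  have hml := Nat.mod_lt m hr.pos
  have ha : m / r ≠ 0 := (Nat.div_pos (by omega) hr.pos).ne'
  have hev : Even (m / r * r + m / r) := by
    rcases hr.eq_two_or_odd' with h | h
    · subst h
      have hk : S.card = 1 := by omega
      rw [hk, Nat.choose_one_right] at hrd hle
      have : Even (m / 2) := by
        by_contra ho
        have hne : m / 2 ≠ 1 := by omega
        have hq := Nat.minFac_prime hne
        have hd : (m / 2).minFac ∣ m := (Nat.minFac_dvd _).trans (Nat.div_dvd_of_dvd hrd)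
        have h4 := hle _ hq hd
        have h5 := hq.two_le
        have h6 : (m / 2).minFac = 2 := by omega
        have h7 := Nat.minFac_dvd (m / 2)
        rw [h6] at h7
        exact ho (even_iff_two_dvd.2 h7)
      exact (this.mul_right 2).add this
    · rw [← mul_add_one]
      exact (h.add_one).mul_left _
  obtain ⟨g, hg1, hg2, hg3, -⟩ := lift ψ hψ hA hr ha (Nat.div_mul_le_self m r) hev
  refine ⟨g, hg1, fun ω hω => lucas m S.card r hr (by omega) hnt ?_ hrd⟩
  obtain ⟨f, hf1, hf2⟩ := key g r ω hr hg2 hω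
  rw [hg3, mul_comm] at hf1
  have hf : f ≤ m % r := by omega
  rw [← hf2, Nat.mod_eq_of_lt (by omega)]
  exact hf

end Core

theorem main {G Ω : Type*} [Group G] [Finite G] [MulAction G Ω] [FaithfulSMul G Ω] [Finite Ω]
    (T : Subgroup G) (hT : T.Normal) (hTc : Subgroup.centralizer (T : Set G) = ⊥) (m : ℕ) (hm : 5 ≤ m)
    (eT : ↥T ≃* ↥(alternatingGroup (Fin m))) (hprim : MulAction.IsPreprimitive G Ω) (hΩ : 2 ≤ Nat.card Ω)
    (r : ℕ) (hr : r.Prime) (hrd : r ∣ Nat.card Ω) (hmax : ∀ s : ℕ, s.Prime → s ∣ Nat.card Ω → s ≤ r) :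
    ∃ g : G, orderOf g = r ∧ ∀ ω : Ω, g • ω ≠ ω := by
  have : Nontrivial Ω := Finite.one_lt_card_iff_nontrivial.1 hΩ
  by_cases h6 : m = 6
  · have : IsPretransitive T Ω := by
      refine IsQuasiPreprimitive.isPretransitive_of_normal fun h => ?_
      have := alternatingGroup.nontrivial_of_three_le_card (α := Fin m) (by simp; omega)
      obtain ⟨a, ha⟩ := exists_ne (1 : alternatingGroup (Fin m))
      have h1 : eT.symm a = 1 := FaithfulSMul.eq_of_smul_eq_smul (α := Ω) fun ω => by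
        rw [one_smul]; exact (h ▸ Set.mem_univ ω : ω ∈ fixedPoints T Ω) _
      exact ha (by simpa using h1)
    obtain ⟨g, hg1, hg2⟩ := core (K := T) (Ω := Ω) ((alternatingGroup (Fin m)).subtype.comp eT.toMonoidHom)
      (Subtype.val_injective.comp eT.injective) (fun a ha => ⟨eT.symm ⟨a, ha⟩, by simp⟩) hm (Or.inl h6)
      hr hrd hmax
    exact ⟨g, by rw [Subgroup.orderOf_coe, hg1], hg2⟩
  · let E := MulEquiv.ofBijective _ (Cfsg.Agent.S2119.result m (by omega) h6)
    let ψ : G →* Perm (Fin m) :=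
      E.symm.toMonoidHom.comp ((MulAut.congr eT).toMonoidHom.comp (MulAut.conjNormal (H := T)))
    refine core ψ ?_ ?_ hm (Or.inr fun ω => (isCoatom_stabilizer_iff_preprimitive G ω).2 hprim) hr hrd hmax
    · refine E.symm.injective.comp ((MulAut.congr eT).injective.comp ?_)
      refine (injective_iff_map_eq_one _).2 fun g hg => ?_
      rw [← Subgroup.mem_bot, ← hTc, Subgroup.mem_centralizer_iff]
      intro t ht
      have := congrArg (fun φ : MulAut T => ((φ ⟨t, ht⟩ : T) : G)) hg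
      simp only [MulAut.conjNormal_apply, MulAut.one_apply] at this
      exact (mul_inv_eq_iff_eq_mul.1 this).symm
    · intro a ha
      refine ⟨eT.symm ⟨a, ha⟩, ?_⟩
      show E.symm _ = a
      rw [MulEquiv.symm_apply_eq]
      ext b : 2
      have h1 : (MulAut.conjNormal ((eT.symm ⟨a, ha⟩ : T) : G) (eT.symm b) : T) =
          eT.symm ⟨a, ha⟩ * eT.symm b * (eT.symm ⟨a, ha⟩)⁻¹ := Subtype.ext (by simp)
      show ((eT (MulAut.conjNormal ((eT.symm ⟨a, ha⟩ : T) : G) (eT.symm b)) : alternatingGroup (Fin m)) :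
        Perm (Fin m)) = a * b * a⁻¹
      rw [h1]; simp

end H21.Der
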