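import Cfsg.Agent.H21.DmB1a

/-! Part (B1) of the 3-local characterization of `S₈`: lifting the computation in `S₆`. -/

set_option autoImplicit false
set_option synthInstance.maxSize 4000

namespace H21.Dm
open Equiv Subgroup H19.Dm

variable {G : Type*} [Group G] {F : P35 →* G} {s : G}

theorem fe (F : P35 →* G) {a b c d : P35} (e : a * b = c * d) : F a * F b = F c * F d := by
  rw [← map_mul, ← map_mul, e]

theorem fe3 (F : P35 →* G) {a b c d : P35} (e : a * b * c = d) : F a * F b * F c = F d := by
  rw [← map_mul, ← map_mul, e]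

theorem fc (F : P35 →* G) {a b : P35} (c : P35) (e : c * a * c⁻¹ = b) : IsConj (F a) (F b) :=
  isConj_iff.2 ⟨F c, by rw [← map_inv, ← map_mul, ← map_mul, e]⟩

theorem cj (a x : G) : IsConj x (a * x * a⁻¹) := isConj_iff.2 ⟨a, rfl⟩

/-- the contradiction from the element `e` -/
theorem fin (h : Hy F s) (b : CB F s) (c : CT F s) (g k e : G) (gt : g * F t = F t * g) (gw : g * F w = F w * g)
    (kt : k * F t = F t * k) (he : e = g * F u * g⁻¹) (es : s * e * s = e)
    (hk : k * s * k⁻¹ = F u * F w * e ∨ k * s * k⁻¹ = F u * F w * e * F t)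
    (hv : s * F v * s * e * (s * F v * s)⁻¹ = e) : False := by
  have tt : F t * F t = 1 := by rw [← map_mul, k0.1, map_one]
  have et : e * F t = F t * e := by
    rw [he]
    exact ((show Commute g (F t) from gt).mul_left (fe F (by decide +kernel) : F u * F t = F t * F u)).mul_left
      (show Commute g (F t) from gt).inv_left
  have ve : F v * e * (F v)⁻¹ = e := by
    have : s * (s * F v * s * e * (s * F v * s)⁻¹) * s = s * e * s := by rw [hv]
    rw [es] at this
    calc F v * e * (F v)⁻¹ = F v * (s * e * s) * (F v)⁻¹ := by rw [es]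
      _ = s * (s * F v * s * e * (s * F v * s)⁻¹) * s := by
        simp only [mul_inv_rev, h.si', ← mul_assoc, h.s2, one_mul]
        simp only [mul_assoc, h.s2, mul_one]
      _ = e := this
  have c1 : IsConj (F t) (F (t * w) * e) := by
    have a1 : IsConj (F t) (F (u * t)) := fc F (1, swap 0 3 * swap 1 4) (by decide +kernel)
    have a2 : IsConj (F (u * t)) (F (w * t)) := by
      have := cj s (F (u * t))
      rwa [h.si', map_mul, h.sm, b, h.st', ← map_mul, ← map_mul] at this
    have a3 : IsConj (F (w * t)) (F (t * w * u)) := fc F (1, swap 0 3 * swap 1 4) (by decide +kernel)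
    have a4 := cj g (F (t * w * u))
    have : g * F (t * w * u) * g⁻¹ = F (t * w) * e := by
      rw [he, map_mul, map_mul, ← mul_assoc g, ← mul_assoc g, gt, mul_assoc (F t), gw]
      simp only [mul_assoc]
    rw [this] at a4
    exact ((a1.trans a2).trans a3).trans a4
  have c2 : IsConj (F t) (F u * F w * e * F t) := by
    have := cj (F v) (F (t * w) * e)
    have e2 : F v * (F (t * w) * e) * (F v)⁻¹ = F u * F w * e * F t := by
      calc _ = F v * F (t * w) * (F v)⁻¹ * (F v * e * (F v)⁻¹) := by group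
        _ = F (u * w * t) * e := by rw [ve, ← map_inv, fe3 F (d := u * w * t) (by decide +kernel)]
        _ = _ := by rw [map_mul, map_mul, mul_assoc _ (F t), ← et, ← mul_assoc]
    rw [e2] at this
    exact c1.trans this
  have szz : s * F (z * z') = F (z * z') * s := by
    have : s * F (z * z') * s = F (z * z') := by
      rw [map_mul, h.sm, h.sz, h.sz']; exact fe F (by decide +kernel)
    calc _ = s * F (z * z') * s * s := by rw [mul_assoc _ s s, h.s2, mul_one]
      _ = _ := by rw [this]
  have ne : ∀ x : P35, x * z * x ≠ z' → s ≠ F x := fun x n e => n (h.inj (by rw [map_mul, map_mul, ← e, h.sz]))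
  rcases hk with hk | hk
  · have : IsConj (F t) (s * F t) := by
      refine c2.trans ?_
      rw [← hk]
      have : k * s * k⁻¹ * F t = k * (s * F t) * k⁻¹ := by
        rw [mul_assoc (k * s), (show Commute k (F t) from kt).inv_left.eq]; simp only [mul_assoc]
      rw [this]
      exact (cj k _).symm
    have e1 := c.1 _ this (by rw [mul_assoc, fe F (show t * (z * z') = z * z' * t by decide +kernel), ← mul_assoc, szz, mul_assoc])
    exact ne 1 (by decide +kernel) (by rw [map_one]; exact mul_right_cancel (e1.trans (one_mul _).symm))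
  · have : IsConj (F t) s := by
      refine c2.trans ?_
      rw [← hk]
      exact (cj k _).symm
    exact ne t (by decide +kernel) (c.1 _ this szz)

theorem core (h : Hy F s) (b : CB F s) (c : CT F s) (π : centralizer ({F t} : Set G) →* P6) (hs : Function.Surjective π)
    (hk : ∀ g, π g = 1 ↔ g.1 = 1 ∨ g.1 = F t) (Z : centralizer ({F t} : Set G)) (hZ : Z.1 = F z) (hz : π Z ∈ [z1, z2]) : False := by
  have tt : F t * F t = 1 := by rw [← map_mul, k0.1, map_one]
  have ker : ∀ x y, π x = π y → x.1 = y.1 ∨ x.1 = y.1 * F t := fun x y e => by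
    have := (hk (y⁻¹ * x)).1 (by rw [map_mul, map_inv, e, inv_mul_cancel])
    simp only [coe_mul, coe_inv, inv_mul_eq_iff_eq_mul, mul_one] at this
    exact this
  have ct : ∀ x : centralizer ({F t} : Set G), x.1 * F t = F t * x.1 := fun x => mem_centralizer_singleton_iff.1 x.2
  obtain ⟨S, hS⟩ : ∃ S : centralizer ({F t} : Set G), S.1 = s := ⟨⟨s, mem_centralizer_singleton_iff.2 h.st⟩, rfl⟩
  obtain ⟨U, hU⟩ : ∃ U : centralizer ({F t} : Set G), U.1 = F u :=
    ⟨⟨F u, mem_centralizer_singleton_iff.2 (fe F (by decide +kernel))⟩, rfl⟩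
  have hW : (S * U * S).1 = F w := by rw [coe_mul, coe_mul, hS, hU]; exact b
  have hZ' : (S * Z * S).1 = F z' := by rw [coe_mul, coe_mul, hS, hZ]; exact h.sz
  have SS : S * S = 1 := Subtype.ext (by rw [coe_mul, hS]; exact h.s2)
  have Si : S⁻¹ = S := inv_eq_of_mul_eq_one_right SS
  have UU : U * U = 1 := Subtype.ext (by rw [coe_mul, hU, ← map_mul, show u * u = 1 by decide +kernel, map_one]; rfl)
  have Ui : U⁻¹ = U := inv_eq_of_mul_eq_one_right UU
  have uq : ∀ a a', π (a * U * a⁻¹) = π (a' * U * a'⁻¹) → a * U * a⁻¹ = a' * U * a'⁻¹ := fun a a' e => by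
    refine (ker _ _ e).elim Subtype.ext fun e' => absurd ?_ c.2.1
    have a1 : IsConj (F t) (F (u * t)) := fc F (1, swap 0 3 * swap 1 4) (by decide +kernel)
    have a2 := cj a'.1 (F (u * t))
    have a3 := cj a.1 (F u)
    have : a'.1 * F (u * t) * a'.1⁻¹ = a.1 * F u * a.1⁻¹ := by
      simp only [coe_mul, coe_inv, hU] at e'
      rw [e', map_mul, mul_assoc (a'.1 * F u), (show Commute a'.1 (F t) from ct a').inv_left.eq]
      simp only [mul_assoc]
    rw [this] at a2
    exact (a1.trans a2).trans a3.symm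
  have mI : ∀ x, x * x = 1 → π x ∈ I := fun x e => memI _ (by rw [← map_mul, e, map_one])
  obtain ⟨g0, -, g1, g2, g3, g4, g5, ⟨k0', -, g6⟩, g7⟩ := key (π Z) hz (π S) (mI S SS) (by
      simp only [← map_mul]
      exact congrArg π (Subtype.ext (by rw [coe_mul, coe_mul _ Z, hZ', hZ]; exact fe F (by decide +kernel))))
    (fun e => by
      simp only [← map_mul] at e
      have := ker _ _ e
      rw [hZ', hZ, ← map_mul] at this
      exact this.elim (fun e => absurd (h.inj e) (by decide +kernel)) fun e => absurd (h.inj e) (by decide +kernel))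
    (fun e => by
      simp only [← map_mul, ← map_inv] at e
      have := ker _ _ e
      rw [hZ', coe_inv, hZ, ← map_inv, ← map_mul] at this
      exact this.elim (fun e => absurd (h.inj e) (by decide +kernel)) fun e => absurd (h.inj e) (by decide +kernel))
    (π U) (mI U UU) (by
      simp only [← map_mul]
      exact congrArg π (Subtype.ext (by rw [coe_mul, coe_mul, hU, hZ]; exact fe F (by decide +kernel))))
    (by
      simp only [← map_mul, ← map_inv]
      exact congrArg π (Subtype.ext (by
        rw [coe_mul, coe_mul _ U, coe_inv, hZ', hU, ← map_inv]; exact fe3 F (by decide +kernel))))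
  obtain ⟨g, rfl⟩ := hs g0
  obtain ⟨k, rfl⟩ := hs k0'
  generalize hWd : S * U * S = W at hW
  generalize hZd : S * Z * S = Z' at hZ'
  have pW : π S * π U * π S = π W := by rw [← hWd, map_mul, map_mul]
  have pZ : π S * π Z * π S = π Z' := by rw [← hZd, map_mul, map_mul]
  rw [pW] at g1 g6 g7
  rw [pZ] at g2 g7
  simp only [← map_mul, ← map_inv] at g1 g2 g3 g4 g5 g6
  have U2 : U * Z' = Z' * U * Z'⁻¹ := Subtype.ext (by
    simp only [coe_mul, coe_inv, hU, hZ']
    rw [← map_inv, ← map_mul]; exact (fe3 F (by decide +kernel)).symm)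
  have f1 : g * W * g⁻¹ = W := by
    have := uq (g * S) S (by
      rw [mul_inv_rev, Si, hWd, show g * S * U * (S * g⁻¹) = g * (S * U * S) * g⁻¹ by group, hWd, map_mul, g1, ← map_mul,
        mul_inv_cancel_right])
    rwa [mul_inv_rev, Si, hWd, show g * S * U * (S * g⁻¹) = g * (S * U * S) * g⁻¹ by group, hWd] at this
  have f2 : g * (U * Z') * g⁻¹ = U * Z' := by
    have := uq (g * Z') Z' (by
      rw [show g * Z' * U * (g * Z')⁻¹ = g * (Z' * U * Z'⁻¹) * g⁻¹ by group, ← U2, map_mul, g2, ← map_mul, mul_inv_cancel_right])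
    rwa [show g * Z' * U * (g * Z')⁻¹ = g * (Z' * U * Z'⁻¹) * g⁻¹ by group, ← U2] at this
  generalize hE : g * U * g⁻¹ = E at g3 g4 g5 g6
  have f3 : U * E * U⁻¹ = E := by
    have := uq (U * g) g (by
      rw [show U * g * U * (U * g)⁻¹ = U * (g * U * g⁻¹) * U⁻¹ by group, hE, map_mul, ← g3, ← map_mul, mul_inv_cancel_right])
    rwa [show U * g * U * (U * g)⁻¹ = U * (g * U * g⁻¹) * U⁻¹ by group, hE] at this
  have f4 : S * E * S⁻¹ = E := by
    have := uq (S * g) g (by
      rw [show S * g * U * (S * g)⁻¹ = S * (g * U * g⁻¹) * S⁻¹ by group, hE, map_mul, ← g4, ← map_mul, mul_inv_cancel_right])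
    rwa [show S * g * U * (S * g)⁻¹ = S * (g * U * g⁻¹) * S⁻¹ by group, hE] at this
  have cUE : Commute U E := mul_inv_eq_iff_eq_mul.1 f3
  have cgW : Commute g W := mul_inv_eq_iff_eq_mul.1 f1
  have cUW : Commute U W := Subtype.ext (by rw [coe_mul, coe_mul, hU, hW]; exact fe F (by decide +kernel))
  have cEW : Commute E W := by rw [← hE]; exact (cgW.mul_left cUW).mul_left cgW.inv_left
  have EE : E * E = 1 := by rw [← hE, show g * U * g⁻¹ * (g * U * g⁻¹) = g * (U * U) * g⁻¹ by group, UU]; group
  have cub : (U * E * Z') ^ 3 = 1 := by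
    have z3 : Z' ^ 3 = 1 := Subtype.ext (by rw [coe_pow, hZ', ← map_pow, show z' ^ 3 = 1 by decide +kernel, map_one]; rfl)
    have : U * E * Z' = g * Z' * g⁻¹ := by
      rw [cUE.eq, mul_assoc, ← f2, ← hE, show g * U * g⁻¹ * (g * (U * Z') * g⁻¹) = g * (U * U * Z') * g⁻¹ by group, UU, one_mul]
    rw [this, conj_pow, z3]; group
  -- conjugation by `v' = s v s`
  obtain ⟨φ, hφ⟩ : ∃ φ : G ≃* G, ∀ x, φ x = s * F v * s * x * (s * F v * s)⁻¹ := ⟨MulAut.conj (s * F v * s), fun _ => rfl⟩
  have sw : s * F w * s = F u := by rw [← show s * F u * s = F w from b, h.ss]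
  have pv : ∀ (x y : P35) (x' y' : G), s * F x * s = x' → s * F y * s = y' → v * x * v⁻¹ = y → φ x' = y' := by
    intro x y x' y' e1 e2 e3
    rw [hφ, ← e1, ← e2, ← e3, map_mul, map_mul, map_inv, h.sm, h.sm]
    simp only [mul_inv_rev, h.si', mul_assoc]
  have pu : φ (F u) = F u := pv w w _ _ sw sw (by decide +kernel)
  have pw : φ (F w) = F w := pv u u _ _ b b (by decide +kernel)
  have pz : φ (F z') = F z' := pv z z _ _ h.sz h.sz (by decide +kernel)
  have pt : φ (F t * F w) = F t := pv (t * u) t _ _ (by rw [map_mul, h.sm, h.st', b]) h.st' (by decide +kernel)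
  have cA : Commute (U * E).1 (F t * F w) := (show Commute (U * E).1 (F t) from ct _).mul_right (by
    rw [← hW]; exact congrArg Subtype.val (cUW.mul_left cEW).eq)
  obtain ⟨X, hX⟩ : ∃ X : centralizer ({F t} : Set G), X.1 = φ (U * E).1 :=
    ⟨⟨φ (U * E).1, mem_centralizer_singleton_iff.2 (by have := (cA.map φ).eq; rwa [pt] at this)⟩, rfl⟩
  have x1 : X * W = W * X := Subtype.ext (by
    rw [coe_mul, coe_mul _ W, hX, hW, ← pw, ← map_mul, ← map_mul, ← hW]
    exact congrArg φ (congrArg Subtype.val (cUW.mul_left cEW).eq))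
  have x2 : X * U = U * X := Subtype.ext (by
    rw [coe_mul, coe_mul _ U, hX, hU, ← pu, ← map_mul, ← map_mul, ← hU]
    exact congrArg φ (congrArg Subtype.val ((Commute.refl U).mul_left cUE.symm).eq))
  have x3 : X * X = 1 := Subtype.ext (by
    have : U * E * (U * E) = 1 := by rw [mul_assoc, ← mul_assoc E, ← cUE.eq, mul_assoc, EE, mul_one, UU]
    rw [coe_mul, hX, ← map_mul, ← coe_mul, this]; simp)
  have x4 : (X * Z') ^ 3 = 1 := Subtype.ext (by
    rw [coe_pow, coe_mul, hX, hZ', ← pz, ← map_mul, ← map_pow, ← hZ', ← coe_mul, ← coe_pow, cub]; simp)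
  have x4' : (X.1 * F z') ^ 3 = 1 := by rw [← hZ']; exact congrArg Subtype.val x4
  rcases g7 (π X) (mI X x3) (by rw [← map_mul, ← map_mul, x1]) (by rw [← map_mul, ← map_mul, x2])
    (by rw [← map_mul, ← pow_three', ← map_pow, x4, map_one]) with e | e
  · rcases (hk X).1 e with e | e
    · rw [hX, map_eq_one_iff φ φ.injective] at e
      have : U * E = 1 := Subtype.ext e
      exact g5 (by rw [← Ui, inv_eq_of_mul_eq_one_right this])
    · rw [e, ← map_mul, ← map_pow, ← map_one F] at x4'
      exact absurd (h.inj x4') (by decide +kernel)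
  · rw [← map_inv, ← map_mul, ← map_mul, hE, ← map_mul] at e
    rcases ker _ _ e with e | e
    · rw [hX, coe_mul, map_mul, hU, pu, mul_right_inj, hφ] at e
      refine fin h b c g.1 k.1 E.1 (ct g) (by rw [← hW]; exact congrArg Subtype.val cgW.eq) (ct k)
        (by rw [← hE, coe_mul, coe_mul, coe_inv, hU]) (by rw [← hS]; rw [Si] at f4; exact congrArg Subtype.val f4) ?_ e
      have := ker _ _ g6
      simpa only [coe_mul, coe_inv, hS, hU, hW] using this
    · have cb' : ((U * E * Z').1) ^ 3 = 1 := congrArg Subtype.val cub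
      rw [e, mul_assoc, fe F (show t * z' = z' * t by decide +kernel), ← mul_assoc, ← hZ', ← coe_mul,
        (show Commute (U * E * Z').1 (F t) from ct _).mul_pow, cb', one_mul, ← map_pow, ← map_one F] at x4'
      exact absurd (h.inj x4') (by decide +kernel)

theorem b1 (h : Hy F s) (b : CB F s) (c : CT F s) : ¬ PI F := by
  rintro ⟨π, hs, hk⟩
  obtain ⟨Z, hZ⟩ : ∃ Z : centralizer ({F t} : Set G), Z.1 = F z :=
    ⟨⟨F z, mem_centralizer_singleton_iff.2 (fe F (by decide +kernel))⟩, rfl⟩
  obtain ⟨a, -, ha⟩ := rep3 (π Z) (by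
      rw [← map_mul, ← map_mul, show Z * Z * Z = 1 from Subtype.ext (by
        rw [coe_mul, coe_mul, hZ, fe3 F (d := 1) (by decide +kernel), map_one]; rfl), map_one])
    (fun e => by
      have := (hk Z).1 e
      rw [hZ, ← map_one F] at this
      exact this.elim (fun e => absurd (h.inj e) (by decide +kernel)) fun e => absurd (h.inj e) (by decide +kernel))
  refine core h b c ((MulAut.conj a).toMonoidHom.comp π) ((MulAut.conj a).surjective.comp hs) (fun g => ?_) Z hZ (by simpa using ha)
  rw [← hk g]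
  exact map_eq_one_iff (MulAut.conj a) (MulAut.conj a).injective

end H21.Dm
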