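import Cfsg.Agent.H19.Dm0

/-! Part (B1) of the 3-local characterization of `S₈`: in case B the centralizer of `t` has no quotient `S₆`. -/

set_option autoImplicit false
set_option synthInstance.maxSize 4000
set_option maxRecDepth 100000

namespace H21.Dm
open Equiv Subgroup H19.Dm

abbrev P6 := Perm (Fin 6)

def I : List P6 := [1, swap 4 5, swap 3 4, swap 3 5, swap 2 3, swap 2 3 * swap 4 5, swap 2 4, swap 2 4 * swap 3 5, swap 2 5, swap 2 5 * swap 3 4, swap 1 2, swap 1 2 * swap 4 5, swap 1 2 * swap 3 4, swap 1 2 * swap 3 5, swap 1 3, swap 1 3 * swap 4 5, swap 1 3 * swap 2 4, swap 1 3 * swap 2 5, swap 1 4, swap 1 4 * swap 3 5, swap 1 4 * swap 2 3, swap 1 4 * swap 2 5, swap 1 5, swap 1 5 * swap 3 4, swap 1 5 * swap 2 3, swap 1 5 * swap 2 4, swap 0 1, swap 0 1 * swap 4 5, swap 0 1 * swap 3 4, swap 0 1 * swap 3 5, swap 0 1 * swap 2 3, swap 0 1 * swap 2 3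 * swap 4 5, swap 0 1 * swap 2 4, swap 0 1 * swap 2 4 * swap 3 5, swap 0 1 * swap 2 5, swap 0 1 * swap 2 5 * swap 3 4, swap 0 2, swap 0 2 * swap 4 5, swap 0 2 * swap 3 4, swap 0 2 * swap 3 5, swap 0 2 * swap 1 3, swap 0 2 * swap 1 3 * swap 4 5, swap 0 2 * swap 1 4, swap 0 2 * swap 1 4 * swap 3 5, swap 0 2 * swap 1 5, swap 0 2 * swap 1 5 * swap 3 4, swap 0 3, swap 0 3 * swap 4 5, swap 0 3 * swap 2 4, swap 0 3 * swap 2 5, swap 0 3 * swap 1 2, swap 0 3 * swap 1 2 * swap 4 5, swap 0 3 * swap 1 4, swap 0 3 * swap 1 4 * swap 2 5, swap 0 3 * swap 1 5, swap 0 3 * swap 1 5 * swap 2 4, swap 0 4, swap 0 4 * swap 3 5, swap 0 4 * swap 2 3, swap 0 4 * swap 2 5, swap 0 4 * swap 1 2, swap 0 4 * swap 1 2 * swap 3 5, swap 0 4 * swap 1 3, swap 0 4 * swap 1 3 * swap 2 5, swap 0 4 * swap 1 5, swap 0 4 * swap 1 5 * swap 2 3, swap 0 5, swap 0 5 * swap 3 4, swap 0 5 * swap 2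 3, swap 0 5 * swap 2 4, swap 0 5 * swap 1 2, swap 0 5 * swap 1 2 * swap 3 4, swap 0 5 * swap 1 3, swap 0 5 * swap 1 3 * swap 2 4, swap 0 5 * swap 1 4, swap 0 5 * swap 1 4 * swap 2 3]

def z1 : P6 := swap 0 1 * swap 1 2
def z2 : P6 := swap 0 1 * swap 1 2 * swap 3 4 * swap 4 5

theorem memI : ∀ x : P6, x * x = 1 → x ∈ I := by decide +kernel

theorem rep3 : ∀ x : P6, x * x * x = 1 → x ≠ 1 → ∃ c ∈ I, c * x * c⁻¹ = z1 ∨ c * x * c⁻¹ = z2 := by decide +kernel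

def Gd (Z S U : P6) : Prop := ∃ g ∈ I, g * (S * U * S) = S * U * S * g ∧ g * (U * (S * Z * S)) = U * (S * Z * S) * g ∧
  g * U * g⁻¹ * U = U * (g * U * g⁻¹) ∧ g * U * g⁻¹ * S = S * (g * U * g⁻¹) ∧ g * U * g⁻¹ ≠ U ∧
  (∃ k ∈ I, k * S * k⁻¹ = U * (S * U * S) * (g * U * g⁻¹)) ∧
  ∀ x ∈ I, x * (S * U * S) = S * U * S * x → x * U = U * x → x * (S * Z * S) * (x * (S * Z * S)) * (x * (S * Z * S)) = 1 →
    x = 1 ∨ x = U * (g * U * g⁻¹)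

theorem key : ∀ Z ∈ [z1, z2], ∀ S ∈ I, S * Z * S * Z = Z * (S * Z * S) → S * Z * S ≠ Z → S * Z * S ≠ Z⁻¹ →
    ∀ U ∈ I, U * Z = Z * U → U * (S * Z * S) * U = (S * Z * S)⁻¹ → Gd Z S U := by
  unfold Gd
  decide +kernel

end H21.Dm
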