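import Mathlib
import Cfsg.Agent.H21.RankOne
import Cfsg.Agent.H20.QForm

/-!
Blocks whose characters have equal degrees (Okuyama–Tsushima; namespace H21):
`exists_int_inv`, `ev_mul_of_rank_one`, `rank_le_one_of_int`, `agree_of_deg`, `ring_col_of_agree`,
`Sub.rank_eq_one`, `Mx.nil_of_agree`.
-/

set_option autoImplicit false
set_option linter.unusedSectionVars false
set_option linter.unusedVariables false

namespace H21
open H05 Cfsg H20 MonoidAlgebra Classical H12.Ri Module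
open scoped ComplexConjugate

local notation:max "𝐂" Q:max => Subgroup.centralizer (SetLike.coe Q)
local notation:max "⟪" x "⟫" => Subgroup.zpowers x

attribute [-instance] H19.instFintypeSubgroupFrob

universe u
variable {M : Ideal AlgInt} [hMm : M.IsMaximal] {G : Type u} [Group G] [Fintype G] {p : ℕ}
  {B : Set (IrrCharacter G)}

theorem exists_int_inv {u : ℂ[G]} (hu : IsInt M u) (h : redA M u = 1) :
    ∃ v, IsInt M v ∧ u * v = 1 := by
  obtain ⟨q, h1, h2, h3⟩ := exists_idem_lift hu (by rw [h, one_mul])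
  exact ⟨_, (isInt_aeval hu q).1, (isUnit_of_redA h1 (h3.trans h)).mul_left_cancel
    (h2.trans (mul_one _).symm)⟩

omit hMm in
theorem ev_mul_of_rank_one {χ : G → ℂ} (hχ : IsCharacter G χ) {j x y : ℂ[G]} (jj : j * j = j)
    (h1 : ev χ j = 1) (hx : j * x = x) (hx' : x * j = x) (hy : j * y = y) :
    ev χ (x * y) = ev χ x * ev χ y := by
  obtain ⟨ρ, hρ⟩ := hχ.exists_rep
  generalize charDegree χ = n at ρ hρ
  subst hρ
  simp only [ev_character] at h1 ⊢
  have h : IsIdempotentElem (ρ.asAlgebraHom j) := by rw [IsIdempotentElem, ← map_mul, jj]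
  have h2 := h1
  rw [(LinearMap.IsIdempotentElem.isProj_range _ h).trace, Nat.cast_eq_one,
    finrank_eq_one_iff'] at h2
  obtain ⟨v, -, hv⟩ := h2
  obtain ⟨c, hc⟩ := hv ⟨ρ.asAlgebraHom x v, ρ.asAlgebraHom x v, by
    rw [← Module.End.mul_apply, ← map_mul, hx]⟩
  have h3 : ρ.asAlgebraHom x = c • ρ.asAlgebraHom j := LinearMap.ext fun w => by
    obtain ⟨a, ha⟩ := hv ⟨_, w, rfl⟩
    have a1 : a • (v : Fin n → ℂ) = ρ.asAlgebraHom j w := congrArg Subtype.val ha
    have a2 : c • (v : Fin n → ℂ) = ρ.asAlgebraHom x v := congrArg Subtype.val hc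
    rw [LinearMap.smul_apply, ← a1, smul_comm, a2, ← map_smul, a1, ← Module.End.mul_apply,
      ← map_mul, hx']
  rw [map_mul, h3, smul_mul_assoc, ← map_mul, hy, map_smul, map_smul, h1]
  simp

theorem rank_le_one_of_int (hM : IsPModular p M) (hB : IsPBlock M B) {A : Set (IrrCharacter G)}
    (hA : B ⊆ A) (h : ∀ y y', ¬ p ∣ orderOf y → ¬ p ∣ orderOf y' → MemLocalRing M
      ((∑ ψ with ψ ∈ A, (ψ : G → ℂ) y * (ψ : G → ℂ) y') / (p : ℂ) ^ blockDefect p B)) :
    blockRank p B ≤ 1 := by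
  haveI := Fact.mk hM.1
  obtain ⟨n, d, π, e, φ, hi⟩ := exists_ib' hM G
  have hI := hB.isInt_idem
  obtain ⟨ξ, hξ⟩ := hB.nonempty
  have hp : (p : ℂ) ^ blockDefect p B ≠ 0 := pow_ne_zero _ (Nat.cast_ne_zero.2 hM.1.ne_zero)
  choose j j1 j2 j3 using fun β => exists_lift1 (hi.pm β).sq
  have h1 : ∀ (ψ : IrrCharacter G) β, t1 M (ψ : G → ℂ) (e β) =
      ∑ g, (j β).coeff g * (ψ : G → ℂ) (pReg p g) := fun ψ β => by
    have hc := (isGen_comp_pReg (p := p) ψ.2.isGeneralizedCharacter).isClassFunction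
    rw [hi.t1_congr ψ.2.isClassFunction hc (fun g hg => by simp only [Function.comp_apply, pReg_eq_self_iff.2 hg]), ← j3,
      t1_eq hc (j1 β) (j2 β), ev_eq_sum]
  obtain ⟨C, hC⟩ : ∃ C : Fin n → Fin n → ℂ, C = fun κ γ => (∑ ψ with ψ ∈ B, t1 M (ψ : G → ℂ) (e κ) *
    t1 M (ψ : G → ℂ) (e γ)) / (p : ℂ) ^ blockDefect p B := ⟨_, rfl⟩
  have h2 : ∀ κ, ∀ γ ∈ ibr π B, MemLocalRing M (C κ γ) := fun κ γ hγ => by
    rw [hC]
    simp only
    rw [Finset.sum_subset (s₂ := Finset.univ.filter (· ∈ A)) (fun ψ hψ => by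
      simpa using hA (by simpa using hψ)) fun ψ _ hψ => by
        rw [(hi.pm γ).t1_of_mem hi.wed hI (by simpa using hψ) hγ, mul_zero]]
    simp only [h1, Finset.sum_mul_sum]
    rw [Finset.sum_comm, Finset.sum_div]
    refine ring_sum fun g _ => ?_
    rw [Finset.sum_comm, Finset.sum_div]
    refine ring_sum fun g' _ => ?_
    rw [Finset.sum_congr rfl fun (ψ : IrrCharacter G) _ => mul_mul_mul_comm _ _ _ _, ← Finset.mul_sum,
      mul_div_assoc]
    exact ring_mul (ring_mul (j1 _ _) (j1 _ _))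
      (h _ _ (not_dvd_orderOf_pReg p g) (not_dvd_orderOf_pReg p g'))
  choose! z z1 z2 using fun β (hβ : β ∈ ibr π B) => hi.exists_inv hI hβ
  have h3 : ∀ β ∈ ibr π B, ∀ γ, (if β = γ then 1 else 0 : ℂ) =
      ∑ κ ∈ ibr π B, qf p B (z β) (z κ) * C κ γ := fun β hβ γ => by
    have a1 : ∀ ψ ∈ B, contrib p (gc B (z β)) ψ =
        ∑ κ ∈ ibr π B, t1 M (ψ : G → ℂ) (e κ) * contrib p (gc B (z β)) (gc B (z κ)) := fun ψ hψ => by
      rw [contrib_congr_right (ψ' := ∑ κ ∈ ibr π B, t1 M (ψ : G → ℂ) (e κ) • gc B (z κ)) _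
        fun g hg => by
          rw [hi.apply_mem hI hψ hg, Finset.sum_apply]
          exact Finset.sum_congr rfl fun κ hκ => by rw [z2 κ hκ g hg, ← gc_apply]; rfl,
        contrib_sum_right]
      refine Finset.sum_congr rfl fun κ _ => ?_
      obtain ⟨m, hm⟩ := exists_nat_t1 ψ.2.isCharacter (hi.pm κ).sq
      rw [contrib_smul_right, hm, map_natCast]
    have a2 : t1 M (gc B (z β)) (e γ) = t1 M (∑ ψ with ψ ∈ B, contrib p (gc B (z β)) ψ • (ψ : G → ℂ))
        (e γ) := hi.t1_congr (isGen_gc _).isClassFunction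
      (IsClassFunction.sum _ fun ψ _ => ψ.2.isClassFunction.smul _) (fun g hg => by
        rw [← pRegularPart_of_not_dvd (gc B (z β)) hg, ← blockPart_gc,
          ← blockPart_pRegularPart hM hI, blockPart_eq, Finset.sum_apply, blockPart_gc]; rfl) γ
    rw [gc, t1_sum_left _ _ (fun ψ _ => ψ.2.isClassFunction) (hi.pm γ).sq,
      t1_sum_left _ _ (fun ψ _ => ψ.2.isClassFunction) (hi.pm γ).sq, z1 β hβ, ← gc] at a2
    rw [a2, Finset.sum_congr rfl fun ψ hψ => by rw [a1 ψ (Finset.mem_filter.1 hψ).2, Finset.sum_mul],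
      Finset.sum_comm]
    refine Finset.sum_congr rfl fun κ _ => ?_
    rw [cast_qf hM.1, hC, mul_comm (_ ^ _), mul_assoc, mul_div_cancel₀ _ hp, Finset.mul_sum]
    exact Finset.sum_congr rfl fun ψ _ => by ring
  have r1 := fun β => ring_nu_gc (b := B) hM (z β)
  have r2 : ∀ κ, MemLocalRing M (omega (ξ : G → ℂ) (zReg p (gc B (z κ)))) := fun κ =>
    ring_omega_zReg ξ (isGen_gc _).isClassFunction fun g =>
      ring_of_isIntegral ((isGen_gc _).isIntegral g)
  have h4 : ∀ β ∈ ibr π B, ∀ γ ∈ ibr π B, (if β = γ then 1 else 0 : Res M) =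
      red M ((p : ℂ) ^ blockDefect p B * gc B (z β) 1 / Nat.card G) * ∑ κ ∈ ibr π B,
        red M (omega (ξ : G → ℂ) (zReg p (gc B (z κ)))) * red M (C κ γ) := fun β hβ γ hγ => by
    have := congrArg (red M) (h3 β hβ γ)
    rw [red_sum fun κ _ => ring_mul (ring_intCast _) (h2 κ γ hγ), apply_ite (red M), red_one,
      red_zero] at this
    rw [this, Finset.mul_sum]
    exact Finset.sum_congr rfl fun κ _ => by
      rw [red_mul (ring_intCast _) (h2 κ γ hγ), (red_eq_iff (ring_intCast _)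
        (ring_mul (r1 β) (r2 κ))).2 (ideal_qf_sub hM hB hξ _ _), red_mul (r1 β) (r2 κ), mul_assoc]
  rw [hi.blockRank_eq hI, Finset.card_le_one]
  intro β hβ γ hγ
  by_contra h5
  have a1 := h4 β hβ β hβ
  have a2 := h4 γ hγ γ hγ
  have a3 := h4 β hβ γ hγ
  rw [if_pos rfl] at a1 a2
  rw [if_neg h5] at a3
  exact (mul_eq_zero.1 a3.symm).elim (left_ne_zero_of_mul_eq_one a1.symm)
    (right_ne_zero_of_mul_eq_one a2.symm)

theorem agree_of_deg (hM : IsPModular p M) (hB : IsPBlock M B) {m : ℕ}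
    (h0 : ∀ χ ∈ B, blockHeight p B (χ : G → ℂ) = 0) (h : ∀ χ ∈ B, (χ : G → ℂ) 1 = m) :
    ∀ χ ∈ B, ∀ ψ ∈ B, ∀ g, ¬ p ∣ orderOf g → (χ : G → ℂ) g = (ψ : G → ℂ) g := by
  obtain ⟨n, d, π, e, φ, hi⟩ := exists_ib' hM G
  have hI := hB.isInt_idem
  have hp1 : ¬ p ∣ orderOf (1 : G) := by simpa using hM.1.ne_one
  choose t ht using fun (χ : IrrCharacter G) β => exists_nat_t1 χ.2.isCharacter (hi.pm β).sq
  choose f f1 f2 using hi.exists_nat_one
  have h1 : ∀ β ∈ ibr π B, m ≤ f β := fun β hβ => by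
    obtain ⟨z, -, z2⟩ := hi.exists_inv hI hβ
    have := z2 1 hp1
    rw [f2, Finset.sum_congr rfl fun χ hχ => by rw [h χ (Finset.mem_filter.1 hχ).2],
      ← Finset.sum_mul] at this
    norm_cast at this
    exact Nat.le_of_dvd (f1 β) (Int.natCast_dvd_natCast.1 ⟨_, this.trans (mul_comm _ _)⟩)
  have h2 : ∀ χ ∈ B, ∃ β, ∀ g, ¬ p ∣ orderOf g → (χ : G → ℂ) g = φ β g := fun χ hχ => by
    have a1 := hi.apply_mem hI hχ hp1
    obtain ⟨m', a2, a3⟩ := irr_one_pos χ
    obtain rfl : m' = m := Nat.cast_injective (R := ℂ) (a3.symm.trans (h χ hχ))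
    simp only [a3, ht, f2] at a1
    norm_cast at a1
    have a4 : (∑ β ∈ ibr π B, t χ β) * m' ≤ 1 * m' := by
      rw [Finset.sum_mul, one_mul]
      exact (Finset.sum_le_sum fun β hβ => Nat.mul_le_mul_left _ (h1 β hβ)).trans a1.ge
    obtain ⟨β, b1, b2⟩ := Finset.exists_ne_zero_of_sum_ne_zero (a1 ▸ a2.ne')
    have a5 := Nat.le_of_mul_le_mul_right a4 a2
    rw [← Finset.add_sum_erase _ _ b1] at a5
    have a6 := left_ne_zero_of_mul b2
    refine ⟨β, fun g hg => ?_⟩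
    rw [hi.apply_mem hI hχ hg, ← Finset.add_sum_erase _ _ b1, ht, show t χ β = 1 by omega,
      Finset.sum_eq_zero fun γ hγ => by
        rw [ht, Finset.sum_eq_zero_iff.1 (show ∑ x ∈ (ibr π B).erase β, t χ x = 0 by omega) γ hγ]
        simp]
    simp
  intro χ hχ ψ hψ g hg
  haveI : Nonempty (Fin n) := ⟨(h2 χ hχ).choose⟩
  revert g
  choose! β hβ using h2
  intro g hg
  rw [hβ χ hχ g hg, hβ ψ hψ g hg]
  congr 1
  by_contra h3
  have h4 := hi.indep (s := Finset.univ) (c := fun γ => (if γ = β χ then 1 else 0) -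
    ∑ η with η ∈ B ∧ β η = γ, contrib p (χ : G → ℂ) η) (fun g hg => by
      have := congrFun (pRegularPart_eq_sum_contrib hM hI hχ) g
      rw [pRegularPart_of_not_dvd _ hg, Finset.sum_apply, hβ χ hχ g hg,
        ← Finset.sum_fiberwise _ β] at this
      simp only [sub_mul, Finset.sum_sub_distrib, ite_mul, one_mul, zero_mul, Finset.sum_ite_eq',
        Finset.mem_univ, if_true, this, Finset.sum_mul, Finset.filter_filter, sub_eq_zero]
      refine Finset.sum_congr rfl fun γ _ => Finset.sum_congr rfl fun η hη => ?_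
      obtain ⟨a1, a2⟩ := (Finset.mem_filter.1 hη).2
      rw [Pi.smul_apply, hβ η a1 g hg, a2, smul_eq_mul]) (β ψ) (Finset.mem_univ _)
  rw [if_neg (Ne.symm h3), zero_sub, neg_eq_zero, Finset.sum_congr rfl
    (g := fun _ => contrib p (χ : G → ℂ) ψ) fun η hη => by
    obtain ⟨a1, a2⟩ := (Finset.mem_filter.1 hη).2
    exact contrib_congr_right (ψ' := ψ) _ fun g hg =>
      (hβ η a1 g hg).trans (a2 ▸ (hβ ψ hψ g hg).symm),
    Finset.sum_const, nsmul_eq_mul, mul_eq_zero, Nat.cast_eq_zero, Finset.card_eq_zero] at h4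
  exact h4.elim (fun e => Finset.notMem_empty ψ (e ▸ by simpa using hψ))
    (contrib_ne_zero hM hB hχ hψ (h0 ψ hψ))

theorem ring_col_of_agree (hM : IsPModular p M) (hB : IsPBlock M B)
    (h : ∀ χ ∈ B, ∀ ψ ∈ B, ∀ g, ¬ p ∣ orderOf g → (χ : G → ℂ) g = (ψ : G → ℂ) g) :
    Nat.card B = p ^ blockDefect p B ∧ ∀ g g', MemLocalRing M
      ((∑ ψ with ψ ∈ B, (ψ : G → ℂ) g * (ψ : G → ℂ) g') / (p : ℂ) ^ blockDefect p B) := by
  obtain ⟨n, d, π, e, φ, hi⟩ := exists_ib' hM G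
  have hI := hB.isInt_idem
  have hp1 : ¬ p ∣ orderOf (1 : G) := by simpa using hM.1.ne_one
  obtain ⟨ξ, hξ, h0⟩ := hB.exists_height_zero p
  have hl : blockRank p B = 1 := le_antisymm ((Submodule.finrank_mono (Submodule.span_le.2 (by
    rintro _ ⟨χ, hχ, rfl⟩
    exact Submodule.mem_span_singleton.2 ⟨1, by simpa using pRegularPart_congr (h ξ hξ χ hχ)⟩))).trans
      (finrank_span_le_card ({pRegularPart p (ξ : G → ℂ)} : Set (G → ℂ))) |>.trans (by simp))
    (one_le_blockRank hM.1 ⟨ξ, hξ⟩)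
  obtain ⟨β, hβ⟩ := Finset.card_eq_one.1 ((hi.blockRank_eq hI).symm.trans hl)
  have hβ' : β ∈ ibr π B := hβ ▸ Finset.mem_singleton_self β
  have ht := fun χ => hi.t1_eq_one hI hβ' h (χ := χ)
  refine ⟨?_, fun g g' => ?_⟩
  · obtain ⟨c, c1, c2⟩ := hi.exists_dec hB hβ
    rw [← c2, natCard_eq_card_filter, Finset.card_eq_sum_ones]
    refine Finset.sum_congr rfl fun χ hχ => ?_
    have a1 := (Finset.mem_filter.1 hχ).2
    rw [Nat.cast_eq_one.1 ((c1 χ a1).2.symm.trans (ht χ a1)), one_pow]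
  obtain ⟨x, y, s1, s2, s3, -⟩ := exists_full hM hi.wed (hi.pm β) hB.eB_mul_self fun γ hγ =>
    ibr_of_notMem hi.wed hI (by simpa [hβ] using hγ)
  obtain ⟨j, j1, j2, j3⟩ := exists_lift1 (hi.pm β).sq
  have j4 : ∀ χ : IrrCharacter G, ev (χ : G → ℂ) j = t1 M (χ : G → ℂ) (e β) := fun χ => by
    rw [← j3, t1_eq χ.2.isClassFunction j1 j2]
  have i1 := fun l => (isInt_liftA (x l)).mul j1
  have i2 := fun l => j1.mul (isInt_liftA (y l))
  have i3 := IsInt.sum (s := Finset.univ) fun l _ => (i1 l).mul (i2 l)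
  obtain ⟨v, v1, v2⟩ := exists_int_inv ((isInt_one.sub hI).add i3) (by
    rw [redA_add (isInt_one.sub hI) i3, redA_sub isInt_one hI, redA_one,
      redA_sum fun l _ => (i1 l).mul (i2 l), Finset.sum_congr rfl fun l _ => by
        rw [redA_mul (i1 l) (i2 l), redA_mul (isInt_liftA _) j1, redA_mul j1 (isInt_liftA _), j3,
          redA_liftA, redA_liftA, s2, s3], s1, eB, sub_add_cancel])
  obtain ⟨X, hX⟩ : ∃ X : G → ℂ[G], X = fun g =>
    ∑ l, j * liftA M (y l) * v * single g 1 * (liftA M (x l) * j) := ⟨_, rfl⟩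
  have x1 : ∀ g, IsInt M (X g) := fun g => hX ▸ IsInt.sum fun l _ =>
    (((i2 l).mul v1).mul (isInt_single_one g)).mul (i1 l)
  have x2 : ∀ g, j * X g = X g := fun g => by simp only [hX, Finset.mul_sum, ← mul_assoc, j2]
  have x3 : ∀ g, X g * j = X g := fun g => by simp only [hX, Finset.sum_mul, mul_assoc, j2]
  have x4 : ∀ χ ∈ B, ∀ g, ev (χ : G → ℂ) (X g) = (χ : G → ℂ) g := fun χ hχ g => by
    have := congrArg (fun a => ev (χ : G → ℂ) (a * single g 1)) v2
    simp only [add_mul, sub_mul, one_mul, map_add, map_sub, mul_assoc (idem B),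
      ev_idem_mul_of_mem hχ, sub_self, zero_add, ev_single, Finset.sum_mul, map_sum] at this
    rw [← this, hX, map_sum]
    refine Finset.sum_congr rfl fun l _ => ?_
    rw [ev_mul_comm fun g h => χ.2.isClassFunction g h]
    simp only [mul_assoc]
  have c1 := nu_add_defect (p := p) hξ
  have c2 := (ring_pow_mul_deg_div_iff hM ξ (blockDefect p B)).2 (by omega)
  have c3 := (ideal_pow_mul_deg_div_iff hM ξ (blockDefect p B)).not.2 (by omega)
  have c4 := ring_div ((hI.mul ((x1 g).mul (x1 g'))) 1) c2 c3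
  rw [coeff_one_eq_sum, ← Finset.sum_subset (Finset.subset_univ (Finset.univ.filter (· ∈ B)))
    fun χ _ hχ => by rw [ev_idem_mul_of_notMem (by simpa using hχ), mul_zero],
    Finset.sum_congr rfl fun χ hχ => by
      have a1 := (Finset.mem_filter.1 hχ).2
      rw [ev_idem_mul_of_mem a1, ev_mul_of_rank_one χ.2.isCharacter j2 ((j4 χ).trans (ht χ a1))
        (x2 g) (x3 g) (x2 g'), x4 χ a1, x4 χ a1, h χ a1 ξ hξ 1 hp1], ← Finset.mul_sum] at c4
  convert c4 using 1
  have := card_ne_zero_complex (G := G)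
  have := ξ.2.apply_one_ne_zero
  field_simp

theorem Sub.rank_eq_one {C : Subgroup G} [Fintype C] {u : G} {b : Set (IrrCharacter C)}
    (h : Sub p M B C u b) (hd : blockDefect p b = blockDefect p B) (h1 : ∀ g g', MemLocalRing M
      ((∑ ψ with ψ ∈ B, (ψ : G → ℂ) g * (ψ : G → ℂ) g') / (p : ℂ) ^ blockDefect p B)) :
    blockRank p b = 1 := by
  obtain ⟨hM, hu, rfl, hb⟩ := h
  refine le_antisymm (rank_le_one_of_int hM hb.1 (A := brSet M u B) (fun ξ hξ =>
    (mem_brSet_iff_induced hM hu hb.2.1 hb.1 hξ).2 hb) fun y y' hy hy' => ?_)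
    (one_le_blockRank hM.1 hb.1.nonempty)
  have := sum_brSet hM hu hb.2.1.isInt_idem hy (y' := y'⁻¹) (by rwa [orderOf_inv])
  simp only [← fun χ : IrrCharacter G => χ.2.isCharacter.apply_inv,
    ← fun χ : IrrCharacter (Subgroup.centralizer {u}) => χ.2.isCharacter.apply_inv, inv_inv] at this
  rw [hd]
  convert h1 (u * y) (u * (y'⁻¹ :))⁻¹ using 2
  convert this.symm

theorem Mx.nil_of_agree {b : BrauerPairIdx G} (h : Mx M p B b) (hab : b.1 ≤ 𝐂 b.1)
    (h1 : ∀ χ ∈ B, ∀ ψ ∈ B, ∀ g, ¬ p ∣ orderOf g → (χ : G → ℂ) g = (ψ : G → ℂ) g) :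
    pstab b ≤ 𝐂 b.1 := by
  obtain ⟨h2, h3⟩ := ring_col_of_agree h.mod h.blk h1
  have h4 := h.card_eq
  rw [h2, ← h.def'.card_eq h.mod h.blk, Finset.sum_congr rfl fun v hv => by
    have a1 := (Finset.mem_filter.1 hv).2
    rw [(h.sub a1).rank_eq_one (h.defect_sb a1 (Mx.le_cent hab (Subgroup.zpowers_le.2 a1))) h3,
      Nat.cast_one, mul_one]] at h4
  have h5 : ∑ v with v ∈ b.1, (nf M p b v : ℝ)⁻¹ = ∑ v with v ∈ b.1, (1 : ℝ) := by
    rw [sum_mem_eq b.1 fun _ => (1 : ℝ), Finset.sum_const, Finset.card_univ, ← Nat.card_eq_fintype_card,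
      nsmul_one]
    exact Complex.ofReal_injective (by push_cast; exact h4.symm)
  intro t ht v hv
  have h6 := (Finset.sum_eq_sum_iff_of_le fun v hv => inv_le_one_of_one_le₀
    (Nat.one_le_cast.2 (h.nf_pos (Finset.mem_filter.1 hv).2))).1 h5 v (by simpa using hv)
  rw [inv_eq_one, Nat.cast_eq_one, h.nf_eq hab hv, Subgroup.relIndex_eq_one] at h6
  exact h6 ht v (Subgroup.mem_zpowers v)

end H21
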