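import Mathlib
import Cfsg.Agent.H21.PPart
import Cfsg.Agent.H20.SylIn
import Cfsg.Agent.H02.MinNormal
import Cfsg.Agent.S0205

/-!
# Groups with one class of nontrivial p-elements and p-nilpotent centralizers

* `H21.Trans.FP p G`: a p'-element normalizing a p-subgroup and fixing a nontrivial element of it
  centralizes it.
* `H21.Trans.sylow_comm`: exponent p, `FP`, and every p-element central in a Sylow subgroup give
  abelian Sylow p-subgroups.
-/

set_option autoImplicit false

namespace H21.Trans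
open H20
open scoped IsMulCommutative

/-- norm argument -/
theorem pow_card_eq_one_of_norm {A W : Type*} [Group A] [Finite A] [CommGroup W]
    (ρ : A →* MulAut W) (M : Subgroup A) [hM : M.Normal] {p : ℕ} (hp : p.Prime) {x : A}
    (hfix : ∀ w, (∀ m ∈ M, ρ m w = w) → w = 1)
    (hord : ∀ m ∈ M, (m * x) ^ p = 1)
    (hn : ∀ m ∈ M, ∀ w, ∏ i ∈ Finset.range p, ρ ((m * x) ^ i) w = 1) (w : W) :
    w ^ Nat.card M = 1 := by
  classical
  haveI := Fintype.ofFinite M
  have hsum : ∀ w, ∏ m : M, ρ (m : A) w = 1 := by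
    intro w
    apply hfix
    intro n hn
    rw [map_prod]
    refine Fintype.prod_equiv (Equiv.mulLeft (⟨n, hn⟩ : M)) _ _ fun m => ?_
    simp
  have hmem : ∀ (i : ℕ) (m : M), ((m : A) * x) ^ i * (x ^ i)⁻¹ ∈ M := by
    intro i m
    rw [← QuotientGroup.eq_one_iff]
    have : ((m : A) : A ⧸ M) = 1 := (QuotientGroup.eq_one_iff _).2 m.2
    simp [this]
  have hi : ∀ i, 0 < i → i < p → ∏ m : M, ρ (((m : A) * x) ^ i) w = 1 := by
    intro i h0 h1
    let f : M → M := fun m => ⟨_, hmem i m⟩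
    have hf : Function.Injective f := by
      intro m m' h
      have h2 : ((m : A) * x) ^ i = ((m' : A) * x) ^ i :=
        mul_right_cancel (congrArg Subtype.val h)
      have hc : i.Coprime p := (Nat.coprime_of_lt_prime h0.ne' h1 hp).symm
      obtain ⟨k, -, hk⟩ := Nat.exists_mul_mod_eq_one_of_coprime hc hp.one_lt
      have key : ∀ n : M, (((n : A) * x) ^ i) ^ k = (n : A) * x := by
        intro n
        rw [← pow_mul, ← Nat.div_add_mod (i * k) p, hk, pow_add, pow_mul, hord n n.2, one_pow,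
          one_mul, pow_one]
      have h3 := key m
      rw [h2, key m'] at h3
      exact Subtype.ext (mul_right_cancel h3).symm
    rw [← hsum (ρ (x ^ i) w)]
    refine Fintype.prod_bijective f (Finite.injective_iff_bijective.1 hf) _ _ fun m => ?_
    simp only [f]
    rw [← MulAut.mul_apply, ← map_mul, inv_mul_cancel_right]
  have h1 : ∏ m : M, ∏ i ∈ Finset.range p, ρ (((m : A) * x) ^ i) w = 1 :=
    Finset.prod_eq_one fun m _ => hn m m.2 w
  rw [Finset.prod_comm] at h1
  rw [Finset.prod_eq_single 0 (fun i hi' h0 => hi i (Nat.pos_of_ne_zero h0)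
    (Finset.mem_range.1 hi')) (fun h => absurd (Finset.mem_range.2 hp.pos) h)] at h1
  simpa [Nat.card_eq_fintype_card] using h1

/-- a p'-element normalizing a p-subgroup and fixing a nontrivial element centralizes it -/
def FP (p : ℕ) (G : Type*) [Group G] : Prop :=
  ∀ Q : Subgroup G, IsPGroup p Q → ∀ t ∈ Subgroup.normalizer (Q : Set G), ¬ p ∣ orderOf t →
    ∀ u ∈ Q, u ≠ 1 → Commute t u → ∀ w ∈ Q, Commute t w

variable {G : Type*} [Group G] [Finite G] {p : ℕ} [hp : Fact p.Prime]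

theorem FP.subgroup (h : FP p G) (H : Subgroup G) : FP p H := by
  intro Q hQ t ht hto u hu hu1 hc w hw
  have := h (Q.map H.subtype) (hQ.map _) t (by
      have := Subgroup.le_normalizer_map (H := Q) H.subtype
      exact this ⟨t, ht, rfl⟩) (by rwa [Subgroup.orderOf_coe]) u ⟨u, hu, rfl⟩
    (fun e => hu1 (Subtype.ext e)) (hc.map H.subtype) w ⟨w, hw, rfl⟩
  exact Subtype.ext this.eq

theorem orderOf_of_mem {Q : Subgroup G} (hQ : IsPGroup p Q) {u : G} (hu : u ∈ Q) :
    ∃ k, orderOf u = p ^ k := by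
  obtain ⟨k, hk⟩ := IsPGroup.iff_orderOf.1 hQ ⟨u, hu⟩
  exact ⟨k, by rw [← hk]; exact Subgroup.orderOf_coe (⟨u, hu⟩ : Q)⟩

theorem fp_of_mul_closed
    (h : ∀ u : G, u ≠ 1 → (∃ k, orderOf u = p ^ k) → ∀ x y, Commute x u → Commute y u →
      ¬ p ∣ orderOf x → ¬ p ∣ orderOf y → ¬ p ∣ orderOf (x * y)) : FP p G := by
  intro Q hQ t ht hto
  have h0 : ∀ u ∈ Q, u ≠ 1 → Commute t u → ∀ w ∈ Q, Commute w u → Commute t w := by
    intro u hu hu1 hc w hw hwu
    have h1 := h u hu1 (orderOf_of_mem hQ hu) (w * t * w⁻¹) t⁻¹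
      ((hwu.mul_left hc).mul_left hwu.inv_left) hc.inv_left
      (by rwa [show w * t * w⁻¹ = MulAut.conj w t from rfl, MulEquiv.orderOf_eq])
      (by rwa [orderOf_inv])
    have h2 : w * t * w⁻¹ * t⁻¹ ∈ Q := by
      have := (Subgroup.mem_normalizer_iff.1 ht w⁻¹).1 (Q.inv_mem hw)
      simpa [mul_assoc] using Q.mul_mem hw this
    obtain ⟨k, hk⟩ := orderOf_of_mem hQ h2
    rw [hk] at h1
    have hk0 : k = 0 := by
      by_contra h0
      exact h1 (dvd_pow_self p h0)
    rw [hk0, pow_zero, orderOf_eq_one_iff] at hk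
    have : w * t = t * w := by
      rw [mul_inv_eq_one, mul_inv_eq_iff_eq_mul] at hk; exact hk
    exact this.symm
  intro u hu hu1 hc w hw
  haveI : Nontrivial Q := ⟨⟨⟨u, hu⟩, 1, fun e => hu1 (congrArg Subtype.val e)⟩⟩
  haveI := hQ.center_nontrivial
  obtain ⟨z, hz⟩ := exists_ne (1 : Subgroup.center Q)
  have hzc : ∀ v ∈ Q, Commute v ((z : Q) : G) := fun v hv =>
    congrArg Subtype.val (Subgroup.mem_center_iff.1 z.2 ⟨v, hv⟩)
  have hz1 : ((z : Q) : G) ≠ 1 := fun e => hz (Subtype.ext (Subtype.ext e))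
  exact h0 _ (z : Q).2 hz1 (h0 u hu hu1 hc _ (z : Q).2 (hzc u hu).symm) w hw (hzc w hw)

theorem pow_mul_eq_prod {N : Type*} [Group N] (V : Subgroup N) [V.Normal] [IsMulCommutative V]
    (y : N) (v : V) (n : ℕ) :
    ((v : N) * y) ^ n = ((∏ i ∈ Finset.range n, MulAut.conjNormal (y ^ i) v : V) : N) * y ^ n := by
  induction n with
  | zero => simp
  | succ n ih =>
    rw [pow_succ, ih, Finset.prod_range_succ, Subgroup.coe_mul, MulAut.conjNormal_apply, pow_succ]
    group

theorem local_step {N : Type*} [Group N] [Finite N] (hp2 : p ≠ 2)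
    (hE : ∀ x : N, (∃ k, orderOf x = p ^ k) → x ^ p = 1) (hF : FP p N) (D : Subgroup N)
    [hDn : D.Normal] (hD : IsPGroup p D) {u : N} (hu : u ∈ D) (huD : ∀ d ∈ D, Commute d u)
    (R : Sylow p N) (hR : ∀ r ∈ (R : Subgroup N), Commute r u) {x : N}
    (hx : ∃ k, orderOf x = p ^ k) : Commute x u := by
  classical
  set V := Subgroup.normalClosure ({u} : Set N) with hV
  have huV : u ∈ V := Subgroup.subset_normalClosure rfl
  have hVD : V ≤ D := Subgroup.normalClosure_le_normal (by simpa using hu)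
  -- a normal subgroup centralizing `u` centralizes `V`
  have hcen : ∀ K : Subgroup N, K.Normal → (∀ k ∈ K, Commute k u) → ∀ k ∈ K, ∀ v ∈ V,
      Commute k v := by
    intro K hK h k hk v hv
    have : V ≤ Subgroup.centralizer (K : Set N) := Subgroup.normalClosure_le_normal (by
      intro a ha
      rw [Set.mem_singleton_iff.1 ha]
      exact fun k hk => (h k hk).eq)
    exact this hv k hk
  haveI : IsMulCommutative V := ⟨⟨fun a b =>
    Subtype.ext (hcen D hDn huD a (hVD a.2) b b.2).eq⟩⟩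
  have hVp : IsPGroup p V := hD.to_le hVD
  let φ : N →* MulAut V := MulAut.conjNormal
  have hφ : ∀ g, φ g = 1 ↔ ∀ v ∈ V, Commute g v := by
    intro g
    constructor
    · intro h v hv
      have := congrArg Subtype.val (DFunLike.congr_fun h ⟨v, hv⟩)
      simp only [φ, MulAut.conjNormal_apply, MulAut.one_apply] at this
      exact mul_inv_eq_iff_eq_mul.1 this
    · intro h
      ext v
      simp only [φ, MulAut.conjNormal_apply, MulAut.one_apply]
      rw [(h v v.2).eq, mul_inv_cancel_right]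
  by_contra hxu
  have hu1 : u ≠ 1 := fun e => hxu (by rw [e]; exact Commute.one_right x)
  let ψ : N →* φ.range := φ.rangeRestrict
  have hψs : Function.Surjective ψ := φ.rangeRestrict_surjective
  have hψ : ∀ g, ψ g = 1 ↔ ∀ v ∈ V, Commute g v := fun g => by
    rw [← hφ]; exact Subtype.ext_iff
  have hx1 : ψ x ≠ 1 := fun e => hxu ((hψ x).1 e u huV)
  have hxp : ψ x ^ p = 1 := by rw [← map_pow, hE x hx, map_one]
  -- p'-elements act without fixed points
  have hfpf : ∀ t : N, ¬ p ∣ orderOf t → ∀ v ∈ V, v ≠ 1 → Commute t v → ψ t = 1 := by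
    intro t ht v hv hv1 hc
    exact (hψ t).2 (hF V hVp t (by rw [Subgroup.normalizer_eq_top]; trivial) ht v hv hv1 hc)
  have hlift : ∀ a : φ.range, ¬ p ∣ orderOf a → ∃ t : N, ¬ p ∣ orderOf t ∧ ψ t = a := by
    intro a ha
    obtain ⟨g, rfl⟩ := hψs a
    exact ⟨pReg p g, not_dvd_orderOf_pReg p g, by rw [map_pReg, pReg_eq_self_iff.2 ha]⟩
  have hfix : ∀ a : φ.range, ¬ p ∣ orderOf a → ∀ v : V, (a : MulAut V) v = v → v ≠ 1 → a = 1 := by
    intro a ha v hv hv1
    obtain ⟨t, ht, rfl⟩ := hlift a ha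
    refine hfpf t ht v v.2 (fun e => hv1 (Subtype.ext e)) ?_
    have := congrArg Subtype.val hv
    change t * v * t⁻¹ = v at this
    exact mul_inv_eq_iff_eq_mul.1 this
  -- elements of order divisible by p lift to p-elements
  have hG2 : ∀ a : φ.range, p ∣ orderOf a → ∃ y : N, (∃ k, orderOf y = p ^ k) ∧ ψ y = a := by
    intro a ha
    obtain ⟨g, rfl⟩ := hψs a
    refine ⟨pPart p g, orderOf_pPart p g, ?_⟩
    have h1 : pPart p g ≠ 1 := by
      intro e
      rw [pPart_eq_one_iff] at e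
      exact e (ha.trans (orderOf_map_dvd ψ g))
    have hz : IsPGroup p (Subgroup.zpowers (pPart p g)) := by
      obtain ⟨k, hk⟩ := orderOf_pPart p g
      exact IsPGroup.of_card (by rw [Nat.card_zpowers, hk])
    have hc : Commute (pReg p g) (pPart p g) := (commute_pPart_pReg p g).symm
    have h2 := hF (V ⊔ Subgroup.zpowers (pPart p g)) (hVp.to_sup_of_normal_left hz) (pReg p g)
      (by
        apply Subgroup.normalizer_inf_normalizer_le_normalizer_sup
        refine ⟨by rw [Subgroup.normalizer_eq_top]; trivial, ?_⟩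
        apply Subgroup.centralizer_le_normalizer
        rintro _ ⟨n, rfl⟩
        exact (hc.zpow_right n).eq.symm)
      (not_dvd_orderOf_pReg p g) _ (Subgroup.mem_sup_right (Subgroup.mem_zpowers _)) h1 hc
    have h3 : ψ (pReg p g) = 1 := (hψ _).2 fun v hv => h2 v (Subgroup.mem_sup_left hv)
    conv_rhs => rw [← pPart_mul_pReg p g, map_mul, h3, mul_one]
  -- a normal p'-subgroup of the image
  obtain ⟨M, hMn, hM1, hMp⟩ : ∃ M : Subgroup φ.range, M.Normal ∧ M ≠ ⊥ ∧ ¬ p ∣ Nat.card M := by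
    rcases Nat.even_or_odd (Nat.card φ.range) with he | ho
    · obtain ⟨a, ha⟩ := exists_prime_orderOf_dvd_card' 2 (even_iff_two_dvd.1 he)
      have hpa : ¬ p ∣ orderOf a := by
        rw [ha]; exact fun h => hp2 ((Nat.prime_dvd_prime_iff_eq hp.out Nat.prime_two).1 h)
      have ha1 : a ≠ 1 := fun e => by rw [e, orderOf_one] at ha; omega
      have haa : a * a = 1 := by rw [← pow_two, ← ha, pow_orderOf_eq_one]
      have hinv : ∀ v : V, (a : MulAut V) v = v⁻¹ := by
        intro v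
        by_contra hne
        refine ha1 (hfix a hpa (v * (a : MulAut V) v) ?_ ?_)
        · rw [map_mul, ← MulAut.mul_apply, ← Subgroup.coe_mul, haa]
          exact (IsMulCommutative.is_comm (M := V)).comm _ _
        · exact fun e => hne (eq_inv_of_mul_eq_one_right e)
      refine ⟨Subgroup.zpowers a, ?_, by simpa using ha1, by rwa [Nat.card_zpowers]⟩
      have hcz : ∀ g, Commute g a := by
        intro g
        ext v
        simp only [Subgroup.coe_mul, MulAut.mul_apply, hinv, map_inv]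
      refine ⟨?_⟩
      rintro _ ⟨n, rfl⟩ g
      simp only
      rw [((hcz g).zpow_right n).eq, mul_inv_cancel_right]
      exact ⟨n, rfl⟩
    · haveI := Cfsg.Agent.S0205.result ho
      haveI : Nontrivial φ.range := ⟨⟨_, _, hx1⟩⟩
      obtain ⟨M, hMn, hM1, -, -, r, hr, hMr⟩ := H02.exists_minimal_normal_elementary (G := φ.range)
      refine ⟨M, hMn, hM1, fun hd => hM1 ?_⟩
      obtain ⟨b, hb⟩ := exists_prime_orderOf_dvd_card' p hd
      have hrp : p = r := by
        rw [← Nat.prime_dvd_prime_iff_eq hp.out hr, ← hb, orderOf_dvd_iff_pow_eq_one]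
        exact Subtype.ext (hMr b b.2)
      subst hrp
      have hMP : IsPGroup p M := H02.isPGroup_of_pow_eq_one hMr
      have hle : M ≤ (R.mapSurjective hψs : Subgroup φ.range) := by
        have := (R.mapSurjective hψs).is_maximal' (hMP.to_sup_of_normal_left
          (R.mapSurjective hψs).isPGroup') le_sup_right
        rw [← this]; exact le_sup_left
      rw [eq_bot_iff]
      intro m hm
      obtain ⟨g, rfl⟩ := hψs m
      refine (hψ g).2 (hcen (M.comap ψ) inferInstance ?_ g hm)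
      intro k hk
      obtain ⟨r, hr, hrk⟩ := hle hk
      have : ψ (r⁻¹ * k) = 1 := by rw [map_mul, map_inv, ← hrk, inv_mul_cancel]
      have h2 := (hR r hr).mul_left ((hψ _).1 this u huV)
      rwa [mul_inv_cancel_left] at h2
  have hMo : ∀ m ∈ M, ¬ p ∣ orderOf m := fun m hm h =>
    hMp (h.trans (Subgroup.orderOf_dvd_natCard M hm))
  have hdiv : ∀ m ∈ M, p ∣ orderOf (m * ψ x) := by
    intro m hm
    by_contra h
    have h1 : (QuotientGroup.mk' M) (m * ψ x) = QuotientGroup.mk' M (ψ x) := by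
      rw [map_mul, QuotientGroup.mk'_apply M m, (QuotientGroup.eq_one_iff _).2 hm, one_mul]
    have h2 : orderOf (QuotientGroup.mk' M (ψ x)) ∣ p := by
      rw [orderOf_dvd_iff_pow_eq_one, ← map_pow, hxp, map_one]
    rcases (Nat.dvd_prime hp.out).1 h2 with h3 | h3
    · rw [orderOf_eq_one_iff, QuotientGroup.mk'_apply, QuotientGroup.eq_one_iff] at h3
      exact hMo _ h3 (by rw [orderOf_eq_prime hxp hx1])
    · exact h (h3 ▸ h1 ▸ orderOf_map_dvd _ _)
  have hfin := pow_card_eq_one_of_norm (W := V) (φ.range.subtype) M hp.out (x := ψ x)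
    (fun w hw => by
      by_contra h1
      apply hM1
      rw [eq_bot_iff]
      intro m hm
      exact hfix m (hMo m hm) w (hw m hm) h1)
    (fun m hm => by
      obtain ⟨y, hy, hym⟩ := hG2 _ (hdiv m hm)
      rw [← hym, ← map_pow, hE y hy, map_one])
    (fun m hm w => by
      obtain ⟨y, hy, hym⟩ := hG2 _ (hdiv m hm)
      have h1 := pow_mul_eq_prod V y w p
      have hz : IsPGroup p (Subgroup.zpowers y) := by
        obtain ⟨k, hk⟩ := hy
        exact IsPGroup.of_card (by rw [Nat.card_zpowers, hk])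
      rw [hE y hy, mul_one, hE _ (orderOf_of_mem (hVp.to_sup_of_normal_left hz)
        (Subgroup.mul_mem _ (Subgroup.mem_sup_left w.2)
          (Subgroup.mem_sup_right (Subgroup.mem_zpowers y))))] at h1
      rw [← hym]
      refine Eq.trans (Finset.prod_congr rfl fun i _ => ?_) (Subtype.ext h1.symm)
      rw [← map_pow]; rfl) ⟨u, huV⟩
  have h1 : u ^ Nat.card M = 1 := congrArg Subtype.val hfin
  have h2 : orderOf u = p := orderOf_eq_prime (hE u (orderOf_of_mem hD hu)) hu1
  exact hMp (h2 ▸ orderOf_dvd_of_pow_eq_one h1)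

theorem lt_inf_normalizer {D P : Subgroup G} (hP : IsPGroup p P) (h : D < P) :
    D < P ⊓ Subgroup.normalizer (D : Set G) := by
  haveI := hP.isNilpotent
  have h1 := normalizerCondition_of_isNilpotent (G := P) (D.subgroupOf P) (by
    rw [lt_top_iff_ne_top, Ne, Subgroup.subgroupOf_eq_top]; exact not_le_of_gt h)
  rw [← Subgroup.subgroupOf_normalizer_eq h.le] at h1
  refine lt_of_le_of_ne (le_inf h.le Subgroup.le_normalizer) fun e => ?_
  refine h1.ne (le_antisymm h1.le fun a ha => ?_)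
  have : (a : G) ∈ P ⊓ Subgroup.normalizer (D : Set G) := ⟨a.2, ha⟩
  rwa [← e] at this

theorem sylow_le_centralizer (hp2 : p ≠ 2)
    (hE : ∀ x : G, (∃ k, orderOf x = p ^ k) → x ^ p = 1) (hF : FP p G) {u : G}
    (P₀ : Sylow p G) (h0 : u ∈ (P₀ : Subgroup G)) (h0' : ∀ r ∈ (P₀ : Subgroup G), Commute r u)
    (P : Sylow p G) (hP : u ∈ (P : Subgroup G)) : ∀ r ∈ (P : Subgroup G), Commute r u := by
  classical
  by_contra hne
  let S : Set (Sylow p G × Sylow p G) := {z | u ∈ (z.1 : Subgroup G) ∧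
    (∀ r ∈ (z.1 : Subgroup G), Commute r u) ∧ u ∈ (z.2 : Subgroup G) ∧
    ¬ ∀ r ∈ (z.2 : Subgroup G), Commute r u}
  obtain ⟨⟨P₁, P₂⟩, ⟨h1, h1', h2, h2'⟩, hmax⟩ := Set.exists_max_image S
    (fun z => Nat.card ((z.1 : Subgroup G) ⊓ (z.2 : Subgroup G) : Subgroup G)) (Set.toFinite S)
    ⟨(P₀, P), h0, h0', hP, hne⟩
  simp only at h1 h1' h2 h2' hmax
  set D : Subgroup G := (P₁ : Subgroup G) ⊓ (P₂ : Subgroup G) with hDdef
  have hbig : ∀ z ∈ S, ¬ D < (z.1 : Subgroup G) ⊓ (z.2 : Subgroup G) := by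
    intro z hz hlt
    exact absurd (hmax z hz) (not_le.2 (Set.Finite.card_lt_card (Set.toFinite _)
      (SetLike.coe_ssubset_coe.2 hlt)))
  have hne12 : P₁ ≠ P₂ := fun e => h2' (e ▸ h1')
  have hD1 : D < P₁ := lt_of_le_of_ne inf_le_left fun e => hne12 (Sylow.ext
    (P₁.is_maximal' P₂.isPGroup' (by rw [← e]; exact inf_le_right)).symm)
  have hD2 : D < P₂ := lt_of_le_of_ne inf_le_right fun e => hne12 (Sylow.ext
    (P₂.is_maximal' P₁.isPGroup' (by rw [← e]; exact inf_le_left)))
  have hN1 := lt_inf_normalizer P₁.isPGroup' hD1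
  have hN2 := lt_inf_normalizer P₂.isPGroup' hD2
  set N := Subgroup.normalizer (D : Set G) with hN
  have huD : u ∈ D := ⟨h1, h2⟩
  obtain ⟨R₁, ⟨R, rfl⟩, hR⟩ := exists_sylIn_ge (p := p) (H := N)
    (Q := (P₁ : Subgroup G) ⊓ N) (P₁.isPGroup'.to_le inf_le_left) inf_le_right
  obtain ⟨P₃, hP₃⟩ := (R.isPGroup'.map N.subtype).exists_le_sylow
  have h3 : ∀ r ∈ (P₃ : Subgroup G), Commute r u := by
    by_contra h
    exact hbig (P₁, P₃) ⟨h1, h1', hP₃ (hR (hN1.le huD)), h⟩
      (hN1.trans_le (le_inf inf_le_left (hR.trans hP₃)))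
  have huN : u ∈ N := Subgroup.le_normalizer huD
  have hloc : ∀ x : N, (∃ k, orderOf x = p ^ k) → Commute x ⟨u, huN⟩ := fun x hx =>
    local_step hp2 (fun y hy => Subtype.ext (hE y (by rwa [Subgroup.orderOf_coe])))
      (hF.subgroup N) (D.subgroupOf N) ((P₁.isPGroup'.to_le hD1.le).comap_subtype) (u := ⟨u, huN⟩)
      huD (fun d hd => Subtype.ext (h1' d hd.1).eq) R
      (fun r hr => Subtype.ext (h3 r (hP₃ ⟨r, hr, rfl⟩)).eq) hx
  have hC : (P₂ : Subgroup G) ⊓ N ≤ Subgroup.centralizer ({u} : Set G) := by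
    intro x hx
    rw [Subgroup.mem_centralizer_singleton_iff]
    exact congrArg Subtype.val (hloc ⟨x, hx.2⟩ (by
      rw [← Subgroup.orderOf_coe]; exact orderOf_of_mem P₂.isPGroup' hx.1)).eq
  obtain ⟨c, hc, hle⟩ := (sylIn_of_sylow P₁ (H := Subgroup.centralizer ({u} : Set G))
    (fun r hr => Subgroup.mem_centralizer_singleton_iff.2 (h1' r hr).eq)).exists_conj_le
    (P₂.isPGroup'.to_le inf_le_left) hC
  rw [cj_le_iff] at hle
  have hcu : Commute c u := Subgroup.mem_centralizer_singleton_iff.1 hc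
  have hco : ((c⁻¹ • P₁ : Sylow p G) : Subgroup G) = cj c⁻¹ (P₁ : Subgroup G) := rfl
  refine hbig (c⁻¹ • P₁, P₂) ⟨?_, ?_, h2, h2'⟩ (hN2.trans_le (le_inf ?_ inf_le_left))
  · exact hle (hN2.le huD)
  · intro r hr
    rw [hco, mem_cj, inv_inv] at hr
    have := (hcu.inv_left.mul_left (h1' _ hr)).mul_left hcu
    simpa [mul_assoc] using this
  · exact hle

end H21.Trans
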