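import Mathlib
import Cfsg.Agent.H21.Trans
import Cfsg.Agent.H21.DefectVal
import Cfsg.Agent.H21.Klein
import Cfsg.Agent.S4646

/-!
# Blocks with k(B) = l(B) + 1

* `H21.exists_pReps_mem`: representatives of the classes of p-elements containing a given one.
* `H21.kl_conj`, `H21.kl_rank`: nontrivial elements of a defect group are conjugate and their
  subsections have rank one.
* `H21.kl_elementary`: principal or p-solvable case: the defect group is elementary abelian.
-/

set_option autoImplicit false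

namespace H21
open H05 Cfsg H20 MonoidAlgebra Classical

variable {M : Ideal AlgInt} {G : Type*} [Group G] [Finite G] {p : ℕ} {B : Set (IrrCharacter G)}

theorem exists_pReps_mem (p : ℕ) {u : G} (hu : ∃ k, orderOf u = p ^ k) :
    ∃ X : Finset G, u ∈ X ∧ (∀ x ∈ X, ∃ k : ℕ, orderOf x = p ^ k) ∧
      ∀ g : G, (∃ k : ℕ, orderOf g = p ^ k) → ∃! x, x ∈ X ∧ IsConj g x := by
  haveI := Fintype.ofFinite G
  let f : G → G := fun g => if IsConj u g then u else Quotient.out (ConjClasses.mk g)
  have hf : ∀ g, IsConj g (f g) := by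
    intro g
    simp only [f]
    split_ifs with h
    · exact h.symm
    · exact ConjClasses.mk_eq_mk_iff_isConj.1 (Quotient.out_eq (ConjClasses.mk g)).symm
  have hf2 : ∀ g g', IsConj g g' → f g = f g' := by
    intro g g' h
    simp only [f]
    rw [ConjClasses.mk_eq_mk_iff_isConj.2 h]
    by_cases h1 : IsConj u g
    · rw [if_pos h1, if_pos (h1.trans h)]
    · rw [if_neg h1, if_neg fun h2 => h1 (h2.trans h.symm)]
  refine ⟨(Finset.univ.filter fun g => ∃ k : ℕ, orderOf g = p ^ k).image f, ?_, ?_, ?_⟩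
  · exact Finset.mem_image.2 ⟨u, by simpa using hu, if_pos (IsConj.refl u)⟩
  · intro x hx
    obtain ⟨g, hg, rfl⟩ := Finset.mem_image.1 hx
    obtain ⟨c, hc⟩ := isConj_iff.1 (hf g)
    rw [← hc, show c * g * c⁻¹ = MulAut.conj c g from rfl, MulEquiv.orderOf_eq]
    simpa using hg
  · intro g hg
    refine ⟨f g, ⟨Finset.mem_image.2 ⟨g, by simpa using hg, rfl⟩, hf g⟩, ?_⟩
    rintro x ⟨hx, hgx⟩
    obtain ⟨g', -, rfl⟩ := Finset.mem_image.1 hx
    exact hf2 _ _ ((hf g').trans hgx.symm)

theorem kl_aux (hM : IsPModular p M) (hB : IsPBlock M B) {D : Subgroup G}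
    (hD : IsDefectGroup p M B D) (hk : Nat.card B = blockRank p B + 1) {u : G} (hu : u ∈ D)
    (hu1 : u ≠ 1) : haveI := hM.2.1
      blockRank p (brSet M u B) = 1 ∧ ∀ v ∈ D, v ≠ 1 → IsConj v u := by
  haveI := hM.2.1
  haveI : Fact p.Prime := ⟨hM.1⟩
  have hup := Trans.orderOf_of_mem hD.isPGroup hu
  obtain ⟨X, huX, hX, hXrep⟩ := exists_pReps_mem p hup
  have h1X : (1 : G) ∈ X := by
    obtain ⟨x, ⟨hx, h⟩, -⟩ := hXrep 1 ⟨0, by simp⟩
    rwa [isConj_one_right.1 h] at hx
  have hsum := card_eq_sum_rank_brSet hM (int_block hB) hX hXrep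
  rw [← Finset.add_sum_erase _ _ h1X, rank_brSet_one hM (int_block hB), hk,
    ← Finset.add_sum_erase _ _ (Finset.mem_erase.2 ⟨hu1, huX⟩)] at hsum
  have hpos : ∀ x, (∃ k, orderOf x = p ^ k) → SubConj (Subgroup.zpowers x) D →
      1 ≤ blockRank p (brSet M x B) := fun x hx h =>
    one_le_blockRank hM.1 ((subConj_iff_brSet_nonempty hM hB hD hx).1 h)
  have h1 := hpos u hup (SubConj.of_le (Subgroup.zpowers_le.2 hu))
  refine ⟨by omega, fun v hv hv1 => ?_⟩
  obtain ⟨x, ⟨hx, h⟩, -⟩ := hXrep v (Trans.orderOf_of_mem hD.isPGroup hv)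
  by_contra hne
  have hxu : x ≠ u := fun e => hne (e ▸ h)
  have hx1 : x ≠ 1 := fun e => hv1 (isConj_one_left.1 (e ▸ h))
  have h2 := hpos x (hX x hx) (by
    obtain ⟨c, rfl⟩ := isConj_iff.1 h
    rw [← cj_zpowers]
    exact (cj_subConj c _).trans (SubConj.of_le (Subgroup.zpowers_le.2 hv)))
  have h3 := Finset.single_le_sum (f := fun x => blockRank p (brSet M x B))
    (fun _ _ => Nat.zero_le _) (Finset.mem_erase.2 ⟨hxu, Finset.mem_erase.2 ⟨hx1, hx⟩⟩)
  omega

theorem pow_eq_one_of_conj [Fact p.Prime] {D : Subgroup G} (hD : IsPGroup p D)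
    (h : ∀ u ∈ D, u ≠ 1 → ∀ v ∈ D, v ≠ 1 → IsConj v u) : ∀ u ∈ D, u ^ p = 1 := by
  intro u hu
  by_contra hne
  have hu1 : u ≠ 1 := fun e => hne (by rw [e, one_pow])
  obtain ⟨c, hc⟩ := isConj_iff.1 (h _ (D.pow_mem hu p) hne u hu hu1)
  have h1 : orderOf (u ^ p) = orderOf u := by
    rw [← hc, show c * u * c⁻¹ = MulAut.conj c u from rfl, MulEquiv.orderOf_eq]
  obtain ⟨k, hk⟩ := Trans.orderOf_of_mem hD hu
  have hp : p.Prime := Fact.out
  rw [orderOf_pow' _ hp.ne_zero, Nat.div_eq_self] at h1
  rcases h1 with h1 | h1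
  · exact (orderOf_pos u).ne' h1
  · rcases k with _ | k
    · exact hu1 (orderOf_eq_one_iff.1 (by simpa using hk))
    · rw [hk, Nat.gcd_eq_right (dvd_pow_self p (by omega))] at h1
      exact hp.one_lt.ne' h1

theorem comm_of_conj_psolvable [Fact p.Prime] (hG : IsPSolvable p G) {D : Subgroup G}
    (hD : IsPGroup p D) (h : ∀ u ∈ D, u ≠ 1 → ∀ v ∈ D, v ≠ 1 → IsConj v u) :
    IsMulCommutative D := by
  have hp : p.Prime := Fact.out
  have hdich : ∀ K : Subgroup G, K.Normal → D ≤ K ∨ ∀ u ∈ D, u ∈ K → u = 1 := by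
    intro K hK
    by_contra hne
    push Not at hne
    obtain ⟨h1, u, hu, huK, hu1⟩ := hne
    refine h1 fun v hv => ?_
    by_cases hv1 : v = 1
    · rw [hv1]; exact K.one_mem
    · obtain ⟨c, rfl⟩ := isConj_iff.1 (h v hv hv1 u hu hu1)
      exact hK.conj_mem u huK c
  obtain ⟨n, H, h0, hn, hmono, hnorm, hstep⟩ := hG
  have key : ∀ i : Fin (n + 1), D ≤ H i → IsMulCommutative D := by
    intro i
    induction i using Fin.induction with
    | zero =>
      intro hle
      rw [h0, le_bot_iff] at hle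
      rw [hle]; infer_instance
    | succ i ih =>
      intro hle
      rcases hdich _ (hnorm i.castSucc) with h1 | h1
      · exact ih h1
      haveI := hnorm i.castSucc
      haveI := hnorm i.succ
      set K := H i.castSucc
      set L := H i.succ
      by_cases hD1 : D = ⊥
      · rw [hD1]; infer_instance
      obtain ⟨⟨u, hu⟩, hu1⟩ := Subgroup.ne_bot_iff_exists_ne_one.1 hD1
      have hu1' : u ≠ 1 := fun e => hu1 (Subtype.ext e)
      have hcard : Nat.card (L.map (QuotientGroup.mk' K)) = K.relIndex L := by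
        rw [← Subgroup.relIndex_ker, QuotientGroup.ker_mk']
      rcases hstep i with ⟨m, hm⟩ | hc
      · have hLp : IsPGroup p (L.map (QuotientGroup.mk' K)) := IsPGroup.of_card (hcard.trans hm)
        haveI : (L.map (QuotientGroup.mk' K)).Normal :=
          Subgroup.Normal.map inferInstance _ (QuotientGroup.mk'_surjective K)
        haveI := hLp.isNilpotent
        have hne : L.map (QuotientGroup.mk' K) ≠ ⊥ := fun e => hu1' (h1 u hu (by
          have : QuotientGroup.mk' K u ∈ L.map (QuotientGroup.mk' K) := ⟨u, hle hu, rfl⟩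
          rw [e, Subgroup.mem_bot] at this
          exact (QuotientGroup.eq_one_iff u).1 this))
        -- the commutator of the image is proper; iterate via a normal series argument
        have hind : ∀ j : ℕ, ∀ N : Subgroup (G ⧸ K), N.Normal → Nat.card N ≤ j →
            Group.IsSolvable N → D ≤ N.comap (QuotientGroup.mk' K) → IsMulCommutative D := by
          intro j
          induction j with
          | zero => intro N _ hN; exact absurd hN (not_le.2 Nat.card_pos)
          | succ j ihj =>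
            intro N hNn hN hNs hDN
            have hNne : N ≠ ⊥ := fun e => hu1' (h1 u hu (by
              have := hDN hu
              rw [e, Subgroup.mem_comap, Subgroup.mem_bot] at this
              exact (QuotientGroup.eq_one_iff u).1 this))
            have hlt := H02.commutator_self_lt_of_isSolvable hNne
            rcases hdich ((⁅N, N⁆).comap (QuotientGroup.mk' K)) inferInstance with h2 | h2
            · refine ihj ⁅N, N⁆ inferInstance ?_ (H02.isSolvable_of_le hlt.le) h2
              have := Set.Finite.card_lt_card (Set.toFinite _) (SetLike.coe_ssubset_coe.2 hlt)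
              exact Nat.lt_succ_iff.1 (lt_of_lt_of_le this hN)
            · refine ⟨⟨fun a b => Subtype.ext ?_⟩⟩
              have := h2 ((a : G) * b * (a : G)⁻¹ * (b : G)⁻¹) (D.mul_mem (D.mul_mem (D.mul_mem a.2 b.2)
                (D.inv_mem a.2)) (D.inv_mem b.2)) (by
                  rw [Subgroup.mem_comap, map_mul, map_mul, map_mul, map_inv, map_inv]
                  exact Subgroup.commutator_mem_commutator (hDN a.2) (hDN b.2))
              rw [mul_inv_eq_one, mul_inv_eq_iff_eq_mul] at this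
              exact this
        exact hind _ (L.map (QuotientGroup.mk' K)) inferInstance le_rfl inferInstance
          (hle.trans (Subgroup.le_comap_map _ _))
      · exfalso
        obtain ⟨k, hk⟩ := Trans.orderOf_of_mem hD hu
        have h2 : orderOf (QuotientGroup.mk' K u) ∣ K.relIndex L := by
          rw [← hcard]; exact Subgroup.orderOf_dvd_natCard _ ⟨u, hle hu, rfl⟩
        have h3 : orderOf (QuotientGroup.mk' K u) ∣ p ^ k := hk ▸ orderOf_map_dvd _ _
        have h4 := Nat.eq_one_of_dvd_coprimes (hc.pow_right k) h2 h3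
        exact hu1' (h1 u hu ((QuotientGroup.eq_one_iff u).1 (orderOf_eq_one_iff.1 h4)))
  exact key (Fin.last n) (by rw [hn]; exact le_top)

theorem kl_principal_hasNPC [Fact p.Prime] (hM : IsPModular p M)
    (hk : Nat.card (principalBlock M G) = blockRank p (principalBlock M G) + 1) {u : G}
    (hu : ∃ k, orderOf u = p ^ k) (hu1 : u ≠ 1) :
    HasNormalPComplement p (Subgroup.centralizer ({u} : Set G)) := by
  haveI := hM.2.1
  obtain ⟨P, hP⟩ := (isPGroup_zpowers hu).exists_le_sylow
  have h := (kl_aux hM isPBlock_principalBlock (isDefectGroup_principal hM P) hk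
    (hP (Subgroup.mem_zpowers u)) hu1).1
  rw [brSet_principal hM hu] at h
  exact (isNilpotentBlock_principal_iff hM).1 ((Cfsg.Agent.S4646.result p M hM).2 h)

theorem kl_elementary [Fact p.Prime] (hM : IsPModular p M) (hB : IsPBlock M B) {D : Subgroup G}
    (hD : IsDefectGroup p M B D) (hk : Nat.card B = blockRank p B + 1)
    (hB0 : B = principalBlock M G ∨ IsPSolvable p G) : IsElementaryAbelian p D := by
  have hp : p.Prime := Fact.out
  have hconj : ∀ u ∈ D, u ≠ 1 → ∀ v ∈ D, v ≠ 1 → IsConj v u := fun u hu hu1 =>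
    (kl_aux hM hB hD hk hu hu1).2
  have hexp := pow_eq_one_of_conj hD.isPGroup hconj
  refine ⟨?_, hexp⟩
  rcases hB0 with rfl | hG
  swap
  · exact comm_of_conj_psolvable hG hD.isPGroup hconj
  by_cases hp2 : p = 2
  · subst hp2
    refine ⟨⟨fun a b => Subtype.ext ?_⟩⟩
    have h1 := hexp _ (D.mul_mem a.2 b.2)
    have h2 := hexp _ a.2
    have h3 := hexp _ b.2
    rw [pow_two] at h1 h2 h3
    change (a : G) * b = b * a
    rw [eq_inv_of_mul_eq_one_left h1, mul_inv_rev, ← eq_inv_of_mul_eq_one_left h2,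
      ← eq_inv_of_mul_eq_one_left h3]
  obtain ⟨P, rfl⟩ := (hD.sylIn_of_principal hM).exists_sylow
  have hE : ∀ x : G, (∃ k, orderOf x = p ^ k) → x ^ p = 1 := by
    intro x hx
    obtain ⟨c, -, hc⟩ := (sylIn_top P).exists_conj_le (isPGroup_zpowers hx) le_top
    have := hexp _ (hc (conj_mem_cj.2 (Subgroup.mem_zpowers x)))
    rwa [conj_pow, conj_eq_one_iff] at this
  have hF : Trans.FP p G := Trans.fp_of_mul_closed fun u hu1 hu x y hx hy hx' hy' => by
    have := H03.hasNPC_iff_mul_closed.1 (kl_principal_hasNPC hM hk hu hu1)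
      ⟨x, Subgroup.mem_centralizer_singleton_iff.2 hx.eq⟩
      ⟨y, Subgroup.mem_centralizer_singleton_iff.2 hy.eq⟩
      (by rw [← Subgroup.orderOf_coe]; exact ((Nat.Prime.coprime_iff_not_dvd hp).2 hx').symm)
      (by rw [← Subgroup.orderOf_coe]; exact ((Nat.Prime.coprime_iff_not_dvd hp).2 hy').symm)
    rw [← Subgroup.orderOf_coe] at this
    exact (Nat.Prime.coprime_iff_not_dvd hp).1 this.symm
  refine ⟨⟨fun a b => Subtype.ext ?_⟩⟩
  by_cases hb : (b : G) = 1
  · simp [hb]
  haveI : Nontrivial P := ⟨⟨b, 1, fun e => hb (congrArg Subtype.val e)⟩⟩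
  haveI := P.isPGroup'.center_nontrivial
  obtain ⟨z, hz⟩ := exists_ne (1 : Subgroup.center P)
  have hzc : ∀ v ∈ (P : Subgroup G), Commute v ((z : P) : G) := fun v hv =>
    congrArg Subtype.val (Subgroup.mem_center_iff.1 z.2 ⟨v, hv⟩)
  have hz1 : ((z : P) : G) ≠ 1 := fun e => hz (Subtype.ext (Subtype.ext e))
  obtain ⟨c, hc⟩ := isConj_iff.1 (hconj b b.2 hb _ (z : P).2 hz1)
  have hco : ((c • P : Sylow p G) : Subgroup G) = cj c (P : Subgroup G) := rfl
  refine (Trans.sylow_le_centralizer hp2 hE hF (c • P) ?_ ?_ P b.2 a a.2).eq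
  · rw [hco, ← hc, conj_mem_cj]; exact (z : P).2
  · intro r hr
    rw [hco, mem_cj] at hr
    have := (hzc _ hr).map (MulAut.conj c)
    simpa [← hc, mul_assoc] using this

end H21
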