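import Mathlib
import Cfsg.Agent.H21.K3a
import Cfsg.Agent.H21.KL1
import Cfsg.Agent.H21.RankOne
import Cfsg.Agent.H20.Quot2
import Cfsg.Agent.H20.McK3
import Cfsg.Agent.H04.Frattini
import Cfsg.Agent.S4607
import Cfsg.Agent.S0972

/-!
# Blocks with normal abelian defect group and few characters

* `H21.K3.card_ker_le_rank`, `H21.K3.card_gp_le`: good classes of the inertial quotient bound `l`.
* `H21.K3.card_le_three_of_normal`: a block with normal elementary abelian defect group and at most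
  three characters has a defect group of order at most three.
-/

set_option autoImplicit false
set_option linter.unusedSectionVars false
set_option linter.unusedVariables false

namespace H21.K3
open H05 Cfsg H20 MonoidAlgebra Classical

local notation:max "𝐂" Q:max => Subgroup.centralizer (SetLike.coe Q)
local notation:max "𝐍" Q:max => Subgroup.normalizer (SetLike.coe Q)
local notation "incl" => Subgroup.inclusion

attribute [-instance] H19.instFintypeSubgroupFrob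

theorem ncard_pairs {Q : Type*} [Group Q] [Finite Q] (a : Q) :
    {ab : Q × Q | IsConj a ab.1 ∧ ab.1 * ab.2 = ab.2 * ab.1}.ncard = Nat.card Q := by
  haveI := Fintype.ofFinite {x // IsConj a x}
  have e : {ab : Q × Q | IsConj a ab.1 ∧ ab.1 * ab.2 = ab.2 * ab.1} ≃
      Σ x : {x // IsConj a x}, Subgroup.centralizer ({x.1} : Set Q) :=
    ⟨fun ab => ⟨⟨ab.1.1, ab.2.1⟩, ab.1.2, Subgroup.mem_centralizer_singleton_iff.2 ab.2.2.symm⟩,
      fun x => ⟨(x.1, x.2), x.1.2, (Subgroup.mem_centralizer_singleton_iff.1 x.2.2).symm⟩,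
      fun _ => rfl, fun _ => rfl⟩
  rw [← Nat.card_coe_set_eq, Nat.card_congr e, Nat.card_sigma,
    Finset.sum_congr rfl fun x _ => (card_centralizer_isConj x.2).symm, Finset.sum_const,
    Finset.card_univ, ← Nat.card_eq_fintype_card, H07.card_isConj, smul_eq_mul, Subgroup.index_mul_card]

theorem card_mul_le {Q : Type*} [Group Q] [Finite Q] {S : Set (Q × Q)} (s : Finset Q)
    (h1 : ∀ a ∈ s, ∀ b ∈ s, IsConj a b → a = b)
    (h2 : ∀ a ∈ s, ∀ x y, IsConj a x → x * y = y * x → (x, y) ∈ S) :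
    s.card * Nat.card Q ≤ Nat.card S := by
  induction s using Finset.induction_on generalizing S with
  | empty => simp
  | insert a s ha ih =>
    have h3 : {ab : Q × Q | IsConj a ab.1 ∧ ab.1 * ab.2 = ab.2 * ab.1} ⊆ S :=
      fun ab h => h2 a (by simp) _ _ h.1 h.2
    have h4 := ih (S := S \ {ab : Q × Q | IsConj a ab.1 ∧ ab.1 * ab.2 = ab.2 * ab.1})
      (fun a ha b hb => h1 a (by simp [ha]) b (by simp [hb])) fun b hb x y h5 h6 =>
        ⟨h2 b (by simp [hb]) x y h5 h6, fun h7 => ha (by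
          rwa [h1 a (by simp) b (by simp [hb]) (h7.1.trans h5.symm)])⟩
    rw [Nat.card_coe_set_eq] at h4 ⊢
    rw [Finset.card_insert_of_notMem ha, add_mul, one_mul, ← Set.ncard_diff_add_ncard_of_subset h3,
      ncard_pairs]
    omega

theorem Good.conj {Γ : Type*} [Group Γ] {H : Subgroup Γ} {a g : Γ} (h : Good H a) (hg : g ∈ H) :
    Good H (g * a * g⁻¹) := by
  intro b hb hab
  haveI := h (g⁻¹ * b * g) (H.mul_mem (H.mul_mem (H.inv_mem hg) hb) hg) (by
    have := congrArg (fun x => g⁻¹ * x * g) hab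
    simpa [mul_assoc] using this)
  have e : Subgroup.closure ({g * a * g⁻¹, b} : Set Γ) =
      (Subgroup.closure ({a, g⁻¹ * b * g} : Set Γ)).map (MulAut.conj g).toMonoidHom := by
    rw [MonoidHom.map_closure, Set.image_pair]
    simp [mul_assoc]
  rw [e]
  exact isCyclic_of_surjective _ (MonoidHom.subgroupMap_surjective _ _)

theorem good_one {Γ : Type*} [Group Γ] (H : Subgroup Γ) : Good H 1 := by
  intro b _ _
  refine Subgroup.isCyclic_of_le (H' := Subgroup.zpowers b) ?_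
  rw [Subgroup.closure_le]
  rintro x (rfl | rfl)
  exacts [one_mem _, Subgroup.mem_zpowers _]

section
variable {G : Type*} [Group G] [Finite G] {Γ : Type*} [Group Γ] [Finite Γ]

theorem card_mul_le_ov (ρ : G →* Γ) {T : Subgroup G} (h : ρ.ker ≤ T) {θ : ρ.ker → ℂ}
    (hθ : IsIrrCharacter _ θ) (hT : T ≤ H07.stab θ) (s : Finset Γ) (h0 : ∀ a ∈ s, a ∈ T.map ρ)
    (h1 : ∀ a ∈ s, ∀ b ∈ s, (∃ g ∈ T.map ρ, g * a * g⁻¹ = b) → a = b)
    (h2 : ∀ a ∈ s, Good (T.map ρ) a) : s.card ≤ Nat.card (Ov h θ) := by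
  have hq : ∀ x, ρ.subgroupMap T x = 1 ↔ (x : G) ∈ ρ.ker := fun x => Subtype.ext_iff
  have h3 := card_ov_mul h hθ hT (ρ.subgroupMap_surjective T) hq
  have h4 := card_mul_le (S := GP (ρ.subgroupMap T) θ) (s.subtype (· ∈ T.map ρ))
    (fun a ha b hb hc => Subtype.ext (h1 a (Finset.mem_subtype.1 ha) b (Finset.mem_subtype.1 hb) (by
      obtain ⟨g, rfl⟩ := isConj_iff.1 hc
      exact ⟨g, g.2, rfl⟩))) fun a ha x y h5 h6 => ⟨h6, fun b hb => by
      obtain ⟨g, rfl⟩ := isConj_iff.1 h5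
      have h7 := (h2 a (Finset.mem_subtype.1 ha)).conj g.2 b b.2 (congrArg Subtype.val hb)
      have h8 : IsCyclic (Subgroup.closure ({g * a * g⁻¹, b} : Set (T.map ρ))) := by
        rw [(Subgroup.equivMapOfInjective _ _ (T.map ρ).subtype_injective).isCyclic]
        rwa [MonoidHom.map_closure, Set.image_pair]
      obtain ⟨c, hc⟩ := (Subgroup.isCyclic_iff_exists_zpowers_eq_top _).1 h8
      obtain ⟨t, rfl⟩ := ρ.subgroupMap_surjective T c
      refine ext_of_cyclic (a := (t : G)) ?_ hθ (hT t.2)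
      rw [← hc]
      refine le_antisymm ?_ (sup_le (fun x hx => mem_pre.2 ⟨h hx, ?_⟩) (Subgroup.zpowers_le.2
        (mem_pre.2 ⟨t.2, Subgroup.mem_zpowers _⟩)))
      · intro x hx
        obtain ⟨hx, k, hk⟩ := mem_pre.1 hx
        have : x * ((t : G) ^ k)⁻¹ ∈ ρ.ker := (hq (⟨x, hx⟩ * (t ^ k)⁻¹)).1 (by
          rw [map_mul, map_inv, map_zpow, ← hk, mul_inv_cancel])
        simpa using Subgroup.mul_mem_sup this (Subgroup.zpow_mem_zpowers (t : G) k)
      · exact ((hq ⟨x, h hx⟩).2 hx).symm ▸ one_mem _⟩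
  rw [Finset.card_subtype, Finset.filter_true_of_mem h0, ← h3] at h4
  exact Nat.le_of_mul_le_mul_right h4 Nat.card_pos

theorem omega_res_of_mult {K Y : Subgroup G} (h : K ≤ Y) {ψ : Y → ℂ} (hψ : IsIrrCharacter Y ψ)
    {θ : K → ℂ} (hθ : IsIrrCharacter K θ) (hm : H07.mult (incl h) ψ θ ≠ 0) {a : ℂ[G]}
    (ha : IsCen a) (hs : ∀ g, g ∉ K → a.coeff g = 0) : omega ψ (res Y a) = omega θ (res K a) := by
  haveI := Fintype.ofFinite (K.subgroupOf Y)
  rw [← H07.mult_subgroupOf] at hm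
  replace hm := (H07.mult_ne_zero_iff _ hψ.isCharacter (hθ.isCharacter.comp
    (Subgroup.subgroupOfEquivOfLe h).toMonoidHom)).1 hm
  rw [omega_of_over hψ (θ := irrComap (Subgroup.subgroupOfEquivOfLe h) ⟨θ, hθ⟩) (over_iff.2 hm)
    (ha.res Y) fun g hg => hs g hg, ← omega_comap (Subgroup.subgroupOfEquivOfLe h)]
  rfl

end

variable {M : Ideal AlgInt} [hMm : M.IsMaximal] {G : Type*} [Group G] [Finite G] {p : ℕ}
  {B : Set (IrrCharacter G)} {V : Subgroup G} [hVn : V.Normal]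

theorem lam_res_of_mult {K Y : Subgroup G} (h : K ≤ Y) {ψ : Y → ℂ} (hψ : IsIrrCharacter Y ψ)
    {θ : K → ℂ} (hθ : IsIrrCharacter K θ) (hm : H07.mult (incl h) ψ θ ≠ 0) {z : (Res M)[G]}
    (hz : IsCen z) (hs : ∀ g, g ∉ K → z.coeff g = 0) : lam M ψ (res Y z) = lam M θ (res K z) := by
  have h1 := omega_res_of_mult h hψ hθ hm hz.liftA fun g hg => by
    rw [coeff_liftA, hs g hg, sec_zero]
  have h2 : ∀ H : Subgroup G, liftA M (res H z) = res H (liftA M z) := fun H => rfl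
  rw [lam, lam, h2, h2, h1]

variable (M B V) in
/-- characters of a subgroup in blocks inducing `B` with `V` in their kernel -/
def Rt (H : Subgroup G) : Set (IrrCharacter H) :=
  {ψ | lam M (ψ : H → ℂ) (res H (eB M B)) = 1 ∧ ∀ v : H, (v : G) ∈ V → (ψ : H → ℂ) v = (ψ : H → ℂ) 1}

theorem isDefectGroup_blockOf (hM : IsPModular p M) (hB : IsPBlock M B) (hD : IsDefectGroup p M B V)
    {H : Subgroup G} (h1 : V ≤ H) (h2 : 𝐂 V ≤ H) {ψ : IrrCharacter H}
    (h : lam M (ψ : H → ℂ) (res H (eB M B)) = 1) :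
    IsDefectGroup p M (blockOf M (ψ : H → ℂ)) (V.subgroupOf H) := by
  have h3 : H ≤ 𝐍 V := Subgroup.le_normalizer_of_normal
  exact ((isInducedBlock_iff_lam_res_eB (exists_isInducedBlock hM hD.isPGroup h1 h2 h3
    (isPBlock_blockOf ψ)) hB (mem_blockOf_self ψ)).2 h).isDefectGroup_subgroupOf hM hD h1 h3

theorem card_rt_le (hM : IsPModular p M) (hB : IsPBlock M B) (hD : IsDefectGroup p M B V)
    {H : Subgroup G} (h1 : V ≤ H) (h2 : 𝐂 V ≤ H) {A : Set (IrrCharacter H)} (hA : Rt M B V H ⊆ A) :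
    Nat.card (Rt M B V H) ≤ blockRank p A := by
  haveI : Fact p.Prime := ⟨hM.1⟩
  haveI := Fintype.ofFinite (Rt M B V H)
  let Φ : (H → ℂ) →ₗ[ℂ] (H → ℂ) :=
    { toFun := fun f z => if pPart p z ∈ V.subgroupOf H then f (pReg p z) else 0
      map_add' := fun f g => funext fun z => by by_cases h : pPart p z ∈ V.subgroupOf H <;> simp [h]
      map_smul' := fun c f => funext fun z => by by_cases h : pPart p z ∈ V.subgroupOf H <;> simp [h] }
  have h3 : LinearIndependent ℂ fun ψ : Rt M B V H => pRegularPart p (ψ.1 : H → ℂ) := by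
    refine LinearIndependent.of_comp Φ ?_
    convert (linearIndependent_irr (G := H)).comp (Subtype.val : Rt M B V H → _) Subtype.val_injective
      using 1
    ext ψ z
    show (if pPart p z ∈ V.subgroupOf H then pRegularPart p (ψ.1 : H → ℂ) (pReg p z) else 0) = (ψ.1 : H → ℂ) z
    split_ifs with h
    · rw [pRegularPart, if_pos (show IsPRegular p _ from not_dvd_orderOf_pReg p z)]
      conv_rhs => rw [← pPart_mul_pReg (p := p) z]
      exact (ψ.1.2.isCharacter.apply_mul_of_eq (ψ.2.2 _ h) _).symm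
    · exact (apply_eq_zero_of_normal_defect hM (isPBlock_blockOf ψ.1)
        (isDefectGroup_blockOf hM hB hD h1 h2 ψ.2.1) (mem_blockOf_self ψ.1) h).symm
  rw [Nat.card_eq_fintype_card, ← finrank_span_eq_card h3, blockRank]
  refine Submodule.finrank_mono (Submodule.span_mono ?_)
  rintro _ ⟨ψ, rfl⟩
  exact ⟨ψ.1, hA ψ.2, rfl⟩

theorem mem_rt_of_mult (hM : IsPModular p M) (hB : IsPBlock M B) (hV : IsPGroup p V)
    (h1 : V ≤ 𝐂 V) {H : Subgroup G} (h2 : 𝐂 V ≤ H) {θ : IrrCharacter (𝐂 V)} (hθ : θ ∈ Rt M B V (𝐂 V))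
    {ψ : IrrCharacter H} (hm : H07.mult (incl h2) (ψ : H → ℂ) θ ≠ 0) : ψ ∈ Rt M B V H := by
  refine ⟨(lam_res_of_mult h2 ψ.2 θ.2 hm (isCen_eB B) fun g hg => by_contra fun h =>
    hg (hB.mem_centralizer_of_coeff_eB hM hV h)).trans hθ.1, fun v hv => ?_⟩
  have h3 := H07.comp_eq_sum_mult (incl h2) ψ.2.isCharacter
  refine (congrFun h3 ⟨v, h1 hv⟩).trans (Eq.trans ?_ (congrFun h3 1).symm)
  rw [Finset.sum_apply, Finset.sum_apply]
  refine Finset.sum_congr rfl fun η _ => ?_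
  by_cases h : H07.mult (incl h2) (ψ : H → ℂ) η = 0
  · simp [h]
  obtain ⟨g, hg, e⟩ := H07.exists_cjA_of_under h2 Subgroup.le_normalizer_of_normal ψ.2 θ.2 η.2 hm h
  simp only [Pi.smul_apply, e, map_one]
  rw [hθ.2 _ (hVn.conj_mem _ hv g)]

theorem ker_conjNormal (V : Subgroup G) [V.Normal] : (MulAut.conjNormal : G →* MulAut V).ker = 𝐂 V := by
  ext g
  rw [MonoidHom.mem_ker, Subgroup.mem_centralizer_iff, MulEquiv.ext_iff]
  exact ⟨fun h v hv => (mul_inv_eq_iff_eq_mul.1 (congrArg Subtype.val (h ⟨v, hv⟩))).symm,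
    fun h v => Subtype.ext (mul_inv_eq_iff_eq_mul.2 (h v v.2).symm)⟩

theorem card_le_rank (hM : IsPModular p M) (hB : IsPBlock M B) (hD : IsDefectGroup p M B V)
    (h1 : V ≤ 𝐂 V) {H : Subgroup G} (h2 : 𝐂 V ≤ H) {A : Set (IrrCharacter H)} (hA : Rt M B V H ⊆ A)
    {θ : IrrCharacter (𝐂 V)} (hθ : θ ∈ Rt M B V (𝐂 V)) {E : Subgroup (MulAut V)}
    (hE : E = (H ⊓ H07.stab (θ : 𝐂 V → ℂ)).map MulAut.conjNormal) (s : Finset (MulAut V))
    (h3 : ∀ a ∈ s, a ∈ E) (h4 : ∀ a ∈ s, ∀ b ∈ s, (∃ g ∈ E, g * a * g⁻¹ = b) → a = b)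
    (h5 : ∀ a ∈ s, Good E a) : s.card ≤ blockRank p A := by
  have h6 : 𝐂 V ≤ H ⊓ H07.stab (θ : 𝐂 V → ℂ) := le_inf h2 (H07.le_stab_self θ.2.isClassFunction)
  have h7 := (clifford_bij h2 Subgroup.le_normalizer_of_normal θ.2 rfl h6 inf_le_left).1.card_eq
  have h8 : Nat.card (Ov h2 (θ : 𝐂 V → ℂ)) ≤ Nat.card (Rt M B V H) :=
    Nat.card_le_card_of_injective (fun ψ => ⟨⟨ψ.1, ψ.2.1⟩,
      mem_rt_of_mult hM hB hD.isPGroup h1 h2 hθ ψ.2.2⟩) fun _ _ e =>
      Subtype.ext (congrArg (fun x : Rt M B V H => x.1.1) e)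
  refine le_trans ?_ (h8.trans (card_rt_le hM hB hD (h1.trans h2) h2 hA))
  rw [h7]
  subst hE
  have key : ∀ (C : Subgroup G) (e : (MulAut.conjNormal : G →* MulAut V).ker = C) {T : Subgroup G}
      (h : C ≤ T) {θ : C → ℂ} (hθ : IsIrrCharacter _ θ) (hT : T ≤ H07.stab θ) (s : Finset (MulAut V))
      (h0 : ∀ a ∈ s, a ∈ T.map MulAut.conjNormal)
      (h1 : ∀ a ∈ s, ∀ b ∈ s, (∃ g ∈ T.map MulAut.conjNormal, g * a * g⁻¹ = b) → a = b)
      (h2 : ∀ a ∈ s, Good (T.map MulAut.conjNormal) a), s.card ≤ Nat.card (Ov h θ) := by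
    rintro _ rfl T h θ
    exact card_mul_le_ov _ h
  exact key _ (ker_conjNormal V) h6 θ.2 inf_le_right s h3 h4 h5

theorem not_dvd_card_map (hM : IsPModular p M) (hB : IsPBlock M B) (hD : IsDefectGroup p M B V)
    (h1 : V ≤ 𝐂 V) {θ : IrrCharacter (𝐂 V)} (hθ : θ ∈ Rt M B V (𝐂 V)) :
    ¬ p ∣ Nat.card ((H07.stab (θ : 𝐂 V → ℂ)).map (MulAut.conjNormal : G →* MulAut V)) := by
  intro h
  obtain ⟨_, ⟨a, ha, rfl⟩, ho⟩ := exists_orderOf hM.1 h
  obtain ⟨P, hP⟩ : ∃ P, P = 𝐂 V ⊔ Subgroup.zpowers a := ⟨_, rfl⟩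
  have h2 : 𝐂 V ≤ P := hP ▸ le_sup_left
  obtain ⟨η, e1, e2⟩ := ext_of_cyclic hP θ.2 ha
  have e3 : ∀ n, η (incl h2 n) = (θ : 𝐂 V → ℂ) n := fun n => e2 n (h2 n.2)
  have e4 := isIrr_of_res h2 θ.2 e1 e3
  have h3 : (⟨η, e4⟩ : IrrCharacter P) ∈ Rt M B V P :=
    mem_rt_of_mult hM hB hD.isPGroup h1 h2 hθ (by rw [H07.mult_of_comp_eq θ.2 e3]; exact one_ne_zero)
  have h4 := isDefectGroup_blockOf hM hB hD (h1.trans h2) h2 h3.1
  have h5 := isDefectGroup_blockOf hM hB hD h1 le_rfl hθ.1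
  have h6 := factorization_degree_add p (mem_blockOf_self (M := M) (⟨η, e4⟩ : IrrCharacter P))
  rw [← h4.factorization_card hM (isPBlock_blockOf _),
    Nat.card_congr (Subgroup.subgroupOfEquivOfLe (h1.trans h2)).toEquiv] at h6
  have h7 := factorization_degree_of_ker hM (by
    rw [eq_top_iff]
    intro x _
    exact Subgroup.mem_sup_right ((mem_centralizer_subgroupOf h1 x).2 x.2))
    (isPBlock_blockOf θ) h5 (mem_blockOf_self θ) fun v hv => hθ.2 v hv
  rw [Nat.card_congr (Subgroup.subgroupOfEquivOfLe h1).toEquiv] at h7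
  have h8 : charDegree η = charDegree (θ : 𝐂 V → ℂ) := by
    have := e3 1
    rw [map_one, ← e4.charDegree_eq, ← θ.2.charDegree_eq] at this
    exact_mod_cast this
  have h9 : (𝐂 V).relIndex P = p := by
    conv_lhs => rw [← ker_conjNormal V, Subgroup.relIndex_ker, hP, Subgroup.map_sup,
      (Subgroup.map_eq_bot_iff _).2 (ker_conjNormal V).ge, bot_sup_eq, MonoidHom.map_zpowers,
      Nat.card_zpowers, ho]
  have h10 : Nat.card P = p * Nat.card (𝐂 V) := by
    rw [← h9, ← Nat.card_congr (Subgroup.subgroupOfEquivOfLe h2).toEquiv]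
    exact (Subgroup.index_mul_card _).symm
  have h11 : (charDegree η).factorization p + (Nat.card V).factorization p = _ := h6
  rw [h8, h7, h10, Nat.factorization_mul hM.1.ne_zero Nat.card_pos.ne', Finsupp.add_apply,
    hM.1.factorization_self] at h11
  omega

theorem rt_subset (u : G) : Rt M B V (Subgroup.centralizer ({u} : Set G)) ⊆ brSet M u B :=
  fun _ h => mem_brSet.2 h.1

theorem card_le_three_of_kl (hM : IsPModular p M) (hB : IsPBlock M B) (hD : IsDefectGroup p M B V)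
    (hc : IsMulCommutative V) (he : ∀ x : V, x ^ p = 1) (hl : blockRank p B = 2)
    (hk : Nat.card B = 3) : Nat.card V ≤ 3 := by
  have h1 : V ≤ 𝐂 V := Subgroup.le_centralizer V
  have hcu : ∀ u ∈ V, 𝐂 V ≤ Subgroup.centralizer ({u} : Set G) := fun u hu =>
    Subgroup.centralizer_le (Set.singleton_subset_iff.2 hu)
  obtain ⟨c, hc1, hc2⟩ := hD.exists_induced hM hB h1 le_rfl Subgroup.le_normalizer_of_normal
  obtain ⟨θ, hθ1, hθ2⟩ := hc1.1.exists_ker hM hc2.isPGroup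
  have hθ : θ ∈ Rt M B V (𝐂 V) := ⟨hc1.lam_res_eB hθ1, hθ2⟩
  have kl := fun u (hu : u ∈ V) => kl_aux hM hB hD (hk.trans (by rw [hl])) hu
  refine card_le_three (E := (H07.stab (θ : 𝐂 V → ℂ)).map MulAut.conjNormal) hM.1 hc he
    (not_dvd_card_map hM hB hD h1 hθ) ?_ ?_ ?_
  · intro v w hv hw
    obtain ⟨k1, k2⟩ := kl w w.2 fun e => hw (Subtype.ext e)
    obtain ⟨g, hg⟩ := isConj_iff.1 (k2 v v.2 fun e => hv (Subtype.ext e))
    have hg' : g⁻¹ ∈ 𝐍 (𝐂 V) := Subgroup.le_normalizer_of_normal (Subgroup.mem_top _)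
    let θ' : IrrCharacter (𝐂 V) := irrComap (H07.cjA hg') θ
    have hθ' : θ' ∈ Rt M B V (𝐂 V) := by
      refine ⟨Eq.trans ?_ ((lam_irrComap (H07.cjA hg') θ _).trans hθ.1), fun x hx => ?_⟩
      · congr 1
        exact ext_coeff fun x => ((isCen_iff.1 (isCen_eB B)) _ _).symm
      · show (θ : 𝐂 V → ℂ) (H07.cjA hg' x) = (θ : 𝐂 V → ℂ) (H07.cjA hg' 1)
        rw [map_one, hθ.2 _ (hVn.conj_mem _ hx _)]
    have h2 := hcu w w.2
    obtain ⟨ψ, a1, a2⟩ := H07.exists_mult_over (Subgroup.inclusion_injective h2) θ.2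
    obtain ⟨ψ', a3, a4⟩ := H07.exists_mult_over (Subgroup.inclusion_injective h2) θ'.2
    have h3 := (card_rt_le hM hB hD (h1.trans h2) h2 (rt_subset (w : G))).trans k1.le
    haveI := Finite.card_le_one_iff_subsingleton.1 h3
    have h4 : ψ' = ψ := congrArg (fun x : Rt M B V _ => x.1.1) (Subsingleton.elim
      ⟨⟨ψ', a3⟩, mem_rt_of_mult hM hB hD.isPGroup h1 h2 hθ' a4⟩
      ⟨⟨ψ, a1⟩, mem_rt_of_mult hM hB hD.isPGroup h1 h2 hθ a2⟩)
    subst h4
    obtain ⟨h, hh, e⟩ := H07.exists_cjA_of_under h2 Subgroup.le_normalizer_of_normal a1 θ.2 θ'.2 a2 a4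
    refine ⟨MulAut.conjNormal (h * g), ⟨h * g, ?_, rfl⟩, Subtype.ext ?_⟩
    · refine (H07.mem_stab (Subgroup.le_normalizer_of_normal (Subgroup.mem_top _))).2 fun x => ?_
      have := congrFun e (H07.cjA ((𝐍 (𝐂 V)).inv_mem_iff.1 hg') x)
      refine Eq.trans ?_ (this.symm.trans ?_)
      · exact congrArg (θ : 𝐂 V → ℂ) (Subtype.ext (by simp [mul_assoc]))
      · exact congrArg (θ : 𝐂 V → ℂ) (Subtype.ext (by simp [mul_assoc]))
    · rw [MulAut.conjNormal_apply, mul_inv_rev, mul_assoc h, mul_assoc h, ← mul_assoc _ g⁻¹, hg,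
        ← mul_assoc, Subgroup.mem_centralizer_singleton_iff.1 hh, mul_inv_cancel_right]
  · intro a ha b hb ga gb ha1 hb1
    by_contra hne
    have hab : a ≠ b := fun e => hne ⟨1, one_mem _, by simp [e]⟩
    have := card_le_rank hM hB hD h1 (hcu 1 (one_mem V)) (rt_subset 1) hθ
      (E := (H07.stab (θ : 𝐂 V → ℂ)).map MulAut.conjNormal) (by
        rw [inf_eq_right.2 fun x _ => Subgroup.mem_centralizer_singleton_iff.2 (by simp)]) {1, a, b}
      (by simp only [Finset.mem_insert, Finset.mem_singleton]; rintro _ (rfl | rfl | rfl); exacts [one_mem _, ha, hb]) ?_ (by simp [ga, gb, good_one])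
    · rw [rank_brSet_one hM (int_block hB), hl, Finset.card_eq_three.2
        ⟨1, a, b, ha1.symm, hb1.symm, hab, rfl⟩] at this
      omega
    · simp only [Finset.mem_insert, Finset.mem_singleton]
      rintro x hx y hy ⟨g, hg, e⟩
      by_cases hx1 : x = 1
      · rw [← e, hx1]; simp
      have hy1 : y ≠ 1 := fun e' => hx1 (by simpa [e'] using e)
      rcases hx.resolve_left hx1 with h2 | h2 <;> rcases hy.resolve_left hy1 with h3 | h3
      · rw [h2, h3]
      · exact absurd ⟨g, hg, h2 ▸ h3 ▸ e⟩ hne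
      · exact absurd ⟨g⁻¹, inv_mem hg, by rw [← h2, ← h3, ← e]; group⟩ hne
      · rw [h2, h3]
  · intro v hv a ha ga
    by_contra ha1
    have := card_le_rank hM hB hD h1 (hcu v v.2) (rt_subset (v : G)) hθ
      (E := st ((H07.stab (θ : 𝐂 V → ℂ)).map MulAut.conjNormal) v) ?_ {1, a}
      (by simp only [Finset.mem_insert, Finset.mem_singleton]; rintro _ (rfl | rfl); exacts [one_mem _, ha]) ?_ (by simp [ga, good_one])
    · rw [(kl v v.2 fun e => hv (Subtype.ext e)).1, Finset.card_pair (Ne.symm ha1)] at this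
      omega
    · ext x
      constructor
      · rintro ⟨⟨g, hg, rfl⟩, e⟩
        exact ⟨g, ⟨Subgroup.mem_centralizer_singleton_iff.2
          (mul_inv_eq_iff_eq_mul.1 (congrArg Subtype.val e)), hg⟩, rfl⟩
      · rintro ⟨g, ⟨h2, hg⟩, rfl⟩
        exact ⟨⟨g, hg, rfl⟩, Subtype.ext (mul_inv_eq_iff_eq_mul.2
          (Subgroup.mem_centralizer_singleton_iff.1 h2))⟩
    · simp only [Finset.mem_insert, Finset.mem_singleton]
      rintro x hx y hy ⟨g, hg, e⟩
      by_cases hx1 : x = 1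
      · rw [← e, hx1]; simp
      have hy1 : y ≠ 1 := fun e' => hx1 (by simpa [e'] using e)
      rw [hx.resolve_left hx1, hy.resolve_left hy1]

theorem card_le_three_of_normal (hM : IsPModular p M) (hB : IsPBlock M B)
    (hD : IsDefectGroup p M B V) (hc : IsMulCommutative V) (he : ∀ x : V, x ^ p = 1)
    (hk : Nat.card B ≤ 3) : Nat.card V ≤ 3 := by
  haveI := Fintype.ofFinite G
  have h1 := one_le_blockRank hM.1 hB.nonempty
  have h2 := hD.card_eq hM hB
  by_cases h3 : Nat.card B ≤ blockRank p B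
  · rw [h2, defect_zero_of_card_le_rank hM hB h3]; simp
  by_cases h4 : blockRank p B = 1
  · rw [h2, ← card_eq_of_rank_one hM hB h4 (by omega)]; exact hk
  exact card_le_three_of_kl hM hB hD hc he (by omega) (by omega)

end H21.K3
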