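import Mathlib
import Cfsg.Agent.H21.Nilp
import Cfsg.Agent.H20.Quot2

/-!
Blocks with normal defect group (namespace H21): `mem_centralizer_of_acts_as`,
`trunc_eB_of_normal`, `nilpotent_of_normal`, `nilpotent_of_dom`.
-/

set_option autoImplicit false
set_option linter.unusedSectionVars false
set_option linter.unusedVariables false

namespace H21
open H05 Cfsg H20 MonoidAlgebra Classical

local notation:max "𝐂" Q:max => Subgroup.centralizer (SetLike.coe Q)
local notation:max "𝐍" Q:max => Subgroup.normalizer (SetLike.coe Q)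

variable {M : Ideal AlgInt} [hMm : M.IsMaximal] {G K : Type*} [Group G] [Finite G] [Group K]
  [Finite K] {p : ℕ} {B : Set (IrrCharacter G)} {D : Subgroup G}

omit hMm in
theorem mem_centralizer_of_acts_as [Fact p.Prime] {Q : Subgroup G} {x r : G} {m : ℕ} (hx : x ∈ 𝐍 Q)
    (hr : r ^ p ^ m = 1) (h : ∀ u ∈ Q, x⁻¹ * u * x = r⁻¹ * u * r) (hp : ¬ p ∣ orderOf x) :
    x ∈ 𝐂 Q := by
  have c4 : ∀ n : ℕ, ∀ u ∈ Q, (x ^ n)⁻¹ * u * x ^ n = (r ^ n)⁻¹ * u * r ^ n := fun n => by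
    induction n with
    | zero => simp
    | succ n ih =>
      intro u hu
      rw [show (x ^ (n + 1))⁻¹ * u * x ^ (n + 1) = (x ^ n)⁻¹ * (x⁻¹ * u * x) * x ^ n by group,
        ih _ ((Subgroup.mem_normalizer_iff''.1 hx u).1 hu), h u hu]
      group
  refine mem_of_pow_mem (k := m) (fun u hu => ?_) hp
  have := c4 (p ^ m) u hu
  rw [hr, mul_assoc, inv_mul_eq_iff_eq_mul] at this
  simpa using this

theorem trunc_eB_of_normal (hM : IsPModular p M) (hB : IsPBlock M B) [D.Normal] (hD : IsPGroup p D)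
    {S : Subgroup G} (h : 𝐂 D ≤ S) : trunc S (eB M B) = eB M B :=
  trunc_eq_self fun g hg => by_contra fun e => hg (h (hB.mem_centralizer_of_coeff_eB hM hD e))

theorem nilpotent_of_normal (hM : IsPModular p M) (hB : IsPBlock M B) [D.Normal]
    (hD : IsDefectGroup p M B D) (h : ∀ e, POf p M B ⟨D, e⟩ → ∀ x ∈ pstab ⟨D, e⟩,
      ¬ p ∣ orderOf x → x ∈ 𝐂 D) : IsNilpotentBlock p M B := by
  haveI := Fact.mk hM.1
  refine isNilpotentBlock_iff.2 ⟨hB, fun a ha x hx hp => ?_⟩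
  have h1 : 𝐂 D ≤ 𝐂 a.1 := Subgroup.centralizer_le (ha.subConj hM hD).le_of_normal'
  have h2 : ∀ g, g ∈ 𝐍 (𝐂 D) := fun g => by rw [Subgroup.normalizer_eq_top]; trivial
  obtain ⟨ε, e1, e2⟩ := exists_isBI_mul_ne_zero (𝐂 D) (BP.isBI ha.1).ne_zero
  rw [← (e1.commute ((BP.isBI ha.1).cInv.mono h1)).eq] at e2
  obtain ⟨c, c1, c2⟩ := (BP.isBI ha.1).exists_cjA h1 (fun g _ => h2 g) e1 (e1.cjA_of_mem (h2 x)) e2 (by
    rwa [← ((BP.mem_pstab_iff ha.1).1 hx).2, ← map_mul, Ne, cjA_eq_zero_iff])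
  obtain ⟨e, e3, rfl⟩ := exists_bp_of_isBI hD.isPGroup e1
  have h4 : POf p M B ⟨D, e⟩ := (pOf_iff hM).2 ⟨e3, hB, (e3.dichotomy hM hB.eB_mul_self
    ((isCen_eB B).cInv _) ((isCen_eB B).cInv _)).resolve_right fun h5 => e2 (by
      rw [trunc_eB_of_normal hM hB hD.isPGroup le_rfl] at h5
      rw [← ha.mul_eq hM, trunc_eB_of_normal hM hB hD.isPGroup h1, (isCen_eB B).comm, mul_assoc, h5,
        mul_zero])⟩
  have h5 : c⁻¹ * x ∈ pstab ⟨D, e⟩ := e3.mem_pstab_iff.2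
    ⟨by rw [Subgroup.normalizer_eq_top]; trivial, by rw [← cjA_cjA, c2, cjA_inv_cjA]⟩
  obtain ⟨m, hm⟩ := orderOf_pPart p (c⁻¹ * x)
  refine mem_centralizer_of_acts_as (pstab_le a hx) (hm ▸ pow_orderOf_eq_one _) (fun u hu => ?_) hp
  have h6 := h1 (h e h4 _ (pReg_mem p h5) (not_dvd_orderOf_pReg p _)) u hu
  have h7 : x = c * (pReg p (c⁻¹ * x) * pPart p (c⁻¹ * x)) := by rw [pReg_mul_pPart]; group
  have h8 := c1 u hu
  generalize pReg p (c⁻¹ * x) = s at *
  generalize pPart p (c⁻¹ * x) = r at *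
  rw [h7, mul_assoc, ← mul_assoc u, h8, mul_assoc c, ← mul_assoc u, h6]
  group

theorem nilpotent_of_dom (hM : IsPModular p M) (hB : IsPBlock M B) [hDn : D.Normal]
    (hD : IsDefectGroup p M B D) {f : G →* K} (hf : Function.Surjective f) (hk : f.ker ≤ ⁅D, D⁆)
    (hn : IsNilpotentBlock p M (dom hf B)) : IsNilpotentBlock p M B := by
  haveI := Fact.mk hM.1
  haveI := charP_Res hM
  haveI := hDn.map f hf
  have n1 : ∀ (H : Subgroup G) [H.Normal] (g : G), g ∈ 𝐍 H := fun H _ g => by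
    rw [Subgroup.normalizer_eq_top]; trivial
  have h1 : ∀ x ∈ (𝐂 (D.map f)).comap f, ¬ p ∣ orderOf x → x ∈ 𝐂 D := fun x hx hp =>
    mem_centralizer_of_commutator_le hD.isPGroup hp (n1 D x) fun d hd => hk (by
      rw [MonoidHom.mem_ker, map_mul, map_mul, map_mul, hx _ ⟨d, hd, rfl⟩]; simp)
  have h2 : 𝐂 D ≤ (𝐂 (D.map f)).comap f := fun x hx => map_mem_centralizer_map f hx
  have hkD : f.ker ≤ D := hk.trans (Subgroup.commutator_le_left D D)
  refine nilpotent_of_normal hM hB hD fun e he x hx hp => ?_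
  obtain ⟨δ, d1, d2⟩ := exists_isBI_mul_ne_zero ((𝐂 (D.map f)).comap f) (BP.isBI he.1).ne_zero
  have d3 : ∀ δ, IsBI M ((𝐂 (D.map f)).comap f) δ → δ * pI M ⟨D, e⟩ ≠ 0 →
      δ * pI M ⟨D, e⟩ = pI M ⟨D, e⟩ := fun δ d1 d2 => ((BP.isBI he.1).dichotomy (d1.cInv.mono h2)
    (trunc_eq_self fun g hg => by_contra fun e => hg (h1 g (by_contra fun e' =>
      e (d1.coeff_eq_zero e')) (d1.not_dvd hM e))) d1.mul_self).resolve_right d2
  have d4 : cjA x δ * pI M ⟨D, e⟩ ≠ 0 := by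
    rwa [← ((BP.mem_pstab_iff he.1).1 hx).2, ← map_mul, Ne, cjA_eq_zero_iff]
  have d5 : δ = cjA x δ := d1.eq_of_mul_ne_zero (d1.cjA_of_mem (n1 _ x)) fun e' => d2 (by
    rw [← d3 _ (d1.cjA_of_mem (n1 _ x)) d4, ← mul_assoc, e', zero_mul])
  have d6 : IsBI M (𝐂 (D.map f)) (push f δ) := by
    obtain ⟨F, hF, rfl⟩ := d1
    have hq : PQuot p (f.subgroupComap (𝐂 (D.map f))) :=
      ⟨f.subgroupComap_surjective_of_surjective _ hf,
        (hD.isPGroup.comap_subtype).to_le fun z hz => hkD (congrArg Subtype.val hz :),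
        fun g hg z hz => Subtype.ext
          (h1 g g.2 (by simpa using hg) z (hkD (congrArg Subtype.val hz :))).symm⟩
    refine ⟨_, hq.isPBlock_dom hM hF, ?_⟩
    rw [iB, eB_dom _ hF.isInt_idem, iB]
    induction eB M F using MonoidAlgebra.induction_linear with
    | zero => simp only [map_zero]
    | add a b ha hb => simp only [map_add, ha, hb]
    | single g c => rw [push_single, inc_single, inc_single, push_single]; rfl
  obtain ⟨e', e1, e2⟩ := exists_bp_of_isBI (hD.isPGroup.map f) d6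
  have d7 := (d1.dichotomy ((isCen_eB B).cInv _) (trunc_eB_of_normal hM hB hD.isPGroup h2)
    hB.eB_mul_self).resolve_right fun e' => d2 (by
      rw [← he.mul_eq hM, trunc_eB_of_normal hM hB hD.isPGroup le_rfl, ← mul_assoc,
        ← (isCen_eB B).comm, e', zero_mul])
  refine h1 x (hn.mem (a := ⟨_, e'⟩) ((pOf_iff hM).2 ⟨e1, hn.1, ?_⟩) (e1.mem_pstab_iff.2
    ⟨by rw [Subgroup.normalizer_eq_top]; trivial, ?_⟩) (not_dvd_orderOf_map f hp)) hp
  · rw [e2, eB_dom _ hB.isInt_idem, trunc_push_centralizer f hD.isPGroup ((isCen_eB B).cInv _),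
      trunc_eB_of_normal hM hB hD.isPGroup le_rfl, ← map_mul, d7]
  · rw [e2]
    conv_rhs => rw [d5, cjA_eq, map_mul, map_mul, push_single, push_single, map_inv, ← cjA_eq]

end H21
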