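import Cfsg.Agent.H24.PSolv
import Cfsg.Agent.H03.PResidual
import Cfsg.Agent.H02.Frattini
import Cfsg.Agent.H02.MinNormal
import Cfsg.Agent.H01.SZ

/-! Maximal subgroups `p`-nilpotent or of prime index: `p`-nilpotent by `p`-nilpotent. -/

namespace H21.PL2
open Cfsg Subgroup H03 Pointwise

universe u
variable {p : ℕ} [hp : Fact p.Prime]

theorem fr {G : Type*} [Group G] [Finite G] (V J : Subgroup G) [hVn : V.Normal] [J.Normal] (hVJ : V ≤ J)
    (hV : IsPGroup p V) (hF : V ≤ frattini G) (hc : (V.relIndex J).Coprime p) :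
    ∃ L : Subgroup G, L.Normal ∧ (Nat.card L).Coprime p ∧ J ≤ V ⊔ L := by
  have h1 : IsPGroup p (V.subgroupOf J) := hV.comap_subtype
  obtain ⟨k, hk⟩ := IsPGroup.iff_card.1 h1
  have h2 : (Nat.card (V.subgroupOf J)).Coprime (V.subgroupOf J).index := by
    rw [hk]; exact (Nat.Coprime.pow_right k hc).symm
  obtain ⟨K, hK⟩ := exists_right_complement'_of_coprime h2
  have h3 : Nat.card K = V.relIndex J := hK.symm.index_eq_card.symm
  refine ⟨K.map J.subtype, normalizer_eq_top_iff.1 (H02.eq_top_of_sup_le_frattini hF ?_),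
    by rw [card_map_of_injective J.subtype_injective, h3]; exact hc, fun x hx => ?_⟩
  · refine eq_top_iff.2 fun g _ => ?_
    have h4 : Nat.card (K.map (MulAut.conjNormal g : J ≃* J).toMonoidHom) = Nat.card K :=
      card_map_of_injective (MulAut.conjNormal g : J ≃* J).injective
    haveI := h1.isNilpotent
    obtain ⟨v, hv, e⟩ := H01.sz_conj' (N := V.subgroupOf J) (H := K)
      (K := K.map (MulAut.conjNormal g : J ≃* J).toMonoidHom) (h3 ▸ h2) (Or.inl inferInstance) hK
      (isComplement'_of_coprime (by rw [h4, hK.card_mul]) (by rw [h4, h3]; exact h2))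
    have : (v : G)⁻¹ * g ∈ normalizer (K.map J.subtype : Set G) := by
      refine mem_normalizer_fintype ?_
      rintro _ ⟨n, hn, rfl⟩
      have h5 : MulAut.conjNormal g n ∈ MulAut.conj v • K := e ▸ mem_map_of_mem _ hn
      refine ⟨_, mem_pointwise_smul_iff_inv_smul_mem.1 h5, ?_⟩
      simp [mul_assoc]
    simpa using mul_mem (mem_sup_right (S := normalizer (K.map J.subtype : Set G)) (show (v : G) ∈ V from hv))
      (mem_sup_left this)
  · obtain ⟨⟨a, b⟩, e⟩ := hK.2 ⟨x, hx⟩
    rw [show x = (a : J) * (b : J) from (congrArg Subtype.val e).symm]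
    exact mul_mem (mem_sup_left a.2) (mem_sup_right (mem_map_of_mem _ b.2))

theorem npc_prod {G H : Type*} [Group G] [Finite G] [Group H] [Finite H] (h1 : HasNormalPComplement p G)
    (h2 : HasNormalPComplement p H) : HasNormalPComplement p (G × H) := by
  rw [hasNPC_iff_mul_closed] at h1 h2 ⊢
  intro x y hx hy
  rw [Prod.orderOf] at hx hy ⊢
  exact Nat.Coprime.coprime_dvd_left (Nat.lcm_dvd_mul _ _) (Nat.Coprime.mul_left
    (h1 _ _ (hx.coprime_dvd_left (Nat.dvd_lcm_left _ _)) (hy.coprime_dvd_left (Nat.dvd_lcm_left _ _)))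
    (h2 _ _ (hx.coprime_dvd_left (Nat.dvd_lcm_right _ _)) (hy.coprime_dvd_left (Nat.dvd_lcm_right _ _))))

theorem main (n : ℕ) : ∀ (G : Type u) [Group G] [Finite G], Nat.card G ≤ n → IsPSolvable p G →
    (∀ M : Subgroup G, IsCoatom M → HasNormalPComplement p M ∨ M.index.Prime) →
    ∃ (B : Subgroup G) (_ : B.Normal), HasNormalPComplement p B ∧ HasNormalPComplement p (G ⧸ B) := by
  induction n with
  | zero => intro G _ _ h; have := Nat.card_pos (α := G); omega
  | succ n ih =>
  intro G _ _ hn hG hmax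
  rcases subsingleton_or_nontrivial G with h | h
  · exact ⟨⊤, inferInstance, hasNPC_of_isPGroup (IsPGroup.of_card (n := 0) (by simp)),
      hasNPC_of_isPGroup (IsPGroup.of_card (n := 0) (by simp))⟩
  obtain ⟨V, hV, hV1, -, hmin'⟩ := H02.exists_chief_factor (G := G) (K := ⊥) (L := ⊤) bot_lt_top
  have hmin : ∀ M : Subgroup G, M.Normal → M ≤ V → M = ⊥ ∨ M = V := fun M a b => hmin' M a bot_le b
  let f := QuotientGroup.mk' V
  have hf : Function.Surjective f := QuotientGroup.mk'_surjective V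
  obtain ⟨B₀, _, h1, h2⟩ := ih (G ⧸ V) (by
      have := card_eq_card_quotient_mul_card_subgroup V
      have h2 := (one_lt_card_iff_ne_bot V).2 hV1.ne'
      have := Nat.card_pos (α := G ⧸ V)
      nlinarith) (H24.PS.quotient hG V) fun M hM =>
    (hmax (M.comap f) (isCoatom_comap_of_surjective hf hM)).imp
      (fun h => map_comap_eq_self_of_surjective hf M ▸ HasNPC.map h f) fun h => index_comap_of_surjective M hf ▸ h
  let B := B₀.comap f
  have hVB : V ≤ B := fun x hx => by
    show f x ∈ B₀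
    rw [show f x = 1 from (QuotientGroup.eq_one_iff x).2 hx]; exact one_mem _
  have h3 : HasNormalPComplement p (G ⧸ B) :=
    HasNPC.of_injective h2 (QuotientGroup.map B B₀ f le_rfl) (by
      rw [injective_iff_map_eq_one]
      intro q hq
      obtain ⟨x, rfl⟩ := QuotientGroup.mk_surjective q
      exact (QuotientGroup.eq_one_iff x).2 ((QuotientGroup.eq_one_iff (f x)).1 hq))
  have h4 : ∀ C ≤ B, HasNormalPComplement p (C ⧸ (f.subgroupMap C).ker) := fun C hC =>
    HasNPC.of_injective (HasNPC.of_le h1 (map_le_iff_le_comap.2 hC)) _ (QuotientGroup.kerLift_injective _)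
  have h5 : ∀ (C : Subgroup G) (x : C), x ∈ (f.subgroupMap C).ker → (x : G) ∈ V := fun C x hx =>
    (QuotientGroup.eq_one_iff (x : G)).1 (congrArg Subtype.val hx)
  rcases H24.PS.minimal_normal (H24.PS.subgroup hG V) hmin with hpV | hpV
  swap
  · refine ⟨B, inferInstance, hasNPC_of_quotient_coprime _ (card_coprime_of_forall_orderOf fun g hg => ?_) (h4 B le_rfl), h3⟩
    rw [← orderOf_coe]; exact orderOf_coprime_of_mem hpV (h5 _ _ hg)
  by_cases hF : V ≤ frattini G
  · obtain ⟨L, _, hL, hJ⟩ := fr V (((pResidual p B₀).map B₀.subtype).comap f) (fun x hx => by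
      rw [mem_comap, show f x = 1 from (QuotientGroup.eq_one_iff x).2 hx]; exact one_mem _) hpV hF (by
      rw [H24.relIndex_eq_card_map, map_comap_eq_self_of_surjective hf, card_map_of_injective B₀.subtype_injective]
      exact hasNPC_iff_coprime.1 h1)
    refine ⟨B, inferInstance, hasNPC_of_normal (L.subgroupOf B) (card_coprime_of_forall_orderOf fun g hg => ?_)
      fun q => ?_, h3⟩
    · rw [← orderOf_coe]; exact orderOf_coprime_of_mem hL hg
    obtain ⟨x, rfl⟩ := QuotientGroup.mk_surjective q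
    obtain ⟨k, hk⟩ := isPGroup_quotient_pResidual (p := p) (G := B₀) (QuotientGroup.mk ⟨f x, x.2⟩)
    rw [← QuotientGroup.mk_pow, QuotientGroup.eq_one_iff] at hk
    obtain ⟨v, hv, l, hl, e⟩ := mem_sup_of_normal_right.1 (hJ (x := x ^ p ^ k) ⟨_, hk, by simp⟩)
    obtain ⟨j, hj⟩ := hpV ⟨v, hv⟩
    refine ⟨k + j, ?_⟩
    rw [← QuotientGroup.mk_pow, QuotientGroup.eq_one_iff, mem_subgroupOf, ← QuotientGroup.eq_one_iff]
    have : v ^ p ^ j = 1 := congrArg Subtype.val hj
    rw [coe_pow, pow_add, pow_mul, ← e, QuotientGroup.mk_pow, QuotientGroup.mk_mul, (QuotientGroup.eq_one_iff l).2 hl,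
      mul_one, ← QuotientGroup.mk_pow, this, QuotientGroup.mk_one]
  obtain ⟨M, hM, hVM, hs⟩ := H02.exists_coatom_sup_eq_top hF
  haveI := hpV.isNilpotent
  obtain ⟨hc, -⟩ := H02.minimal_normal_elementary_of_isSolvable hV1.ne' hmin
  have hVD : V ≤ centralizer (V : Set G) := le_centralizer V
  have h6 : HasNormalPComplement p (G ⧸ centralizer (V : Set G)) := by
    rcases hmax M hM with h | h
    · refine HasNPC.of_surjective h ((QuotientGroup.mk' _).comp M.subtype) fun q => ?_
      obtain ⟨x, rfl⟩ := QuotientGroup.mk_surjective q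
      obtain ⟨m, hm, v, hv, rfl⟩ := mem_sup_of_normal_right.1 (hs ▸ mem_top x)
      exact ⟨⟨m, hm⟩, by simp [(QuotientGroup.eq_one_iff v).2 (hVD hv)]⟩
    have h7 : M ⊓ V = ⊥ := by
      refine (hmin _ ⟨fun x hx g => ?_⟩ inf_le_right).resolve_right fun e => hVM (e ▸ inf_le_left)
      obtain ⟨m, hm, v, hv, rfl⟩ := mem_sup_of_normal_right.1 (hs ▸ mem_top g)
      have : m * v * x * (m * v)⁻¹ = m * x * m⁻¹ := by rw [mul_assoc m, ← hVD hv x hx.2]; group
      rw [this]
      exact ⟨M.mul_mem (M.mul_mem hm hx.1) (M.inv_mem hm), hV.conj_mem _ hx.2 _⟩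
    have h8 : M.index = Nat.card V :=
      (isComplement'_of_disjoint_and_mul_eq_univ (H := V) (K := M) (disjoint_iff.2 (inf_comm M V ▸ h7)) (by
        rw [← normal_mul, sup_comm, hs]; rfl)).index_eq_card
    rw [h8] at h
    obtain ⟨k, hk⟩ := IsPGroup.iff_card.1 hpV
    have h9 : Nat.card V = p := by
      rw [hk] at h ⊢; rw [h.eq_one_of_pow, pow_one]
    haveI := isCyclic_of_prime_card h9
    refine hasNPC_of_not_dvd fun hd => ?_
    have e : centralizer (V : Set G) = (MulAut.conjNormal : G →* MulAut V).ker := by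
      ext g
      rw [MonoidHom.mem_ker, MulEquiv.ext_iff, mem_centralizer_iff]
      simp only [MulAut.one_apply, Subtype.ext_iff, MulAut.conjNormal_apply, mul_inv_eq_iff_eq_mul]
      exact ⟨fun h x => (h x x.2).symm, fun h x hx => (h ⟨x, hx⟩).symm⟩
    change p ∣ (centralizer (V : Set G)).index at hd
    rw [e, index_ker] at hd
    have := hd.trans (card_subgroup_dvd_card _)
    rw [IsCyclic.card_mulAut, h9, Nat.totient_prime hp.out] at this
    have := Nat.le_of_dvd (by have := hp.out.two_le; omega) this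
    have := hp.out.two_le
    omega
  refine ⟨B ⊓ centralizer (V : Set G), inferInstance, hasNPC_of_quotient_center _ (fun x hx => ?_) (h4 _ inf_le_left),
    HasNPC.of_injective (npc_prod h3 h6) (QuotientGroup.lift _ ((QuotientGroup.mk' _).prod (QuotientGroup.mk' _))
      fun x hx => Prod.ext ((QuotientGroup.eq_one_iff x).2 hx.1) ((QuotientGroup.eq_one_iff x).2 hx.2)) ?_⟩
  · exact mem_center_iff.2 fun g => Subtype.ext (g.2.2 _ (h5 _ _ hx)).symm
  · rw [injective_iff_map_eq_one]
    intro q hq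
    obtain ⟨x, rfl⟩ := QuotientGroup.mk_surjective q
    exact (QuotientGroup.eq_one_iff x).2 ⟨(QuotientGroup.eq_one_iff x).1 (congrArg Prod.fst hq),
      (QuotientGroup.eq_one_iff x).1 (congrArg Prod.snd hq)⟩

theorem chain {G : Type*} [Group G] [Finite G] (hG : IsPSolvable p G)
    (hmax : ∀ M : Subgroup G, IsCoatom M →
      (∃ K : Subgroup ↥M, K.Normal ∧ ¬ p ∣ Nat.card K ∧ ∃ k : ℕ, K.index = p ^ k) ∨ (M.index).Prime) :
    ∃ A B C : Subgroup G, A.Normal ∧ B.Normal ∧ C.Normal ∧ A ≤ B ∧ B ≤ C ∧ ¬ p ∣ Nat.card A ∧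
      (∃ k : ℕ, A.relIndex B = p ^ k) ∧ ¬ p ∣ B.relIndex C ∧ ∃ k : ℕ, C.index = p ^ k := by
  obtain ⟨B, _, h1, h2⟩ := main _ G le_rfl hG fun M hM => (hmax M hM).imp_left fun ⟨K, _, h1, h2⟩ =>
    hasNPC_of_normal K (coprime_iff_not_dvd.2 h1) ((isPGroup_quotient_iff_index K).2 h2)
  have hf := QuotientGroup.mk'_surjective B
  refine ⟨(pResidual p B).map B.subtype, B, (pResidual p (G ⧸ B)).comap (QuotientGroup.mk' B), inferInstance,
    inferInstance, inferInstance, map_subtype_le _, fun x hx => ?_, ?_, ?_, ?_, ?_⟩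
  · rw [mem_comap, show QuotientGroup.mk' B x = 1 from (QuotientGroup.eq_one_iff x).2 hx]; exact one_mem _
  · rw [card_map_of_injective B.subtype_injective]; exact hasNPC_iff_not_dvd_card_pResidual.1 h1
  · rw [relIndex, subgroupOf, comap_map_eq_self_of_injective B.subtype_injective]; exact exists_index_pResidual
  · rw [H24.relIndex_eq_card_map, map_comap_eq_self_of_surjective hf]; exact hasNPC_iff_not_dvd_card_pResidual.1 h2
  · rw [index_comap_of_surjective _ hf]; exact exists_index_pResidual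

end H21.PL2
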