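import Mathlib
import Cfsg.Agent.H21.FrobB
import Cfsg.Agent.H21.K5

/-!
Local tools for tame blocks (namespace H21).
* `Dsc` : descent of a maximal pair to a subgroup between `C(a.1)` and `pstab a`.
* `Mx.cross` : contributions of non-fused subsections are orthogonal.
* `Mx.sum_wt` : sums over fusion classes with weights.
* `rank_one_of_center` : blocks of defect at most two with a central element.
-/

set_option autoImplicit false
set_option linter.unusedSectionVars false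
set_option linter.unusedVariables false

namespace H21
open H05 Cfsg H20 MonoidAlgebra Classical
open scoped ComplexConjugate

local notation:max "𝐂" Q:max => Subgroup.centralizer (SetLike.coe Q)
local notation:max "𝐍" Q:max => Subgroup.normalizer (SetLike.coe Q)
local notation:max "⟪" u "⟫" => Subgroup.zpowers u

attribute [-instance] H19.instFintypeSubgroupFrob

section equiv
variable {G K : Type*} [Group G] [Fintype G] [Group K] [Fintype K] {p : ℕ}

theorem blockPart_bmap (e : K ≃* G) (B : Set (IrrCharacter G)) (θ : G → ℂ) :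
    blockPart (bmap e B) (fun x => θ (e x)) = fun x => blockPart B θ (e x) := by
  ext x
  simp only [blockPart]
  rw [finsum_mem_bmap]
  refine finsum_mem_congr rfl fun χ _ => ?_
  rw [irrComap_apply, coe_irrComap, @classInner_comp_mulEquiv G _ (Fintype.ofFinite G)]

theorem contrib_comp_equiv (e : K ≃* G) (θ φ : G → ℂ) :
    contrib p (fun x => θ (e x)) (fun x => φ (e x)) = contrib p θ φ := by
  rw [contrib, contrib, ← classInner_comp_mulEquiv _ _ e]
  congr 1
  ext x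
  by_cases h : p ∣ orderOf x <;> simp [pRegularPart, IsPRegular, h]

end equiv

variable {M : Ideal AlgInt} [hMm : M.IsMaximal] {G : Type*} [Group G] [Fintype G] {p : ℕ}
  {B : Set (IrrCharacter G)} {a b c d : BrauerPairIdx G} {u v w x t : G} {χ ψ θ η η' : G → ℂ}
  {H : Subgroup G}

omit hMm in
theorem Dn.contrib_bs {K : Subgroup G} {K' : Subgroup H} {f : Set (IrrCharacter K)}
    {g : Set (IrrCharacter K')} (h : Dn H K' g K f) [i1 : Fintype K] [i2 : Fintype K'] (u : H)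
    (χ ψ : G → ℂ) : contrib p (bs g u fun y : H => χ y) (bs g u fun y : H => ψ y) =
      contrib p (bs f u χ) (bs f u ψ) := by
  revert i2
  refine h.ind (fun K' g => ∀ [Fintype K'], contrib p (bs g u fun y : H => χ y)
    (bs g u fun y : H => ψ y) = contrib p (bs f u χ) (bs f u ψ)) ?_
  intro i2
  rw [← contrib_comp_equiv (Subgroup.subgroupOfEquivOfLe h.le), bs, bs, bs, bs,
    ← blockPart_bmap, ← blockPart_bmap]
  rfl

omit hMm in
theorem Dn.defect {K : Subgroup G} {K' : Subgroup H} {f : Set (IrrCharacter K)}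
    {g : Set (IrrCharacter K')} (h : Dn H K' g K f) : blockDefect p g = blockDefect p f :=
  h.ind (fun _ g => blockDefect p g = blockDefect p f) (blockDefect_bmap _ f)

/-- the pair `c'` of `H` is the pair `c` -/
structure DP (H : Subgroup G) (c' : BrauerPairIdx H) (c : BrauerPairIdx G) : Prop where
  le : c.1 ≤ H
  eq : c'.1 = c.1.subgroupOf H
  dn : Dn H (𝐂 c'.1) c'.2 (𝐂 c.1) c.2

omit hMm in
theorem exists_dp (h1 : c.1 ≤ H) (h2 : 𝐂 c.1 ≤ H) : ∃ c', DP H c' c := by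
  obtain ⟨g, hg⟩ := exists_dn h2 (centralizer_subgroupOf' h1) c.2
  exact ⟨⟨c.1.subgroupOf H, g⟩, h1, rfl, hg⟩

theorem DP.bp {c' : BrauerPairIdx H} (h : DP H c' c) (hc : BP p M c) : BP p M c' :=
  ⟨h.eq ▸ hc.1.comap_subtype, h.dn.blk.2 hc.2⟩

omit hMm in
theorem DP.cjP_eq_iff {c' d' : BrauerPairIdx H} (h : DP H c' c) (h' : DP H d' d) (x : H) :
    cjP x c' = d' ↔ cjP (x : G) c = d := by
  have e : (cj x c'.1) = (cj (x : G) c.1).subgroupOf H := by
    rw [h.eq]; ext y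
    rw [mem_cj, Subgroup.mem_subgroupOf, Subgroup.mem_subgroupOf, mem_cj]; rfl
  constructor
  · intro h1
    refine pair_ext ?_ (by rw [iI_cjP, ← h.dn.inc, ← inc_cjA, ← iI_cjP, h1, h'.dn.inc])
    rw [cjP_fst, ← subgroupOf_inj_of_le (cj_le_of_mem h.le x.2) h'.le, ← e, ← h'.eq, ← h1, cjP_fst]
  · intro h1
    refine pair_ext (by rw [cjP_fst, e, h'.eq, ← h1, cjP_fst]) (inc_injective H ?_)
    rw [iI_cjP, inc_cjA, h.dn.inc, ← iI_cjP, h1, h'.dn.inc]

theorem DP.pn (hM : IsPModular p M) {c' d' : BrauerPairIdx H} (h : DP H c' c) (h' : DP H d' d)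
    (h1 : PN p M c d) : PN p M c' d' := by
  obtain ⟨h2, h3, h4, h5, h6⟩ := (pn_iff hM).1 h1
  refine (pn_iff hM).2 ⟨h.bp h2, h'.bp h3, ?_, fun x hx => ?_, ?_⟩
  · rw [h.eq, h'.eq]; exact Subgroup.subgroupOf_mono _ h4
  · rw [h'.eq] at hx
    exact (h.cjP_eq_iff h x).2 (h5 hx)
  · have := h'.dn.trunc_mul h'.le (a := pI M c') (by rw [h.dn.iB]; exact h6)
    rwa [← h'.eq] at this

theorem DP.ple (hM : IsPModular p M) {d' : BrauerPairIdx H} (h' : DP H d' d)
    (h1 : PLE p M c d) : ∀ c', DP H c' c → PLE p M c' d' := by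
  induction h1 using Relation.ReflTransGen.head_induction_on with
  | refl =>
    intro c' h
    have := (h.cjP_eq_iff h' 1).2 (cjP_one _)
    rw [cjP_one] at this
    exact this ▸ Relation.ReflTransGen.refl
  | head h2 h3 ih =>
    intro c' h
    have h4 : PN p M _ _ := h2
    obtain ⟨e', he⟩ := exists_dp ((PLE.le h3).trans h'.le)
      ((centralizer_anti h4.ple.le).trans h.dn.le)
    exact (h.pn hM he h4).ple.trans (ih e' he)

variable (M p) in
/-- descent of a maximal pair -/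
structure Dsc (b : BrauerPairIdx G) (R : Subgroup G) (H : Subgroup G) (F : Set (IrrCharacter H))
    (b' : BrauerPairIdx H) : Prop where
  mx : Mx M p F b'
  dp : DP H b' b
  cen : 𝐂 R ≤ H
  nor : H ≤ 𝐍 R

namespace Mx
variable (h : Mx M p B b)
include h

theorem exists_dsc (ha : PLE p M a b) (h1 : 𝐂 a.1 ≤ H) (h2 : H ≤ pstab a) (h3 : b.1 ≤ H)
    {F : Set (IrrCharacter H)} (hF : IsPBlock M F) (e : iB M H F = pI M a) :
    ∃ b', Dsc M p b a.1 H F b' := by
  obtain ⟨b', hb'⟩ := exists_dp h3 ((centralizer_anti ha.le).trans h1)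
  refine ⟨b', ⟨h.mod, POf.pMax_of_isDefectGroup h.mod ((pOf_iff h.mod).2 ⟨hb'.bp h.bp, hF, ?_⟩) ?_⟩,
    hb', h1, h2.trans (pstab_le a)⟩
  · have := hb'.dn.trunc_mul' h3 (F := F) (by
      rw [e]; exact (ha.pn h.mod h.bp (h3.trans (h2.trans (pstab_le a)))).mul_eq h.mod)
    rwa [← hb'.eq] at this
  · rw [hb'.eq, ← maxBr_iB_iff h.mod hF h3, e]
    exact h.max.maxBr_of_le_centralizer h.mod ha h3 h2

theorem cross (hv : v ∈ b.1) (hw : w ∈ b.1) (h1 : ¬ Fus M p b v w) (f g : G → ℂ) :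
    ∑ χ with χ ∈ B, mv M p b v f χ * mv M p b w χ g = 0 := by
  have h2 : ∀ χ ∈ B, ∑ ψ with ψ ∈ B, mv M p b v (χ : G → ℂ) ψ * mv M p b w ψ g = 0 := by
    intro χ hχ
    have hc := χ.2.isClassFunction
    have h3 := h.mv_st (η := fi M p b v) h.fSt_fi hc hw g
    rw [fi, if_neg h1, zero_mul, ← h.blockPart_st h.fSt_fi hc, blockPart_eq_sum_smul,
      mv_sum_left] at h3
    rw [← h3]
    exact Finset.sum_congr rfl fun ψ _ => by
      rw [mv_smul_left, h.inner_st_fi hv hc ψ.2.isClassFunction]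
  rw [Finset.sum_congr rfl fun χ _ => by rw [← h.sum_mv_mul hv f, Finset.sum_mul],
    Finset.sum_comm]
  refine Finset.sum_eq_zero fun χ hχ => ?_
  simp_rw [mul_assoc]
  rw [← Finset.mul_sum, h2 χ (Finset.mem_filter.1 hχ).2, mul_zero]

theorem sum_wt (ρ : G → ℂ) (hρ : ∀ u ∈ b.1, ∑ w with Fus M p b u w, ρ w = 1) (F : G → ℂ)
    (hF : ∀ v ∈ b.1, ∀ w, Fus M p b v w → F w = F v) :
    ∑ v with v ∈ b.1, (nf M p b v : ℂ)⁻¹ * F v = ∑ v with v ∈ b.1, ρ v * F v := by
  have e : ∀ v w, v ∈ b.1 ∧ Fus M p b v w ↔ w ∈ b.1 ∧ Fus M p b w v :=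
    fun v w => ⟨fun e => ⟨e.2.mem, h.fus_symm e.1 e.2⟩, fun e => ⟨e.2.mem, h.fus_symm e.1 e.2⟩⟩
  calc _ = ∑ v with v ∈ b.1, ∑ w with Fus M p b v w, (nf M p b w : ℂ)⁻¹ * (ρ w * F w) :=
        Finset.sum_congr rfl fun v hv => by
          have hv := (Finset.mem_filter.1 hv).2
          rw [← one_mul (F v), ← hρ v hv, Finset.sum_mul, Finset.mul_sum]
          exact Finset.sum_congr rfl fun w hw => by
            rw [h.nf_congr hv (Finset.mem_filter.1 hw).2, hF v hv w (Finset.mem_filter.1 hw).2]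
    _ = ∑ w with w ∈ b.1, ∑ v with Fus M p b w v, (nf M p b w : ℂ)⁻¹ * (ρ w * F w) :=
        Finset.sum_comm' fun v w => by simpa [and_comm] using e v w
    _ = _ := Finset.sum_congr rfl fun w hw => by
        rw [Finset.sum_const, ← nf, nsmul_eq_mul, mul_inv_cancel_left₀
          (by exact_mod_cast (h.nf_pos (Finset.mem_filter.1 hw).2).ne')]

theorem mv_blockPart (hθ : IsClassFunction G θ) (hv : v ∈ b.1) (ψ : G → ℂ) :
    mv M p b v (blockPart B θ) ψ = mv M p b v θ ψ := by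
  rw [mv_eq_sum, mv_eq_sum]
  exact congrArg _ (Finset.sum_congr rfl fun c hc => by
    rw [h.bs_blockPart hθ hv (Finset.mem_filter.1 hc).2])

theorem rank_congr (hv : v ∈ b.1) (h1 : Fus M p b v w) :
    blockRank p (sb M p b w) = blockRank p (sb M p b v) := by
  have := h.sum_mv_self hv
  rw [← Finset.sum_congr rfl fun χ _ => h.mv_congr χ.2.isClassFunction χ.2.isClassFunction h1,
    h.sum_mv_self h1.mem] at this
  exact_mod_cast this

end Mx

namespace Dsc
variable {R : Subgroup G} {F : Set (IrrCharacter H)} {b' : BrauerPairIdx H}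
  (hb : Mx M p B b) (h : Dsc M p b R H F b') {v w : H}
include h

theorem mem : v ∈ b'.1 ↔ (v : G) ∈ b.1 := by rw [h.dp.eq, Subgroup.mem_subgroupOf]

theorem le : b.1 ≤ H := h.dp.le

include hb

theorem dp_sp (hv : (v : G) ∈ b.1) (hR : R ≤ ⟪(v : G)⟫) : DP H (sp M p b' v) (sp M p b v) := by
  have h1 : ⟪(v : G)⟫ ≤ H := Subgroup.zpowers_le.2 v.2
  obtain ⟨c', hc⟩ := exists_dp (c := sp M p b v) h1 ((centralizer_anti hR).trans h.cen)
  rwa [← h.mx.eq_sp (h.dp.ple hb.mod (hb.sp_ple hv) c' hc) (v := v)]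
  rw [hc.eq]
  ext y
  simp only [Subgroup.mem_subgroupOf, Subgroup.mem_zpowers_iff, Subtype.ext_iff, Subgroup.coe_zpow]

theorem mv_eq (hv : (v : G) ∈ b.1) (hR : R ≤ ⟪(v : G)⟫) (χ ψ : G → ℂ) :
    mv M p b' v (fun y => χ y) (fun y => ψ y) = mv M p b v χ ψ :=
  (h.dp_sp hb hv hR).dn.contrib_bs v χ ψ

theorem rank_eq (hv : (v : G) ∈ b.1) (hR : R ≤ ⟪(v : G)⟫) :
    blockRank p (sb M p b' v) = blockRank p (sb M p b v) := (h.dp_sp hb hv hR).dn.rank

theorem fus_up (hv : (v : G) ∈ b.1) (hR : R ≤ ⟪(v : G)⟫) (hR' : R ≤ ⟪(w : G)⟫)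
    (h1 : Fus M p b' v w) : Fus M p b v w := by
  have hw := h.mem.1 h1.mem
  obtain ⟨x, rfl, h2⟩ := h1
  refine ⟨x, rfl, ?_⟩
  rw [((h.dp_sp hb hv hR).cjP_eq_iff (h.dp_sp hb hw hR') x).1 (h.mx.cjP_sp h2)]
  exact hb.sp_ple hw

theorem fus_down (hv : (v : G) ∈ b.1) (hR : R ≤ ⟪(v : G)⟫) (hR' : R ≤ ⟪(w : G)⟫) {x : G}
    (hx : x ∈ H) (h1 : x * v * x⁻¹ = w) (h2 : PLE p M (cjP x (sp M p b v)) b) :
    Fus M p b' v w := by
  have hw : (w : G) ∈ b.1 := Fus.mem ⟨x, h1, h2⟩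
  refine ⟨⟨x, hx⟩, Subtype.ext h1, ?_⟩
  rw [((h.dp_sp hb hv hR).cjP_eq_iff (h.dp_sp hb hw hR') ⟨x, hx⟩).2 (by rw [hb.cjP_sp h2, h1])]
  exact h.mx.sp_ple (h.mem.2 hw)

end Dsc

theorem rank_one_of_center (hM : IsPModular 2 M) (hB : IsPBlock M B) (hu : u ∈ Subgroup.center G)
    (hu1 : u ≠ 1) (hu2 : ∃ k, orderOf u = 2 ^ k) (hd : blockDefect 2 B ≤ 2) :
    blockRank 2 B = 1 := by
  have hZ : ⟪u⟫ ≤ Subgroup.center G := Subgroup.zpowers_le.2 hu
  haveI : (⟪u⟫).Normal :=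
    ⟨fun n hn g => by rw [Subgroup.mem_center_iff.1 (hZ hn) g, mul_inv_cancel_right]; exact hn⟩
  have hq := pQuot_of_center (p := 2)
    (hu2.elim fun k hk => IsPGroup.of_card ((Nat.card_zpowers u).trans hk)) hZ
  have h6 := hq.isPBlock_dom hM hB
  have h7 := hq.pow_blockDefect_dom hM hB
  rw [← hq.blockRank_dom hM hB.isInt_idem]
  rw [QuotientGroup.ker_mk', Nat.card_zpowers] at h7
  have h8 : blockDefect 2 (dom hq.surj B) < blockDefect 2 B :=
    (Nat.pow_lt_pow_iff_right one_lt_two).1 (by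
      rw [h7]
      exact lt_mul_left (by positivity) (Nat.one_lt_iff_ne_zero_and_ne_one.2 ⟨(orderOf_pos _).ne',
        fun e => hu1 (orderOf_eq_one_iff.1 e)⟩))
  have h9 := ((Cfsg.Agent.S4698.result 2 M hM _ h6 _ rfl).1 (by omega)).trans
    (Nat.pow_le_pow_right two_pos (show _ ≤ 1 by omega))
  have h10 := one_le_blockRank Nat.prime_two (block_nonempty h6)
  by_contra e
  exact e (rank_eq_one_of_defect_zero hM h6 (defect_zero_of_card_le_rank hM h6 (by omega)))

end H21
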