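import Mathlib
import Cfsg.Agent.H21.Dih
import Cfsg.Agent.H20.BlkFus

/-!
Two-groups of maximal class in uniform coordinates (namespace H21): `MC D σ τ k δ`.
-/

set_option autoImplicit false
set_option linter.unusedSectionVars false
set_option linter.unusedVariables false

namespace H21
open H05 Cfsg H20 Classical
open scoped ComplexConjugate

local notation:max "𝐂" Q:max => Subgroup.centralizer (SetLike.coe Q)
local notation:max "⟪" u "⟫" => Subgroup.zpowers u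

/-- the cyclic index set -/
abbrev ZK (k : ℕ) := ZMod (2 ^ (k + 2))

/-- the index of the involution -/
def hh (k : ℕ) : ZK k := 2 ^ (k + 1)

/-- the index of an element of order four -/
def qq (k : ℕ) : ZK k := 2 ^ k

/-- the action on indices -/
def ee (k δ : ℕ) : ZK k := -1 + δ * hh k

section arith
variable {k δ : ℕ} {l : ZK k}

theorem two_qq : 2 * qq k = hh k := (pow_succ' (2 : ZK k) k).symm

theorem two_hh : 2 * hh k = 0 := by
  have := ZMod.natCast_self (2 ^ (k + 2))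
  push_cast at this
  rw [hh]; linear_combination this

theorem cast_hh : ((2 ^ (k + 1) : ℕ) : ZK k) = hh k := by simp [hh]

theorem val_hh : (hh k).val = 2 ^ (k + 1) := by
  rw [← cast_hh, ZMod.val_natCast, Nat.mod_eq_of_lt (Nat.pow_lt_pow_right one_lt_two (by omega))]

theorem val_qq : (qq k).val = 2 ^ k := by
  rw [show qq k = ((2 ^ k : ℕ) : ZK k) by simp [qq], ZMod.val_natCast,
    Nat.mod_eq_of_lt (Nat.pow_lt_pow_right one_lt_two (by omega))]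

theorem hh_ne : hh k ≠ 0 := fun e => by
  have := val_hh (k := k)
  rw [e, ZMod.val_zero] at this
  exact (by positivity : 2 ^ (k + 1) ≠ 0) this.symm

theorem neg_hh : -hh k = hh k := by rw [neg_eq_iff_add_eq_zero, ← two_mul, two_hh]

theorem hh_sq : hh k * hh k = 0 := by
  linear_combination qq k * two_hh (k := k) - hh k * two_qq (k := k)

theorem two_mul_eq_zero : 2 * l = 0 ↔ l = 0 ∨ l = hh k := by
  refine ⟨fun h => ?_, by rintro (rfl | rfl) <;> simp [two_hh]⟩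
  have h1 : 2 ^ (k + 2) ∣ 2 * l.val := (ZMod.natCast_eq_zero_iff _ _).1 (by simpa using h)
  obtain ⟨c, hc⟩ : 2 ^ (k + 1) ∣ l.val :=
    Nat.dvd_of_mul_dvd_mul_left two_pos ((pow_succ' 2 (k + 1)).symm.dvd.trans h1)
  have : l.val < 2 ^ (k + 1) * 2 := l.val_lt
  rw [hc, Nat.mul_lt_mul_left (by positivity)] at this
  rw [← ZMod.natCast_zmod_val l, hc]
  interval_cases c <;> simp [hh]

theorem exists_par (l : ZK k) : ∃ j, l = 2 * j ∨ l = 2 * j + 1 := by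
  obtain ⟨j, h | h⟩ := Nat.even_or_odd' l.val
  all_goals exact ⟨j, by rw [← ZMod.natCast_zmod_val l, h]; simp⟩

theorem mul_hh (l : ZK k) : l * hh k = 0 ∨ l * hh k = hh k :=
  two_mul_eq_zero.1 (by rw [mul_left_comm, two_hh, mul_zero])

theorem two_mul_eq_hh : 2 * l = hh k ↔ l = qq k ∨ l = -qq k := by
  rw [← two_qq, ← sub_eq_zero, ← mul_sub, two_mul_eq_zero, sub_eq_zero, sub_eq_iff_eq_add,
    ← neg_hh, ← two_qq]
  ring_nf

theorem qq_ne_neg : qq k ≠ -qq k := fun e =>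
  hh_ne (k := k) (by rw [← two_qq, two_mul, add_eq_zero_iff_eq_neg]; exact e)

variable (hd : δ = 0 ∨ δ = 1 ∧ 1 ≤ k)
include hd

theorem dl_qq : δ * (qq k * hh k) = 0 := by
  rcases hd with rfl | ⟨rfl, h⟩
  · simp
  · obtain ⟨k, rfl⟩ := Nat.exists_eq_add_of_le' h
    rw [qq]; linear_combination (2 : ZK (k + 1)) ^ k * two_hh (k := k + 1)

theorem dl_sq : (δ : ZK k) * δ = δ := by rcases hd with rfl | ⟨rfl, h⟩ <;> simp

theorem ee_sq : ee k δ * ee k δ = 1 := by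
  have := two_hh (k := k)
  have := hh_sq (k := k)
  rw [ee]; linear_combination (-(δ : ZK k)) * ‹2 * hh k = 0› + δ * δ * this

theorem ee_ee (l : ZK k) : ee k δ * (ee k δ * l) = l := by rw [← mul_assoc, ee_sq hd, one_mul]

omit hd in
theorem ee_two (l : ZK k) : ee k δ * (2 * l) = -(2 * l) := by
  rw [ee]; linear_combination δ * l * two_hh (k := k)

theorem ee_qq : ee k δ * qq k = -qq k := by rw [ee]; linear_combination dl_qq hd

omit hd in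
theorem ee_hh : ee k δ * hh k = hh k := by rw [← two_qq, ee_two, two_qq, neg_hh]

theorem dl_of_two (h : 2 * l = hh k) : δ * (l * hh k) = 0 := by
  rcases two_mul_eq_hh.1 h with rfl | rfl
  · exact dl_qq hd
  · rw [neg_mul, mul_neg, dl_qq hd, neg_zero]

theorem ee_fix : ee k δ * l = l ↔ l = 0 ∨ l = hh k := by
  refine ⟨fun h => two_mul_eq_zero.1 ?_, by rintro (rfl | rfl) <;> simp [ee_hh]⟩
  have h1 : 2 * l = δ * (l * hh k) := by rw [ee] at h; linear_combination -h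
  rcases mul_hh l with e | e
  · rw [h1, e, mul_zero]
  · rcases hd with rfl | ⟨rfl, h2⟩
    · simpa using h1
    · rw [h1, dl_of_two (Or.inr ⟨rfl, h2⟩) (by rw [h1, e]; simp)]

theorem ee_eq_add : ee k δ * l = l + hh k ↔ l = qq k ∨ l = -qq k := by
  rw [← two_mul_eq_hh]
  constructor
  · intro h
    have h1 : 2 * l = δ * (l * hh k) + hh k := by
      rw [ee] at h; linear_combination -h - two_hh (k := k)
    rcases hd with rfl | ⟨rfl, h2⟩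
    · simpa using h1
    · rcases mul_hh l with e | e
      · simpa [e] using h1
      · rw [e, Nat.cast_one, one_mul, ← two_mul, two_hh, two_mul_eq_zero] at h1
        rcases h1 with rfl | rfl
        · exact absurd (by simpa using e.symm) hh_ne
        · exact absurd (e.symm.trans hh_sq) hh_ne
  · intro h
    rw [ee]; linear_combination dl_of_two hd h - h - two_hh (k := k)

theorem exists_sub (j : ZK k) : ∃ i, i - ee k δ * i = -(2 * j) :=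
  ⟨-j + δ * qq k * j, by
    rw [ee]
    linear_combination δ * j * two_qq (k := k) - δ * j * dl_qq hd + δ * j * two_hh (k := k)⟩

end arith

variable {G : Type*} [Group G] [Finite G]

/-- powers indexed by residues -/
def pw (σ : G) {k : ℕ} (l : ZK k) : G := σ ^ l.val

/-- `D` is a two-group of maximal class -/
structure MC (D : Subgroup G) (σ τ : G) (k δ : ℕ) : Prop where
  ord : orderOf σ = 2 ^ (k + 2)
  σ_mem : σ ∈ D
  τ_mem : τ ∈ D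
  τ_not : τ ∉ ⟪σ⟫
  card : Nat.card D = 2 ^ (k + 3)
  rel : τ * σ * τ⁻¹ = σ⁻¹ * (σ ^ 2 ^ (k + 1)) ^ δ
  dl : δ = 0 ∨ δ = 1 ∧ 1 ≤ k

theorem pw_mem (σ : G) {k : ℕ} (l : ZK k) : pw σ l ∈ ⟪σ⟫ :=
  Subgroup.pow_mem _ (Subgroup.mem_zpowers σ) _

theorem pw_zero (σ : G) {k : ℕ} : pw σ (0 : ZK k) = 1 := by simp [pw]

theorem pw_one (σ : G) {k : ℕ} : pw σ (1 : ZK k) = σ := by
  haveI : Fact (1 < 2 ^ (k + 2)) := ⟨Nat.one_lt_two_pow (by omega)⟩
  simp [pw, ZMod.val_one]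

namespace MC
variable {D : Subgroup G} {σ τ x y s : G} {k δ : ℕ} (h : MC D σ τ k δ) {l l' : ZK k}
include h

theorem pow_N : σ ^ 2 ^ (k + 2) = 1 := by rw [← h.ord, pow_orderOf_eq_one]
theorem pw_add (a b : ZK k) : pw σ (a + b) = pw σ a * pw σ b := pow_val_add h.pow_N a b
theorem pw_neg (a : ZK k) : pw σ (-a) = (pw σ a)⁻¹ := pow_val_neg h.pow_N a
theorem pw_nat (a : ℕ) : pw σ (a : ZK k) = σ ^ a := pow_val_natCast h.pow_N a
theorem pw_inj : pw σ l = pw σ l' ↔ l = l' := pow_val_inj h.ord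
theorem exists_pw (hx : x ∈ ⟪σ⟫) : ∃ l : ZK k, x = pw σ l := exists_pow_val h.pow_N hx
theorem pw_eq_one : pw σ l = 1 ↔ l = 0 := by rw [← pw_zero σ (k := k), h.pw_inj]
theorem le : ⟪σ⟫ ≤ D := Subgroup.zpowers_le.2 h.σ_mem
theorem pw_memD (l : ZK k) : pw σ l ∈ D := h.le (pw_mem σ l)

theorem pw_nat_mul (n : ℕ) (a : ZK k) : pw σ ((n : ZK k) * a) = pw σ a ^ n := by
  rw [← ZMod.natCast_zmod_val a, ← Nat.cast_mul, h.pw_nat, h.pw_nat, mul_comm, pow_mul]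

theorem pw_comm (a b : ZK k) : pw σ a * pw σ b = pw σ b * pw σ a := by
  rw [← h.pw_add, ← h.pw_add, add_comm]

theorem isPGroup : IsPGroup 2 D := IsPGroup.of_card h.card

theorem τ_conj (l : ZK k) : τ * pw σ l * τ⁻¹ = pw σ (ee k δ * l) := by
  have : pw σ (ee k δ) = τ * σ * τ⁻¹ := by
    rw [h.rel, ee, h.pw_add, h.pw_neg, pw_one, h.pw_nat_mul, pw, val_hh]
  rw [pw, ← conj_pow, ← this, ← h.pw_nat_mul, ZMod.natCast_zmod_val, mul_comm]

theorem index : (⟪σ⟫.subgroupOf D).index = 2 := by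
  have := (⟪σ⟫.subgroupOf D).card_mul_index
  rw [Nat.card_congr (Subgroup.subgroupOfEquivOfLe h.le).toEquiv, Nat.card_zpowers, h.ord, h.card,
    pow_succ 2 (k + 2)] at this
  exact Nat.eq_of_mul_eq_mul_left (by positivity) this

theorem mul_mem_iff (hx : x ∈ D) (hy : y ∈ D) : x * y ∈ ⟪σ⟫ ↔ (x ∈ ⟪σ⟫ ↔ y ∈ ⟪σ⟫) :=
  Subgroup.mul_mem_iff_of_index_two h.index (a := ⟨x, hx⟩) (b := ⟨y, hy⟩)

theorem exists_out (hx : x ∈ D) (h1 : x ∉ ⟪σ⟫) : ∃ l : ZK k, x = pw σ l * τ := by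
  obtain ⟨l, e⟩ := h.exists_pw ((h.mul_mem_iff hx (inv_mem h.τ_mem)).2
    (by simp [h1, h.τ_not]))
  exact ⟨l, by rw [← e]; group⟩

theorem out_not (l : ZK k) : pw σ l * τ ∉ ⟪σ⟫ := by
  rw [h.mul_mem_iff (h.pw_memD l) h.τ_mem]; simp [pw_mem, h.τ_not]

theorem in_conj (hx : x ∈ ⟪σ⟫) (l : ZK k) : x * pw σ l * x⁻¹ = pw σ l := by
  obtain ⟨a, rfl⟩ := h.exists_pw hx
  rw [h.pw_comm, mul_inv_cancel_right]

theorem out_conj (hx : x ∈ D) (h1 : x ∉ ⟪σ⟫) (l : ZK k) :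
    x * pw σ l * x⁻¹ = pw σ (ee k δ * l) := by
  obtain ⟨a, rfl⟩ := h.exists_out hx h1
  rw [← h.in_conj (pw_mem σ a) (ee k δ * l), ← h.τ_conj]; group

theorem conj_iff : (∃ s ∈ D, s * pw σ l * s⁻¹ = pw σ l') ↔ l' = l ∨ l' = ee k δ * l := by
  constructor
  · rintro ⟨s, hs, e⟩
    by_cases h1 : s ∈ ⟪σ⟫
    · exact Or.inl (h.pw_inj.1 (by rw [← e, h.in_conj h1]))
    · exact Or.inr (h.pw_inj.1 (by rw [← e, h.out_conj hs h1]))
  · rintro (rfl | rfl)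
    · exact ⟨1, one_mem _, by simp⟩
    · exact ⟨τ, h.τ_mem, h.τ_conj l⟩

theorem conj_mem (hs : s ∈ D) (hx : x ∈ ⟪σ⟫) : s * x * s⁻¹ ∈ ⟪σ⟫ := by
  obtain ⟨a, rfl⟩ := h.exists_pw hx
  by_cases h1 : s ∈ ⟪σ⟫
  · rw [h.in_conj h1]; exact pw_mem _ _
  · rw [h.out_conj hs h1]; exact pw_mem _ _

theorem z_conj (hx : x ∈ D) : x * pw σ (hh k) * x⁻¹ = pw σ (hh k) := by
  by_cases h1 : x ∈ ⟪σ⟫
  · exact h.in_conj h1 _
  · rw [h.out_conj hx h1, ee_hh]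

theorem z_comm (hx : x ∈ D) : x * pw σ (hh k) = pw σ (hh k) * x :=
  mul_inv_eq_iff_eq_mul.1 (h.z_conj hx)

theorem z_sq : pw σ (hh k) * pw σ (hh k) = 1 := by
  rw [← h.pw_add, ← two_mul, two_hh, pw_zero]

theorem z_ne : pw σ (hh k) ≠ 1 := fun e => hh_ne (h.pw_eq_one.1 e)

theorem ord_z : orderOf (pw σ (hh k)) = 2 := orderOf_eq_prime (by rw [sq, h.z_sq]) h.z_ne

theorem y_sq : pw σ (qq k) * pw σ (qq k) = pw σ (hh k) := by rw [← h.pw_add, ← two_mul, two_qq]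

theorem ord_y : orderOf (pw σ (qq k)) = 4 :=
  orderOf_eq_prime_pow (p := 2) (n := 1) (by rw [pow_one, sq, h.y_sq]; exact h.z_ne)
    (by rw [show 2 ^ (1 + 1) = 2 * 2 from rfl, pow_mul, sq, sq, h.y_sq, h.z_sq])

theorem exists_ord (hx : x ∈ D) : ∃ n, orderOf x = 2 ^ n := orderOf_pow_of_mem h.isPGroup hx

theorem z_le (h1 : l ≠ 0) : ⟪pw σ (hh k)⟫ ≤ ⟪pw σ l⟫ := by
  obtain ⟨n, hn⟩ := h.exists_ord (h.pw_memD l)
  refine Subgroup.zpowers_le.2 (mem_zpowers_of_orderOf_dvd (pw_mem σ l) (pw_mem σ _) ?_)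
  rw [h.ord_z, hn]
  refine dvd_pow_self 2 ?_
  rintro rfl
  exact h1 (h.pw_eq_one.1 (orderOf_eq_one_iff.1 hn))

theorem y_le (h1 : l ≠ 0) (h2 : l ≠ hh k) : ⟪pw σ (qq k)⟫ ≤ ⟪pw σ l⟫ := by
  obtain ⟨n, hn⟩ := h.exists_ord (h.pw_memD l)
  refine Subgroup.zpowers_le.2 (mem_zpowers_of_orderOf_dvd (pw_mem σ l) (pw_mem σ _) ?_)
  rw [h.ord_y, hn]
  refine pow_dvd_pow 2 (show 2 ≤ n from ?_)
  by_contra h3
  have : orderOf (pw σ l) ∣ 2 := hn ▸ pow_dvd_pow 2 (show n ≤ 1 by omega)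
  rw [orderOf_dvd_iff_pow_eq_one, ← h.pw_nat_mul, h.pw_eq_one, Nat.cast_ofNat,
    two_mul_eq_zero] at this
  tauto

theorem out_comm (hx : x ∈ D) (h1 : x ∉ ⟪σ⟫) (hs : s ∈ ⟪σ⟫) (e : x * s * x⁻¹ = s) :
    s = 1 ∨ s = pw σ (hh k) := by
  obtain ⟨l, rfl⟩ := h.exists_pw hs
  rw [h.out_conj hx h1, h.pw_inj, ee_fix h.dl] at e
  rcases e with rfl | rfl <;> simp [pw_zero]

theorem out_sq (hx : x ∈ D) (h1 : x ∉ ⟪σ⟫) : x * x = 1 ∨ x * x = pw σ (hh k) :=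
  h.out_comm hx h1 ((h.mul_mem_iff hx hx).2 Iff.rfl) (by group)

theorem card_cent (hx : x ∈ D) (h1 : x ∉ ⟪σ⟫) : Nat.card (D ⊓ 𝐂 ⟪x⟫ :) ≤ 4 := by
  have : ((D ⊓ 𝐂 ⟪x⟫ :) : Set G) ⊆ {1, pw σ (hh k), x, pw σ (hh k) * x} := fun s hs => by
    have h2 : x * s * x⁻¹ = s := by rw [hs.2 x (Subgroup.mem_zpowers x), mul_inv_cancel_right]
    by_cases h3 : s ∈ ⟪σ⟫
    · rcases h.out_comm hx h1 h3 h2 with e | e <;> simp [e]
    · rcases h.out_comm hx h1 ((h.mul_mem_iff hs.1 (inv_mem hx)).2 (by simp [h1, h3]))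
        (by rw [← mul_assoc, h2]) with e | e <;>
        simp [mul_inv_eq_iff_eq_mul.1 e]
  exact (Set.ncard_le_ncard this).trans ((Set.ncard_insert_le _ _).trans (Nat.succ_le_succ
    ((Set.ncard_insert_le _ _).trans (Nat.succ_le_succ ((Set.ncard_insert_le _ _).trans (by simp))))))

theorem y_conj (hx : x ∈ D) (h1 : x ∉ ⟪σ⟫) :
    pw σ (qq k) * x * (pw σ (qq k))⁻¹ = pw σ (hh k) * x := by
  have := h.out_conj hx h1 (-qq k)
  rw [mul_neg, ee_qq h.dl, neg_neg, h.pw_neg] at this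
  rw [← h.y_sq, mul_assoc (pw σ (qq k)) (pw σ (qq k)), mul_assoc, ← mul_inv_eq_iff_eq_mul.1 this]

theorem out_pow (hx : x ∈ D) (h1 : x ∉ ⟪σ⟫) {j : ℕ} (hj : ¬ 2 ∣ j) :
    ∃ s ∈ D, s * x * s⁻¹ = x ^ j := by
  obtain ⟨i, rfl⟩ : ∃ i, j = 2 * i + 1 := ⟨j / 2, by omega⟩
  have : (x * x) ^ i = 1 ∨ (x * x) ^ i = pw σ (hh k) :=
    h.out_comm hx h1 (pow_mem ((h.mul_mem_iff hx hx).2 Iff.rfl) i) (by rw [← conj_pow]; group)
  rw [pow_succ, pow_mul, sq]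
  rcases this with e | e
  · exact ⟨1, one_mem _, by simp [e]⟩
  · exact ⟨_, h.pw_memD _, by rw [e, h.y_conj hx h1]⟩

theorem out_rep (hx : x ∈ D) (h1 : x ∉ ⟪σ⟫) :
    ∃ s ∈ D, s * x * s⁻¹ = τ ∨ s * x * s⁻¹ = σ * τ := by
  obtain ⟨l, rfl⟩ := h.exists_out hx h1
  obtain ⟨j, hj⟩ := exists_par l
  obtain ⟨i, hi⟩ := exists_sub h.dl j
  refine ⟨pw σ i, h.pw_memD i, ?_⟩
  have : pw σ i * (pw σ l * τ) * (pw σ i)⁻¹ = pw σ (l - 2 * j) * τ := by
    rw [sub_eq_add_neg, ← hi, sub_eq_add_neg, ← mul_neg, h.pw_add, h.pw_add, ← h.τ_conj, h.pw_neg,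
      ← mul_assoc (pw σ l), ← h.pw_comm i]
    group
  rw [this]
  rcases hj with rfl | rfl <;> simp [pw_zero, pw_one]

theorem odd_cent {g : G} (hg : ¬ 2 ∣ orderOf g) {S : Subgroup G} (hS : S ≤ D)
    (hN : ∀ x ∈ S, g * x * g⁻¹ ∈ S) (h1 : ∀ x ∈ S, x ∈ ⟪σ⟫ → g * x * g⁻¹ ∈ ⟪σ⟫) : g ∈ 𝐂 S := by
  have h2 : ∀ x ∈ S, x ∈ ⟪σ⟫ → g * x = x * g := fun x hx hx' =>
    commute_of_conj_mem_zpowers (h.exists_ord (hS hx)) hg
      (mem_zpowers_of_orderOf_dvd hx' (h1 x hx hx') (by rw [orderOf_conj']))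
  refine mem_centralizer_of_commutator (p := 2) (S := S ⊓ ⟪σ⟫) (h.isPGroup.to_le
    (inf_le_left.trans hS)) (fun r hr => ⟨S.mul_mem (S.inv_mem hr) (hN r hr), ?_⟩)
    (fun x hx => (h2 x hx.1 hx.2).symm) hg
  show _ ∈ ⟪σ⟫
  rw [h.mul_mem_iff (inv_mem (hS hr)) (hS (hN r hr)), inv_mem_iff]
  refine ⟨h1 r hr, fun h3 => ?_⟩
  have h4 := h2 _ (hN r hr) h3
  rwa [show r = g * r * g⁻¹ from mul_left_cancel (a := g) (by rw [h4]; group)]

theorem mem_iff_y (hx : x ∈ D) : x ∈ ⟪σ⟫ ↔ x * pw σ (qq k) * x⁻¹ = pw σ (qq k) := by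
  refine ⟨fun h1 => h.in_conj h1 _, fun h1 => by_contra fun h2 => ?_⟩
  rw [h.out_conj hx h2, ee_qq h.dl, h.pw_inj] at h1
  exact qq_ne_neg h1.symm

theorem sum_D {β : Type*} [AddCommMonoid β] [Fintype G] (F : G → β) :
    ∑ v with v ∈ D, F v = ∑ l : ZK k, F (pw σ l) + ∑ v with v ∈ D ∧ v ∉ ⟪σ⟫, F v := by
  rw [← Finset.sum_filter_add_sum_filter_not _ (· ∈ ⟪σ⟫), Finset.filter_filter, Finset.filter_filter]
  congr 1
  refine (Finset.sum_bij (fun l _ => pw σ l) (fun l _ => by simp [pw_mem, h.pw_memD])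
    (fun _ _ _ _ e => h.pw_inj.1 e) (fun v hv => ?_) fun _ _ => rfl).symm
  obtain ⟨l, e⟩ := h.exists_pw (Finset.mem_filter.1 hv).2.2
  exact ⟨l, Finset.mem_univ _, e.symm⟩

theorem subgroupOf {H : Subgroup G} (hD : D ≤ H) :
    MC (D.subgroupOf H) ⟨σ, hD h.σ_mem⟩ ⟨τ, hD h.τ_mem⟩ k δ :=
  ⟨by rw [Subgroup.orderOf_mk, h.ord], h.σ_mem, h.τ_mem, fun ⟨n, e⟩ => h.τ_not
    ⟨n, congrArg Subtype.val e⟩, by
      rw [Nat.card_congr (Subgroup.subgroupOfEquivOfLe hD).toEquiv, h.card],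
    Subtype.ext h.rel, h.dl⟩

end MC

end H21
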