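import Mathlib
import Cfsg.Agent.H21.Tame1
import Cfsg.Agent.H21.Tame2

/-!
Blocks with a defect group of maximal class: the nilpotent local level (namespace H21).
* `Mx.exists_ext` (extremal subsections), `Mx.exists_int_sm`, `Mx.mv_center`.
* `Loc` : generalised decomposition numbers on the cyclic maximal subgroup; `exists_loc`.
-/

set_option autoImplicit false
set_option linter.unusedSectionVars false
set_option linter.unusedVariables false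

namespace H21
open H05 Cfsg H20 MonoidAlgebra Classical
open scoped ComplexConjugate

local notation:max "𝐂" Q:max => Subgroup.centralizer (SetLike.coe Q)
local notation:max "𝐍" Q:max => Subgroup.normalizer (SetLike.coe Q)
local notation:max "⟪" u "⟫" => Subgroup.zpowers u

attribute [-instance] H19.instFintypeSubgroupFrob

variable {M : Ideal AlgInt} [hMm : M.IsMaximal] {G : Type*} [Group G] [Fintype G] {p : ℕ}
  {B : Set (IrrCharacter G)} {a b c d : BrauerPairIdx G} {u v w x t : G} {χ ψ θ η η' : G → ℂ}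
  {H : Subgroup G}

omit hMm in
theorem CF.exists_int_of_const (hM : IsPModular 2 M) {k : ℕ} {ζ : ℂ}
    (hζ : IsPrimitiveRoot ζ (2 ^ (k + 1))) {x : ℕ → ℂ} (h : CF 2 ζ x)
    (h1 : ∀ j, ¬ 2 ∣ j → x j = x 1) : ∃ n : ℤ, x 1 = n := by
  obtain ⟨a, ha⟩ := h.exists_coeff Nat.prime_two hζ
  have h2 : ¬ 2 ∣ 2 ^ (k + 1) - 1 := by
    have : 0 < 2 ^ k := by positivity
    rw [pow_succ]; omega
  have h3 : conj (x 1) = x 1 := by
    conv_rhs => rw [← h1 _ h2, ha _ h2]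
    rw [ha 1 (by norm_num), map_sum]
    refine Finset.sum_congr rfl fun e _ => ?_
    rw [map_mul, map_intCast, map_pow, one_mul, pow_mul,
      conj_eq_inv_of_pow_eq_one (by positivity) hζ.pow_eq_one]
    congr 2
    refine inv_eq_of_mul_eq_one_right ?_
    rw [← pow_succ', Nat.sub_add_cancel Nat.one_le_two_pow, hζ.pow_eq_one]
  obtain ⟨n, hn, -⟩ := h.avg_two hM hζ fun j hj => by rw [h1 j hj, h3]
  rw [Finset.sum_congr rfl fun j hj => h1 j (mem_U.1 hj).2, Finset.sum_const, nsmul_eq_mul] at hn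
  exact ⟨n, mul_left_cancel₀ (by exact_mod_cast (card_U_pos Nat.prime_two k).ne') hn⟩

omit hMm in
theorem mm_twist {z : G} (hz : z ∈ Subgroup.center G) {ω ω' : ℂ} (h1 : ∀ x, χ (z * x) = ω * χ x)
    (h2 : ∀ x, ψ (z * x) = ω' * ψ x) : mm p a (z * u) χ ψ = ω * conj ω' * mm p a u χ ψ := by
  have e : ∀ (χ : G → ℂ) (ω : ℂ), (∀ x, χ (z * x) = ω * χ x) →
      bs a.2 (z * u) χ = ω • bs a.2 u χ := fun χ ω h => by
    rw [bs, bs, ← blockPart_smul]; congr 1; ext c; simp [sh, mul_assoc, h]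
  rw [mm, mm, e χ ω h1, e ψ ω' h2, contrib, contrib, pRegularPart_smul, classInner_smul_left,
    classInner_smul_right, mul_assoc]

namespace Mx
variable (h : Mx M p B b)
include h

theorem defect_congr (h1 : Fus M p b v w) :
    blockDefect p (sb M p b w) = blockDefect p (sb M p b v) := by
  obtain ⟨x, rfl, h2⟩ := h1
  have : blockDefect p (cjP x (sp M p b v)).2 = blockDefect p (sb M p b v) := by
    show blockDefect p (conjBlock _ x _) = _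
    rw [conjBlock_eq, blockDefect_bmap]
  rwa [h.cjP_sp h2] at this

theorem exists_ext (hv : v ∈ b.1) : ∃ w, Fus M p b v w ∧
    p ^ blockDefect p (sb M p b v) = Nat.card (b.1 ⊓ 𝐂 ⟪w⟫ :) := by
  obtain ⟨x, h1, h2⟩ := (h.sp_pOf hv).exists_cjP_maxBr h.mod h.max (centralizer_le_pstab _)
  have h3 : Fus M p b v (x * v * x⁻¹) := ⟨x, rfl, h1⟩
  refine ⟨_, h3, ?_⟩
  rw [h.cjP_sp h1, cj_centralizer, cj_zpowers] at h2
  have h4 := (h.sp_bp h3.mem).2
  rw [← h.defect_congr h3, ← ((maxBr_iB_iff h.mod h4 inf_le_right).1 h2).card_eq h.mod h4,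
    Nat.card_congr (Subgroup.subgroupOfEquivOfLe inf_le_right).toEquiv]

theorem mv_eq_mm_of (hv : v ∈ b.1) (e : ⟪v⟫ = ⟪w⟫) :
    mv M p b w χ ψ = mm p (sp M p b v) w χ ψ := by rw [mv_eq_mm, h.sp_congr hv e]

theorem iI_fb_center {R : Subgroup G} (hR : R ≤ b.1) (e : 𝐂 R = ⊤) :
    iI _ (fb M p b R) = idem B := by
  have h1 := (h.max.pOf_of_ple h.mod (h.fp_ple hR)).mul_eq h.mod
  have h2 := h.fb_blk hR
  simp only [pI] at h1
  generalize fb M p b R = f at h1 h2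
  revert f
  rw [e]
  intro f h1 h2
  rw [trunc_eq_self (S := ((⊤ : Subgroup G) : Set G)) fun g hg => (hg trivial).elim,
    ← iB_top] at h1
  rw [← (h.blk.bmap _).eq_of_iB_mul_ne_zero h2 (h1.symm ▸ h2.iB_ne_zero)]
  exact ext_coeff fun g => by
    rw [iI, coeff_inc_of_mem _ _ (Subgroup.mem_top g), idem_bmap]; rfl

theorem exists_bmap_center {R : Subgroup G} (hR : R ≤ b.1) (e : 𝐂 R = ⊤) :
    ∃ φ : 𝐂 R ≃* G, (∀ x, φ x = x) ∧ fb M p b R = bmap φ B := by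
  have h1 := h.iI_fb_center hR e
  generalize fb M p b R = f at h1
  revert f
  rw [e]
  refine fun f h1 => ⟨Subgroup.topEquiv, fun _ => rfl, iI_injective (h1.trans ?_)⟩
  exact ext_coeff fun g => by
    rw [iI, coeff_inc_of_mem _ _ (Subgroup.mem_top g), idem_bmap]; rfl

omit h hMm in
theorem centralizer_eq_top (hz : u ∈ Subgroup.center G) : 𝐂 ⟪u⟫ = ⊤ :=
  eq_top_iff.2 fun x _ => mem_centralizer_zpowers.2 (by
    rw [Subgroup.mem_center_iff.1 hz x, mul_inv_cancel_right])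

theorem mv_center (hu : u ∈ b.1) (hz : u ∈ Subgroup.center G) (χ ψ : G → ℂ) : mv M p b u χ ψ =
    contrib p (blockPart B fun x => χ (u * x)) (blockPart B fun x => ψ (u * x)) := by
  obtain ⟨φ, h1, h2⟩ := h.exists_bmap_center (Subgroup.zpowers_le.2 hu) (centralizer_eq_top hz)
  rw [mv, sb_eq_fb, h2, ← contrib_comp_equiv φ, ← blockPart_bmap, ← blockPart_bmap, bs, bs]
  simp only [h1]; rfl

theorem mv_one (χ ψ : G → ℂ) :
    mv M p b 1 χ ψ = contrib p (blockPart B χ) (blockPart B ψ) := by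
  simpa using h.mv_center (one_mem _) (one_mem _) χ ψ

theorem mv_center_twist (hu : u ∈ b.1) (hz : u ∈ Subgroup.center G) {ω ω' : ℂ}
    (h1 : ∀ x, χ (u * x) = ω * χ x) (h2 : ∀ x, ψ (u * x) = ω' * ψ x) :
    mv M p b u χ ψ = ω * conj ω' * mv M p b 1 χ ψ := by
  rw [h.mv_center hu hz, h.mv_one, show (fun x => χ (u * x)) = ω • χ from funext h1,
    show (fun x => ψ (u * x)) = ω' • ψ from funext h2, blockPart_smul, blockPart_smul, contrib,
    contrib, pRegularPart_smul, classInner_smul_left, classInner_smul_right, mul_assoc]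

theorem rank_center (hu : u ∈ b.1) (hz : u ∈ Subgroup.center G) :
    blockRank p (sb M p b u) = blockRank p B := by
  obtain ⟨φ, -, h2⟩ := h.exists_bmap_center (Subgroup.zpowers_le.2 hu) (centralizer_eq_top hz)
  rw [sb_eq_fb, h2, blockRank_bmap]

theorem mv_rank_one (hc : ∀ v ∈ b.1, ∀ w, Fus M p b v w → ∃ s ∈ b.1, s * v * s⁻¹ = w)
    {ψ : IrrCharacter G} (hψ : ψ ∈ B) (h0 : blockHeight p B (ψ : G → ℂ) = 0) (hv : v ∈ b.1)
    (f g : G → ℂ) : mv M p b v f g * mv M p b v ψ ψ = mv M p b v f ψ * mv M p b v ψ g := by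
  obtain ⟨Φ, h1, -⟩ := h.exists_equiv_of_ctl hc hψ h0
  rw [← h.sum_mv_mul hv f g, ← h.sum_mv_mul hv f ψ, Finset.sum_mul, Finset.sum_mul]
  refine Finset.sum_congr rfl fun χ hχ => ?_
  obtain ⟨η, e⟩ := Φ.surjective ⟨χ, (Finset.mem_filter.1 hχ).2⟩
  have h2 := h1 η
  rw [e] at h2
  have h3 := fun g => h.mv_st (fSt_ext hc η.2.isClassFunction) ψ.2.isClassFunction hv g
  simp only [← h2] at h3
  rw [h3, h3 ψ]; ring

end Mx

theorem Mx.exists_int_sm (h : Mx M 2 B b) (hv : v ∈ b.1)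
    (h1 : ∀ j, ¬ 2 ∣ j → Fus M 2 b v (v ^ j)) (hχ : IsGeneralizedCharacter G χ)
    (hψ : IsGeneralizedCharacter G ψ) : ∃ n : ℤ, sm 2 (sb M 2 b v) v χ ψ = n := by
  obtain ⟨k, ζ, hζ, h2, -⟩ := (h.sub hv).exists_cf
  simpa using (h2 χ ψ hχ hψ).exists_int_of_const h.mod hζ fun j hj => by
    obtain ⟨n, hn⟩ := h.ord hv
    have := h.mv_congr hχ.isClassFunction hψ.isClassFunction (h1 j hj)
    rw [h.mv_eq_mm_of hv (le_antisymm (Subgroup.zpowers_le.2 (mem_zpowers_pow_iff.2 (by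
      rw [hn]; exact ((Nat.prime_two.coprime_iff_not_dvd.2 hj).symm.pow_right n))))
      (Subgroup.zpowers_le.2 (pow_mem (Subgroup.mem_zpowers v) j)))] at this
    rw [pow_one, sm_eq_mv, ← this]; rfl

/-- the order of the centraliser in the defect group -/
noncomputable def cc (k δ : ℕ) (l : ZK k) : ℂ :=
  if ee k δ * l = l then 2 * (2 ^ (k + 2) : ℕ) else (2 ^ (k + 2) : ℕ)

variable (M) in
/-- generalised decomposition numbers on the cyclic maximal subgroup -/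
structure Loc (b : BrauerPairIdx G) (σ : G) (k δ : ℕ) (P : ZK k → Prop)
    (E : (G → ℂ) → ZK k → ℂ) (φ : G → ℂ) : Prop where
  int : ∀ f, IsGeneralizedCharacter G f → ∀ (ψ : AddChar (ZK k) ℂ) (j : ZK k),
    ∃ n : ℤ, ((2 ^ (k + 2) : ℕ) : ℂ)⁻¹ * ∑ l, E f l * ψ (l * j) = n
  sym : ∀ f, IsClassFunction G f → ∀ l, E f (ee k δ * l) = E f l
  ref : ∀ l, P l → ∀ f, IsClassFunction G f → E f l = cc k δ l * mv M 2 b (pw σ l) f φ
  ref1 : ∀ l, P l → cc k δ l * mv M 2 b (pw σ l) φ φ = 1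
  rk : ∀ l, P l → ∀ f g, mv M 2 b (pw σ l) f g * mv M 2 b (pw σ l) φ φ =
    mv M 2 b (pw σ l) f φ * mv M 2 b (pw σ l) φ g
  fus : ∀ l l', P l → P l' → Fus M 2 b (pw σ l) (pw σ l') → l' = l ∨ l' = ee k δ * l
  tw : ∀ z ∈ b.1, z ∈ Subgroup.center G → ∃ ω, ∀ x, φ (z * x) = ω * φ x

variable {σ τ : G} {k δ : ℕ}

theorem MC.le_norm {D : Subgroup G} (hm : MC D σ τ k δ) (r : ZK k) : D ≤ 𝐍 ⟪pw σ r⟫ :=
  fun s hs => mem_normalizer_zpowers (mem_zpowers_of_orderOf_dvd (pw_mem σ r)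
    (hm.conj_mem hs (pw_mem σ r)) (by rw [orderOf_conj']))

theorem Dsc.ctl {R : Subgroup G} {F : Set (IrrCharacter H)} {b' : BrauerPairIdx H}
    (hb : Dsc M p b R H F b')
    (hn : ∀ g ∈ 𝐍 R, ¬ p ∣ orderOf g → ∀ S ≤ b.1, (∀ x ∈ S, g * x * g⁻¹ ∈ S) → g ∈ 𝐂 S) :
    ∀ v ∈ b'.1, ∀ w, Fus M p b' v w → ∃ s ∈ b'.1, s * v * s⁻¹ = w := by
  refine hb.mx.ctl_of_nilpotent ((isNilpotentBlock_iff_ple hb.mx.mod hb.mx.max).2
    fun a ha x hx h2 y hy => Subtype.ext (hn x (hb.nor x.2) (by simpa using h2) (a.1.map H.subtype)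
      ?_ ?_ y ⟨y, hy, rfl⟩))
  · rintro _ ⟨y, hy, rfl⟩; exact hb.mem.1 (ha.le hy)
  · rintro _ ⟨y, hy, rfl⟩
    exact ⟨_, (Subgroup.mem_normalizer_iff.1 (pstab_le a hx) y).1 hy, rfl⟩

theorem Mx.exists_dsc_pstab (h : Mx M p B b) {R : Subgroup G} (hR : R ≤ b.1) (hN : b.1 ≤ 𝐍 R) :
    ∃ (H : Subgroup G) (F : Set (IrrCharacter H)) (b' : BrauerPairIdx H), Dsc M p b R H F b' ∧
      ∀ v ∈ b.1, R ≤ ⟪v⟫ → ∀ x ∈ 𝐍 R, PLE p M (cjP x (sp M p b v)) b → x ∈ H := by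
  have ha := h.fp_ple hR
  have hD : b.1 ≤ pstab (fp M p b R) :=
    (le_inf le_rfl hN).trans (ha.inf_normalizer_le_pstab h.mod h.bp)
  obtain ⟨F, hF, e, -⟩ := (h.fp_bp hR).exists_iI_eq h.mod (le_pstab _) (centralizer_le_pstab _) le_rfl
  obtain ⟨b', hb⟩ := h.exists_dsc ha (centralizer_le_pstab _) le_rfl hD hF e
  exact ⟨_, F, b', hb, fun v hv e2 x e1 e3 => ha.mem_pstab_of_cjP h.mod h.bp
    (((h.fp_le e2 (Subgroup.zpowers_le.2 hv)).cjP h.mod x).trans e3) e1⟩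

omit hMm in
theorem MC.mem_norm {D : Subgroup G} (hm : MC D σ τ k δ) {r l l' : ZK k}
    (e1 : x * pw σ l * x⁻¹ = pw σ l') (e2 : ⟪pw σ r⟫ ≤ ⟪pw σ l⟫) : x ∈ 𝐍 ⟪pw σ r⟫ := by
  refine mem_normalizer_zpowers (mem_zpowers_of_orderOf_dvd (pw_mem σ r) ?_ (by rw [orderOf_conj']))
  obtain ⟨n, hn⟩ := e2 (Subgroup.mem_zpowers _)
  rw [← hn, ← conj_zpow, e1]
  exact zpow_mem (pw_mem _ _) _

theorem exists_loc (h : Mx M 2 B b) (hm : MC b.1 σ τ k δ) (r : ZK k)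
    (hn : ∀ g ∈ 𝐍 ⟪pw σ r⟫, ¬ 2 ∣ orderOf g → ∀ S ≤ b.1, (∀ x ∈ S, g * x * g⁻¹ ∈ S) → g ∈ 𝐂 S) :
    ∃ E φ, Loc M b σ k δ (fun l => ⟪pw σ r⟫ ≤ ⟪pw σ l⟫) E φ := by
  obtain ⟨H, F, b', hb, hst⟩ := h.exists_dsc_pstab (Subgroup.zpowers_le.2 (hm.pw_memD r))
    (hm.le_norm r)
  have hc := hb.ctl hn
  have hD := hb.le
  have hF := hb.mx.blk
  obtain ⟨ψ, hψ, h0⟩ := hF.exists_height_zero 2
  have hm' : MC b'.1 (⟨σ, hD hm.σ_mem⟩ : H) ⟨τ, hD hm.τ_mem⟩ k δ := hb.dp.eq ▸ hm.subgroupOf hD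
  set σ' : H := ⟨σ, hD hm.σ_mem⟩
  have e1 : ∀ l : ZK k, ((pw σ' l : H) : G) = pw σ l := fun l => rfl
  have e2 : (fun y : H => extendByZero H ψ y) = ψ := funext (H06.extendByZero_coe H _)
  have e3 : ∀ l l' : ZK k, Fus M 2 b' (pw σ' l) (pw σ' l') ↔ l' = l ∨ l' = ee k δ * l :=
    fun l l' => by
      rw [← hm'.conj_iff]
      exact ⟨hc _ (hm'.pw_memD l) _, fun ⟨s, hs, e⟩ => e ▸ hb.mx.fus_of_pstab (le_pstab _ hs)
        (hm'.pw_memD l)⟩
  have e4 : ∀ l : ZK k, (Nat.card b'.1 : ℂ) * (nf M 2 b' (pw σ' l) : ℂ)⁻¹ = cc k δ l := fun l => by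
    have : Finset.univ.filter (Fus M 2 b' (pw σ' l)) = {pw σ' l, pw σ' (ee k δ * l)} := by
      ext w
      simp only [Finset.mem_filter, Finset.mem_univ, true_and, Finset.mem_insert,
        Finset.mem_singleton]
      refine ⟨fun h1 => ?_, by rintro (rfl | rfl) <;> simp [e3]⟩
      obtain ⟨s, hs, rfl⟩ := hc _ (hm'.pw_memD l) _ h1
      obtain ⟨l', e⟩ := hm'.exists_pw (hm'.conj_mem hs (pw_mem σ' l))
      rw [e] at h1 ⊢
      rcases (e3 _ _).1 h1 with rfl | rfl <;> simp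
    rw [nf, this, hm'.card, cc]
    split_ifs with h1
    · simp [h1, pow_succ']
    · rw [Finset.card_pair fun e => h1 (hm'.pw_inj.1 e).symm]
      push_cast; ring
  have hcl : ∀ f, IsClassFunction G f → IsClassFunction H fun y => f y := fun f hf x y => hf x y
  refine ⟨fun f l => wv M 2 b' (blockPart F fun y => f y) ψ ⟨pw σ' l, hm'.pw_memD l⟩,
    extendByZero H ψ, fun f hf ψ' j => ?_, fun f hf l => ?_, fun l hl f hf => ?_, fun l hl => ?_,
    fun l hl f g => ?_, fun l l' hl hl' ⟨x, h1, h2⟩ => ?_, fun z hz hz' => ?_⟩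
  · obtain ⟨χ₁, χ₂, h1, h2, e⟩ := hb.mx.isGen_wv hc (blockPart_blockPart F fun y => f y)
      (gc_mult (b := F) (hf.restrict H) ▸ isGen_gc _) ψ.2.isGeneralizedCharacter
    have h3 : (⟨σ', hm'.σ_mem⟩ : b'.1) ^ 2 ^ (k + 2) = 1 := Subtype.ext hm'.pow_N
    obtain ⟨n₁, h4⟩ := exists_int_fourier h1 h3 ψ' j
    obtain ⟨n₂, h5⟩ := exists_int_fourier h2 h3 ψ' j
    refine ⟨n₁ - n₂, ?_⟩
    rw [Int.cast_sub, ← h4, ← h5, ← mul_sub, ← Finset.sum_sub_distrib, e]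
    exact congrArg _ (Finset.sum_congr rfl fun l _ => sub_mul _ _ _)
  · exact hb.mx.wv_congr (blockPart_isClassFunction _ _) ψ.2.isClassFunction
      ((e3 _ _).2 (Or.inr rfl))
  · rw [wv, ← mul_assoc, e4, hb.mx.mv_blockPart (hcl f hf) (hm'.pw_memD l), ← e1,
      ← hb.mv_eq h (hm.pw_memD l) hl, e2]
  · rw [← e1, ← hb.mv_eq h (hm.pw_memD l) hl, e2, ← e4, mul_assoc]
    exact hb.mx.wv_eq_one hc hψ h0 ⟨_, hm'.pw_memD l⟩
  · simp only [← e1, ← hb.mv_eq h (v := pw σ' l) (hm.pw_memD l) hl, e2]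
    exact hb.mx.mv_rank_one hc hψ h0 (hm'.pw_memD l) _ _
  · exact (e3 l l').1 (hb.fus_down h (hm.pw_memD l) hl hl' 
      (hst _ (hm.pw_memD l) hl x (hm.mem_norm h1 hl) h2) h1 h2)
  · refine ⟨(ψ : H → ℂ) ⟨z, hD hz⟩ / (ψ : H → ℂ) 1, fun x => ?_⟩
    by_cases hx : x ∈ H
    · rw [H06.extendByZero_of_mem _ _ hx, H06.extendByZero_of_mem _ _ (mul_mem (hD hz) hx),
        ← ψ.2.apply_mul_of_mem_center (Subgroup.mem_center_iff.2 fun g => Subtype.ext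
          (Subgroup.mem_center_iff.1 hz' g))]
      rfl
    · rw [H06.extendByZero_of_notMem _ _ hx, H06.extendByZero_of_notMem _ _
        fun e => hx ((mul_mem_cancel_left (hD hz)).1 e), mul_zero]

theorem exists_loc_y (h : Mx M 2 B b) (hm : MC b.1 σ τ k δ) :
    ∃ E φ, Loc M b σ k δ (fun l => l ≠ 0 ∧ l ≠ hh k) E φ := by
  obtain ⟨E, φ, h1⟩ := exists_loc h hm (qq k) fun g hg h2 S hS hN => hm.odd_cent h2 hS hN
    fun x hx hx' => by
      have h3 := commute_of_conj_mem_zpowers (hm.exists_ord (hm.pw_memD _)) h2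
        ((Subgroup.mem_normalizer_iff.1 hg _).1 (Subgroup.mem_zpowers _))
      have h4 := hm.in_conj hx' (qq k)
      rw [hm.mem_iff_y (hS (hN x hx))]
      calc _ = g * (x * (g⁻¹ * (pw σ (qq k) * g)) * x⁻¹) * g⁻¹ := by group
        _ = _ := by rw [← h3, inv_mul_cancel_left, h4, h3, mul_inv_cancel_right]
  have e : ∀ l : ZK k, l ≠ 0 ∧ l ≠ hh k → ⟪pw σ (qq k)⟫ ≤ ⟪pw σ l⟫ := fun l hl => hm.y_le hl.1 hl.2
  exact ⟨E, φ, h1.int, h1.sym, fun l hl => h1.ref l (e l hl), fun l hl => h1.ref1 l (e l hl),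
    fun l hl => h1.rk l (e l hl), fun l l' hl hl' => h1.fus l l' (e l hl) (e l' hl'), h1.tw⟩

theorem exists_loc_z (h : Mx M 2 B b) (hm : MC b.1 σ τ k δ)
    (hd : ∀ x ∈ b.1, x ∉ ⟪σ⟫ → x * x = 1) : ∃ E φ, Loc M b σ k δ (fun l => l ≠ 0) E φ := by
  obtain ⟨E, φ, h1⟩ := exists_loc h hm (hh k) fun g hg h2 S hS hN => hm.odd_cent h2 hS hN
    fun x hx hx' => by
      have h3 := commute_of_conj_mem_zpowers (hm.exists_ord (hm.pw_memD _)) h2
        ((Subgroup.mem_normalizer_iff.1 hg _).1 (Subgroup.mem_zpowers _))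
      by_contra h4
      have h5 := hd _ (hS (hN x hx)) h4
      obtain ⟨l, rfl⟩ := hm.exists_pw hx'
      rw [conj_mul, conj_eq_one_iff, ← hm.pw_add, hm.pw_eq_one, ← two_mul, two_mul_eq_zero] at h5
      rcases h5 with rfl | rfl
      · exact h4 (by simp [pw_zero])
      · exact h4 (by rw [h3, mul_inv_cancel_right]; exact pw_mem _ _)
  have e : ∀ l : ZK k, l ≠ 0 → ⟪pw σ (hh k)⟫ ≤ ⟪pw σ l⟫ := fun l hl => hm.z_le hl
  exact ⟨E, φ, h1.int, h1.sym, fun l hl => h1.ref l (e l hl), fun l hl => h1.ref1 l (e l hl),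
    fun l hl => h1.rk l (e l hl), fun l l' hl hl' => h1.fus l l' (e l hl) (e l' hl'), h1.tw⟩

end H21
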