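import Mathlib
import Cfsg.Agent.H21.IntVec

/-!
Integer vectors for tame blocks (namespace H21): frames `Fr`, `pattern`, and the counting lemma
`TV.main`.
-/

set_option autoImplicit false
set_option linter.unusedSectionVars false
set_option linter.unusedVariables false

namespace H21
open Classical

variable {ι : Type*} {S : Finset ι} {w v x x' : ι → ℤ} {a b c d t t' : ι}

/-- `w` is a sign on `a, b, c, d` and zero elsewhere -/
structure Fr (S : Finset ι) (w : ι → ℤ) (a b c d : ι) : Prop where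
  ma : a ∈ S
  mb : b ∈ S
  mc : c ∈ S
  md : d ∈ S
  ab : a ≠ b
  ac : a ≠ c
  ad : a ≠ d
  bc : b ≠ c
  bd : b ≠ d
  cd : c ≠ d
  wa : w a = 1 ∨ w a = -1
  wb : w b = 1 ∨ w b = -1
  wc : w c = 1 ∨ w c = -1
  wd : w d = 1 ∨ w d = -1
  zero : ∀ i ∈ S, i ≠ a → i ≠ b → i ≠ c → i ≠ d → w i = 0

theorem exists_single {e : ℤ} (he : e ≠ 0) (h1 : ∀ i ∈ S, e ∣ v i)
    (h2 : ∑ i ∈ S, v i * v i = e * e) :
    ∃ t ∈ S, (v t = e ∨ v t = -e) ∧ ∀ i ∈ S, i ≠ t → v i = 0 := by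
  have h0 : ∀ i ∈ S, v i ≠ 0 → e * e ≤ v i * v i := fun i hi h => by
    obtain ⟨n, hn⟩ := h1 i hi
    have : n ≠ 0 := by rintro rfl; simp [hn] at h
    have : 1 ≤ n * n := by have := mul_self_pos.2 this; omega
    rw [hn]; nlinarith [mul_self_nonneg e]
  obtain ⟨t, ht, h3⟩ : ∃ t ∈ S, v t ≠ 0 := by
    by_contra h; push Not at h
    rw [Finset.sum_eq_zero fun i hi => by rw [h i hi, mul_zero]] at h2
    exact he (mul_self_eq_zero.1 h2.symm)
  rw [← Finset.add_sum_erase _ _ ht] at h2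
  have h4 : 0 ≤ ∑ i ∈ S.erase t, v i * v i := Finset.sum_nonneg fun i _ => mul_self_nonneg _
  have h5 := h0 t ht h3
  refine ⟨t, ht, mul_self_eq_mul_self_iff.1 (by omega), fun i hi h6 => mul_self_eq_zero.1 ?_⟩
  exact (Finset.sum_eq_zero_iff_of_nonneg fun i _ => mul_self_nonneg (v i)).1 (by omega) i
    (Finset.mem_erase.2 ⟨h6, hi⟩)

theorem exists_fr (h : ∑ i ∈ S, w i * w i = 4) (h1 : ∃ i ∈ S, Odd (w i)) :
    ∃ a b c d, Fr S w a b c d := by
  have h2 : ∀ i ∈ S, w i = 0 ∨ w i = 1 ∨ w i = -1 := fun i hi => by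
    obtain ⟨j, hj, n, hn⟩ := h1
    have h3 := Finset.single_le_sum (f := fun i => w i * w i) (fun j _ => mul_self_nonneg (w j)) hi
    have h4 : w i * w i ≤ 3 := by
      by_cases e : i = j
      · subst e
        have : w i * w i = 4 * (n * n + n) + 1 := by rw [hn]; ring
        omega
      · have := Finset.add_le_sum (f := fun i => w i * w i) (fun j _ => mul_self_nonneg (w j)) hi hj e
        have : 0 < w j * w j := mul_self_pos.2 (by omega)
        omega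
    have h5 : w i ≤ 1 := by nlinarith
    have h6 : -1 ≤ w i := by nlinarith
    omega
  have h3 := card_support_of_signs h2
  rw [h] at h3
  obtain ⟨a, b, c, d, h4, h5, h6, h7, h8, h9, he⟩ := Finset.card_eq_four.1 (by exact_mod_cast h3 :
    (S.filter fun i => w i ≠ 0).card = 4)
  have hm : ∀ i, i ∈ S ∧ w i ≠ 0 ↔ i = a ∨ i = b ∨ i = c ∨ i = d := fun i => by
    simpa using Finset.ext_iff.1 he i
  have ha := (hm a).2 (by simp)
  have hb := (hm b).2 (by simp)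
  have hc := (hm c).2 (by simp)
  have hd := (hm d).2 (by simp)
  refine ⟨a, b, c, d, ha.1, hb.1, hc.1, hd.1, h4, h5, h6, h7, h8, h9, (h2 a ha.1).resolve_left ha.2,
    (h2 b hb.1).resolve_left hb.2, (h2 c hc.1).resolve_left hc.2, (h2 d hd.1).resolve_left hd.2,
    fun i hi e1 e2 e3 e4 => by_contra fun e => ?_⟩
  have := (hm i).1 ⟨hi, e⟩
  tauto

namespace Fr
variable (h : Fr S w a b c d)
include h

theorem swap1 : Fr S w b a c d :=
  ⟨h.mb, h.ma, h.mc, h.md, h.ab.symm, h.bc, h.bd, h.ac, h.ad, h.cd, h.wb, h.wa, h.wc, h.wd,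
    fun i hi e1 e2 => h.zero i hi e2 e1⟩

theorem swap2 : Fr S w a c b d :=
  ⟨h.ma, h.mc, h.mb, h.md, h.ac, h.ab, h.ad, h.bc.symm, h.cd, h.bd, h.wa, h.wc, h.wb, h.wd,
    fun i hi e1 e2 e3 => h.zero i hi e1 e3 e2⟩

theorem swap3 : Fr S w a b d c :=
  ⟨h.ma, h.mb, h.md, h.mc, h.ab, h.ad, h.ac, h.bd, h.bc, h.cd.symm, h.wa, h.wb, h.wd, h.wc,
    fun i hi e1 e2 e3 e4 => h.zero i hi e1 e2 e4 e3⟩

theorem filter_ne : S.filter (fun i => w i ≠ 0) = {a, b, c, d} := by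
  ext i
  simp only [Finset.mem_filter, Finset.mem_insert, Finset.mem_singleton]
  refine ⟨fun e => by_contra fun e' => ?_, ?_⟩
  · push Not at e'; exact e.2 (h.zero i e.1 e'.1 e'.2.1 e'.2.2.1 e'.2.2.2)
  · have := h.wa; have := h.wb; have := h.wc; have := h.wd
    rintro (rfl | rfl | rfl | rfl)
    exacts [⟨h.ma, by omega⟩, ⟨h.mb, by omega⟩, ⟨h.mc, by omega⟩, ⟨h.md, by omega⟩]

theorem card : (S.filter fun i => w i ≠ 0).card = 4 :=
  Finset.card_eq_four.2 ⟨a, b, c, d, h.ab, h.ac, h.ad, h.bc, h.bd, h.cd, h.filter_ne⟩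

theorem sum {β : Type*} [AddCommMonoid β] (F : ι → β) :
    ∑ i ∈ S, F i = F a + F b + F c + F d + ∑ i ∈ S with w i = 0, F i := by
  rw [← Finset.sum_filter_not_add_sum_filter S (w · = 0), h.filter_ne, Finset.sum_insert
    (by simp [h.ab, h.ac, h.ad]), Finset.sum_insert (by simp [h.bc, h.bd]), Finset.sum_pair h.cd]
  simp only [add_assoc]

theorem sum_w : ∑ i ∈ S, v i * w i = v a * w a + v b * w b + v c * w c + v d * w d := by
  rw [h.sum, Finset.sum_eq_zero fun i hi => by rw [(Finset.mem_filter.1 hi).2, mul_zero], add_zero]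

theorem cases {i : ι} (hi : i ∈ S) : w i = 0 ∨ i = a ∨ i = b ∨ i = c ∨ i = d := by
  have := h.zero i hi; tauto

theorem odd_iff {i : ι} (hi : i ∈ S) : Odd (w i) ↔ w i ≠ 0 := by
  have := h.wa; have := h.wb; have := h.wc; have := h.wd
  rw [Int.odd_iff]
  rcases h.cases hi with e | rfl | rfl | rfl | rfl <;> omega

end Fr

/-- `x` has one nonzero entry off the support of `w` -/
structure Off (S : Finset ι) (w x : ι → ℤ) (e : ℤ) (t : ι) : Prop where
  mem : t ∈ S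
  wz : w t = 0
  val : x t = e ∨ x t = -e
  zero : ∀ i ∈ S, w i = 0 → i ≠ t → x i = 0

theorem Off.sum {e : ℤ} (h : Off S w x e t) (v : ι → ℤ) :
    ∑ i ∈ S with w i = 0, x i * v i = x t * v t :=
  Finset.sum_eq_single_of_mem t (Finset.mem_filter.2 ⟨h.mem, h.wz⟩) fun i hi e => by
    rw [h.zero i (Finset.mem_filter.1 hi).1 (Finset.mem_filter.1 hi).2 e, zero_mul]

theorem exists_off {e : ℤ} (he : e ≠ 0) (h1 : ∀ i ∈ S, w i = 0 → e ∣ x i)
    (h2 : ∑ i ∈ S with w i = 0, x i * x i = e * e) : ∃ t, Off S w x e t := by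
  obtain ⟨t, ht, h3, h4⟩ := exists_single he
    (fun i hi => h1 i (Finset.mem_filter.1 hi).1 (Finset.mem_filter.1 hi).2) h2
  exact ⟨t, (Finset.mem_filter.1 ht).1, (Finset.mem_filter.1 ht).2, h3,
    fun i hi h5 => h4 i (Finset.mem_filter.2 ⟨hi, h5⟩)⟩

/-- the six patterns -/
def Six (w x : ι → ℤ) (a b c d : ι) : Prop :=
  (x a = w a ∧ x b = w b ∧ x c = 0 ∧ x d = 0) ∨ (x a = w a ∧ x b = 0 ∧ x c = w c ∧ x d = 0) ∨
  (x a = w a ∧ x b = 0 ∧ x c = 0 ∧ x d = w d) ∨ (x a = 0 ∧ x b = w b ∧ x c = w c ∧ x d = 0) ∨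
  (x a = 0 ∧ x b = w b ∧ x c = 0 ∧ x d = w d) ∨ (x a = 0 ∧ x b = 0 ∧ x c = w c ∧ x d = w d)

theorem Fr.three (h : Fr S w a b c d) (h3 : ∑ i ∈ S, x i * x i = 3)
    (h2 : ∑ i ∈ S, x i * w i = 2) : Six w x a b c d ∧ ∃ t, Off S w x 1 t := by
  have e := fun i hi => sign_or_zero_of_sum_sq (S := S) (v := x) h3.le (i := i) hi
  rw [h.sum_w] at h2
  rw [h.sum] at h3
  have h4 : 0 ≤ ∑ i ∈ S with w i = 0, x i * x i := Finset.sum_nonneg fun i _ => mul_self_nonneg _
  have : Six w x a b c d ∧ ∑ i ∈ S with w i = 0, x i * x i = 1 * 1 := by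
    generalize ∑ i ∈ S with w i = 0, x i * x i = r at *
    unfold Six
    rcases h.wa with ea | ea <;> rcases h.wb with eb | eb <;> rcases h.wc with ec | ec <;>
      rcases h.wd with ed | ed <;> rcases e a h.ma with fa | fa | fa <;>
      rcases e b h.mb with fb | fb | fb <;> rcases e c h.mc with fc | fc | fc <;>
      rcases e d h.md with fd | fd | fd <;>
      simp only [ea, eb, ec, ed, fa, fb, fc, fd] at h2 h3 <;> omega
  exact ⟨this.1, exists_off one_ne_zero (fun _ _ _ => one_dvd _) this.2⟩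

theorem Fr.sq (h : Fr S w a b c d) :
    w a * w a = 1 ∧ w b * w b = 1 ∧ w c * w c = 1 ∧ w d * w d = 1 := by
  simp only [mul_self_eq_one_iff]; exact ⟨h.wa, h.wb, h.wc, h.wd⟩

theorem Fr.two (h : Fr S w a b c d) (h1 : Six w x a b c d) (h1' : Six w x' a b c d)
    (ht : Off S w x 1 t) (ht' : Off S w x' 1 t') (h2 : ∑ i ∈ S, x i * x' i = 2) :
    (t ≠ t' ∧ x a = x' a ∧ x b = x' b ∧ x c = x' c ∧ x d = x' d) ∨
      (t = t' ∧ x a * x' a + x b * x' b + x c * x' c + x d * x' d = 1) := by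
  rw [h.sum, ht.sum] at h2
  obtain ⟨e1, e2, e3, e4⟩ := h.sq
  by_cases e : t = t'
  · subst e
    refine Or.inr ⟨rfl, ?_⟩
    have : x t * x' t = 1 ∨ x t * x' t = -1 := by
      rcases ht.val with e | e <;> rcases ht'.val with e' | e' <;> simp [e, e']
    rcases h1 with f | f | f | f | f | f <;> rcases h1' with g | g | g | g | g | g <;>
      simp only [f, g, e1, e2, e3, e4, mul_zero, zero_mul] at h2 ⊢ <;> omega
  · refine Or.inl ⟨e, ?_⟩
    rw [ht'.zero t ht.mem ht.wz e] at h2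
    rcases h1 with f | f | f | f | f | f <;> rcases h1' with g | g | g | g | g | g <;>
      simp only [f, g, e1, e2, e3, e4, mul_zero, zero_mul, and_self] at h2 ⊢ <;> omega

theorem Fr.exists_norm (h : Fr S w a b c d) (h1 : Six w x a b c d) : ∃ a b c d, Fr S w a b c d ∧
    x a = w a ∧ x b = w b ∧ x c = 0 ∧ x d = 0 := by
  rcases h1 with f | f | f | f | f | f
  · exact ⟨_, _, _, _, h, f⟩
  · exact ⟨_, _, _, _, h.swap2, by tauto⟩
  · exact ⟨_, _, _, _, h.swap3.swap2, by tauto⟩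
  · exact ⟨_, _, _, _, h.swap1.swap2, by tauto⟩
  · exact ⟨_, _, _, _, h.swap1.swap3.swap2, by tauto⟩
  · exact ⟨_, _, _, _, h.swap2.swap1.swap3.swap2, by tauto⟩

theorem Fr.fake (h : Fr S w a b c d) {x y z φ : ι → ℤ} (hx : Six w x a b c d)
    (hy : Six w y a b c d) (hz : Six w z a b c d)
    (h1 : x a * y a + x b * y b + x c * y c + x d * y d = 1)
    (h2 : x a * z a + x b * z b + x c * z c + x d * z d = 1)
    (h3 : y a * z a + y b * z b + y c * z c + y d * z d = 1) (h4 : Odd (φ a)) (h4' : Odd (φ b))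
    (h5 : φ a * w a + φ b * w b + φ c * w c + φ d * w d = 0)
    (h6 : x a * φ a + x b * φ b + x c * φ c + x d * φ d = 0)
    (h7 : y a * φ a + y b * φ b + y c * φ c + y d * φ d = 0)
    (h8 : z a * φ a + z b * φ b + z c * φ c + z d * φ d = 0) : False := by
  obtain ⟨e1, e2, e3, e4⟩ := h.sq
  have h9 : φ a * w a ≠ 0 := mul_ne_zero (by rintro e; simp [e] at h4) (by rintro e; simp [e] at e1)
  have h10 : φ b * w b ≠ 0 := mul_ne_zero (by rintro e; simp [e] at h4') (by rintro e; simp [e] at e2)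
  simp only [mul_comm (φ _)] at h5 h9 h10
  rcases hx with f | f | f | f | f | f <;> rcases hy with g | g | g | g | g | g <;>
    simp only [f, g, e1, e2, e3, e4, mul_zero, zero_mul] at h1 <;> (try omega) <;>
    rcases hz with i | i | i | i | i | i <;>
    simp only [f, g, i, e1, e2, e3, e4, mul_zero, zero_mul] at h2 h3 h6 h7 h8 <;> omega

theorem pattern {J : Type*} [Fintype J] (hw : ∑ i ∈ S, w i * w i = 4) (h1 : ∃ i ∈ S, Odd (w i))
    {x : J → ι → ℤ} (h3 : ∀ j, ∑ i ∈ S, x j i * x j i = 3)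
    (h2 : ∀ j k, j ≠ k → ∑ i ∈ S, x j i * x k i = 2) (hxw : ∀ j, ∑ i ∈ S, x j i * w i = 2) :
    ∃ a b c d, Fr S w a b c d ∧ ∃ t : J → ι, (∀ j, Off S w (x j) 1 (t j)) ∧
      ((Function.Injective t ∧ ∀ j, x j a = w a ∧ x j b = w b ∧ x j c = 0 ∧ x j d = 0) ∨
        (2 ≤ Fintype.card J ∧ (∀ j k, t j = t k) ∧ (3 ≤ Fintype.card J → ∀ φ : ι → ℤ, Odd (φ a) →
          Odd (φ b) → ∑ i ∈ S, φ i * w i = 0 → (∀ j, ∑ i ∈ S, x j i * φ i = 0) →
            ∀ j, φ (t j) ≠ 0))) := by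
  obtain ⟨a, b, c, d, h⟩ := exists_fr hw h1
  choose t ht using fun j => (h.three (h3 j) (hxw j)).2
  by_cases hi : Function.Injective t
  · cases isEmpty_or_nonempty J with
    | inl _ => exact ⟨a, b, c, d, h, t, ht, Or.inl ⟨hi, fun j => isEmptyElim j⟩⟩
    | inr hn =>
      obtain ⟨j⟩ := hn
      obtain ⟨a, b, c, d, h, e⟩ := h.exists_norm (h.three (h3 j) (hxw j)).1
      refine ⟨a, b, c, d, h, t, ht, Or.inl ⟨hi, fun k => ?_⟩⟩
      by_cases e' : k = j
      · exact e' ▸ e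
      rcases h.two (h.three (h3 k) (hxw k)).1 (h.three (h3 j) (hxw j)).1 (ht k) (ht j) (h2 k j e')
        with f | f
      · rw [f.2.1, f.2.2.1, f.2.2.2.1, f.2.2.2.2]; exact e
      · exact absurd (hi f.1) e'
  have h6 := fun j => (h.three (h3 j) (hxw j)).1
  have h7 := fun j k e => h.two (h6 j) (h6 k) (ht j) (ht k) (h2 j k e)
  obtain ⟨j, k, e, e'⟩ := Function.not_injective_iff.1 hi
  have h8 : ∀ l, t l = t j := fun l => by_contra fun f => by
    obtain ⟨-, f1⟩ := (h7 l j fun g => f (g ▸ rfl)).resolve_right fun g => f g.1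
    obtain ⟨-, f2⟩ := (h7 l k fun g => f (g ▸ e.symm)).resolve_right fun g => f (g.1.trans e.symm)
    obtain ⟨-, f3⟩ := (h7 j k e').resolve_left fun g => g.1 e
    obtain ⟨e1, e2, e3, e4⟩ := h.sq
    rw [← f1.1, ← f1.2.1, ← f1.2.2.1, ← f1.2.2.2, ← f2.1, ← f2.2.1, ← f2.2.2.1, ← f2.2.2.2] at f3
    rcases h6 l with g | g | g | g | g | g <;> simp [g, e1, e2, e3, e4] at f3
  have h9 : ∀ j k, t j = t k := fun _ _ => (h8 _).trans (h8 _).symm
  refine ⟨a, b, c, d, h, t, ht, Or.inr ⟨Fintype.one_lt_card_iff.2 ⟨j, k, e'⟩, h9,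
    fun hc φ p1 p2 p3 p4 l p5 => ?_⟩⟩
  obtain ⟨i₁, i₂, i₃, n1, n2, n3⟩ := Fintype.two_lt_card_iff.1 hc
  have q := fun j k e => ((h7 j k e).resolve_left fun g => g.1 (h9 j k)).2
  have q' : ∀ j, x j a * φ a + x j b * φ b + x j c * φ c + x j d * φ d = 0 := fun j => by
    have := p4 j
    rwa [h.sum, (ht j).sum, h9 j l, p5, mul_zero, add_zero] at this
  exact h.fake (h6 i₁) (h6 i₂) (h6 i₃) (q _ _ n1) (q _ _ n2) (q _ _ n3) p1 p2 (h.sum_w ▸ p3)
    (q' _) (q' _) (q' _)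

theorem eq_of_pow_dvd {n e : ℕ} {u : ℤ} (hu : Odd u) (h1 : (2 : ℤ) ^ n ∣ 2 ^ e * u)
    (h2 : ¬ (2 : ℤ) ^ (n + 1) ∣ 2 ^ e * u) : n = e := by
  refine le_antisymm (by_contra fun h => ?_) (by_contra fun h => h2 ?_)
  · have := (pow_dvd_pow 2 (show e + 1 ≤ n by omega)).trans h1
    rw [pow_succ, mul_dvd_mul_iff_left (by positivity)] at this
    exact Int.not_even_iff_odd.2 hu (even_iff_two_dvd.2 this)
  · exact (pow_dvd_pow 2 (by omega)).mul_right _

theorem Fr.eight (h : Fr S w a b c d) {φ : ι → ℤ} (h1 : ∀ i ∈ S, Even (φ i - w i))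
    (h2 : ∑ i ∈ S, φ i * φ i = 8) : (φ a = 1 ∨ φ a = -1) ∧ (φ b = 1 ∨ φ b = -1) ∧
      (φ c = 1 ∨ φ c = -1) ∧ (φ d = 1 ∨ φ d = -1) ∧ ∃ t, Off S w φ 2 t := by
  have e1 : ∀ i ∈ S, w i = 0 → (2 : ℤ) ∣ φ i := fun i hi e => by
    simpa [e, even_iff_two_dvd] using h1 i hi
  have e2 : (4 : ℤ) ∣ ∑ i ∈ S with w i = 0, φ i * φ i := Finset.dvd_sum fun i hi =>
    mul_dvd_mul (e1 i (Finset.mem_filter.1 hi).1 (Finset.mem_filter.1 hi).2)
      (e1 i (Finset.mem_filter.1 hi).1 (Finset.mem_filter.1 hi).2)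
  have h4 : 0 ≤ ∑ i ∈ S with w i = 0, φ i * φ i := Finset.sum_nonneg fun i _ => mul_self_nonneg _
  have e3 : ∀ i ∈ S, (w i = 1 ∨ w i = -1) → ∃ n, φ i * φ i = 8 * n + 1 ∧ 0 ≤ n := fun i hi e => by
    obtain ⟨m, hm⟩ : Odd (φ i) := by
      have := h1 i hi
      rw [Int.even_iff] at this; rw [Int.odd_iff]; omega
    obtain ⟨n, hn⟩ := Int.even_mul_succ_self m
    refine ⟨n, by rw [hm]; linear_combination 4 * hn, ?_⟩
    nlinarith [mul_self_nonneg (2 * m + 1)]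
  obtain ⟨n1, f1, g1⟩ := e3 a h.ma h.wa
  obtain ⟨n2, f2, g2⟩ := e3 b h.mb h.wb
  obtain ⟨n3, f3, g3⟩ := e3 c h.mc h.wc
  obtain ⟨n4, f4, g4⟩ := e3 d h.md h.wd
  rw [h.sum] at h2
  simp only [← mul_self_eq_one_iff]
  exact ⟨by omega, by omega, by omega, by omega, exists_off two_ne_zero e1 (by omega)⟩

/-- the data of the counting lemma -/
structure TV (S : Finset ι) (ht : ι → ℕ) (k : ℕ) {J : Type*} [Fintype J] (R : Finset Bool)
    (w : ι → ℤ) (x : J → ι → ℤ) (s : J → ℤ) (φ : Bool → ι → ℤ) (c : ι → ι → ℤ) : Prop where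
  ww : ∑ i ∈ S, w i * w i = 4
  xx : ∀ j, ∑ i ∈ S, x j i * x j i = 3
  xx' : ∀ j k, j ≠ k → ∑ i ∈ S, x j i * x k i = 2
  xw : ∀ j, ∑ i ∈ S, x j i * w i = 2
  odd : ∀ j, Odd (s j)
  par : ∀ r ∈ R, ∀ i ∈ S, Even (φ r i - w i)
  pp : ∀ r ∈ R, ∑ i ∈ S, φ r i * φ r i = 8
  pp' : R = Finset.univ → ∑ i ∈ S, φ true i * φ false i = 0
  pw : ∀ r ∈ R, ∑ i ∈ S, φ r i * w i = 0
  xp : ∀ r ∈ R, ∀ j, ∑ i ∈ S, x j i * φ r i = 0
  eq : ∀ i ∈ S, ∀ i' ∈ S, c i i' = (2 * ∑ j, s j * x j i - w i) * (2 * ∑ j, s j * x j i' - w i') +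
    2 ^ k * ∑ r ∈ R, φ r i * φ r i'
  dvd : ∀ i ∈ S, ∀ i' ∈ S, 2 ^ ht i ∣ c i i' ∧ (2 ^ (ht i + 1) ∣ c i i' ↔ ht i' ≠ 0)
  ex : ∃ i ∈ S, ht i = 0

namespace TV
variable {ht : ι → ℕ} {k : ℕ} {J : Type*} [Fintype J] {R : Finset Bool} {x : J → ι → ℤ}
  {s : J → ℤ} {φ : Bool → ι → ℤ} {c : ι → ι → ℤ} (h : TV S ht k R w x s φ c)
include h

theorem odd_iff {i : ι} (hi : i ∈ S) : Odd (w i) ↔ ht i = 0 := by
  have e1 : ∀ i ∈ S, Odd (c i i) ↔ ht i = 0 := fun i hi => by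
    rw [← Int.not_even_iff_odd, even_iff_two_dvd]
    refine ⟨fun e => by_contra fun e' => e ((dvd_pow_self 2 e').trans (h.dvd i hi i hi).1),
      fun e e' => ?_⟩
    have := (h.dvd i hi i hi).2
    rw [e] at this
    exact this.1 (by simpa using e') rfl
  have e2 : ∀ i ∈ S, (c i i : ZMod 2) = (1 + 2 ^ k * R.card) * (w i * w i) := fun i hi => by
    have e3 : ∀ r ∈ R, (φ r i : ZMod 2) = w i := fun r hr => by
      rw [← sub_eq_zero, ← Int.cast_sub, ZMod.intCast_eq_zero_iff_even]; exact h.par r hr i hi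
    rw [h.eq i hi i hi]
    push_cast
    rw [Finset.sum_congr (s₁ := R) rfl fun r hr => by rw [e3 r hr], Finset.sum_const, nsmul_eq_mul,
      show (2 : ZMod 2) = 0 from rfl]
    ring
  obtain ⟨j, hj, h0⟩ := h.ex
  have e4 := ZMod.intCast_eq_one_iff_odd.2 ((e1 j hj).2 h0)
  rw [e2 j hj] at e4
  rw [← e1 i hi, ← ZMod.intCast_eq_one_iff_odd, ← ZMod.intCast_eq_one_iff_odd, e2 i hi]
  clear e1 e2
  generalize (1 + 2 ^ k * R.card : ZMod 2) = u at *
  generalize (w i : ZMod 2) = v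
  generalize (w j : ZMod 2) = v' at e4
  revert u v v'; decide

theorem main : (S.filter fun i => ht i = 0).card = 4 ∧ S.card ≤ 4 + Fintype.card J + R.card ∧
    ((3 ≤ Fintype.card J ∨ Fintype.card J = 1 ∧ R = ∅) → (3 ≤ Fintype.card J ∧ S.card = 5) ∨
      (S.card = 4 + Fintype.card J + R.card ∧
        (∀ i ∈ S, ht i = 0 ∨ ht i = 1 ∨ (R.Nonempty ∧ ht i = k + 1)) ∧
        (k ≠ 0 → (S.filter fun i => ht i = 1).card = Fintype.card J))) := by
  obtain ⟨a, b, c', d, hf, t, h1, h2⟩ := pattern h.ww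
    (h.ex.imp fun i hi => ⟨hi.1, (h.odd_iff hi.1).2 hi.2⟩) h.xx h.xx' h.xw
  have h0 : ∀ i ∈ S, ht i = 0 ↔ w i ≠ 0 := fun i hi => by rw [← h.odd_iff hi, hf.odd_iff hi]
  have ha : ht a = 0 := (h0 a hf.ma).2 (by have := hf.wa; omega)
  have h3 := fun r : R => hf.eight (h.par r r.2) (h.pp r r.2)
  choose u hu using fun r => (h3 r).2.2.2.2
  have h4 : ∀ i ∈ S, ¬ 2 ^ (ht i + 1) ∣ c i a := fun i hi e => (h.dvd i hi a hf.ma).2.1 e ha
  have h5 : S = S.filter (fun i => w i ≠ 0) ∪ Finset.univ.image t ∪ Finset.univ.image u := by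
    ext i
    simp only [Finset.mem_union, Finset.mem_filter, Finset.mem_image, Finset.mem_univ, true_and]
    refine ⟨fun hi => by_contra fun e => h4 i hi ?_, ?_⟩
    · push Not at e
      have e1 := e.1.1 hi
      rw [h.eq i hi a hf.ma, Finset.sum_eq_zero fun j _ => by
        rw [(h1 j).zero i hi e1 (e.1.2 j).symm, mul_zero], Finset.sum_eq_zero (s := R) fun r hr => by
        rw [(hu ⟨r, hr⟩).zero i hi e1 (e.2 _).symm, zero_mul], e1]
      simp
    · rintro ((e | ⟨j, rfl⟩) | ⟨r, rfl⟩)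
      exacts [e.1, (h1 j).mem, (hu r).mem]
  refine ⟨by rw [← hf.card]; exact congrArg _ (Finset.filter_congr h0), ?_, fun hJ => ?_⟩
  · rw [h5]
    refine (Finset.card_union_le _ _).trans (add_le_add ((Finset.card_union_le _ _).trans
      (add_le_add hf.card.le Finset.card_image_le)) (Finset.card_image_le.trans (by simp)))
  have hoa : Odd (2 * ∑ j, s j * x j a - w a) :=
    (even_two_mul _).sub_odd ((h.odd_iff hf.ma).2 ha)
  have h6 : Disjoint (S.filter fun i => w i ≠ 0) (Finset.univ.image t) :=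
    Finset.disjoint_left.2 fun i hi hi' => by
      obtain ⟨j, -, rfl⟩ := Finset.mem_image.1 hi'
      exact (Finset.mem_filter.1 hi).2 (h1 j).wz
  rcases h2 with ⟨h2, h7⟩ | ⟨h2, h7, h8⟩
  swap
  · have hJ : 3 ≤ Fintype.card J := by omega
    obtain ⟨j⟩ : Nonempty J := Fintype.card_pos_iff.1 (by omega)
    refine Or.inl ⟨hJ, ?_⟩
    have e1 : Finset.univ.image t = {t j} :=
      Finset.eq_singleton_iff_unique_mem.2 ⟨by simp, by simp [h7 _ j]⟩
    rw [h5, Finset.union_eq_left.2, Finset.card_union_of_disjoint h6, hf.card, e1]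
    · rfl
    · refine fun i hi => Finset.mem_union_right _ ?_
      obtain ⟨r, -, rfl⟩ := Finset.mem_image.1 hi
      refine Finset.mem_image.2 ⟨j, Finset.mem_univ _, by_contra fun e => h8 hJ (φ r) ?_ ?_
        (h.pw r r.2) (h.xp r r.2) j ((hu r).zero _ (h1 j).mem (h1 j).wz e)⟩
      · rcases (h3 r).1 with e | e <;> simp [e]
      · rcases (h3 r).2.1 with e | e <;> simp [e]
  have h8 : ∀ (r : R) j, φ r (t j) = 0 := fun r j => by
    have hJ : 3 ≤ Fintype.card J := hJ.resolve_right fun e => by simpa [e.2] using r.2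
    have e : ∀ j, w a * φ r a + w b * φ r b + x j (t j) * φ r (t j) = 0 := fun j => by
      have := h.xp r r.2 j
      rwa [hf.sum, (h1 j).sum, (h7 j).1, (h7 j).2.1, (h7 j).2.2.1, (h7 j).2.2.2, zero_mul, zero_mul,
        add_zero, add_zero] at this
    by_contra e1
    have e2 : t j = u r := by_contra fun e2 => e1 ((hu r).zero _ (h1 j).mem (h1 j).wz e2)
    obtain ⟨j', e3⟩ := Fintype.exists_ne_of_one_lt_card (by omega) j
    have e4 := e j'
    rw [(hu r).zero _ (h1 j').mem (h1 j').wz fun g => e3 (h2 (g.trans e2.symm)), mul_zero,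
      add_zero] at e4
    have e5 := e j
    rw [e4, zero_add, mul_eq_zero] at e5
    have := (h1 j).val
    omega
  have h9 : ∀ (r : R) j, u r ≠ t j := fun r j e => by
    have := (hu r).val
    rw [e, h8] at this; omega
  have h10 : ∀ r : R, c (u r) a = 2 ^ k * ∑ r' ∈ R, φ r' (u r) * φ r' a := fun r => by
    rw [h.eq _ (hu r).mem a hf.ma, Finset.sum_eq_zero fun j _ => by
      rw [(h1 j).zero _ (hu r).mem (hu r).wz (h9 r j), mul_zero], (hu r).wz]
    simp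
  have h11 : Function.Injective u := fun r r' e => by_contra fun e' => by
    have e1 : R = Finset.univ := by
      obtain ⟨r, hr⟩ := r; obtain ⟨r', hr'⟩ := r'
      have : r ≠ r' := fun g => e' (Subtype.ext g)
      refine Finset.eq_univ_of_forall fun i => ?_
      cases i <;> cases r <;> cases r' <;> first | exact hr | exact hr' | exact absurd rfl this
    subst e1
    have e2 : u ⟨true, by simp⟩ = u ⟨false, by simp⟩ := by
      obtain ⟨r, hr⟩ := r; obtain ⟨r', hr'⟩ := r'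
      cases r <;> cases r' <;> first | exact e | exact e.symm | exact absurd rfl e'
    have e3 := h.pp' rfl
    have q1 := hu ⟨true, by simp⟩
    have q2 := hu ⟨false, by simp⟩
    refine h4 _ q1.mem ?_
    rw [hf.sum, q1.sum] at e3
    rw [h10, Fintype.sum_bool, show φ true (u ⟨true, by simp⟩) * φ true a +
      φ false (u ⟨true, by simp⟩) * φ false a = 0 from ?_, mul_zero]
    · exact dvd_zero _
    obtain ⟨f1, f2, f3, f4, -⟩ := h3 ⟨true, by simp⟩
    obtain ⟨g1, g2, g3, g4, -⟩ := h3 ⟨false, by simp⟩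
    have f5 := q1.val
    have g5 := q2.val
    rw [← e2] at g5
    simp only at f1 f2 f3 f4 g1 g2 g3 g4 f5 g5
    rcases f1 with f1 | f1 <;> rcases f2 with f2 | f2 <;> rcases f3 with f3 | f3 <;>
      rcases f4 with f4 | f4 <;> rcases f5 with f5 | f5 <;> rcases g5 with g5 | g5 <;>
      simp only [f1, f2, f3, f4, f5, g5] at e3 ⊢ <;> omega
  have h12 : ∀ j, ht (t j) = 1 := fun j => by
    have e : c (t j) a = 2 ^ 1 * (s j * x j (t j) * (2 * ∑ j, s j * x j a - w a)) := by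
      rw [h.eq _ (h1 j).mem a hf.ma, Finset.sum_eq_zero (s := R) fun r hr => by
        rw [h8 ⟨r, hr⟩, zero_mul], (h1 j).wz, Finset.sum_eq_single j (fun j' _ e => by
        rw [(h1 j').zero _ (h1 j).mem (h1 j).wz fun g => e (h2 g).symm, mul_zero]) (by simp)]
      ring
    refine eq_of_pow_dvd (((h.odd j).mul ?_).mul hoa) (e ▸ (h.dvd _ (h1 j).mem a hf.ma).1)
      (e ▸ h4 _ (h1 j).mem)
    rcases (h1 j).val with e | e <;> simp [e]
  have h13 : ∀ r, ht (u r) = k + 1 := fun r => by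
    obtain ⟨n, hn, e⟩ : ∃ n, Odd n ∧ c (u r) a = 2 ^ (k + 1) * n := by
      rw [h10, Finset.sum_eq_single_of_mem r.1 r.2 fun r' hr' e => by
        rw [(hu ⟨r', hr'⟩).zero _ (hu r).mem (hu r).wz fun g => e (congrArg Subtype.val (h11 g)).symm,
          zero_mul]]
      rcases (hu r).val with e | e <;> rcases (h3 r).1 with e' | e' <;> rw [e, e']
      exacts [⟨1, odd_one, by ring⟩, ⟨-1, odd_neg_one, by ring⟩, ⟨-1, odd_neg_one, by ring⟩,
        ⟨1, odd_one, by ring⟩]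
    exact eq_of_pow_dvd hn (e ▸ (h.dvd _ (hu r).mem a hf.ma).1) (e ▸ h4 _ (hu r).mem)
  have h14 : ∀ i ∈ S, ht i = 0 ∨ (∃ j, t j = i) ∨ ∃ r, u r = i := fun i hi => by
    have := h5 ▸ hi
    simp only [Finset.mem_union, Finset.mem_filter, Finset.mem_image, Finset.mem_univ,
      true_and] at this
    rw [h0 i hi]; tauto
  refine Or.inr ⟨?_, fun i hi => ?_, fun hk => ?_⟩
  · rw [h5, Finset.card_union_of_disjoint, Finset.card_union_of_disjoint h6, hf.card,
      Finset.card_image_of_injective _ h2, Finset.card_image_of_injective _ h11]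
    · simp
    · refine Finset.disjoint_right.2 fun i hi hi' => ?_
      obtain ⟨r, -, rfl⟩ := Finset.mem_image.1 hi
      rcases Finset.mem_union.1 hi' with e | e
      · exact (Finset.mem_filter.1 e).2 (hu r).wz
      · obtain ⟨j, -, e⟩ := Finset.mem_image.1 e
        exact h9 r j e.symm
  · rcases h14 i hi with e | ⟨j, rfl⟩ | ⟨r, rfl⟩
    exacts [Or.inl e, Or.inr (Or.inl (h12 j)), Or.inr (Or.inr ⟨⟨r, r.2⟩, h13 r⟩)]
  · rw [← Finset.card_univ, ← Finset.card_image_of_injective _ h2]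
    congr 1; ext i
    simp only [Finset.mem_filter, Finset.mem_image, Finset.mem_univ, true_and]
    refine ⟨fun e => ?_, by rintro ⟨j, rfl⟩; exact ⟨(h1 j).mem, h12 j⟩⟩
    rcases h14 i e.1 with e' | e' | ⟨r, rfl⟩
    · omega
    · exact e'
    · have := h13 r; omega

end TV

end H21
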