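import Mathlib
import Cfsg.Agent.H21.Tame3
import Cfsg.Agent.H21.Tame4

/-!
Blocks with a defect group of maximal class: Fourier coefficients, class sums (namespace H21).
* `fc`, `fz` : Fourier coefficients; `Loc.gram`, `Loc.null`, `Loc.odd_iff`.
* `urep`, `MC.sum_nf`, `MC.card_eq` : sums over subsections.
* `TV.block` : consequences of the counting lemma; `dihedral_main`.
-/

set_option autoImplicit false
set_option linter.unusedSectionVars false
set_option linter.unusedVariables false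

namespace H21
open H05 Cfsg H20 MonoidAlgebra Classical
open scoped ComplexConjugate

local notation:max "𝐂" Q:max => Subgroup.centralizer (SetLike.coe Q)
local notation:max "𝐍" Q:max => Subgroup.normalizer (SetLike.coe Q)
local notation:max "⟪" u "⟫" => Subgroup.zpowers u

attribute [-instance] H19.instFintypeSubgroupFrob

section fourier
variable {k δ : ℕ}

/-- the standard additive character -/
noncomputable def ac (k : ℕ) : AddChar (ZK k) ℂ := ZMod.stdAddChar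

/-- the order of the cyclic maximal subgroup -/
noncomputable abbrev NN (k : ℕ) : ℂ := ((2 ^ (k + 2) : ℕ) : ℂ)

theorem NN_ne : NN k ≠ 0 := Nat.cast_ne_zero.2 (by positivity)

theorem ac_prim : (ac k).IsPrimitive := ZMod.isPrimitive_stdAddChar _

theorem sum_ac (b : ZK k) : ∑ x, ac k (x * b) = if b = 0 then NN k else 0 := sum_addChar_mul ac_prim b

theorem ac_hh : ac k (hh k) = -1 := by
  have h1 : ac k (hh k) * ac k (hh k) = 1 := by
    rw [← AddChar.map_add_eq_mul, ← two_mul, two_hh, AddChar.map_zero_eq_one]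
  refine (mul_self_eq_one_iff.1 h1).resolve_left fun e => hh_ne (k := k) ?_
  exact ZMod.injective_stdAddChar (e.trans (AddChar.map_zero_eq_one _).symm)

/-- differences of Fourier coefficients -/
noncomputable def fc (E : ZK k → ℂ) (j : ZK k) : ℂ := (NN k)⁻¹ * ∑ l, E l * (1 - ac k (l * j))

/-- their integer values -/
noncomputable def fz (E : ZK k → ℂ) (j : ZK k) : ℤ := ⌊(fc E j).re⌋

theorem fc_zero (E : ZK k → ℂ) : fc E 0 = 0 := by simp [fc]

theorem sum_fc (E : ZK k → ℂ) (c l : ZK k) (hl : c * l ≠ 0) :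
    ∑ j, fc E (c * j) * ac k (-(l * (c * j))) = -∑ l' with c * l' = c * l, E l' := by
  have e : ∀ i j : ZK k, (1 - ac k (i * (c * j))) * ac k (-(l * (c * j))) =
      ac k (j * -(c * l)) - ac k (j * (c * i - c * l)) := by
    intro i j
    rw [sub_mul, one_mul, ← AddChar.map_add_eq_mul]
    congr 2 <;> ring
  simp only [fc, Finset.mul_sum, Finset.sum_mul, mul_assoc, e]
  rw [Finset.sum_comm, Finset.sum_filter, ← Finset.sum_neg_distrib]
  refine Finset.sum_congr rfl fun i _ => ?_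
  simp only [← Finset.mul_sum, Finset.sum_sub_distrib, sum_ac, neg_eq_zero, hl, if_false, sub_eq_zero]
  have := NN_ne (k := k)
  split_ifs <;> field_simp <;> ring

theorem sum_ZK {β : Type*} [AddCommMonoid β] (F : ZK k → β) (h : ∀ j, F (-j) = F j) :
    ∑ j, F j = F 0 + F (hh k) + 2 • ∑ j ∈ Finset.Ico 1 (2 ^ (k + 1)), F (j : ℕ) := by
  have h1 : 1 ≤ 2 ^ (k + 1) := Nat.one_le_two_pow
  have h2 : 2 ^ (k + 2) = 2 ^ (k + 1) + 2 ^ (k + 1) := by rw [pow_succ]; omega
  have h3 : ∑ j ∈ Finset.Ico (2 ^ (k + 1) + 1) (2 ^ (k + 2)), F (j : ℕ) =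
      ∑ j ∈ Finset.Ico 1 (2 ^ (k + 1)), F (j : ℕ) :=
    Finset.sum_nbij' (2 ^ (k + 2) - ·) (2 ^ (k + 2) - ·) (by simp; omega) (by simp; omega)
      (by simp; omega) (by simp; omega) fun j hj => by
        rw [Nat.cast_sub (by simp at hj; omega), ZMod.natCast_self, zero_sub, h]
  rw [← Finset.sum_nbij' (s := Finset.range (2 ^ (k + 2))) (f := fun j : ℕ => F j) (fun j => (j : ZK k))
    ZMod.val (by simp) (fun a _ => Finset.mem_range.2 a.val_lt)
    (fun a ha => ZMod.val_natCast_of_lt (Finset.mem_range.1 ha)) (by simp) (by simp),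
    Finset.range_eq_Ico, Finset.sum_eq_sum_Ico_succ_bot (by omega),
    ← Finset.sum_Ico_consecutive _ (show 0 + 1 ≤ 2 ^ (k + 1) from h1) (by omega),
    Finset.sum_eq_sum_Ico_succ_bot (show 2 ^ (k + 1) < 2 ^ (k + 2) by omega), h3, cast_hh, two_smul]
  simp only [Nat.cast_zero, zero_add]; abel

theorem cast_facts {i j : ℕ} (hi : i ∈ Finset.Ico 1 (2 ^ (k + 1)))
    (hj : j ∈ Finset.Ico 1 (2 ^ (k + 1))) : (i : ZK k) ≠ 0 ∧ (i : ZK k) ≠ hh k ∧
      (i : ZK k) ≠ -j ∧ ((i : ZK k) = j ↔ i = j) := by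
  have h2 : 2 ^ (k + 2) = 2 ^ (k + 1) + 2 ^ (k + 1) := by rw [pow_succ]; omega
  rw [Finset.mem_Ico] at hi hj
  have e : ∀ a b : ℕ, a < 2 ^ (k + 2) → b < 2 ^ (k + 2) → ((a : ZK k) = b ↔ a = b) :=
    fun a b ha hb => by rw [ZMod.natCast_eq_natCast_iff', Nat.mod_eq_of_lt ha, Nat.mod_eq_of_lt hb]
  refine ⟨?_, ?_, ?_, e _ _ (by omega) (by omega)⟩
  · rw [← Nat.cast_zero, Ne, e _ _ (by omega) (by omega)]; omega
  · rw [← cast_hh, Ne, e _ _ (by omega) (by omega)]; omega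
  · rw [Ne, ← add_eq_zero_iff_eq_neg, ← Nat.cast_add, ← Nat.cast_zero, e _ _ (by omega) (by omega)]
    omega

theorem cc_ne (l : ZK k) : cc k δ l ≠ 0 := by
  have := NN_ne (k := k)
  rw [cc]; split_ifs <;> simpa

theorem conj_cc (l : ZK k) : conj (cc k δ l) = cc k δ l := by
  rw [cc]; split_ifs <;> simp [map_ofNat]

end fourier

variable {M : Ideal AlgInt} [hMm : M.IsMaximal] {G : Type*} [Group G] [Fintype G]
  {B : Set (IrrCharacter G)} {b : BrauerPairIdx G} {u v w x t σ τ : G} {f g φ : G → ℂ}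
  {k δ : ℕ} {P : ZK k → Prop} {E : (G → ℂ) → ZK k → ℂ} {l l' i j : ZK k}

namespace Loc
variable (h : Mx M 2 B b) (hm : MC b.1 σ τ k δ) (hl : Loc M b σ k δ P E φ)
include hl

theorem mv_eq (hP : P l) (hf : IsClassFunction G f) (hg : IsClassFunction G g) :
    cc k δ l * mv M 2 b (pw σ l) f g = E f l * conj (E g l) := by
  rw [hl.ref l hP f hf, hl.ref l hP g hg, map_mul, conj_cc, conj_mv]
  linear_combination cc k δ l * cc k δ l * hl.rk l hP f g -
    cc k δ l * mv M 2 b (pw σ l) f g * hl.ref1 l hP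

theorem cast_fz (hf : IsGeneralizedCharacter G f) (j : ZK k) : (fz (E f) j : ℂ) = fc (E f) j := by
  obtain ⟨a, ha⟩ := hl.int f hf (ac k) 0
  obtain ⟨b, hb⟩ := hl.int f hf (ac k) j
  simp only [mul_zero, AddChar.map_zero_eq_one, mul_one] at ha
  have : fc (E f) j = (a - b : ℤ) := by
    simp only [fc, mul_sub, mul_one, Finset.sum_sub_distrib, ha, hb, Int.cast_sub]
  rw [fz, this]; simp only [Complex.intCast_re, Int.floor_intCast]

theorem fc_eq (hj : ∀ l, ¬ P l → ac k (l * j) = 1) (hf : IsClassFunction G f) : fc (E f) j =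
    ∑ l with P l, (NN k)⁻¹ * (1 - ac k (l * j)) * cc k δ l * mv M 2 b (pw σ l) f φ := by
  rw [fc, Finset.mul_sum, Finset.sum_filter]
  refine Finset.sum_congr rfl fun l _ => ?_
  split_ifs with h1
  · rw [hl.ref l h1 f hf]; ring
  · simp [hj l h1]

theorem fc_sum (hj : ∀ l, ¬ P l → ac k (l * j) = 1) (s : Finset (IrrCharacter G))
    (c : IrrCharacter G → ℂ) :
    fc (E (∑ χ ∈ s, c χ • (χ : G → ℂ))) j = ∑ χ ∈ s, c χ * fc (E χ) j := by
  rw [hl.fc_eq hj fun x y => by simp [fun χ : IrrCharacter G => χ.2.isClassFunction x y]]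
  simp only [fun χ : IrrCharacter G => hl.fc_eq hj χ.2.isClassFunction, mv_sum_left, mv_smul_left,
    Finset.mul_sum]
  rw [Finset.sum_comm]
  exact Finset.sum_congr rfl fun _ _ => Finset.sum_congr rfl fun _ _ => by ring

include hm

theorem fc_ee (hf : IsClassFunction G f) (j : ZK k) : fc (E f) (ee k δ * j) = fc (E f) j := by
  rw [fc, fc, ← Equiv.sum_comp ⟨_, _, ee_ee hm.dl, ee_ee hm.dl⟩]
  refine congrArg _ (Finset.sum_congr rfl fun l _ => ?_)
  simp only [Equiv.coe_fn_mk]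
  rw [hl.sym f hf, mul_mul_mul_comm, mul_comm (ee k δ) (ee k δ), mul_mul_mul_comm, ← mul_assoc,
    mul_comm (ee k δ * l), ee_ee hm.dl]

include h

theorem null (hj : ∀ l, ¬ P l → ac k (l * j) = 1) (hw : w ∈ b.1)
    (h1 : ∀ l, P l → ¬ Fus M 2 b w (pw σ l)) (g : G → ℂ) :
    ∑ χ with χ ∈ B, mv M 2 b w g χ * fc (E χ) j = 0 := by
  simp only [fun χ : IrrCharacter G => hl.fc_eq hj χ.2.isClassFunction, Finset.mul_sum]
  rw [Finset.sum_comm]
  refine Finset.sum_eq_zero fun l h2 => ?_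
  simp only [mul_left_comm (mv M 2 b w g _)]
  rw [← Finset.mul_sum, h.cross hw (hm.pw_memD l) (h1 l (Finset.mem_filter.1 h2).2), mul_zero]

theorem col (hP : P l) (hP' : P l') : ∑ χ with χ ∈ B, E χ l * conj (E χ l') =
    NN k * ((if l' = l then 1 else 0) + if l' = ee k δ * l then 1 else 0) := by
  have e : ∑ χ with χ ∈ B, E χ l * conj (E χ l') =
      cc k δ l * cc k δ l' * ∑ χ with χ ∈ B, mv M 2 b (pw σ l') φ χ * mv M 2 b (pw σ l) χ φ := by
    rw [Finset.mul_sum]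
    refine Finset.sum_congr rfl fun χ _ => ?_
    rw [hl.ref l hP _ χ.2.isClassFunction, hl.ref l' hP' _ χ.2.isClassFunction, map_mul, conj_cc,
      conj_mv]; ring
  have e1 : ∀ l, P l → ∑ χ with χ ∈ B, E χ l * conj (E χ l) = cc k δ l := fun l hP => by
    rw [Finset.sum_congr rfl (g := fun χ : IrrCharacter G => cc k δ l * cc k δ l *
      (mv M 2 b (pw σ l) φ χ * mv M 2 b (pw σ l) χ φ)) fun χ _ => by
        rw [hl.ref l hP _ χ.2.isClassFunction, map_mul, conj_cc, conj_mv]; ring,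
      ← Finset.mul_sum, h.sum_mv_mul (hm.pw_memD l), mul_assoc, hl.ref1 l hP, mul_one]
  by_cases h1 : l' = l
  · subst h1
    rw [e1 l' hP, cc]; simp only [eq_comm (a := l')]; split_ifs <;> ring
  by_cases h2 : l' = ee k δ * l
  · rw [if_neg h1, if_pos h2]
    simp only [h2, fun χ : IrrCharacter G => hl.sym _ χ.2.isClassFunction l]
    rw [e1 l hP, cc, if_neg (h2 ▸ h1)]; ring
  · rw [e, h.cross (hm.pw_memD l') (hm.pw_memD l) fun h3 => ?_]
    · simp [h1, h2]
    · exact (hl.fus l l' hP hP' (h.fus_symm (hm.pw_memD l') h3)).elim h1 h2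

theorem rank (hP : P l) : blockRank 2 (sb M 2 b (pw σ l)) = 1 := by
  have := hl.col h hm hP hP
  rw [← Finset.sum_congr rfl fun χ _ => hl.mv_eq hP χ.2.isClassFunction χ.2.isClassFunction,
    ← Finset.mul_sum, h.sum_mv_self (hm.pw_memD l), show NN k * _ = cc k δ l * 1 by
      rw [cc]; simp only [eq_comm (a := l)]; split_ifs <;> ring] at this
  exact_mod_cast mul_left_cancel₀ (cc_ne l) this

theorem gram (hP : ∀ l, P l → P (ee k δ * l)) (hi : ∀ l, ¬ P l → ac k (l * i) = 1)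
    (hj : ∀ l, ¬ P l → ac k (l * j) = 1) (hi0 : i ≠ 0) (hj0 : j ≠ 0) :
    ∑ χ with χ ∈ B, fz (E χ) i * fz (E χ) j =
      2 + (if i = j then 1 else 0) + if i = ee k δ * j then 1 else 0 := by
  have hN := NN_ne (k := k)
  have e0 : ∀ χ : IrrCharacter G, ((fz (E χ) i * fz (E χ) j : ℤ) : ℂ) =
      fc (E χ) i * conj (fc (E χ) j) := fun χ => by
    rw [← hl.cast_fz χ.2.isGeneralizedCharacter, ← hl.cast_fz χ.2.isGeneralizedCharacter]; simp
  have e1 : ∑ χ with χ ∈ B, fc (E χ) i * conj (fc (E χ) j) = (NN k)⁻¹ * ∑ l, (1 - ac k (l * i)) *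
      ((NN k)⁻¹ * ∑ l', (1 - ac k (-(l' * j))) * ∑ χ with χ ∈ B, E χ l * conj (E χ l')) := by
    simp only [fc, map_mul, map_sum, map_sub, map_one, conj_addChar, map_inv₀, map_natCast,
      Finset.mul_sum, Finset.sum_mul]
    conv_lhs => rw [Finset.sum_comm]
    conv_rhs => rw [Finset.sum_comm]
    refine Finset.sum_congr rfl fun k _ => ?_
    conv_lhs => rw [Finset.sum_comm]
    exact Finset.sum_congr rfl fun l _ => Finset.sum_congr rfl fun χ _ => by ring
  have e3 : ∀ l, ¬ P l → ac k (-(l * j)) = 1 := fun l h1 => by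
    rw [← conj_addChar, hj l h1, map_one]
  have e2 : ∀ l, (1 - ac k (l * i)) * ((NN k)⁻¹ * ∑ l', (1 - ac k (-(l' * j))) *
      ∑ χ with χ ∈ B, E χ l * conj (E χ l')) = 2 * ac k (l * 0) - ac k (l * -j) -
        ac k (l * -(ee k δ * j)) - 2 * ac k (l * i) + ac k (l * (i - j)) +
          ac k (l * (i - ee k δ * j)) := by
    intro l
    have e4 : ac k (l * -(ee k δ * j)) = ac k (-(ee k δ * l * j)) := by congr 1; ring
    simp only [mul_sub l, sub_eq_add_neg (l * i), AddChar.map_add_eq_mul, ← mul_neg l, e4,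
      mul_zero, AddChar.map_zero_eq_one]
    by_cases h1 : P l
    · rw [Finset.sum_congr rfl (g := fun l' => (1 - ac k (-(l' * j))) * (NN k *
        ((if l' = l then 1 else 0) + if l' = ee k δ * l then 1 else 0))) fun l' _ => by
          by_cases h2 : P l'
          · rw [hl.col h hm h1 h2]
          · simp [e3 l' h2]]
      simp only [mul_add, mul_ite, mul_one, mul_zero, Finset.sum_add_distrib, Finset.sum_ite_eq',
        Finset.mem_univ, if_true, ← mul_neg l]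
      field_simp; ring
    · rw [hi l h1, mul_neg, e3 l h1, e3 _ fun h2 => h1 (ee_ee hm.dl l ▸ hP _ h2)]; ring
  have e5 : ee k δ * j ≠ 0 := fun e => hj0 (by rw [← ee_ee hm.dl j, e, mul_zero])
  refine Int.cast_injective (α := ℂ) ?_
  rw [Int.cast_sum, Finset.sum_congr rfl fun χ _ => e0 χ, e1]
  simp only [e2, Finset.sum_add_distrib, Finset.sum_sub_distrib, ← Finset.mul_sum, sum_ac,
    neg_eq_zero, hi0, hj0, e5, if_true, if_false, sub_eq_zero]
  split_ifs <;> push_cast <;> field_simp <;> ring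

end Loc

variable (M) in
/-- not fused into the cyclic maximal subgroup -/
def Un (b : BrauerPairIdx G) (σ x : G) : Prop := ∀ w ∈ ⟪σ⟫, ¬ Fus M 2 b x w

variable (M) in
/-- representatives of the unfused classes -/
noncomputable def urep (b : BrauerPairIdx G) (σ τ : G) : Finset G :=
  ({τ, σ * τ} : Finset G).filter fun x => Un M b σ x ∧ (x = τ ∨ ¬ Fus M 2 b τ x)

namespace MC
variable (h : Mx M 2 B b) (hm : MC b.1 σ τ k δ)
include h hm

theorem defect : blockDefect 2 B = k + 3 :=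
  Nat.pow_right_injective le_rfl ((h.def'.card_eq h.mod h.blk).symm.trans hm.card)

theorem fus_pw : Fus M 2 b (pw σ l) (pw σ l') ↔ l' = l ∨ l' = ee k δ * l := by
  refine ⟨fun h1 => ?_, fun h1 => ?_⟩
  · have e : ∀ l : ZK k, pw σ l = 1 ↔ l = 0 := fun l => hm.pw_eq_one
    have e' : ∀ l : ZK k, pw σ l * pw σ l = 1 ↔ l = 0 ∨ l = hh k := fun l => by
      rw [← hm.pw_add, e, ← two_mul, two_mul_eq_zero]
    have h2 : l' = 0 ↔ l = 0 := by
      obtain ⟨x, h2, -⟩ := h1; rw [← e, ← e, ← h2, conj_eq_one_iff]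
    have h3 : l' = 0 ∨ l' = hh k ↔ l = 0 ∨ l = hh k := by
      obtain ⟨x, h2, -⟩ := h1; rw [← e', ← e', ← h2, conj_mul, conj_eq_one_iff]
    obtain ⟨E, φ, hl⟩ := exists_loc_y h hm
    by_cases h4 : l = 0 ∨ l = hh k
    · left; rcases h4 with rfl | rfl
      · exact h2.2 rfl
      · exact (h3.2 (Or.inr rfl)).resolve_left fun e => hh_ne (h2.1 e)
    · exact hl.fus l l' (not_or.1 h4) (not_or.1 (mt h3.1 h4)) h1
  · obtain ⟨s, hs, e⟩ := hm.conj_iff.2 h1
    exact e ▸ h.fus_of_pstab (le_pstab _ hs) (hm.pw_memD l)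

omit h in
theorem rep_mem (ht : t ∈ urep M b σ τ) : t ∈ b.1 ∧ t ∉ ⟪σ⟫ ∧ Un M b σ t := by
  obtain ⟨h1, h2, -⟩ := Finset.mem_filter.1 ht
  simp only [Finset.mem_insert, Finset.mem_singleton] at h1
  rcases h1 with rfl | rfl
  · exact ⟨hm.τ_mem, hm.τ_not, h2⟩
  · exact ⟨mul_mem hm.σ_mem hm.τ_mem, by simpa [pw_one] using hm.out_not 1, h2⟩

theorem rep_sep {t' : G} (ht : t ∈ urep M b σ τ) (ht' : t' ∈ urep M b σ τ) (e : Fus M 2 b t t') :
    t = t' := by
  have e' := h.fus_symm (hm.rep_mem ht).1 e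
  simp only [urep, Finset.mem_filter, Finset.mem_insert, Finset.mem_singleton] at ht ht'
  obtain ⟨rfl | rfl, -, h1⟩ := ht <;> obtain ⟨rfl | rfl, -, h2⟩ := ht' <;> tauto

theorem rep_cover (hv : v ∈ b.1) (h1 : Un M b σ v) : ∃ t ∈ urep M b σ τ, Fus M 2 b v t := by
  have e : ∀ t, Fus M 2 b v t → Un M b σ t := fun t ht w hw e => h1 w hw (h.fus_trans ht e)
  obtain ⟨s, hs, h2⟩ := hm.out_rep hv fun h2 => h1 v h2 (h.fus_refl hv)
  have h3 := h.fus_of_pstab (le_pstab _ hs) hv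
  simp only [urep, Finset.mem_filter, Finset.mem_insert, Finset.mem_singleton]
  rcases h2 with h2 | h2 <;> rw [h2] at h3
  · exact ⟨τ, ⟨Or.inl rfl, e _ h3, Or.inl rfl⟩, h3⟩
  · by_cases h4 : Fus M 2 b τ (σ * τ)
    · have h5 := h.fus_trans h3 (h.fus_symm hm.τ_mem h4)
      exact ⟨τ, ⟨Or.inl rfl, e _ h5, Or.inl rfl⟩, h5⟩
    · exact ⟨_, ⟨Or.inr rfl, e _ h3, Or.inr h4⟩, h3⟩

theorem sum_nf (F : G → ℂ) (hF : ∀ v ∈ b.1, ∀ w, Fus M 2 b v w → F w = F v) :
    ∑ v with v ∈ b.1, (nf M 2 b v : ℂ)⁻¹ * F v =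
      ∑ l, cc k δ l / (2 * NN k) * F (pw σ l) + ∑ t ∈ urep M b σ τ, F t := by
  have e : ∀ (Q : G → Prop) (F : G → ℂ), ∑ w with Q w, ((∑ l, if w = pw σ l then
      cc k δ l / (2 * NN k) else 0) + if w ∈ urep M b σ τ then 1 else 0) * F w =
      ∑ l with Q (pw σ l), cc k δ l / (2 * NN k) * F (pw σ l) +
        ∑ t ∈ urep M b σ τ with Q t, F t := fun Q F => by
    simp only [add_mul, Finset.sum_add_distrib, Finset.sum_mul, ite_mul, zero_mul, one_mul]
    rw [Finset.sum_comm, ← Finset.sum_filter, Finset.sum_filter (s := Finset.univ) (p := fun l => Q _)]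
    congr 1
    · simp
    · congr 1; ext; simp [and_comm]
  rw [h.sum_wt _ (fun u hu => ?_) F hF, e, Finset.filter_true_of_mem fun l _ => hm.pw_memD l,
    Finset.filter_true_of_mem fun t ht => (hm.rep_mem ht).1]
  have := e (Fus M 2 b u) 1
  simp only [Pi.one_apply, mul_one] at this
  rw [this]
  by_cases h1 : Un M b σ u
  · obtain ⟨t, ht, h2⟩ := hm.rep_cover h hu h1
    rw [Finset.filter_false_of_mem fun l _ => h1 _ (pw_mem σ l), Finset.sum_eq_single_of_mem t
      (Finset.mem_filter.2 ⟨ht, h2⟩) fun t' ht' e => absurd (hm.rep_sep h (Finset.mem_filter.1 ht').1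
        ht (h.fus_trans (h.fus_symm hu (Finset.mem_filter.1 ht').2) h2)) e]
    simp
  · simp only [Un, not_forall, not_not] at h1
    obtain ⟨w, hw, h1⟩ := h1
    obtain ⟨l, rfl⟩ := hm.exists_pw hw
    rw [Finset.filter_false_of_mem (s := urep M b σ τ) fun t ht e => (hm.rep_mem ht).2.2 _ hw
      (h.fus_trans (h.fus_symm hu e) h1), show Finset.univ.filter (fun l' => Fus M 2 b u (pw σ l')) =
        {l, ee k δ * l} from ?_]
    · have hN := NN_ne (k := k)
      by_cases h2 : ee k δ * l = l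
      · simp [h2, cc]
      · rw [Finset.sum_pair (Ne.symm h2), cc, cc, if_neg h2, ee_ee hm.dl, if_neg (Ne.symm h2)]
        simp; field_simp; ring
    · ext l'
      simp only [Finset.mem_filter, Finset.mem_univ, true_and, Finset.mem_insert,
        Finset.mem_singleton, ← hm.fus_pw h]
      exact ⟨h.fus_trans (h.fus_symm hu h1), h.fus_trans h1⟩

omit h in
theorem sum_cc (F : ZK k → ℂ) : ∑ l, cc k δ l / (2 * NN k) * F l =
    F 0 + F (hh k) + 2⁻¹ * ∑ l with l ≠ 0 ∧ l ≠ hh k, F l := by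
  have hN := NN_ne (k := k)
  rw [← Finset.sum_filter_not_add_sum_filter _ fun l => l ≠ 0 ∧ l ≠ hh k, show
    Finset.univ.filter (fun l => ¬ (l ≠ 0 ∧ l ≠ hh k)) = {0, hh k} by ext; simp; tauto,
    Finset.sum_pair hh_ne.symm, Finset.mul_sum, cc, cc, if_pos (mul_zero _), if_pos ee_hh,
    div_self (by simpa), one_mul, one_mul]
  refine congrArg _ (Finset.sum_congr rfl fun l hl => ?_)
  rw [cc, if_neg (by rw [ee_fix hm.dl]; exact not_or.2 (Finset.mem_filter.1 hl).2)]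
  field_simp

theorem un_defect (ht : t ∈ b.1) (h1 : Un M b σ t) : blockDefect 2 (sb M 2 b t) ≤ 2 := by
  obtain ⟨w, h2, h3⟩ := h.exists_ext ht
  exact (Nat.pow_le_pow_iff_right one_lt_two).1 (h3 ▸ hm.card_cent h2.mem fun e => h1 w e h2)

theorem un_rank (ht : t ∈ b.1) (h1 : Un M b σ t) : blockRank 2 (sb M 2 b t) = 1 :=
  rank_one_of_center h.mod (h.sub ht).blk (u := ⟨t, (h.sub ht).mem⟩)
    (Subgroup.mem_center_iff.2 fun g => Subtype.ext ((h.sub ht).comm _ g.2))
    (fun e => h1 t (by rw [show t = 1 from congrArg Subtype.val e]; exact one_mem _) (h.fus_refl ht))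
    (by simpa using h.ord ht) (hm.un_defect h ht h1)

omit h hm hMm in
theorem card_good : ((Finset.univ.filter fun l : ZK k => l ≠ 0 ∧ l ≠ hh k).card : ℂ) = NN k - 2 := by
  have := Finset.card_filter_add_card_filter_not (s := Finset.univ) fun l : ZK k => l ≠ 0 ∧ l ≠ hh k
  rw [show Finset.univ.filter (fun l => ¬ (l ≠ 0 ∧ l ≠ hh k)) = {0, hh k} by ext; simp; tauto,
    Finset.card_pair hh_ne.symm, Finset.card_univ, ZMod.card] at this
  rw [eq_sub_iff_add_eq]; exact_mod_cast this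

theorem card_eq : Nat.card B + 1 = blockRank 2 B + blockRank 2 (sb M 2 b (pw σ (hh k))) +
    2 ^ (k + 1) + (urep M b σ τ).card := by
  obtain ⟨E, φ, hl⟩ := exists_loc_y h hm
  have := h.card_eq
  rw [hm.sum_nf h _ fun v hv w e => by rw [h.rank_congr hv e], hm.sum_cc, pw_zero, h.rank_sb_one,
    Finset.sum_congr rfl fun l e => by rw [hl.rank h hm (Finset.mem_filter.1 e).2],
    Finset.sum_congr (s₁ := urep M b σ τ) rfl fun t e => by
      rw [hm.un_rank h (hm.rep_mem e).1 (hm.rep_mem e).2.2], Finset.sum_const, Finset.sum_const,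
    nsmul_eq_mul, card_good] at this
  refine Nat.cast_injective (R := ℂ) ?_
  push_cast at this ⊢
  rw [this]; ring

theorem sm_z (f g : G → ℂ) :
    sm 2 (sb M 2 b (pw σ (hh k))) (pw σ (hh k)) f g = 2 * NN k * mv M 2 b (pw σ (hh k)) f g := by
  rw [sm_eq_mv, h.defect_sb (hm.pw_memD _) fun x hx => mem_centralizer_zpowers.2 (hm.z_conj hx),
    hm.defect h]
  push_cast; ring

theorem dvd_z {χ ψ : IrrCharacter G} (hχ : χ ∈ B) (hψ : ψ ∈ B) {n : ℤ}
    (e : 2 * NN k * mv M 2 b (pw σ (hh k)) χ ψ = n) : 2 ^ blockHeight 2 B (χ : G → ℂ) ∣ n ∧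
      (2 ^ (blockHeight 2 B (χ : G → ℂ) + 1) ∣ n ↔ blockHeight 2 B (ψ : G → ℂ) ≠ 0) := by
  obtain ⟨h1, h2⟩ := (h.sub (hm.pw_memD _)).major_sm (h.defect_sb (hm.pw_memD _)
    fun x hx => mem_centralizer_zpowers.2 (hm.z_conj hx)) hχ hψ
  rw [hm.sm_z h, e] at h1 h2
  obtain ⟨m, h3⟩ := exists_int_of_ring_of_pow_mul h.mod (mul_div_cancel₀ _ (by simp)) h1
  rw [h3, ideal_intCast_iff h.mod] at h2
  obtain rfl : n = 2 ^ blockHeight 2 B (χ : G → ℂ) * m := by
    rw [div_eq_iff (by simp), mul_comm] at h3; exact_mod_cast h3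
  exact ⟨dvd_mul_right _ _, by rw [pow_succ, mul_dvd_mul_iff_left (by positivity)]; exact h2⟩

theorem of_tv {J : Type*} [Fintype J] (hJ : Fintype.card J + 1 = 2 ^ (k + 1)) {R : Finset Bool}
    {w : IrrCharacter G → ℤ} {x : J → IrrCharacter G → ℤ} {s : J → ℤ}
    {φ : Bool → IrrCharacter G → ℤ} {c : IrrCharacter G → IrrCharacter G → ℤ}
    (ht : TV (Finset.univ.filter (· ∈ B)) (fun χ => blockHeight 2 B (χ : G → ℂ)) k R w x s φ c) :
    Nat.card {χ : IrrCharacter G // χ ∈ B ∧ blockHeight 2 B (χ : G → ℂ) = 0} = 4 ∧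
    Nat.card B ≤ 2 ^ (k + 1) + 3 + R.card ∧ (k ≠ 0 ∨ R = ∅ →
      Nat.card B = 2 ^ (k + 1) + 3 + R.card ∧ (∀ χ ∈ B, blockHeight 2 B (χ : G → ℂ) = 0 ∨
        blockHeight 2 B (χ : G → ℂ) = 1 ∨ R.Nonempty ∧ blockHeight 2 B (χ : G → ℂ) = k + 1) ∧
      (k ≠ 0 → Nat.card {χ : IrrCharacter G // χ ∈ B ∧ blockHeight 2 B (χ : G → ℂ) = 1} =
        2 ^ (k + 1) - 1)) := by
  obtain ⟨h1, h2, h3⟩ := ht.main
  rw [← natCard_eq_card_filter] at h2 h3
  have e : ∀ n, Nat.card {χ : IrrCharacter G // χ ∈ B ∧ blockHeight 2 B (χ : G → ℂ) = n} =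
      ((Finset.univ.filter (· ∈ B)).filter fun χ : IrrCharacter G =>
        blockHeight 2 B (χ : G → ℂ) = n).card := fun n => by
    rw [Finset.filter_filter, Nat.card_eq_fintype_card, Fintype.card_subtype]
  have e1 : k ≠ 0 → 4 ≤ 2 ^ (k + 1) := fun hk => Nat.pow_le_pow_right two_pos (show 2 ≤ k + 1 by omega)
  refine ⟨(e 0).trans h1, by omega, fun hk => ?_⟩
  rcases h3 (by
    by_cases h4 : k = 0
    · subst h4; exact Or.inr ⟨by omega, hk.resolve_left (by simp)⟩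
    · have := e1 h4; omega) with ⟨h4, h5⟩ | ⟨h4, h5, h6⟩
  · have h6 := hm.card_eq h
    have h7 := one_le_blockRank Nat.prime_two (block_nonempty h.blk)
    have h8 := one_le_blockRank Nat.prime_two (block_nonempty (h.sub (hm.pw_memD (hh k))).blk)
    have h9 := pow_of_k5 h.mod h.blk (by omega) h5
    rw [hm.defect h, pow_succ, pow_succ] at h9
    omega
  · exact ⟨by omega, fun χ hχ => h5 χ (by simpa using hχ), fun hk => by rw [e, h6 hk]; omega⟩

end MC

omit hMm in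
theorem MC.of_equiv {K : Type*} [Group K] {D : Subgroup G} (e : D ≃* K) {s t : K}
    (h1 : orderOf s = 2 ^ (k + 2)) (h2 : t ∉ ⟪s⟫) (h3 : Nat.card K = 2 ^ (k + 3))
    (h4 : t * s * t⁻¹ = s⁻¹ * (s ^ 2 ^ (k + 1)) ^ δ) (h5 : δ = 0 ∨ δ = 1 ∧ 1 ≤ k) :
    MC D (e.symm s : G) (e.symm t : G) k δ ∧
      ∀ x : K, (e.symm x : G) ∈ ⟪(e.symm s : G)⟫ ↔ x ∈ ⟪s⟫ := by
  have : ∀ x : K, (e.symm x : G) ∈ ⟪(e.symm s : G)⟫ ↔ x ∈ ⟪s⟫ := fun x => by
    simp only [Subgroup.mem_zpowers_iff, ← Subgroup.coe_zpow, ← map_zpow, Subtype.coe_inj,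
      e.symm.injective.eq_iff]
  refine ⟨⟨by rw [Subgroup.orderOf_coe, e.symm.orderOf_eq, h1], Subtype.coe_prop _,
    Subtype.coe_prop _, mt (this t).1 h2, (Nat.card_congr e.toEquiv).trans h3, ?_, h5⟩, this⟩
  simpa using congrArg (fun x => (e.symm x : G)) h4

theorem dihedral_main (h : Mx M 2 B b) (hm : MC b.1 σ τ k 0)
    (hd : ∀ x ∈ b.1, x ∉ ⟪σ⟫ → x * x = 1) : Nat.card B = 2 ^ (k + 1) + 3 ∧ blockRank 2 B ≤ 3 ∧
      Nat.card {χ : IrrCharacter G // χ ∈ B ∧ blockHeight 2 B (χ : G → ℂ) = 0} = 4 ∧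
      ∀ χ ∈ B, blockHeight 2 B (χ : G → ℂ) ≤ 1 := by
  obtain ⟨E, φ, hl⟩ := exists_loc_z h hm hd
  have e0 : ∀ j : ZK k, ee k 0 * j = -j := fun j => by simp [ee]
  have hg : ∀ i j : ZK k, i ≠ 0 → j ≠ 0 → ∑ χ with χ ∈ B, fz (E χ) i * fz (E χ) j =
      2 + (if i = j then 1 else 0) + if i = -j then 1 else 0 := fun i j hi hj =>
    e0 j ▸ hl.gram h hm (fun l e => by simpa [e0] using e) (by simp) (by simp) hi hj
  have e1 : ∀ χ : IrrCharacter G, E χ (hh k) = (2 * ∑ j : Finset.Ico 1 (2 ^ (k + 1)),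
      -(-1) ^ (j : ℕ) * fz (E χ) (j : ℕ) - fz (E χ) (hh k) : ℤ) := fun χ => by
    have e2 : ∀ j : ZK k, ac k (-(hh k * j)) = ac k (j * hh k) := fun j => by
      rw [← neg_mul, neg_hh, mul_comm]
    have := sum_fc (E χ) 1 (hh k) (by simpa using hh_ne)
    simp only [one_mul, Finset.filter_eq', Finset.mem_univ, if_true, Finset.sum_singleton, e2] at this
    rw [sum_ZK _ fun j => by rw [← e0, hl.fc_ee hm χ.2.isClassFunction, e0, neg_mul, ← mul_neg,
      neg_hh], fc_zero, hh_sq, ← Finset.sum_coe_sort] at this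
    simp only [← nsmul_eq_mul _ (hh k), AddChar.map_nsmul_eq_pow, ac_hh,
      ← hl.cast_fz χ.2.isGeneralizedCharacter] at this
    push_cast
    simp only [neg_mul, Finset.sum_neg_distrib, mul_comm ((-1 : ℂ) ^ _), Finset.univ_eq_attach]
    simp at this
    linear_combination this
  obtain ⟨h1, -, h2⟩ := hm.of_tv h (J := Finset.Ico 1 (2 ^ (k + 1))) (R := ∅)
    (by simp [Nat.one_le_two_pow]) (w := fun χ => fz (E χ) (hh k)) (x := fun j χ => fz (E χ) (j : ℕ))
    (s := fun j => -(-1) ^ (j : ℕ)) (φ := fun _ _ => 0)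
    ⟨by rw [hg _ _ hh_ne hh_ne]; simp [neg_hh],
      fun j => by have := cast_facts j.2 j.2; rw [hg _ _ this.1 this.1]; simp [this.2.2.1],
      fun i j e => by
        have := cast_facts i.2 j.2
        rw [hg _ _ this.1 (cast_facts j.2 j.2).1, if_neg this.2.2.1,
          if_neg fun e' => e (Subtype.ext (this.2.2.2.1 e'))]; rfl,
      fun j => by have := cast_facts j.2 j.2; rw [hg _ _ this.1 hh_ne]; simp [neg_hh, this.2.1],
      fun j => (Odd.pow odd_neg_one).neg, by simp, by simp, fun e => absurd e.symm Finset.univ_nonempty.ne_empty,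
      by simp, by simp, fun _ _ _ _ => rfl,
      fun χ hχ ψ hψ => hm.dvd_z h (by simpa using hχ) (by simpa using hψ) (by
        have := hl.mv_eq hh_ne χ.2.isClassFunction ψ.2.isClassFunction
        rw [cc, if_pos ee_hh, e1, e1, map_intCast] at this
        rw [this, Finset.sum_empty, mul_zero, add_zero, Int.cast_mul]),
      (h.blk.exists_height_zero 2).imp fun χ e => ⟨by simpa using e.1, e.2⟩⟩
  obtain ⟨h2, h3, -⟩ := h2 (Or.inr rfl)
  have h4 := hm.card_eq h
  have h5 := one_le_blockRank Nat.prime_two (block_nonempty (h.sub (hm.pw_memD (hh k))).blk)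
  simp only [Finset.card_empty, add_zero, Finset.not_nonempty_empty, false_and, or_false] at h2 h3
  exact ⟨h2, by omega, h1, fun χ hχ => by have := h3 χ hχ; omega⟩

end H21
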