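import Mathlib
import Cfsg.Agent.H21.Tame5

/-!
Blocks with a defect group of maximal class: heights, unfused columns, central twists
(namespace H21).
* `Loc.odd_iff` : parity detects height zero; `MC.exists_col` : unfused subsections.
* `om`, `Loc.twist`, `isGen_pReg`.
-/

set_option autoImplicit false
set_option linter.unusedSectionVars false
set_option linter.unusedVariables false

namespace H21
open H05 Cfsg H20 MonoidAlgebra Classical
open scoped ComplexConjugate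

local notation:max "𝐂" Q:max => Subgroup.centralizer (SetLike.coe Q)
local notation:max "𝐍" Q:max => Subgroup.normalizer (SetLike.coe Q)
local notation:max "⟪" u "⟫" => Subgroup.zpowers u

attribute [-instance] H19.instFintypeSubgroupFrob

variable {M : Ideal AlgInt} [hMm : M.IsMaximal] {G : Type*} [Group G] [Fintype G]
  {B : Set (IrrCharacter G)} {b : BrauerPairIdx G} {u v x t σ τ z : G} {f g φ : G → ℂ}
  {k δ : ℕ} {P : ZK k → Prop} {E : (G → ℂ) → ZK k → ℂ} {l l' i j : ZK k}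

omit hMm in
theorem isGen_pReg (p : ℕ) [Fact p.Prime] (hf : IsGeneralizedCharacter G f) :
    IsGeneralizedCharacter G fun g => f (pReg p g) := by
  refine brauer_characterization_nilpotent
    (fun g x => by simp only [pReg_conj, hf.isClassFunction _ x]) fun E hE => ?_
  obtain ⟨Q, hQ⟩ := exists_dec (p := p) E
  have hmul : ∀ g ∈ E, ∀ x ∈ E, pReg p (g * x) = pReg p g * pReg p x := fun g hg x hx => by
    have := (Subgroup.mem_centralizer_iff.1 (hQ.reg g hg) _ (Q.inv_mem (hQ.part x hx)))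
    rw [pReg, hQ.mul g hg x hx, _root_.mul_inv_rev, mul_assoc, ← mul_assoc _ g, ← pReg, ← mul_assoc,
      this, mul_assoc, ← pReg]
  exact hf.comp (MonoidHom.mk' (fun x : E => pReg p (x : G)) fun x y => hmul _ x.2 _ y.2)

theorem adm_two (j l : ZK k) (h : ¬ (l ≠ 0 ∧ l ≠ hh k)) : ac k (l * (2 * j)) = 1 := by
  rw [not_and_or, not_not, not_not] at h
  rw [show l * (2 * j) = 2 * l * j by ring, two_mul_eq_zero.2 h, zero_mul, AddChar.map_zero_eq_one]

theorem good_add (h : l ≠ 0 ∧ l ≠ hh k) : l + hh k ≠ 0 ∧ l + hh k ≠ hh k :=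
  ⟨fun e => h.2 (by rw [add_eq_zero_iff_eq_neg.1 e, neg_hh]), by simpa using h.1⟩

theorem good_ee (hd : δ = 0 ∨ δ = 1 ∧ 1 ≤ k) (l : ZK k) (h : l ≠ 0 ∧ l ≠ hh k) :
    ee k δ * l ≠ 0 ∧ ee k δ * l ≠ hh k :=
  ⟨fun e => h.1 (by rw [← ee_ee hd l, e, mul_zero]), fun e => h.2 (by rw [← ee_ee hd l, e, ee_hh])⟩

theorem good_one : (1 : ZK k) ≠ 0 ∧ (1 : ZK k) ≠ hh k := by
  have := cast_facts (k := k) (i := 1) (j := 1) (by simp) (by simp)
  rw [Nat.cast_one] at this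
  exact ⟨this.1, this.2.1⟩

theorem two_mul_cases (j : ZK k) : 2 * j = 0 ∨ 2 * j = hh k ∨
    ∃ i ∈ Finset.Ico 1 (2 ^ k), 2 * j = 2 * (i : ℕ) ∨ 2 * j = -(2 * (i : ℕ)) := by
  obtain ⟨n, hn, e⟩ : ∃ n < 2 ^ (k + 1), 2 * j = 2 * (n : ℕ) :=
    ⟨j.val % 2 ^ (k + 1), Nat.mod_lt _ (by positivity), by
      conv_lhs => rw [← ZMod.natCast_zmod_val j, ← Nat.mod_add_div j.val (2 ^ (k + 1)),
        Nat.cast_add, Nat.cast_mul, cast_hh]
      linear_combination (↑(j.val / 2 ^ (k + 1)) : ZK k) * two_hh (k := k)⟩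
  rw [e]
  rcases lt_trichotomy n (2 ^ k) with h | rfl | h
  · rcases Nat.eq_zero_or_pos n with rfl | h1
    · simp
    · exact Or.inr (Or.inr ⟨n, by simp; omega, Or.inl rfl⟩)
  · exact Or.inr (Or.inl (by rw [← two_qq]; simp [qq]))
  · refine Or.inr (Or.inr ⟨2 ^ (k + 1) - n, by rw [pow_succ] at *; simp; omega, Or.inr ?_⟩)
    rw [Nat.cast_sub hn.le, cast_hh]
    linear_combination two_hh (k := k)

theorem fc_twist {E : ZK k → ℂ} {c : ℂ} (h : ∀ l, l ≠ 0 ∧ l ≠ hh k → E (l + hh k) = c * E l)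
    (j : ZK k) : fc E (2 * j) = c * fc E (2 * j) := by
  rw [fc, mul_left_comm, Finset.mul_sum (a := c)]
  conv_lhs => rw [← Equiv.sum_comp (Equiv.addRight (hh k))]
  refine congrArg _ (Finset.sum_congr rfl fun l _ => ?_)
  rw [Equiv.coe_addRight, add_mul, AddChar.map_add_eq_mul, adm_two j (hh k) (by simp), mul_one]
  by_cases h1 : l ≠ 0 ∧ l ≠ hh k
  · rw [h l h1, mul_assoc]
  · simp [adm_two j l h1]

theorem eq_zero_of_fc {E : ZK k → ℂ} (h : ∀ l, l ≠ 0 ∧ l ≠ hh k → E (l + hh k) = E l)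
    (h1 : ∀ j, fc E (2 * j) = 0) (hl : l ≠ 0 ∧ l ≠ hh k) : E l = 0 := by
  have := sum_fc E 2 l (by rw [Ne, two_mul_eq_zero]; exact not_or.2 hl)
  rw [show Finset.univ.filter (fun l' => 2 * l' = 2 * l) = {l, l + hh k} from ?_,
    Finset.sum_pair (by simpa using hh_ne), h l hl] at this
  · simp only [h1, zero_mul, Finset.sum_const_zero] at this
    linear_combination this / 2
  · ext l'
    simp only [Finset.mem_filter, Finset.mem_univ, true_and, Finset.mem_insert, Finset.mem_singleton]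
    rw [← sub_eq_zero, ← mul_sub, two_mul_eq_zero, sub_eq_zero, sub_eq_iff_eq_add']

theorem MC.defect_σ (h : Mx M 2 B b) (hm : MC b.1 σ τ k δ) :
    blockDefect 2 (sb M 2 b (pw σ (1 : ZK k))) = k + 2 := by
  obtain ⟨w, h1, h2⟩ := h.exists_ext (hm.pw_memD 1)
  have h3 : orderOf w = 2 ^ (k + 2) := by
    obtain ⟨x, e, -⟩ := h1; rw [← e, orderOf_conj', pw_one, hm.ord]
  have h4 : 2 ^ (k + 2) ≤ Nat.card (b.1 ⊓ 𝐂 ⟪w⟫ :) := by
    rw [← h3, ← Nat.card_zpowers]
    exact Subgroup.card_le_of_le (Subgroup.zpowers_le.2 ⟨h1.mem, mem_centralizer_zpowers.2 (by group)⟩)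
  have h5 : Nat.card (b.1 ⊓ 𝐂 ⟪w⟫ :) < 2 ^ (k + 3) := by
    rw [← hm.card]
    refine (Subgroup.card_le_of_le inf_le_left).lt_of_ne fun e => ?_
    have h6 : b.1 ≤ 𝐂 ⟪w⟫ := inf_eq_left.1 (Subgroup.eq_of_le_of_card_ge inf_le_left e.ge)
    have h7 : 4 ≤ 2 ^ (k + 2) := Nat.pow_le_pow_right two_pos (show 2 ≤ k + 2 by omega)
    by_cases h8 : w ∈ ⟪σ⟫
    · rcases hm.out_comm hm.τ_mem hm.τ_not h8 (mem_centralizer_zpowers.1 (h6 hm.τ_mem)) with e | e
      · rw [e, orderOf_one] at h3; omega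
      · rw [e, hm.ord_z] at h3; omega
    · have := hm.card_cent h1.mem h8
      rw [e, hm.card, pow_succ] at this; omega
  rw [← h2, Nat.pow_le_pow_iff_right one_lt_two] at h4
  rw [← h2, Nat.pow_lt_pow_iff_right one_lt_two] at h5
  omega

theorem Loc.odd_iff (h : Mx M 2 B b) (hm : MC b.1 σ τ k δ) (hl : Loc M b σ k δ P E φ) (h1 : P 1)
    {χ : IrrCharacter G} (hχ : χ ∈ B) :
    Odd (fz (E χ) (hh k)) ↔ blockHeight 2 B (χ : G → ℂ) = 0 := by
  have hg := χ.2.isGeneralizedCharacter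
  have e1 := sum_fc (E χ) 1 1 (by simpa using good_one.1)
  simp only [one_mul, Finset.filter_eq', Finset.mem_univ, if_true, Finset.sum_singleton,
    ← hl.cast_fz hg] at e1
  have e2 : ∀ j, MemLocalIdeal M (ac k j - 1) := fun j =>
    ideal_sub_comm.1 (one_sub_root_mem h.mod (addChar_pow_card _ j))
  have e3 : ∀ j, MemLocalRing M (ac k j) := fun j => ring_of_sub (e2 j) ring_one
  have e4 : ∀ F : ZK k → ZK k, MemLocalIdeal M (∑ j, fz (E χ) j * ac k (F j) -
      (∑ j, fz (E χ) j : ℤ)) := fun F => by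
    rw [Int.cast_sum, ← Finset.sum_sub_distrib]
    exact ideal_sum fun j _ => by
      rw [← mul_sub_one]; exact ideal_mul_left (ring_intCast _) (e2 _)
  have e5 : Even (∑ j, fz (E χ) j - fz (E χ) (hh k)) := by
    rw [← ZMod.intCast_eq_zero_iff_even, ← Finset.add_sum_erase _ _ (Finset.mem_univ (hh k)),
      add_sub_cancel_left, Int.cast_sum]
    have e6 : ∀ j, fz (E χ) (ee k δ * j) = fz (E χ) j := fun j => by
      rw [fz, hl.fc_ee hm χ.2.isClassFunction, fz]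
    refine Finset.sum_involution (fun j _ => ee k δ * j) (fun j _ => ?_) (fun j hj h2 e => ?_)
      (fun j hj => ?_) fun j _ => ee_ee hm.dl j
    · rw [e6]; exact CharTwo.add_self_eq_zero _
    · rcases (ee_fix hm.dl).1 e with rfl | rfl
      · simp [fz, fc_zero] at h2
      · simp at hj
    · simp only [Finset.mem_erase, Finset.mem_univ, and_true] at hj ⊢
      exact fun e => hj (by rw [← ee_ee hm.dl j, e, ee_hh])
  have e6 := (h.sub (hm.pw_memD 1)).not_ideal_sm_iff χ χ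
  have e7 := hl.mv_eq h1 χ.2.isClassFunction χ.2.isClassFunction
  rw [cc, if_neg (by rw [ee_fix hm.dl]; exact not_or.2 good_one), ← neg_mul_neg (E _ _), ← map_neg, ← e1,
    map_sum] at e7
  simp only [map_mul, map_intCast, conj_addChar] at e7
  rw [sm_eq_mv, hm.defect_σ h, ← Nat.cast_pow, e7] at e6
  have e8 := ideal_add (ideal_mul_right (e4 fun j => -j) (ring_of_sub (e4 fun j => - -j)
    (ring_intCast _))) (ideal_mul_left (ring_intCast (∑ j, fz (E χ) j)) (e4 fun j => - -j))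
  rw [show ∀ a b c : ℂ, (a - c) * b + c * (b - c) = a * b - c * c from fun _ _ _ => by ring,
    ← Int.cast_mul] at e8
  have e9 : Odd (fz (E χ) (hh k)) ↔ ¬ MemLocalIdeal M
      ((∑ j, fz (E χ) j) * (∑ j, fz (E χ) j) : ℤ) := by
    rw [ideal_intCast_iff h.mod, Nat.cast_ofNat, ← even_iff_two_dvd, Int.even_mul, or_self,
      Int.even_sub.1 e5, Int.not_even_iff_odd]
  rw [e9]
  exact ⟨fun e => (e6.1 (not_ideal_of_sub e8 e)).1.2, fun e =>
    not_ideal_of_sub (ideal_sub_comm.1 e8) (e6.2 ⟨⟨hχ, e⟩, hχ, e⟩)⟩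

omit hMm in
theorem mv_sub_right {p : ℕ} (g' : G → ℂ) :
    mv M p b u f (g - g') = mv M p b u f g - mv M p b u f g' := by
  rw [← conj_mv, mv_sub_left, map_sub, conj_mv, conj_mv]

omit hMm in
theorem mv_gc {p : ℕ} (v : IrrCharacter G → ℤ) (g : G → ℂ) :
    mv M p b u (gc B v) g = ∑ χ with χ ∈ B, v χ * mv M p b u χ g := by
  simp only [gc, mv_sum_left, mv_smul_left]

theorem MC.exists_col (h : Mx M 2 B b) (hm : MC b.1 σ τ k δ) {w : IrrCharacter G → ℤ}
    {a a' c d : IrrCharacter G} (hf : Fr (Finset.univ.filter (· ∈ B)) w a a' c d)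
    (h0 : ∀ χ ∈ B, w χ ≠ 0 ↔ blockHeight 2 B (χ : G → ℂ) = 0) (ht : t ∈ b.1) (h1 : Un M b σ t) :
    ∃ (e : IrrCharacter G → ℤ) (ψ : G → ℂ), ∀ χ ∈ B, (w χ = 0 → e χ = 0) ∧
      (w χ ≠ 0 → e χ = 1 ∨ e χ = -1) ∧ 4 * mv M 2 b t ψ χ = e χ ∧
        ∀ g, mv M 2 b t χ g = e χ * mv M 2 b t ψ g := by
  have h2 : t ∉ ⟪σ⟫ := fun e => h1 t e (h.fus_refl ht)
  choose n hn using fun χ ψ : IrrCharacter G => h.exists_int_sm ht (fun j hj => by
    obtain ⟨s, hs, e⟩ := hm.out_pow ht h2 hj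
    exact e ▸ h.fus_of_pstab (le_pstab _ hs) ht) χ.2.isGeneralizedCharacter ψ.2.isGeneralizedCharacter
  have m := fun χ (e : χ ∈ Finset.univ.filter (· ∈ B)) => (Finset.mem_filter.1 e).2
  have h3 : ∀ χ ∈ B, ∀ ψ ∈ B, w χ ≠ 0 → w ψ ≠ 0 → Odd (n χ ψ) := fun χ hχ ψ hψ e e' => by
    have := ((h.sub ht).not_ideal_sm_iff χ ψ).2 ⟨⟨hχ, (h0 χ hχ).1 e⟩, hψ, (h0 ψ hψ).1 e'⟩
    rwa [hn, ideal_intCast_iff h.mod, Nat.cast_ofNat, ← even_iff_two_dvd, Int.not_even_iff_odd] at this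
  have h4 : ∀ χ, 0 ≤ n χ χ := fun χ => by
    have := mv_self_re_nonneg (M := M) (p := 2) (b := b) (v := t) (χ := χ)
    have e := hn χ χ
    rw [sm_eq_mv, ← Nat.cast_pow] at e
    have e' := congrArg Complex.re e
    rw [← Complex.ofReal_natCast, Complex.re_ofReal_mul, Complex.intCast_re] at e'
    exact_mod_cast e' ▸ mul_nonneg (Nat.cast_nonneg _) this
  have h5 : ∀ χ ψ, n ψ χ = n χ ψ := fun χ ψ => by
    have := conj_sm (p := 2) (b := sb M 2 b t) (u := t) χ ψ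
    rw [hn, hn, map_intCast] at this
    exact_mod_cast this.symm
  have h6 := (h.sub ht).sm_trace
  simp only [hn, hm.un_rank h ht h1, Nat.cast_one, mul_one] at h6
  have h7 : ∑ χ with χ ∈ B, n χ χ = 2 ^ blockDefect 2 (sb M 2 b t) := by exact_mod_cast h6
  have h8 : (2 : ℤ) ^ blockDefect 2 (sb M 2 b t) ≤ 2 ^ 2 :=
    pow_le_pow_right₀ one_le_two (hm.un_defect h ht h1)
  have wa : w a ≠ 0 := by have := hf.wa; omega
  have wb : w a' ≠ 0 := by have := hf.wb; omega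
  have wc : w c ≠ 0 := by have := hf.wc; omega
  have wd : w d ≠ 0 := by have := hf.wd; omega
  have h9 : ∀ χ ∈ B, w χ ≠ 0 → 1 ≤ n χ χ := fun χ hχ e => by
    have := h4 χ; have := Int.odd_iff.1 (h3 χ hχ χ hχ e e); omega
  have h10 := Finset.sum_nonneg (s := (Finset.univ.filter (· ∈ B)).filter (w · = 0)) fun χ _ => h4 χ
  rw [hf.sum] at h7
  have := h9 a (m _ hf.ma) wa
  have := h9 a' (m _ hf.mb) wb
  have := h9 c (m _ hf.mc) wc
  have := h9 d (m _ hf.md) wd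
  have h11 : ∀ χ ψ : IrrCharacter G, 4 * mv M 2 b t χ ψ = n χ ψ := fun χ ψ => by
    rw [← hn, sm_eq_mv, show ((2 : ℕ) : ℂ) ^ blockDefect 2 (sb M 2 b t) = 4 by
      exact_mod_cast (by omega : (2 : ℤ) ^ blockDefect 2 (sb M 2 b t) = 4)]
  have h12 : ∀ χ ∈ B, w χ = 0 → ∀ g, mv M 2 b t χ g = 0 := fun χ hχ e => mv_eq_zero_of_self (by
    have := h11 χ χ
    rw [(Finset.sum_eq_zero_iff_of_nonneg (s := (Finset.univ.filter (· ∈ B)).filter (w · = 0))
      fun χ _ => h4 χ).1 (by omega) χ (by simp [hχ, e])] at this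
    simpa using this)
  have h13 : ∀ χ ∈ B, w χ = 0 → n χ a = 0 := fun χ hχ e => by
    have := h11 χ a
    rw [h12 χ hχ e] at this
    exact_mod_cast (by simpa using this.symm : (n χ a : ℂ) = 0)
  have h14 : ∑ χ with χ ∈ B, n χ a * n χ a = 4 := by
    have := h.sum_mv_mul ht a a
    refine Int.cast_injective (α := ℂ) ?_
    rw [Int.cast_sum, Finset.sum_congr rfl (g := fun χ : IrrCharacter G =>
      16 * (mv M 2 b t a χ * mv M 2 b t χ a)) fun χ _ => by
        rw [Int.cast_mul, ← h11 χ a]; nth_rw 1 [h11 χ a, ← h5, ← h11]; ring, ← Finset.mul_sum, this]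
    have := h11 a a
    rw [show n a a = 1 by omega] at this
    linear_combination 4 * this
  have h15 : ∀ χ ∈ B, w χ ≠ 0 → n χ a * n χ a = 1 ∧ n χ χ = 1 := fun χ hχ e => by
    have q : ∀ χ ∈ B, w χ ≠ 0 → 1 ≤ n χ a * n χ a := fun χ hχ e => by
      have := Int.odd_iff.1 (h3 χ hχ a (m _ hf.ma) e wa)
      exact mul_self_pos.2 (show n χ a ≠ 0 by omega)
    rw [hf.sum, Finset.sum_eq_zero fun χ e => by
      rw [h13 χ (m _ (Finset.mem_filter.1 e).1) (Finset.mem_filter.1 e).2, mul_zero]] at h14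
    have := q a (m _ hf.ma) wa
    have := q a' (m _ hf.mb) wb
    have := q c (m _ hf.mc) wc
    have := q d (m _ hf.md) wd
    rcases hf.cases (i := χ) (by simpa using hχ) with e' | rfl | rfl | rfl | rfl <;> omega
  refine ⟨fun χ => n χ a, a, fun χ hχ => ⟨h13 χ hχ, fun e => mul_self_eq_one_iff.1 (h15 χ hχ e).1,
    by rw [h11, h5], fun g => ?_⟩⟩
  by_cases e : w χ = 0
  · simp [h12 χ hχ e, h13 χ hχ e]
  have : mv M 2 b t (χ - (n χ a : ℂ) • (a : G → ℂ)) (χ - (n χ a : ℂ) • (a : G → ℂ)) = 0 := by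
    have q1 := h11 χ χ
    have q2 := h11 χ a
    have q3 := h11 a χ
    have q4 := h11 a a
    have q5 : (n χ a : ℂ) * n χ a = 1 := by exact_mod_cast (h15 χ hχ e).1
    rw [(h15 χ hχ e).2] at q1
    rw [(h15 a (m _ hf.ma) wa).2] at q4
    rw [h5] at q3
    simp only [mv_sub_left, mv_smul_left, mv_sub_right, mv_smul_right, map_intCast, Int.cast_one] at *
    linear_combination q1 / 4 - n χ a * q2 / 4 - n χ a * q3 / 4 + n χ a * n χ a * q4 / 4 - q5 / 4
  have := mv_eq_zero_of_self this g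
  rwa [mv_sub_left, mv_smul_left, sub_eq_zero] at this

/-- the sign of a character on an involution -/
noncomputable def om (z : G) (χ : IrrCharacter G) : ℤ :=
  if (χ : G → ℂ) z = (χ : G → ℂ) 1 then 1 else -1

omit hMm in
theorem om_cases (χ : IrrCharacter G) : om z χ = 1 ∨ om z χ = -1 := by
  rw [om]; split_ifs <;> simp

omit hMm in
theorem om_mul (hz : z ∈ Subgroup.center G) (h2 : z * z = 1) (χ : IrrCharacter G) (x : G) :
    (χ : G → ℂ) (z * x) = om z χ * (χ : G → ℂ) x := by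
  have h1 := χ.2.apply_one_ne_zero
  rw [χ.2.apply_mul_of_mem_center hz, om]
  split_ifs with e
  · simp [e, h1]
  · have := apply_pow_div χ hz 2
    rw [sq, h2, div_self h1, sq, eq_comm, mul_self_eq_one_iff] at this
    rw [this.resolve_left fun e' => e ((div_eq_one_iff_eq h1).1 e')]; simp

theorem Loc.twist (h : Mx M 2 B b) (hm : MC b.1 σ τ k δ)
    (hl : Loc M b σ k δ (fun l => l ≠ 0 ∧ l ≠ hh k) E φ) (hz : pw σ (hh k) ∈ Subgroup.center G)
    {ω ω' : ℂ} (hf : IsClassFunction G f) (h1 : ∀ x, f (pw σ (hh k) * x) = ω * f x)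
    (h2 : ∀ x, φ (pw σ (hh k) * x) = ω' * φ x) (l : ZK k) (hP : l ≠ 0 ∧ l ≠ hh k) :
    E f (l + hh k) = ω * conj ω' * E f l := by
  have e : ∀ l : ZK k, l ≠ 0 ∧ l ≠ hh k → cc k δ l = NN k ∧ pw σ (l + hh k) ∈ ⟪pw σ l⟫ :=
    fun l hP => ⟨if_neg (by rw [ee_fix hm.dl]; exact not_or.2 hP), by
      rw [hm.pw_add]
      exact mul_mem (Subgroup.mem_zpowers _) (hm.z_le hP.1 (Subgroup.mem_zpowers _))⟩
  have e1 := (e _ (good_add hP)).2
  rw [add_assoc, ← two_mul, two_hh, add_zero] at e1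
  rw [hl.ref _ (good_add hP) f hf, hl.ref _ hP f hf, (e l hP).1, (e _ (good_add hP)).1,
    h.mv_eq_mm_of (hm.pw_memD l) (le_antisymm (Subgroup.zpowers_le.2 e1)
      (Subgroup.zpowers_le.2 (e l hP).2)), add_comm, hm.pw_add, mm_twist hz h1 h2, mv_eq_mm]
  ring

end H21
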