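import Mathlib
import Cfsg.Agent.H21.Tame6

/-!
Blocks with a defect group of maximal class whose centre is central: the characters trivial on
the centre (namespace H21): `St1`, `exists_st1`.
-/

set_option autoImplicit false
set_option linter.unusedSectionVars false
set_option linter.unusedVariables false

namespace H21
open H05 Cfsg H20 MonoidAlgebra Classical
open scoped ComplexConjugate

local notation:max "𝐂" Q:max => Subgroup.centralizer (SetLike.coe Q)
local notation:max "𝐍" Q:max => Subgroup.normalizer (SetLike.coe Q)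
local notation:max "⟪" u "⟫" => Subgroup.zpowers u

attribute [-instance] H19.instFintypeSubgroupFrob

variable {M : Ideal AlgInt} [hMm : M.IsMaximal] {G : Type*} [Group G] [Fintype G]
  {B : Set (IrrCharacter G)} {b : BrauerPairIdx G} {u v x t σ τ z : G} {f g φ θ : G → ℂ}
  {k δ : ℕ} {E : (G → ℂ) → ZK k → ℂ} {l l' i j : ZK k}

theorem quot_facts (hM : IsPModular 2 M) (hB : IsPBlock M B) (hz : z ∈ Subgroup.center G)
    (h2 : orderOf z = 2) : (∃ χ ∈ B, om z χ = 1 ∧ blockHeight 2 B (χ : G → ℂ) = 0) ∧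
      (blockRank 2 B = 1 → ((Finset.univ.filter (· ∈ B)).filter (om z · = 1)).card = 5 →
        2 ^ blockDefect 2 B = 10 ∨ 2 ^ blockDefect 2 B = 16) := by
  have hZ : ⟪z⟫ ≤ Subgroup.center G := Subgroup.zpowers_le.2 hz
  haveI : (⟪z⟫).Normal :=
    ⟨fun n hn g => by rw [Subgroup.mem_center_iff.1 (hZ hn) g, mul_inv_cancel_right]; exact hn⟩
  haveI := Fintype.ofFinite (G ⧸ ⟪z⟫)
  have hq := pQuot_of_center (p := 2) (IsPGroup.of_card (n := 1) ((Nat.card_zpowers z).trans h2)) hZ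
  have h6 := hq.isPBlock_dom hM hB
  have h7 := hq.pow_blockDefect_dom hM hB
  rw [QuotientGroup.ker_mk', Nat.card_zpowers, h2] at h7
  have e : ∀ χ, χ ∈ kerSet (QuotientGroup.mk' ⟪z⟫).ker ↔ om z χ = 1 := fun χ => by
    rw [QuotientGroup.ker_mk', mem_kerSet]
    refine ⟨fun e => if_pos (e z (Subgroup.mem_zpowers z)), fun e n hn => ?_⟩
    obtain ⟨m, rfl⟩ := mem_powers_iff_mem_zpowers.2 hn
    induction m with
    | zero => simp
    | succ m ih =>
      simp only [pow_succ'] at ih ⊢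
      rw [om_mul hz (by rw [← sq, ← h2, pow_orderOf_eq_one]), e, ih (pow_mem (Subgroup.mem_zpowers z) m)]
      simp
  refine ⟨?_, fun h1 h3 => ?_⟩
  · obtain ⟨ψ, h8, h9⟩ := h6.exists_height_zero 2
    exact ⟨_, h8, (e _).1 (infl_mem_kerSet _ ψ), (hq.blockHeight_infl hM hB h8).trans h9⟩
  · have := pow_of_k5 hM h6 ((hq.blockRank_dom hM hB.isInt_idem).trans h1) (by
      rw [natCard_eq_card_filter, Finset.card_eq_sum_ones, sum_dom hq.surj B fun _ => 1,
        ← Finset.card_eq_sum_ones, ← h3, Finset.filter_filter]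
      simp only [e])
    omega

theorem Fr.exists_pair {ι κ : Type*} {S : Finset ι} {w : ι → ℤ} {a b c d : ι} (h : Fr S w a b c d)
    {T : Finset κ} (hT : T.card ≤ 2) {e : κ → ι → ℤ}
    (h1 : ∀ t ∈ T, ∀ i ∈ S, w i ≠ 0 → e t i = 1 ∨ e t i = -1)
    (h2 : ∀ t ∈ T, ∑ i ∈ S, e t i * w i = 0) :
    ∃ a b c d, Fr S w a b c d ∧ ∀ t ∈ T, e t a * w a + e t b * w b = 0 := by
  have h3 : ∀ t ∈ T, (e t a * w a + e t b * w b = 0 ∨ e t a * w a + e t c * w c = 0) ∧
      (e t a * w a + e t b * w b = 0 ∨ e t a * w a + e t d * w d = 0) ∧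
      (e t a * w a + e t c * w c = 0 ∨ e t a * w a + e t d * w d = 0) := fun t ht => by
    have := h2 t ht
    rw [h.sum_w] at this
    have q : ∀ i ∈ S, (w i = 1 ∨ w i = -1) → e t i * w i = 1 ∨ e t i * w i = -1 := fun i hi e' => by
      rcases h1 t ht i hi (by omega) with f | f <;> rcases e' with g | g <;> simp [f, g]
    have := q a h.ma h.wa
    have := q b h.mb h.wb
    have := q c h.mc h.wc
    have := q d h.md h.wd
    omega
  by_contra hn
  push Not at hn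
  obtain ⟨t1, m1, n1⟩ := hn _ _ _ _ h
  obtain ⟨t2, m2, n2⟩ := hn _ _ _ _ h.swap2
  obtain ⟨t3, m3, n3⟩ := hn _ _ _ _ h.swap3.swap2
  refine absurd (Finset.two_lt_card.2 ⟨t1, m1, t2, m2, t3, m3, ?_, ?_, ?_⟩) (by omega) <;> rintro rfl
  · have := h3 _ m1; tauto
  · have := h3 _ m1; tauto
  · have := h3 _ m2; tauto

theorem MC.inner_eq (h : Mx M 2 B b) (hm : MC b.1 σ τ k δ) (hθ : blockPart B θ = θ)
    (hg : IsClassFunction G g) : classInner θ g = mv M 2 b 1 θ g + mv M 2 b (pw σ (hh k)) θ g +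
      2⁻¹ * ∑ l : ZK k with l ≠ 0 ∧ l ≠ hh k, mv M 2 b (pw σ l) θ g +
        ∑ t ∈ urep M b σ τ, mv M 2 b t θ g := by
  rw [h.classInner_eq hθ hg, hm.sum_nf h _ fun v hv w e =>
    h.mv_congr (hθ ▸ blockPart_isClassFunction B θ) hg e, hm.sum_cc, pw_zero]

omit hMm in
theorem card_urep_le : (urep M b σ τ).card ≤ 2 :=
  (Finset.card_filter_le _ _).trans Finset.card_le_two

omit hMm in
theorem gc_twist (hz : z ∈ Subgroup.center G) (h2 : z * z = 1) {v : IrrCharacter G → ℤ} {ω : ℤ}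
    (h : ∀ χ ∈ B, om z χ ≠ ω → v χ = 0) (x : G) : gc B v (z * x) = ω * gc B v x := by
  rw [gc_apply, gc_apply, Finset.mul_sum]
  refine Finset.sum_congr rfl fun χ hχ => ?_
  by_cases e : om z χ = ω
  · rw [om_mul hz h2, e]; ring
  · simp [h χ (Finset.mem_filter.1 hχ).2 e]

variable (M) in
/-- the data on the characters trivial on the centre -/
structure St1 (B : Set (IrrCharacter G)) (b : BrauerPairIdx G) (z : G) (T : Finset G) (k : ℕ)
    (w : IrrCharacter G → ℤ) (u : Finset.Ico 1 (2 ^ k) → IrrCharacter G → ℤ)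
    (a a' c d : IrrCharacter G) (t : Finset.Ico 1 (2 ^ k) → IrrCharacter G)
    (e : G → IrrCharacter G → ℤ) : Prop where
  fr : Fr (Finset.univ.filter (· ∈ B)) w a a' c d
  inj : Function.Injective t
  off : ∀ j, Off (Finset.univ.filter (· ∈ B)) w (u j) 1 (t j)
  val : ∀ j, u j a = w a ∧ u j a' = w a' ∧ u j c = 0 ∧ u j d = 0
  ht0 : ∀ χ ∈ B, w χ ≠ 0 ↔ blockHeight 2 B (χ : G → ℂ) = 0
  ev : ∀ χ ∈ B, om z χ = 1 ↔ w χ ≠ 0 ∨ ∃ j, t j = χ
  cnt : blockRank 2 B + T.card = 3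
  cnt' : ((Finset.univ.filter (· ∈ B)).filter (om z · = -1)).card + 1 = blockRank 2 B + 2 ^ k
  tr : ∑ χ with χ ∈ B, om z χ * mv M 2 b 1 χ χ = 0
  e0 : ∀ s ∈ T, ∀ χ ∈ B, w χ = 0 → e s χ = 0
  e1 : ∀ s ∈ T, ∀ χ ∈ B, w χ ≠ 0 → e s χ = 1 ∨ e s χ = -1
  ea : ∀ s ∈ T, e s a * w a + e s a' * w a' = 0
  ew : ∀ s ∈ T, ∑ χ with χ ∈ B, e s χ * w χ = 0
  ee : ∀ s ∈ T, ∀ s' ∈ T, s ≠ s' → ∑ χ with χ ∈ B, e s χ * e s' χ = 0
  eu : ∀ s ∈ T, ∀ j, ∑ χ with χ ∈ B, e s χ * u j χ = 0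
  w1 : ∀ g, mv M 2 b 1 (gc B w) g = 0
  u1 : ∀ j g, mv M 2 b 1 (gc B (u j)) g = 0
  col : ∀ s ∈ T, ∀ v, ∑ χ with χ ∈ B, e s χ * v χ = 0 → ∀ g, mv M 2 b s (gc B v) g = 0
  key : ∀ v, (∀ χ ∈ B, om z χ ≠ 1 → v χ = 0) → ∑ χ with χ ∈ B, v χ * w χ = 0 →
    (∀ j, ∑ χ with χ ∈ B, u j χ * v χ = 0) → (∀ s ∈ T, ∑ χ with χ ∈ B, e s χ * v χ = 0) →
    ∀ g, IsClassFunction G g → classInner (gc B v) g = mv M 2 b 1 (gc B v) g + mv M 2 b z (gc B v) g

theorem exists_loc_cen (h : Mx M 2 B b) (hm : MC b.1 σ τ k δ)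
    (hz : pw σ (hh k) ∈ Subgroup.center G) : ∃ E φ, Loc M b σ k δ (fun l => l ≠ 0 ∧ l ≠ hh k) E φ ∧
      ∀ x, φ (pw σ (hh k) * x) = 1 * φ x := by
  obtain ⟨E, φ, hl⟩ := exists_loc_y h hm
  obtain ⟨ω, h1⟩ := hl.tw _ (hm.pw_memD _) hz
  obtain ⟨χ, h2, h3, h4⟩ := (quot_facts h.mod h.blk hz hm.ord_z).1
  have h5 := fc_twist (hl.twist h hm hz χ.2.isClassFunction (om_mul hz hm.z_sq χ) h1) (qq k)
  have h6 := (hl.odd_iff h hm good_one h2).2 h4
  rw [two_qq, ← hl.cast_fz χ.2.isGeneralizedCharacter, h3, Int.cast_one, one_mul, eq_comm,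
    mul_left_eq_self₀] at h5
  refine ⟨E, φ, hl, fun x => ?_⟩
  rw [h1, show ω = 1 by simpa using congrArg conj (h5.resolve_right (by rintro e; simp_all))]

omit hMm in
theorem two_pow_ne_three (k : ℕ) : 2 ^ k ≠ 3 := by
  rcases k with _ | k
  · simp
  · rw [pow_succ]; omega

theorem exists_st1 (h : Mx M 2 B b) (hm : MC b.1 σ τ k δ) (hz : pw σ (hh k) ∈ Subgroup.center G) :
    ∃ w u a a' c d t e, St1 M B b (pw σ (hh k)) (urep M b σ τ) k w u a a' c d t e := by
  obtain ⟨E, φ, hl, hφ⟩ := exists_loc_cen h hm hz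
  have m := fun χ (e : χ ∈ Finset.univ.filter (· ∈ B)) => (Finset.mem_filter.1 e).2
  have cl := fun χ : IrrCharacter G => χ.2.isClassFunction
  have cz := fun χ : IrrCharacter G => hl.cast_fz χ.2.isGeneralizedCharacter
  have hom := om_mul hz hm.z_sq
  have hg : ∀ i j : ZK k, 2 * i ≠ 0 → 2 * j ≠ 0 → ∑ χ with χ ∈ B, fz (E χ) (2 * i) * fz (E χ) (2 * j) =
      2 + (if 2 * i = 2 * j then 1 else 0) + if 2 * i = -(2 * j) then 1 else 0 := fun i j hi hj =>
    ee_two (δ := δ) j ▸ hl.gram h hm (good_ee hm.dl) (adm_two i) (adm_two j) hi hj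
  have hq : 2 * qq k ≠ 0 := two_qq (k := k) ▸ hh_ne
  have cf : ∀ i j : Finset.Ico 1 (2 ^ k), 2 * ((i : ℕ) : ZK k) ≠ 0 ∧ 2 * ((i : ℕ) : ZK k) ≠ hh k ∧
      2 * ((i : ℕ) : ZK k) ≠ -(2 * (j : ℕ)) ∧ (2 * ((i : ℕ) : ZK k) = 2 * (j : ℕ) ↔ i = j) := by
    intro i j
    have q : ∀ i : Finset.Ico 1 (2 ^ k), 2 * (i : ℕ) ∈ Finset.Ico 1 (2 ^ (k + 1)) := fun i => by
      have := Finset.mem_Ico.1 i.2
      rw [Finset.mem_Ico, pow_succ]; omega
    simpa [Subtype.coe_inj] using cast_facts (q i) (q j)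
  set w : IrrCharacter G → ℤ := fun χ => fz (E χ) (2 * qq k) with hw
  set u : Finset.Ico 1 (2 ^ k) → IrrCharacter G → ℤ := fun j χ => fz (E χ) (2 * (j : ℕ)) with hu
  have hodd : ∀ χ ∈ B, Odd (w χ) ↔ blockHeight 2 B (χ : G → ℂ) = 0 := fun χ hχ => by
    simp only [hw, two_qq]; exact hl.odd_iff h hm good_one hχ
  obtain ⟨a, a', c, d, hf, t, ho, h2⟩ := pattern (S := Finset.univ.filter (· ∈ B)) (w := w) (x := u)
    (by rw [hg _ _ hq hq]; simp [two_qq, neg_hh])
    ((h.blk.exists_height_zero 2).imp fun χ e => ⟨by simpa using e.1, (hodd χ e.1).2 e.2⟩)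
    (fun j => by rw [hg _ _ (cf j j).1 (cf j j).1]; simp [(cf j j).2.2.1])
    (fun i j e => by rw [hg _ _ (cf i j).1 (cf j j).1]; simp [(cf i j).2.2.1, (cf i j).2.2.2, e])
    (fun j => by rw [hg _ _ (cf j j).1 hq]; simp [two_qq, neg_hh, (cf j j).2.1])
  have h0 : ∀ χ ∈ B, w χ ≠ 0 ↔ blockHeight 2 B (χ : G → ℂ) = 0 := fun χ hχ => by
    rw [← hodd χ hχ, hf.odd_iff (by simpa using hχ)]
  choose! e ψ he using fun (s : G) (hs : s ∈ urep M b σ τ) =>
    hm.exists_col h hf h0 (hm.rep_mem hs).1 (hm.rep_mem hs).2.2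
  have h3 : ∀ (χ : IrrCharacter G) j, om (pw σ (hh k)) χ ≠ 1 → fz (E χ) (2 * j) = 0 := fun χ j e => by
    have := fc_twist (hl.twist h hm hz (cl χ) (hom χ) hφ) j
    rw [(om_cases χ).resolve_left e, ← cz] at this
    refine Int.cast_injective (α := ℂ) ?_
    simp only [Int.cast_neg, Int.cast_one, map_one, Int.cast_zero] at this ⊢
    linear_combination this / 2
  have h4 : ∀ s ∈ urep M b σ τ, ∀ j, ∑ χ with χ ∈ B, e s χ * fz (E χ) (2 * j) = 0 := fun s hs j => by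
    have := hl.null h hm (adm_two j) (hm.rep_mem hs).1
      (fun l _ => (hm.rep_mem hs).2.2 _ (pw_mem σ l)) (ψ s)
    refine Int.cast_injective (α := ℂ) ?_
    rw [Int.cast_sum, Finset.sum_congr rfl (g := fun χ : IrrCharacter G =>
      4 * (mv M 2 b s (ψ s) χ * fc (E χ) (2 * j))) fun χ hχ => by
        rw [Int.cast_mul, cz, ← (he s hs χ (m χ hχ)).2.2.1, mul_assoc], ← Finset.mul_sum, this]
    simp
  have h5 : ∀ j g, mv M 2 b 1 (gc B fun χ => fz (E χ) (2 * j)) g = 0 := fun j g => by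
    have := congrArg conj (hl.null h hm (adm_two j) (one_mem _)
      (fun l e e' => e.1 (hm.pw_eq_one.1 (h.fus_one.1 e'))) g)
    simpa only [mv_gc, map_sum, map_mul, conj_mv, ← cz, map_intCast, map_zero, mul_comm] using this
  have h6 : ∀ s ∈ urep M b σ τ, ∀ v : IrrCharacter G → ℤ, ∑ χ with χ ∈ B, e s χ * v χ = 0 →
      ∀ g, mv M 2 b s (gc B v) g = 0 := fun s hs v hv g => by
    rw [mv_gc, Finset.sum_congr rfl (g := fun χ => (e s χ * v χ : ℤ) * mv M 2 b s (ψ s) g)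
      fun χ hχ => by rw [(he s hs χ (m χ hχ)).2.2.2]; push_cast; ring, ← Finset.sum_mul,
      ← Int.cast_sum, hv]
    simp
  have h7 : ∀ v : IrrCharacter G → ℤ, (∀ χ ∈ B, om (pw σ (hh k)) χ ≠ 1 → v χ = 0) →
      ∑ χ with χ ∈ B, v χ * w χ = 0 → (∀ j, ∑ χ with χ ∈ B, u j χ * v χ = 0) →
      (∀ s ∈ urep M b σ τ, ∑ χ with χ ∈ B, e s χ * v χ = 0) → ∀ g, IsClassFunction G g →
      classInner (gc B v) g = mv M 2 b 1 (gc B v) g + mv M 2 b (pw σ (hh k)) (gc B v) g := by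
    intro v v1 v2 v3 v4 g hg
    have c1 := (isGen_gc (b := B) v).isClassFunction
    have q : ∀ j, fc (E (gc B v)) (2 * j) = (∑ χ with χ ∈ B, v χ * fz (E χ) (2 * j) : ℤ) := fun j => by
      rw [gc, hl.fc_sum (adm_two j)]; simp [cz]
    have q' : ∀ j : Finset.Ico 1 (2 ^ k), fc (E (gc B v)) (2 * (j : ℕ)) = 0 := fun j => by
      rw [q, Finset.sum_congr rfl fun _ _ => mul_comm _ _, v3 j, Int.cast_zero]
    rw [hm.inner_eq h (blockPart_gc v) hg, Finset.sum_eq_zero fun s hs => h6 s hs v (v4 s hs) g,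
      Finset.sum_eq_zero (f := fun l => mv M 2 b (pw σ l) (gc B v) g) fun l e => ?_, mul_zero,
      add_zero, add_zero]
    have e' := (Finset.mem_filter.1 e).2
    have := hl.mv_eq e' c1 hg
    rw [eq_zero_of_fc (E := E (gc B v)) (fun l e => by
      simpa using hl.twist h hm hz c1 (gc_twist hz hm.z_sq v1) hφ l e) (fun j => ?_) e',
      zero_mul] at this
    · exact (mul_eq_zero.1 this).resolve_left (cc_ne l)
    rcases two_mul_cases j with e | e | ⟨i, hi, e | e⟩ <;> rw [e]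
    · exact fc_zero _
    · rw [← two_qq, q, v2, Int.cast_zero]
    · exact q' ⟨i, hi⟩
    · rw [← ee_two (δ := δ), hl.fc_ee hm c1]; exact q' ⟨i, hi⟩
  have ha : a ∈ B := m a hf.ma
  have wa : w a ≠ 0 := by have := hf.wa; omega
  have h8 : ∀ χ ψ : IrrCharacter G, mv M 2 b (pw σ (hh k)) χ ψ =
      om (pw σ (hh k)) χ * om (pw σ (hh k)) ψ * mv M 2 b 1 χ ψ := fun χ ψ => by
    rw [h.mv_center_twist (hm.pw_memD _) hz (hom χ) (hom ψ), map_intCast]
  have h9 : ∀ χ, w χ ≠ 0 → om (pw σ (hh k)) χ = 1 := fun χ e => by_contra fun e' => e (h3 χ _ e')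
  have hev : ∀ χ ∈ B, om (pw σ (hh k)) χ = 1 ↔ w χ ≠ 0 ∨ ∃ j, t j = χ := fun χ hχ => by
    refine ⟨fun e => by_contra fun e' => ?_, ?_⟩
    · push Not at e'
      have q : ∀ v : IrrCharacter G → ℤ, ∑ ψ with ψ ∈ B, v ψ * Pi.single (M := fun _ => ℤ) χ 1 ψ =
          v χ := fun v => by simp [Pi.single_apply, hχ]
      have := h7 (Pi.single χ 1) (fun ψ _ e'' => Pi.single_eq_of_ne (fun q : ψ = χ => e'' (q ▸ e)) _)
        (by simp only [mul_comm _ (w _), q, e'.1])
        (fun j => by rw [q, (ho j).zero χ (by simpa using hχ) e'.1 (e'.2 j).symm])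
        (fun s hs => by rw [q, (he s hs χ hχ).1 e'.1]) a (cl a)
      rw [gc_single hχ, classInner_irr, if_neg (by rintro rfl; exact wa e'.1), h8, e, h9 a wa] at this
      exact h.mv_ne_zero_of_center (one_mem _) (Mx.le_centralizer_one _) hχ ha ((h0 a ha).1 wa)
        (by push_cast at this; linear_combination -this / 2)
    · rintro (e | ⟨j, rfl⟩)
      · exact h9 χ e
      · by_contra e
        have := (ho j).val
        rw [show u j (t j) = 0 from h3 _ _ e] at this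
        omega
  have htr : ∑ χ with χ ∈ B, om (pw σ (hh k)) χ * mv M 2 b 1 χ χ = 0 := by
    have q : ∀ χ : IrrCharacter G, ∑ ψ with ψ ∈ B,
        om (pw σ (hh k)) ψ * (mv M 2 b 1 ψ χ * mv M 2 b 1 χ ψ) = 0 := fun χ => by
      have := h.cross (one_mem _) (hm.pw_memD (hh k)) (fun e => hm.z_ne (h.fus_one.1 e)) χ χ
      rw [Finset.sum_congr rfl (g := fun ψ => om (pw σ (hh k)) χ * (om (pw σ (hh k)) ψ *
        (mv M 2 b 1 ψ χ * mv M 2 b 1 χ ψ))) fun ψ _ => by rw [h8]; ring, ← Finset.mul_sum] at this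
      refine (mul_eq_zero.1 this).resolve_left ?_
      rcases om_cases (z := pw σ (hh k)) χ with e | e <;> simp [e]
    rw [Finset.sum_congr rfl fun ψ _ => by rw [← h.sum_mv_mul (one_mem _), Finset.mul_sum],
      Finset.sum_comm]
    exact Finset.sum_eq_zero fun χ _ => q χ
  have h10 : ∑ χ with χ ∈ B, om (pw σ (hh k)) χ = 1 + (urep M b σ τ).card := by
    have q1 : ∀ l : ZK k, l ≠ 0 ∧ l ≠ hh k → ∑ χ with χ ∈ B, om (pw σ (hh k)) χ *
        mv M 2 b (pw σ l) χ χ = if l = qq k ∨ l = -qq k then 1 else 0 := fun l e => by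
      have := hl.col h hm (good_add e) e
      rw [if_neg (by simpa using hh_ne), zero_add, Finset.sum_congr rfl fun χ _ => by
        rw [hl.twist h hm hz (cl χ) (hom χ) hφ l e, mul_assoc, ← hl.mv_eq e (cl χ) (cl χ), cc,
          if_neg (by rw [ee_fix hm.dl]; exact not_or.2 e), map_one, mul_one, mul_left_comm],
        ← Finset.mul_sum] at this
      rw [mul_left_cancel₀ NN_ne this, mul_add, ee_hh]
      refine if_congr (Iff.trans ⟨fun e => ?_, fun e => ?_⟩ (ee_eq_add hm.dl)) rfl rfl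
      · linear_combination -e - two_hh (k := k)
      · linear_combination -e - two_hh (k := k)
    have q2 : ∀ s ∈ urep M b σ τ, ∑ χ with χ ∈ B, om (pw σ (hh k)) χ * mv M 2 b s χ χ = 1 :=
      fun s hs => by
        rw [← Nat.cast_one, ← hm.un_rank h (hm.rep_mem hs).1 (hm.rep_mem hs).2.2,
          ← h.sum_mv_self (hm.rep_mem hs).1]
        refine Finset.sum_congr rfl fun χ hχ => ?_
        by_cases e : w χ = 0
        · rw [(he s hs χ (m χ hχ)).2.2.2, (he s hs χ (m χ hχ)).1 e]; simp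
        · simp [h9 χ e]
    refine Int.cast_injective (α := ℂ) ?_
    rw [Int.cast_sum, Finset.sum_congr rfl (g := fun χ : IrrCharacter G =>
      2 * (om (pw σ (hh k)) χ * mv M 2 b 1 χ χ) + 2⁻¹ * ∑ l : ZK k with l ≠ 0 ∧ l ≠ hh k,
        om (pw σ (hh k)) χ * mv M 2 b (pw σ l) χ χ +
        ∑ s ∈ urep M b σ τ, om (pw σ (hh k)) χ * mv M 2 b s χ χ) fun χ hχ => by
      have := hm.inner_eq h (blockPart_irr_of_mem (m χ hχ)) (cl χ)
      rw [χ.2.classInner_self, h8] at this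
      simp only [← Finset.mul_sum]
      rcases om_cases (z := pw σ (hh k)) χ with e | e <;> rw [e] at this ⊢ <;> push_cast at this ⊢
      · linear_combination this
      · linear_combination -this]
    rw [Finset.sum_add_distrib, Finset.sum_add_distrib, ← Finset.mul_sum, ← Finset.mul_sum, htr,
      Finset.sum_comm, Finset.sum_comm (t := urep M b σ τ), Finset.sum_congr rfl q2,
      Finset.sum_congr rfl fun l e => q1 l (Finset.mem_filter.1 e).2, ← Finset.sum_filter,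
      Finset.filter_filter, show Finset.univ.filter _ = {qq k, -qq k} from ?_,
      Finset.sum_pair qq_ne_neg]
    · simp; norm_num
    · have q3 : qq k ≠ 0 := fun e => qq_ne_neg (k := k) (by simp [e])
      have q4 : qq k ≠ hh k := fun e => qq_ne_neg (k := k) (by rw [e, neg_hh])
      ext l
      simp only [Finset.mem_filter, Finset.mem_univ, true_and, Finset.mem_insert,
        Finset.mem_singleton, and_iff_right_iff_imp]
      rintro (rfl | rfl)
      · exact ⟨q3, q4⟩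
      · exact ⟨neg_ne_zero.2 q3, fun e => q4 (by rw [← neg_hh, ← e, neg_neg])⟩
  have h11 := hm.card_eq h
  rw [h.rank_center (hm.pw_memD _) hz, natCard_eq_card_filter,
    ← Finset.card_filter_add_card_filter_not (om (pw σ (hh k)) · = 1), pow_succ] at h11
  have h12 : (Finset.univ.filter (· ∈ B)).filter (fun χ => ¬ om (pw σ (hh k)) χ = 1) =
      (Finset.univ.filter (· ∈ B)).filter (om (pw σ (hh k)) · = -1) :=
    Finset.filter_congr fun χ _ => by have := om_cases (z := pw σ (hh k)) χ; omega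
  rw [← Finset.sum_filter_add_sum_filter_not _ (om (pw σ (hh k)) · = 1), h12,
    Finset.sum_congr rfl (g := fun _ => 1) fun χ e => (Finset.mem_filter.1 e).2,
    Finset.sum_congr (s₁ := Finset.filter (om (pw σ (hh k)) · = -1) _) rfl (g := fun _ => -1)
      fun χ e => (Finset.mem_filter.1 e).2] at h10
  simp only [Finset.sum_const, nsmul_eq_mul] at h10
  rw [h12] at h11
  have h13 : (Finset.univ.filter (· ∈ B)).filter (om (pw σ (hh k)) · = 1) =
      (Finset.univ.filter (· ∈ B)).filter (w · ≠ 0) ∪ Finset.univ.image t := by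
    ext χ
    simp only [Finset.mem_filter, Finset.mem_univ, true_and, Finset.mem_union, Finset.mem_image]
    refine ⟨fun e => ((hev χ e.1).1 e.2).imp (⟨e.1, ·⟩) id, ?_⟩
    rintro (e | ⟨j, rfl⟩)
    · exact ⟨e.1, h9 χ e.2⟩
    · exact ⟨m _ (ho j).mem, (hev _ (m _ (ho j).mem)).2 (Or.inr ⟨j, rfl⟩)⟩
  have h14 := congrArg Finset.card h13
  rw [Finset.card_union_of_disjoint (Finset.disjoint_left.2 fun i hi hi' => by
    obtain ⟨j, -, rfl⟩ := Finset.mem_image.1 hi'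
    exact (Finset.mem_filter.1 hi).2 (ho j).wz), hf.card] at h14
  have h15 : 1 ≤ 2 ^ k := Nat.one_le_two_pow
  have h16 := one_le_blockRank Nat.prime_two (block_nonempty h.blk)
  rcases h2 with ⟨h2, h17⟩ | ⟨h2, h17, -⟩
  swap
  · obtain ⟨j⟩ : Nonempty (Finset.Ico 1 (2 ^ k)) := Fintype.card_pos_iff.1 (by omega)
    simp only [Fintype.card_coe, Nat.card_Ico] at h2
    rw [show Finset.univ.image t = {t j} from Finset.eq_singleton_iff_unique_mem.2
      ⟨by simp, fun x hx => by obtain ⟨i, -, rfl⟩ := Finset.mem_image.1 hx; exact h17 _ _⟩,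
      Finset.card_singleton] at h14
    have q := two_pow_ne_three k
    have := (quot_facts h.mod h.blk hz hm.ord_z).2 (by omega) h14
    rw [hm.defect h, pow_add] at this
    omega
  rw [Finset.card_image_of_injective _ h2] at h14
  simp only [Finset.card_univ, Fintype.card_coe, Nat.card_Ico] at h14
  have h18 : ∀ s ∈ urep M b σ τ, ∀ s' ∈ urep M b σ τ, s ≠ s' →
      ∑ χ with χ ∈ B, e s χ * e s' χ = 0 := fun s hs s' hs' e' => by
    have := h.cross (hm.rep_mem hs).1 (hm.rep_mem hs').1 (fun q => e' (hm.rep_sep h hs hs' q))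
      (ψ s) (ψ s')
    refine Int.cast_injective (α := ℂ) ?_
    rw [Int.cast_sum, Finset.sum_congr rfl (g := fun χ : IrrCharacter G =>
      16 * (mv M 2 b s (ψ s) χ * mv M 2 b s' χ (ψ s'))) fun χ hχ => by
        have q := congrArg conj (he s' hs' χ (m χ hχ)).2.2.1
        rw [map_mul, conj_mv, map_intCast, map_ofNat] at q
        rw [Int.cast_mul, ← (he s hs χ (m χ hχ)).2.2.1, ← q]; ring, ← Finset.mul_sum, this]
    simp
  obtain ⟨a, a', c, d, hf, h17, h19⟩ : ∃ a a' c d, Fr (Finset.univ.filter (· ∈ B)) w a a' c d ∧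
      (∀ j, u j a = w a ∧ u j a' = w a' ∧ u j c = 0 ∧ u j d = 0) ∧
      ∀ s ∈ urep M b σ τ, e s a * w a + e s a' * w a' = 0 := by
    cases isEmpty_or_nonempty (Finset.Ico 1 (2 ^ k)) with
    | inl _ =>
      obtain ⟨a, a', c, d, hf, q⟩ := hf.exists_pair card_urep_le
        (fun s hs χ hχ => (he s hs χ (m χ hχ)).2.1) fun s hs => h4 s hs _
      exact ⟨a, a', c, d, hf, fun j => isEmptyElim j, q⟩
    | inr hn =>
      obtain ⟨j⟩ := hn
      refine ⟨a, a', c, d, hf, h17, fun s hs => ?_⟩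
      have : ∑ χ with χ ∈ B, e s χ * u j χ = 0 := h4 s hs _
      rwa [hf.sum, Finset.sum_eq_zero fun χ q => by
        rw [(he s hs χ (m χ (Finset.mem_filter.1 q).1)).1 (Finset.mem_filter.1 q).2, zero_mul],
        (h17 j).1, (h17 j).2.1, (h17 j).2.2.1, (h17 j).2.2.2, mul_zero, mul_zero, add_zero, add_zero,
        add_zero] at this
  exact ⟨w, u, a, a', c, d, t, e, hf, h2, ho, h17, h0, hev, by omega, by omega, htr,
    fun s hs χ hχ => (he s hs χ hχ).1, fun s hs χ hχ => (he s hs χ hχ).2.1, h19,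
    fun s hs => h4 s hs _, h18, fun s hs j => h4 s hs _, h5 _, fun j => h5 _, h6, h7⟩

end H21
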