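import Mathlib
import Cfsg.Agent.H21.Tame4

/-!
More integer vectors for tame blocks (namespace H21): `proj_eq`, `Fr.exists_theta`,
`Fr.exists_tv`, `TV.lift`.
-/

set_option autoImplicit false
set_option linter.unusedSectionVars false
set_option linter.unusedVariables false

namespace H21
open Classical
open scoped ComplexConjugate

variable {ι κ : Type*} {S : Finset ι} {w : ι → ℤ} {a b c d : ι}

theorem proj_eq [DecidableEq κ] {P : ι → ι → ℂ} (h1 : ∀ i j, conj (P i j) = P j i)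
    (h2 : ∀ i, ∑ x ∈ S, P i x * P x i = P i i) {I : Finset κ} {θ : κ → ι → ℤ} {n : κ → ℤ}
    (hn : ∀ r ∈ I, n r ≠ 0) (h3 : ∀ r ∈ I, ∀ j ∈ S, ∑ x ∈ S, θ r x * P x j = θ r j)
    (h4 : ∀ r ∈ I, ∀ s ∈ I, ∑ x ∈ S, θ r x * θ s x = if r = s then n r else 0)
    (h5 : ∑ x ∈ S, P x x = I.card) :
    ∀ i ∈ S, ∀ j ∈ S, P i j = ∑ r ∈ I, (θ r i * θ r j : ℂ) / n r := by
  set Q : ι → ι → ℂ := fun i j => ∑ r ∈ I, (θ r i * θ r j : ℂ) / n r with hQ
  have q0 : ∀ r ∈ I, (n r : ℂ) ≠ 0 := fun r hr => by exact_mod_cast hn r hr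
  have q1 : ∀ i j, conj (Q i j) = Q j i := fun i j => by simp [hQ, mul_comm]
  have q2 : ∀ X : ι → ι → ℂ, (∀ r ∈ I, ∀ j ∈ S, ∑ x ∈ S, θ r x * X x j = θ r j) →
      ∑ i ∈ S, ∑ x ∈ S, Q i x * X x i = I.card := fun X hX => by
    rw [Finset.sum_congr rfl (g := fun i => ∑ r ∈ I, (θ r i * θ r i : ℂ) / n r) fun i hi => by
      simp only [hQ, Finset.sum_mul]
      rw [Finset.sum_comm]
      refine Finset.sum_congr rfl fun r hr => ?_
      rw [mul_div_right_comm, ← congrArg ((θ r i / n r : ℂ) * ·) (hX r hr i hi), Finset.mul_sum]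
      exact Finset.sum_congr rfl fun x _ => by ring, Finset.sum_comm, Finset.card_eq_sum_ones,
      Nat.cast_sum]
    refine Finset.sum_congr rfl fun r hr => ?_
    have := congrArg (Int.cast : ℤ → ℂ) ((h4 r hr r hr).trans (if_pos rfl))
    push_cast at this
    rw [← Finset.sum_div, this, div_self (q0 r hr), Nat.cast_one]
  have q3 := q2 Q fun r hr j _ => by
    simp only [hQ, Finset.mul_sum]
    rw [Finset.sum_comm, Finset.sum_eq_single_of_mem r hr fun s hs e => ?_]
    · have := congrArg (Int.cast : ℤ → ℂ) ((h4 r hr r hr).trans (if_pos rfl))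
      push_cast at this
      rw [Finset.sum_congr rfl (g := fun x => (θ r x * θ r x * (θ r j / n r) : ℂ)) fun x _ => by ring,
        ← Finset.sum_mul, this, mul_div_cancel₀ _ (q0 r hr)]
    · have := congrArg (Int.cast : ℤ → ℂ) (h4 r hr s hs)
      push_cast [if_neg e.symm] at this
      rw [← zero_mul (θ s j / n s : ℂ), ← this, Finset.sum_mul]
      exact Finset.sum_congr rfl fun x _ => by ring
  have q4 := q2 P h3
  have q5 : ∑ i ∈ S, ∑ j ∈ S, Complex.normSq (P i j - Q i j) = 0 := by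
    refine Complex.ofReal_injective ?_
    push_cast
    simp only [Complex.normSq_eq_conj_mul_self, map_sub, h1, q1, mul_sub, sub_mul,
      Finset.sum_sub_distrib]
    rw [Finset.sum_comm (f := fun i j => P j i * P i j), Finset.sum_comm (f := fun i j => Q j i * P i j),
      Finset.sum_comm (f := fun i j => Q j i * Q i j), q3, q4]
    rw [Finset.sum_congr rfl fun i _ => h2 i, h5, Finset.sum_congr rfl fun i _ =>
      Finset.sum_congr rfl fun j _ => mul_comm (P j i) (Q i j), q4]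
    simp
  intro i hi j hj
  rw [← sub_eq_zero, ← Complex.normSq_eq_zero]
  exact (Finset.sum_eq_zero_iff_of_nonneg fun _ _ => Complex.normSq_nonneg _).1
    ((Finset.sum_eq_zero_iff_of_nonneg fun _ _ => Finset.sum_nonneg fun _ _ =>
      Complex.normSq_nonneg _).1 q5 i hi) j hj

theorem off_struct {R : Finset κ} {v : ι → ℤ} {F : κ → ι → ℤ} {n : ℕ} (h1 : S.card = n + R.card)
    (h2 : ∑ i ∈ S, v i * v i = 4 * n) (h3 : ∀ r ∈ R, ∑ i ∈ S, F r i * F r i = 2 * 2)
    (h4 : ∀ r ∈ R, ∑ i ∈ S, F r i * v i = 0) (h6 : ∀ i ∈ S, 2 ∣ v i)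
    (h7 : ∀ r ∈ R, ∀ i ∈ S, 2 ∣ F r i) (h8 : ∀ i ∈ S, v i = 0 → ∃ r ∈ R, F r i ≠ 0) :
    (S.filter (v · ≠ 0)).card = n ∧ ∀ i ∈ S, v i ≠ 0 → v i * v i = 4 ∧ ∀ r ∈ R, F r i = 0 := by
  have : Nonempty ι ∨ S = ∅ := S.eq_empty_or_nonempty.symm.imp (fun ⟨i, _⟩ => ⟨i⟩) id
  rcases this with hn | rfl
  swap
  · simp at h1 ⊢; omega
  choose! t ht using fun r hr => exists_single two_ne_zero (h7 r hr) (h3 r hr)
  have q1 : (S.filter (¬ v · ≠ 0)).card ≤ R.card :=
    (Finset.card_le_card fun i hi => by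
      obtain ⟨r, hr, e⟩ := h8 i (Finset.mem_filter.1 hi).1 (not_not.1 (Finset.mem_filter.1 hi).2)
      exact Finset.mem_image.2 ⟨r, hr, by_contra fun e' =>
        e ((ht r hr).2.2 i (Finset.mem_filter.1 hi).1 (Ne.symm e'))⟩).trans
      (Finset.card_image_le (f := t))
  have q2 := Finset.card_filter_add_card_filter_not (s := S) (v · ≠ 0)
  have q3 : ∀ i ∈ S.filter (v · ≠ 0), 4 ≤ v i * v i := fun i hi => by
    obtain ⟨m, hm⟩ := h6 i (Finset.mem_filter.1 hi).1
    have : m ≠ 0 := by rintro rfl; simp [hm] at hi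
    have := mul_self_pos.2 this
    rw [hm]; nlinarith
  rw [← Finset.sum_filter_of_ne (p := (v · ≠ 0)) fun i _ e e' => e (by rw [e', mul_zero])] at h2
  have q4 := Finset.sum_le_sum q3
  have q5 : (S.filter (v · ≠ 0)).card = n := by
    simp only [Finset.sum_const, nsmul_eq_mul] at q4
    omega
  refine ⟨q5, fun i hi e => ⟨((Finset.sum_eq_sum_iff_of_le q3).1 (by simp [h2, q5, mul_comm]) i
    (Finset.mem_filter.2 ⟨hi, e⟩)).symm, fun r hr => (ht r hr).2.2 i hi ?_⟩⟩
  rintro rfl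
  have := h4 r hr
  rw [Finset.sum_eq_single_of_mem _ hi fun j hj e => by rw [(ht r hr).2.2 j hj e, zero_mul]] at this
  have := (ht r hr).2.1
  rcases mul_eq_zero.1 ‹_› with _ | _ <;> omega

/-- a sign -/
def sgb (r : Bool) : ℤ := if r then 1 else -1

/-- the values on the four characters of height zero -/
structure Val (w : ι → ℤ) (a b c d : ι) (R : Finset Bool) (F : Option Bool → ι → ℤ) : Prop where
  a0 : F none a = w a
  b0 : F none b = w b
  c0 : F none c = -w c
  d0 : F none d = -w d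
  ar : ∀ r ∈ R, F (some r) a = w a
  br : ∀ r ∈ R, F (some r) b = -w b
  cr : ∀ r ∈ R, F (some r) c = sgb r * w c
  dr : ∀ r ∈ R, F (some r) d = -(sgb r * w d)

theorem sign_aux {a b c d x y z t x' y' z' t' : ℤ} (ha : a = 1 ∨ a = -1) (hb : b = 1 ∨ b = -1)
    (hc : c = 1 ∨ c = -1) (hd : d = 1 ∨ d = -1) (hx : x = 1 ∨ x = -1) (hz : z = 1 ∨ z = -1)
    (hx' : x' = 1 ∨ x' = -1) (hz' : z' = 1 ∨ z' = -1) (h1 : x * a + y * b = 0) (h2 : z * c + t * d = 0)
    (h3 : x' * a + y' * b = 0) (h4 : z' * c + t' * d = 0) (h5 : x * a = z * c ↔ x' * a = z' * c)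
    (h6 : x * x' + y * y' + z * z' + t * t' + 0 = 0) : False := by
  have e1 : y * y' = x * x' := by
    rcases ha with rfl | rfl <;> rcases hb with rfl | rfl <;>
      simp only [mul_one, mul_neg, add_neg_eq_zero, neg_add_eq_zero, add_eq_zero_iff_eq_neg,
        neg_inj] at h1 h3 <;> simp [h1, h3]
  have e2 : t * t' = z * z' := by
    rcases hc with rfl | rfl <;> rcases hd with rfl | rfl <;>
      simp only [mul_one, mul_neg, add_neg_eq_zero, neg_add_eq_zero, add_eq_zero_iff_eq_neg,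
        neg_inj] at h2 h4 <;> simp [h2, h4]
  rw [e1, e2] at h6
  rcases ha with rfl | rfl <;> rcases hc with rfl | rfl <;> rcases hx with rfl | rfl <;>
    rcases hz with rfl | rfl <;> omega

theorem Fr.exists_theta {J : Type*} [Fintype J] (h : Fr S w a b c d) {u : J → ι → ℤ} {t : J → ι}
    (inj : Function.Injective t) (off : ∀ j, Off S w (u j) 1 (t j))
    (val : ∀ j, u j a = w a ∧ u j b = w b ∧ u j c = 0 ∧ u j d = 0) {T : Finset κ} {e : κ → ι → ℤ}
    (e0 : ∀ s ∈ T, ∀ i ∈ S, w i = 0 → e s i = 0)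
    (e1 : ∀ s ∈ T, ∀ i ∈ S, w i ≠ 0 → e s i = 1 ∨ e s i = -1)
    (ea : ∀ s ∈ T, e s a * w a + e s b * w b = 0) (ew : ∀ s ∈ T, ∑ i ∈ S, e s i * w i = 0)
    (ee : ∀ s ∈ T, ∀ s' ∈ T, s ≠ s' → ∑ i ∈ S, e s i * e s' i = 0) :
    ∃ (R : Finset Bool) (θ : Option Bool → ι → ℤ), R.card + T.card = 2 ∧ Val w a b c d R θ ∧
      (∀ r i, 2 ∣ θ (some r) i - θ none i) ∧ ∀ r ∈ R.insertNone,
        (∀ i ∈ S, θ r i ≠ 0 → w i ≠ 0 ∨ ∃ j, t j = i) ∧ ∑ i ∈ S, θ r i * w i = 0 ∧
        (∀ j, ∑ i ∈ S, u j i * θ r i = 0) ∧ (∀ s ∈ T, ∑ i ∈ S, e s i * θ r i = 0) ∧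
        ∀ r' ∈ R.insertNone, ∑ i ∈ S, θ r i * θ r' i =
          if r = r' then r.elim (4 * (Fintype.card J + 1 : ℕ) : ℤ) fun _ => 4 else 0 := by
  set θ : Option Bool → ι → ℤ := fun r i => if w i = 0 then r.elim (-2 * ∑ j, u j i) fun _ => 0
    else (if i = a then 1 else if i = b then r.elim 1 fun _ => -1 else if i = c then r.elim (-1) sgb
      else r.elim (-1) fun r => -sgb r) * w i with hθ
  have wa := h.wa; have wb := h.wb; have wc := h.wc; have wd := h.wd
  have hv : Val w a b c d Finset.univ θ := by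
    have := h.ab.symm; have := h.ac.symm; have := h.ad.symm; have := h.bc.symm; have := h.bd.symm
    have := h.cd.symm
    have : w a ≠ 0 := by omega
    have : w b ≠ 0 := by omega
    have : w c ≠ 0 := by omega
    have : w d ≠ 0 := by omega
    constructor <;> simp [hθ, *]
  have hs : ∀ r (v : ι → ℤ), ∑ i ∈ S, v i * θ r i = v a * θ r a + v b * θ r b + v c * θ r c +
      v d * θ r d + r.elim (-2 * ∑ j, u j (t j) * v (t j)) fun _ => 0 := fun r v => by
    rw [h.sum, Finset.sum_congr rfl (g := fun i => v i * r.elim (-2 * ∑ j, u j i) fun _ => 0)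
      fun i hi => by simp only [hθ, if_pos (Finset.mem_filter.1 hi).2]]
    rcases r with _ | r
    · simp only [Option.elim, ← (off _).sum, Finset.mul_sum]
      rw [Finset.sum_comm]
      exact congrArg _ (Finset.sum_congr rfl fun _ _ => Finset.sum_congr rfl fun _ _ => by ring)
    · simp
  have hu : ∀ i j, u j (t j) * u i (t j) = if j = i then 1 else 0 := fun i j => by
    split_ifs with q
    · subst q; rcases (off j).val with q | q <;> simp [q]
    · rw [(off i).zero _ (off j).mem (off j).wz fun q' => q (inj q'), mul_zero]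
  have hs2 : ∀ r, sgb r = 1 ∨ sgb r = -1 := fun r => by cases r <;> simp [sgb]
  set ty : κ → Bool := fun s => decide (e s a * w a = e s c * w c) with hty
  have he : ∀ s ∈ T, (e s a = 1 ∨ e s a = -1) ∧ (e s b = 1 ∨ e s b = -1) ∧
      (e s c = 1 ∨ e s c = -1) ∧ (e s d = 1 ∨ e s d = -1) ∧ e s a * w a + e s b * w b = 0 ∧
      e s c * w c + e s d * w d = 0 := fun s hs => by
    have := ew s hs
    rw [h.sum_w, ea s hs, zero_add] at this
    exact ⟨e1 s hs a h.ma (by omega), e1 s hs b h.mb (by omega), e1 s hs c h.mc (by omega),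
      e1 s hs d h.md (by omega), ea s hs, this⟩
  refine ⟨Finset.univ \ T.image ty, θ, ?_, ⟨hv.a0, hv.b0, hv.c0, hv.d0, fun r _ => hv.ar r (by simp),
    fun r _ => hv.br r (by simp), fun r _ => hv.cr r (by simp), fun r _ => hv.dr r (by simp)⟩,
    fun r i => ?_, fun r hr => ⟨fun i hi q => by_contra fun q' => q ?_, ?_, fun j => ?_,
      fun s hs' => ?_, fun r' hr' => ?_⟩⟩
  · rw [← Finset.card_image_of_injOn (f := ty) fun s hs' s' hs'' q => by_contra fun q' => ?_,
      Finset.card_sdiff_add_card_eq_card (Finset.subset_univ _)]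
    · rfl
    have := ee s hs' s' hs'' q'
    rw [h.sum, Finset.sum_eq_zero fun i hi => by
      rw [e0 s hs' i (Finset.mem_filter.1 hi).1 (Finset.mem_filter.1 hi).2, zero_mul]] at this
    simp only [hty, decide_eq_decide] at q
    obtain ⟨p1, p2, p3, p4, p5, p6⟩ := he s hs'
    obtain ⟨q1, q2, q3, q4, q5, q6⟩ := he s' hs''
    exact sign_aux wa wb wc wd p1 p3 q1 q3 p5 p6 q5 q6 q this
  · have := hs2 r
    simp only [hθ, Option.elim]
    split_ifs
    · simp
    all_goals rw [← sub_mul]; exact Dvd.dvd.mul_right (by omega) _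
  · push Not at q'
    rcases r with _ | r <;> simp only [hθ, if_pos q'.1, Option.elim]
    rw [Finset.sum_eq_zero fun j _ => (off j).zero i hi q'.1 (q'.2 j).symm, mul_zero]
  · have := h.sq
    simp only [mul_comm (θ r _), hs, (off _).wz]
    rcases r with _ | r
    · simp [hv.a0, hv.b0, hv.c0, hv.d0, this]
    · simp only [hv.ar r (by simp), hv.br r (by simp), hv.cr r (by simp), hv.dr r (by simp),
        Option.elim, mul_neg, mul_left_comm _ (sgb r), this]
      ring
  · have := h.sq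
    simp only [hs, hu, val j]
    rcases r with _ | r
    · simp [hv.a0, hv.b0, this]
    · simp [hv.ar r (by simp), hv.br r (by simp), this]
  · obtain ⟨p1, p2, p3, p4, p5, p6⟩ := he s hs'
    simp only [hs, e0 s hs' _ (off _).mem (off _).wz]
    rcases r with _ | r
    · simp only [hv.a0, hv.b0, hv.c0, hv.d0, Option.elim, mul_zero, Finset.sum_const_zero]
      linear_combination p5 - p6
    · have q : ty s ≠ r := fun q => by
        simp only [Finset.some_mem_insertNone, Finset.mem_sdiff, Finset.mem_image] at hr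
        exact hr.2 ⟨s, hs', q⟩
      simp only [hv.ar r (by simp), hv.br r (by simp), hv.cr r (by simp), hv.dr r (by simp),
        Option.elim, mul_neg, mul_left_comm _ (sgb r)]
      have q1 : e s a * w a = 1 ∨ e s a * w a = -1 := by
        rcases p1 with p | p <;> rcases wa with p' | p' <;> simp [p, p']
      have q2 : e s c * w c = 1 ∨ e s c * w c = -1 := by
        rcases p3 with p | p <;> rcases wc with p' | p' <;> simp [p, p']
      cases r <;> simp [hty, sgb] at q ⊢ <;> omega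
  · have := h.sq
    have q : ∀ j, θ none (t j) = -2 * u j (t j) := fun j => by
      simp only [hθ, if_pos (off j).wz, Option.elim]
      rw [Finset.sum_eq_single j (fun i _ q => (off i).zero _ (off j).mem (off j).wz
        fun q' => q (inj q').symm) (by simp)]
    have q' : ∀ r j, θ (some r) (t j) = 0 := fun r j => by
      simp only [hθ, if_pos (off j).wz, Option.elim]
    have q'' : ∀ r r' x, x * x = 1 → sgb r * x * (sgb r' * x) = if r = r' then 1 else -1 :=
      fun r r' x hx => by rw [mul_mul_mul_comm, hx, mul_one]; revert r r'; decide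
    rw [hs]
    rcases r with _ | r <;> rcases r' with _ | r'
    · simp [hv.a0, hv.b0, hv.c0, hv.d0, this, q, mul_left_comm (u _ _), hu]; ring
    · simp only [hv.a0, hv.b0, hv.c0, hv.d0, hv.ar r' (by simp), hv.br r' (by simp),
        hv.cr r' (by simp), hv.dr r' (by simp), Option.elim, mul_neg, neg_mul,
        mul_left_comm _ (sgb r'), this]
      simp
    · simp only [hv.a0, hv.b0, hv.c0, hv.d0, hv.ar r (by simp), hv.br r (by simp),
        hv.cr r (by simp), hv.dr r (by simp), Option.elim, mul_neg, neg_mul, mul_assoc, this, q']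
      simp
    · simp only [hv.ar _ (Finset.mem_univ _), hv.br _ (Finset.mem_univ _), hv.cr _ (Finset.mem_univ _),
        hv.dr _ (Finset.mem_univ _), Option.elim, mul_neg, neg_mul, neg_neg,
        this, q'', Option.some.injEq]
      split_ifs <;> simp

theorem Fr.exists_tv (h : Fr S w a b c d) {ht : ι → ℕ} {k : ℕ} {R : Finset Bool} {om : ι → ℤ}
    {F : Option Bool → ι → ℤ} {cm : ι → ι → ℤ} (hv : Val w a b c d R F)
    (o1 : ∀ i, om i = 1 ∨ om i = -1) (o2 : ∀ i ∈ S, w i ≠ 0 → om i = 1)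
    (h1 : ∀ r ∈ R.insertNone, ∀ s ∈ R.insertNone, ∑ i ∈ S, F r i * F s i =
      if r = s then r.elim (2 ^ (k + 3) : ℤ) fun _ => 8 else 0)
    (h2 : ∀ r i, 2 ∣ F (some r) i - F none i) (h3 : ∀ i j, cm i j = om i * om j *
      (F none i * F none j + 2 ^ k * ∑ r ∈ R, F (some r) i * F (some r) j))
    (h4 : ∀ i ∈ S, ∀ j ∈ S, 2 ^ ht i ∣ cm i j ∧ (2 ^ (ht i + 1) ∣ cm i j ↔ ht j ≠ 0))
    (h5 : ∀ i ∈ S, w i ≠ 0 ↔ ht i = 0) (h6 : S.card = 2 ^ (k + 1) + 3 + R.card)
    (h7 : ∑ i ∈ S, om i * F none i * F none i = 0) :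
    ∃ (J : Finset ι) (x : J → ι → ℤ) (s : J → ℤ), J.card + 1 = 2 ^ (k + 1) ∧
      TV S ht k R w x s (fun r i => om i * F (some r) i) cm ∧ ∀ j,
        (∀ r ∈ R.insertNone, ∑ i ∈ S, x j i * F r i = 0) ∧ ∀ e : ι → ℤ,
          (∀ i ∈ S, w i = 0 → e i = 0) → ∑ i ∈ S, e i * x j i = e a * w a + e b * w b := by
  have wa := h.wa; have wb := h.wb; have wc := h.wc; have wd := h.wd
  have hq := h.sq
  have oa := o2 a h.ma (by omega); have ob := o2 b h.mb (by omega)
  have oc := o2 c h.mc (by omega); have od := o2 d h.md (by omega)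
  have o3 : ∀ i, om i * om i = 1 := fun i => by rcases o1 i with e | e <;> simp [e]
  have sq : ∀ r x, x * x = 1 → sgb r * x * (sgb r * x) = 1 := fun r x hx => by
    rw [mul_mul_mul_comm, hx]; cases r <;> rfl
  have ha : ht a = 0 := (h5 a h.ma).1 (by omega)
  have q1 : ¬ (2 : ℤ) ∣ 1 + 2 ^ k * R.card := by
    have := (h4 a h.ma a h.ma).2
    rw [h3, oa, hv.a0, Finset.sum_congr rfl fun r hr => by rw [hv.ar r hr], ha, hq.1, zero_add,
      pow_one, Finset.sum_const, nsmul_eq_mul, mul_one, mul_one, one_mul] at this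
    exact fun e => this.1 e rfl
  have q2 : ∀ i ∈ S.filter (w · = 0), 2 ∣ F none i := fun i hi => by
    have h8 := (dvd_pow_self 2 fun e => (h5 i (Finset.mem_filter.1 hi).1).2 e
      (Finset.mem_filter.1 hi).2).trans (h4 i (Finset.mem_filter.1 hi).1 a h.ma).1
    have h9 : 2 ∣ ∑ r ∈ R, (F (some r) i - F none i) := Finset.dvd_sum fun r _ => h2 r i
    rw [h3, oa, hv.a0, Finset.sum_congr rfl fun r hr => by rw [hv.ar r hr], ← Finset.sum_mul] at h8
    rw [Finset.sum_sub_distrib, Finset.sum_const, nsmul_eq_mul] at h9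
    have h10 : 2 ∣ F none i * (1 + 2 ^ k * R.card) := by
      have := (h8.mul_left (om i * w a)).sub (h9.mul_left (2 ^ k))
      refine (congrArg _ ?_).mp this
      linear_combination (F none i + 2 ^ k * ∑ r ∈ R, F (some r) i) * (o3 i + om i * om i * hq.1)
    exact (Int.prime_two.dvd_or_dvd h10).resolve_right q1
  have q3 : ∀ r ∈ R.insertNone, ∀ s ∈ R.insertNone, ∑ i ∈ S with w i = 0, F r i * F s i =
      (if r = s then r.elim (2 ^ (k + 3) : ℤ) fun _ => 8 else 0) -
        (F r a * F s a + F r b * F s b + F r c * F s c + F r d * F s d) := fun r hr s hs => by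
    rw [← h1 r hr s hs, h.sum, add_sub_cancel_left]
  have q4 : 1 ≤ 2 ^ (k + 1) := Nat.one_le_two_pow
  obtain ⟨h8, h9⟩ := off_struct (S := S.filter (w · = 0)) (R := R) (v := F none)
    (F := fun r => F (some r)) (n := 2 ^ (k + 1) - 1)
    (by have := Finset.card_filter_add_card_filter_not (s := S) (w · = 0)
        have := h.card
        simp only [ne_eq] at this
        omega)
    (by rw [q3 _ (by simp) _ (by simp)]; simp [hv.a0, hv.b0, hv.c0, hv.d0, hq, q4]; ring)
    (fun r hr => by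
      rw [q3 _ (by simpa) _ (by simpa)]; simp [hv.ar r hr, hv.br r hr, hv.cr r hr, hv.dr r hr, hq, sq])
    (fun r hr => by
      rw [q3 _ (by simpa) _ (by simp)]
      simp [hv.ar r hr, hv.br r hr, hv.cr r hr, hv.dr r hr, hv.a0, hv.b0, hv.c0, hv.d0, hq, mul_assoc])
    q2 (fun r _ i hi => by have := q2 i hi; have := h2 r i; omega) (fun i hi e => by
      by_contra hn
      push Not at hn
      have := (h4 i (Finset.mem_filter.1 hi).1 a h.ma).2
      rw [h3, e, Finset.sum_eq_zero fun r hr => by rw [hn r hr, zero_mul]] at this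
      simp [ha] at this)
  set J := (S.filter (w · = 0)).filter (F none · ≠ 0) with hJ
  have m : ∀ j : J, (j : ι) ∈ S ∧ w j = 0 ∧ F none j * F none j = 4 ∧ ∀ r ∈ R, F (some r) j = 0 :=
    fun j => ⟨(Finset.mem_filter.1 (Finset.mem_filter.1 j.2).1).1,
      (Finset.mem_filter.1 (Finset.mem_filter.1 j.2).1).2,
      h9 _ (Finset.mem_filter.1 j.2).1 (Finset.mem_filter.1 j.2).2⟩
  have m2 : ∀ j : J, F none j = 2 ∨ F none j = -2 := fun j =>
    mul_self_eq_mul_self_iff.1 (m j).2.2.1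
  set x : J → ι → ℤ := fun j i => if i = a ∨ i = b then w i else if i = j then -(F none j / 2) else 0
    with hx
  have ne : ∀ j : J, a ≠ j ∧ b ≠ j ∧ c ≠ j ∧ d ≠ j := fun j => by
    have := (m j).2.1
    refine ⟨?_, ?_, ?_, ?_⟩ <;> (intro e; rw [← e] at this; omega)
  have xv : ∀ j, x j a = w a ∧ x j b = w b ∧ x j c = 0 ∧ x j d = 0 ∧ ∀ i, w i = 0 →
      x j i = if i = j then -(F none j / 2) else 0 := fun j => by
    refine ⟨by simp [hx], by simp [hx], by simp [hx, ne j, h.ac.symm, h.bc.symm],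
      by simp [hx, ne j, h.ad.symm, h.bd.symm], fun i hi => if_neg ?_⟩
    rintro (rfl | rfl) <;> omega
  have xs : ∀ j (v : ι → ℤ), ∑ i ∈ S, x j i * v i = w a * v a + w b * v b - F none j / 2 * v j :=
    fun j v => by
      rw [h.sum, Finset.sum_congr rfl fun i hi => by rw [(xv j).2.2.2.2 i (Finset.mem_filter.1 hi).2]]
      simp [xv j, (m j).1, (m j).2.1, sub_eq_add_neg]
  have xj : ∀ i j : J, F none i / 2 * x j i = if i = j then -1 else 0 := fun i j => by
    rw [(xv j).2.2.2.2 _ (m i).2.1]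
    by_cases e : i = j
    · subst e; rcases m2 i with e | e <;> simp [e]
    · simp [e, Subtype.coe_inj]
  have h10 : ∑ j : J, om j = -1 := by
    rw [h.sum, ← Finset.sum_filter_of_ne (p := (F none · ≠ 0)) fun i _ e e' => e (by rw [e', mul_zero]),
      ← hJ, ← Finset.sum_coe_sort, Finset.sum_congr rfl fun j _ => by rw [mul_assoc, (m j).2.2.1],
      ← Finset.sum_mul] at h7
    simp only [oa, ob, oc, od, hv.a0, hv.b0, hv.c0, hv.d0, one_mul, neg_mul_neg, hq] at h7
    omega
  have h11 : ∀ i ∈ S, 2 * ∑ j : J, -om j * x j i - w i = om i * F none i := fun i hi => by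
    rcases h.cases hi with e | rfl | rfl | rfl | rfl
    · simp only [(xv _).2.2.2.2 i e, e, sub_zero, mul_ite, mul_zero]
      by_cases e' : F none i = 0
      · rw [Finset.sum_eq_zero fun (j : J) _ => if_neg fun q : i = j =>
          (Finset.mem_filter.1 j.2).2 (q ▸ e'), e']
        simp
      · have hj : i ∈ J := by simp [hJ, hi, e, e']
        rw [Finset.sum_eq_single ⟨i, hj⟩ (fun j _ q => if_neg fun q' => q (Subtype.ext q'.symm))
          (by simp), if_pos rfl]
        rcases m2 ⟨i, hj⟩ with q | q <;> simp only [q] <;> ring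
    · simp only [xv, ← Finset.sum_mul, Finset.sum_neg_distrib, h10, oa, hv.a0]; ring
    · simp only [xv, ← Finset.sum_mul, Finset.sum_neg_distrib, h10, ob, hv.b0]; ring
    · simp [xv, oc, hv.c0]
    · simp [xv, od, hv.d0]
  have h12 : ∀ r s, ∑ i ∈ S, om i * F r i * (om i * F s i) = ∑ i ∈ S, F r i * F s i := fun r s =>
    Finset.sum_congr rfl fun i _ => by rw [mul_mul_mul_comm, o3, one_mul]
  refine ⟨J, x, fun j => -om j, by omega, ⟨by rw [h.sum_w]; simp [hq], fun j => ?_, fun i j e => ?_,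
    fun j => ?_, fun j => ?_, fun r hr i hi => ?_, fun r hr => ?_, fun e => ?_, fun r hr => ?_,
    fun r hr j => ?_, fun i hi j hj => ?_, h4, a, h.ma, ha⟩, fun j => ⟨fun r hr => ?_, fun e he => ?_⟩⟩
  · simp [xs, xj, xv, hq]
  · simp [xs, xj, xv, hq, e]
  · simp [xs, hq, m j]
  · rcases o1 j with e | e <;> simp [e]
  · rw [Int.even_iff]
    rcases h.cases hi with e | rfl | rfl | rfl | rfl
    · have := q2 i (by simp [hi, e]); have := h2 r i
      rcases o1 i with e | e <;> rw [e] <;> omega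
    · rw [oa, hv.ar r hr]; omega
    · rw [ob, hv.br r hr]; omega
    · rw [oc, hv.cr r hr]; cases r <;> simp only [sgb] <;> simp <;> omega
    · rw [od, hv.dr r hr]; cases r <;> simp only [sgb] <;> simp <;> omega
  · rw [h12, h1 _ (by simpa) _ (by simpa)]; simp
  · rw [h12, h1 _ (by simp [e]) _ (by simp [e])]; simp
  · rw [h.sum_w]
    simp [oa, ob, oc, od, hv.ar r hr, hv.br r hr, hv.cr r hr, hv.dr r hr, hq, mul_assoc]
  · simp [xs, oa, ob, hv.ar r hr, hv.br r hr, hq, (m j).2.2.2 r hr]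
  · rw [h11 i hi, h11 j hj, h3, mul_add, Finset.mul_sum, Finset.mul_sum, Finset.mul_sum]
    exact congrArg₂ _ (by ring) (Finset.sum_congr rfl fun _ _ => by ring)
  · rcases r with _ | r
    · rcases m2 j with e | e <;> simp [xs, hv.a0, hv.b0, hq, e]
    · have hr : r ∈ R := by simpa using hr
      simp [xs, hv.ar r hr, hv.br r hr, hq, (m j).2.2.2 r hr]
  · simp only [mul_comm (e _), xs, he _ (m j).1 (m j).2.1, mul_zero, sub_zero]

theorem TV.lift {ht : ι → ℕ} {k : ℕ} {J : Type*} [Fintype J] {R : Finset Bool} {x : J → ι → ℤ}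
    {s : J → ℤ} {φ : Bool → ι → ℤ} {cm : ι → ι → ℤ} (h : TV S ht k R w x s φ cm) {S' : Finset κ}
    {ht' : κ → ℕ} (m : κ → ι → ℤ) {P : (ι → ℤ) → Prop} (pw : P w) (px : ∀ j, P (x j))
    (pp : ∀ r ∈ R, P (φ r)) (iso : ∀ v v', P v → P v' →
      ∑ y ∈ S', (∑ i ∈ S, m y i * v i) * ∑ i ∈ S, m y i * v' i = ∑ i ∈ S, v i * v' i)
    {c' : κ → κ → ℤ} (hc : ∀ y z, c' y z = ∑ i ∈ S, ∑ j ∈ S, m y i * m z j * cm i j)
    (dvd : ∀ i ∈ S', ∀ j ∈ S', 2 ^ ht' i ∣ c' i j ∧ (2 ^ (ht' i + 1) ∣ c' i j ↔ ht' j ≠ 0))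
    (ex : ∃ i ∈ S', ht' i = 0) :
    TV S' ht' k R (fun y => ∑ i ∈ S, m y i * w i) (fun j y => ∑ i ∈ S, m y i * x j i) s
      (fun r y => ∑ i ∈ S, m y i * φ r i) c' := by
  refine ⟨(iso _ _ pw pw).trans h.ww, fun j => (iso _ _ (px j) (px j)).trans (h.xx j),
    fun i j e => (iso _ _ (px i) (px j)).trans (h.xx' i j e),
    fun j => (iso _ _ (px j) pw).trans (h.xw j), h.odd, fun r hr y _ => ?_,
    fun r hr => (iso _ _ (pp r hr) (pp r hr)).trans (h.pp r hr),
    fun e => (iso _ _ (pp _ (by simp [e])) (pp _ (by simp [e]))).trans (h.pp' e),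
    fun r hr => (iso _ _ (pp r hr) pw).trans (h.pw r hr),
    fun r hr j => (iso _ _ (px j) (pp r hr)).trans (h.xp r hr j), fun y _ z _ => ?_, dvd, ex⟩
  · rw [← Finset.sum_sub_distrib]
    exact Finset.even_sum _ fun i hi => by rw [← mul_sub]; exact (h.par r hr i hi).mul_left _
  · have q : ∀ y, 2 * ∑ j, s j * ∑ i ∈ S, m y i * x j i - ∑ i ∈ S, m y i * w i =
        ∑ i ∈ S, m y i * (2 * ∑ j, s j * x j i - w i) := fun y => by
      simp only [mul_sub, Finset.sum_sub_distrib, Finset.mul_sum]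
      rw [Finset.sum_comm]
      exact congrArg (· - _) (Finset.sum_congr rfl fun _ _ => Finset.sum_congr rfl fun _ _ => by ring)
    rw [hc, q, q, Finset.sum_congr rfl fun i hi => Finset.sum_congr rfl fun j hj => by
      rw [h.eq i hi j hj, mul_add], Finset.sum_mul_sum]
    simp only [Finset.sum_add_distrib, Finset.sum_mul_sum]
    refine congrArg₂ _ (Finset.sum_congr rfl fun _ _ => Finset.sum_congr rfl fun _ _ => by ring) ?_
    simp only [Finset.mul_sum]
    rw [Finset.sum_comm (s := R)]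
    refine Finset.sum_congr rfl fun _ _ => ?_
    rw [Finset.sum_comm]
    exact Finset.sum_congr rfl fun _ _ => Finset.sum_congr rfl fun _ _ => by ring

end H21
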