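import Mathlib
import Cfsg.Agent.H21.Tame7
import Cfsg.Agent.H21.Tame8

/-!
Blocks with a defect group of maximal class (namespace H21): the columns for the central
involution, `exists_st2` (central case) and `exists_tv` (general case).
-/

set_option autoImplicit false
set_option linter.unusedSectionVars false
set_option linter.unusedVariables false

namespace H21
open H05 Cfsg H20 MonoidAlgebra Classical
open scoped ComplexConjugate

local notation:max "𝐂" Q:max => Subgroup.centralizer (SetLike.coe Q)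
local notation:max "𝐍" Q:max => Subgroup.normalizer (SetLike.coe Q)
local notation:max "⟪" u "⟫" => Subgroup.zpowers u

attribute [-instance] H19.instFintypeSubgroupFrob

variable {M : Ideal AlgInt} [hMm : M.IsMaximal] {G : Type*} [Group G] [Fintype G]
  {B : Set (IrrCharacter G)} {b : BrauerPairIdx G} {u v x t σ τ z : G} {f g φ θ : G → ℂ}
  {k δ : ℕ} {l l' i j : ZK k}

omit hMm in
theorem classInner_gc_left (v : IrrCharacter G → ℤ) (g : G → ℂ) :
    classInner (gc B v) g = ∑ χ with χ ∈ B, v χ * classInner (χ : G → ℂ) g := by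
  simp only [gc, classInner_sum_left, classInner_smul_left]

omit hMm in
theorem classInner_gc_irr (v : IrrCharacter G → ℤ) {χ : IrrCharacter G} (hχ : χ ∈ B) :
    classInner (gc B v) χ = v χ := by
  simp [classInner_gc_left, classInner_irr, hχ]

theorem Mx.mv_one_pReg {p : ℕ} (h : Mx M p B b) (f g : G → ℂ) :
    mv M p b 1 f (fun x => g (pReg p x)) = mv M p b 1 f g := by
  haveI : Fact p.Prime := ⟨h.mod.1⟩
  simp only [h.mv_one, ← contrib_blockPart_comm h.mod h.blk.isInt_idem]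
  exact contrib_congr_right _ fun x hx => by rw [pReg_eq_self_iff.2 hx]

omit hMm in
theorem pReg_center_mul (hz : z ∈ Subgroup.center G) (h2 : orderOf z = 2) (x : G) :
    pReg 2 (z * x) = pReg 2 x := by
  have h1 : pPart 2 z = z := pPart_of_pow ⟨1, h2⟩
  have : Commute z x := (Subgroup.mem_center_iff.1 hz x).symm
  rw [pReg, pPart, this.mul_pow, ← pPart, h1, _root_.mul_inv_rev, mul_assoc, inv_mul_cancel_left]
  rfl

variable (M) in
/-- vanishing on the given subsections -/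
def Van (B : Set (IrrCharacter G)) (b : BrauerPairIdx G) (T : Finset G)
    (v : IrrCharacter G → ℤ) : Prop :=
  ∀ s, s = 1 ∨ s ∈ T → ∀ g, mv M 2 b s (gc B v) g = 0

theorem exists_st2 (h : Mx M 2 B b) (hm : MC b.1 σ τ k δ) (hz : pw σ (hh k) ∈ Subgroup.center G) :
    ∃ (J : Finset (IrrCharacter G)) (R : Finset Bool) (w : IrrCharacter G → ℤ)
      (x : J → IrrCharacter G → ℤ) (s : J → ℤ) (φ : Bool → IrrCharacter G → ℤ)
      (c : IrrCharacter G → IrrCharacter G → ℤ), J.card + 1 = 2 ^ (k + 1) ∧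
      TV (Finset.univ.filter (· ∈ B)) (fun χ => blockHeight 2 B (χ : G → ℂ)) k R w x s φ c ∧
      (∀ χ ∈ B, ∀ ψ ∈ B, 2 * NN k * mv M 2 b (pw σ (hh k)) χ ψ = c χ ψ) ∧
      R.card + (urep M b σ τ).card = 2 ∧ blockRank 2 B = R.card + 1 ∧
      Van M B b (urep M b σ τ) w ∧ (∀ j, Van M B b (urep M b σ τ) (x j)) ∧
      ∀ r ∈ R, Van M B b (urep M b σ τ) (φ r) := by
  obtain ⟨w, u, a, a', c, d, t, e, hs⟩ := exists_st1 h hm hz
  have m := fun χ (e : χ ∈ Finset.univ.filter (· ∈ B)) => (Finset.mem_filter.1 e).2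
  have cl := fun χ : IrrCharacter G => χ.2.isClassFunction
  have hom := om_mul hz hm.z_sq
  obtain ⟨R, θ, hR, hv, hp, hθ⟩ := hs.fr.exists_theta hs.inj hs.off hs.val
    (fun s q χ hχ => hs.e0 s q χ (m χ hχ)) (fun s q χ hχ => hs.e1 s q χ (m χ hχ)) hs.ea hs.ew hs.ee
  have hl : blockRank 2 B = R.card + 1 := by have := hs.cnt; omega
  have q1 : ∀ r ∈ R.insertNone, ∀ χ ∈ B, om (pw σ (hh k)) χ ≠ 1 → θ r χ = 0 := fun r hr χ hχ q =>
    by_contra fun q' => q ((hs.ev χ hχ).2 ((hθ r hr).1 χ (by simpa using hχ) q'))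
  have q2 : ∀ r ∈ R.insertNone, ∀ (g : G → ℂ) (ω : ℤ), (∀ x, g (pw σ (hh k) * x) = ω * g x) →
      mv M 2 b (pw σ (hh k)) (gc B (θ r)) g = ω * mv M 2 b 1 (gc B (θ r)) g := fun r hr g ω hg => by
    rw [h.mv_center_twist (hm.pw_memD _) hz (gc_twist hz hm.z_sq (q1 r hr)) hg]; simp
  have q3 : ∀ r ∈ R.insertNone, ∀ g, IsClassFunction G g → (∀ x, g (pw σ (hh k) * x) = (1 : ℤ) * g x) →
      classInner (gc B (θ r)) g = 2 * mv M 2 b 1 (gc B (θ r)) g := fun r hr g hg hg' => by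
    rw [hs.key _ (q1 r hr) (hθ r hr).2.1 (hθ r hr).2.2.1 (hθ r hr).2.2.2.1 g hg, q2 r hr g 1 hg']
    push_cast; ring
  set F : Option Bool → IrrCharacter G → ℤ := fun r χ =>
    ∑ ψ with ψ ∈ B, θ r ψ * mult (fun x => (χ : G → ℂ) (pReg 2 x)) ψ with hF
  have q4 : ∀ r ∈ R.insertNone, ∀ χ, (F r χ : ℂ) = 2 * mv M 2 b 1 (gc B (θ r)) χ := fun r hr χ => by
    have q := isGen_pReg 2 χ.2.isGeneralizedCharacter
    rw [← h.mv_one_pReg, ← q3 r hr _ q.isClassFunction fun x => by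
      simp [pReg_center_mul hz hm.ord_z], classInner_gc_left, hF]
    push_cast
    exact Finset.sum_congr rfl fun ψ _ => by
      rw [← classInner_conj_symm, ← cast_mult q, map_intCast]
  have q4' : ∀ r ∈ R.insertNone, ∀ χ, (F r χ : ℂ) = 2 * mv M 2 b 1 χ (gc B (θ r)) := fun r hr χ => by
    have := congrArg conj (q4 r hr χ)
    rwa [map_intCast, map_mul, conj_mv, map_ofNat] at this
  have q5 : ∀ r ∈ R.insertNone, ∀ χ ∈ B, w χ ≠ 0 → F r χ = θ r χ := fun r hr χ hχ q =>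
    Int.cast_injective (α := ℂ) (by
      rw [q4 r hr, ← q3 r hr _ (cl χ) ((hs.ev χ hχ).2 (Or.inl q) ▸ hom χ), classInner_gc_irr _ hχ])
  have q6 : ∀ r ∈ R.insertNone, ∀ s ∈ R.insertNone, ∑ χ with χ ∈ B, F r χ * F s χ =
      if r = s then r.elim (2 ^ (k + 3) : ℤ) fun _ => 8 else 0 := fun r hr s hs' => by
    have : ∑ χ with χ ∈ B, F r χ * F s χ = 2 * ∑ χ with χ ∈ B, θ r χ * θ s χ :=
      Int.cast_injective (α := ℂ) (by
        push_cast
        rw [Finset.sum_congr rfl fun χ _ => by rw [q4 r hr, q4' s hs', mul_mul_mul_comm],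
          ← Finset.mul_sum, h.sum_mv_mul (one_mem _), mul_assoc, ← q3 r hr _
            (isGen_gc _).isClassFunction (gc_twist hz hm.z_sq (q1 s hs')), classInner_gc_left]
        exact congrArg _ (Finset.sum_congr rfl fun χ hχ => by
          rw [← classInner_conj_symm, classInner_gc_irr _ (m χ hχ), map_intCast]))
    rw [this, (hθ r hr).2.2.2.2 s hs', Fintype.card_coe, Nat.card_Ico,
      Nat.sub_add_cancel Nat.one_le_two_pow]
    split_ifs
    · cases r <;> simp; ring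
    · rfl
  have q7 := proj_eq (P := fun χ ψ : IrrCharacter G => mv M 2 b 1 χ ψ) (I := R.insertNone) (θ := F)
    (n := fun r => r.elim (2 ^ (k + 3) : ℤ) fun _ => 8) (fun _ _ => conj_mv)
    (fun χ => h.sum_mv_mul (one_mem _) _ _) (fun r _ => by cases r <;> simp)
    (fun r hr ψ _ => by
      simp only [q4 r hr, mul_assoc]; rw [← Finset.mul_sum, h.sum_mv_mul (one_mem _)]) q6
    (by rw [h.sum_mv_self (one_mem _), h.rank_sb_one, hl, Finset.card_insertNone])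
  have q8 : ∀ r ∈ R.insertNone, Van M B b (urep M b σ τ) fun χ => om (pw σ (hh k)) χ * F r χ :=
    fun r hr s hs' g => by
      have h1 : s ∈ b.1 := hs'.elim (· ▸ one_mem _) fun q => (hm.rep_mem q).1
      have h2 : ¬ Fus M 2 b (pw σ (hh k)) s := fun ⟨y, hy, _⟩ => by
        rw [Subgroup.mem_center_iff.1 hz y, mul_inv_cancel_right] at hy
        exact hs'.elim (fun q => hm.z_ne (hy.trans q)) fun q => (hm.rep_mem q).2.1 (hy ▸ pw_mem _ _)
      rw [mv_gc, ← mul_zero 2, ← h.cross (hm.pw_memD _) h1 h2 (gc B (θ r)) g, Finset.mul_sum]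
      exact Finset.sum_congr rfl fun χ _ => by rw [q2 r hr _ _ (hom χ), Int.cast_mul, q4 r hr]; ring
  set cm : IrrCharacter G → IrrCharacter G → ℤ := fun i j => om (pw σ (hh k)) i * om (pw σ (hh k)) j *
    (F none i * F none j + 2 ^ k * ∑ r ∈ R, F (some r) i * F (some r) j) with hcm
  have q9 : ∀ χ ∈ B, ∀ ψ ∈ B, 2 * NN k * mv M 2 b (pw σ (hh k)) χ ψ = cm χ ψ := fun χ hχ ψ hψ => by
    rw [h.mv_center_twist (hm.pw_memD _) hz (hom χ) (hom ψ), q7 χ (by simpa) ψ (by simpa),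
      Finset.sum_insertNone, hcm]
    simp only [Option.elim, ← Finset.sum_div, map_intCast]
    push_cast
    field_simp
    ring
  have wa := hs.fr.wa; have wb := hs.fr.wb; have wc := hs.fr.wc; have wd := hs.fr.wd
  have fa := fun r hr => q5 r hr a (m a hs.fr.ma) (by omega)
  have fb := fun r hr => q5 r hr a' (m a' hs.fr.mb) (by omega)
  have fc := fun r hr => q5 r hr c (m c hs.fr.mc) (by omega)
  have fd := fun r hr => q5 r hr d (m d hs.fr.md) (by omega)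
  obtain ⟨J, x, s, hJ, htv, hx⟩ := hs.fr.exists_tv (ht := fun χ => blockHeight 2 B (χ : G → ℂ))
    (om := om (pw σ (hh k))) (F := F) (cm := cm)
    ⟨(fa _ (by simp)).trans hv.a0, (fb _ (by simp)).trans hv.b0, (fc _ (by simp)).trans hv.c0,
      (fd _ (by simp)).trans hv.d0, fun r hr => (fa _ (by simpa)).trans (hv.ar r hr),
      fun r hr => (fb _ (by simpa)).trans (hv.br r hr),
      fun r hr => (fc _ (by simpa)).trans (hv.cr r hr),
      fun r hr => (fd _ (by simpa)).trans (hv.dr r hr)⟩ om_cases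
    (fun χ hχ q => (hs.ev χ (m χ hχ)).2 (Or.inl q)) q6
    (fun r χ => by
      rw [hF, ← Finset.sum_sub_distrib]
      exact Finset.dvd_sum fun ψ _ => by rw [← sub_mul]; exact (hp r ψ).mul_right _)
    (fun _ _ => rfl) (fun χ hχ ψ hψ => hm.dvd_z h (m χ hχ) (m ψ hψ) (q9 χ (m χ hχ) ψ (m ψ hψ)))
    (fun χ hχ => hs.ht0 χ (m χ hχ))
    (by have := hm.card_eq h
        rw [h.rank_center (hm.pw_memD _) hz, natCard_eq_card_filter] at this
        omega)
    (Int.cast_injective (α := ℂ) (by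
      have := q8 none (by simp) 1 (Or.inl rfl) (gc B (θ none))
      rw [mv_gc] at this
      rw [Int.cast_sum, Int.cast_zero, ← mul_zero 2, ← this, Finset.mul_sum]
      exact Finset.sum_congr rfl fun χ _ => by rw [Int.cast_mul, q4' _ (by simp)]; ring))
  refine ⟨J, R, w, x, s, _, cm, hJ, htv, q9, hR, hl, ?_, fun j => ?_, fun r hr => q8 _ (by simpa)⟩
  · rintro y (rfl | hy)
    exacts [hs.w1, hs.col y hy w (hs.ew y hy)]
  · rintro y (rfl | hy) g
    · rw [← h.sum_mv_mul (one_mem _)]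
      refine Finset.sum_eq_zero fun ψ hψ => mul_eq_zero_of_left ?_ _
      rw [mv_gc, Finset.sum_congr rfl fun χ hχ => by rw [q7 χ hχ ψ hψ, Finset.mul_sum],
        Finset.sum_comm]
      refine Finset.sum_eq_zero fun r hr => ?_
      have := congrArg (Int.cast : ℤ → ℂ) ((hx j).1 r hr)
      push_cast at this
      simp only [mul_div_assoc, ← mul_assoc, ← Finset.sum_mul, this, zero_mul]
    · exact hs.col y hy _ (((hx j).2 _ fun χ hχ => hs.e0 y hy χ (m χ hχ)).trans (hs.ea y hy)) g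

theorem Van.inner (h : Mx M 2 B b) (hm : MC b.1 σ τ k δ) {v : IrrCharacter G → ℤ}
    (hv : Van M B b (urep M b σ τ) v) (hg : IsClassFunction G g) : classInner (gc B v) g =
      ∑ l with l ≠ 0, cc k δ l / (2 * NN k) * mv M 2 b (pw σ l) (gc B v) g := by
  rw [h.classInner_eq (blockPart_gc v) hg, hm.sum_nf h _ fun _ _ _ e =>
    h.mv_congr (isGen_gc v).isClassFunction hg e, Finset.sum_eq_zero fun s hs => hv s (Or.inr hs) g,
    add_zero, Finset.sum_filter_of_ne]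
  rintro l - e rfl
  exact e (by rw [pw_zero, hv 1 (Or.inl rfl), mul_zero])

section lift
variable {H : Subgroup G} {F : Set (IrrCharacter H)} {b' : BrauerPairIdx H} {σ τ : H}
  (h : Mx M 2 B b) (hm : MC b.1 σ τ k δ) (hm' : MC b'.1 σ τ k δ)
  (hb : Dsc M 2 b ⟪pw (σ : G) (hh k)⟫ H F b')
include h hm hm' hb

theorem Dsc.pair_eq (hl : l ≠ 0) (hl' : l' ≠ 0) (f : G → ℂ) (hg : IsClassFunction H fun y => g y) :
    ∑ χ with χ ∈ B, mv M 2 b' (pw σ l) (fun y => f y) (fun y => (χ : G → ℂ) y) *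
      mv M 2 b' (pw σ l') (fun y => (χ : G → ℂ) y) (fun y => g y) =
    ∑ ξ with ξ ∈ F, mv M 2 b' (pw σ l) (fun y => f y) ξ * mv M 2 b' (pw σ l') ξ fun y => g y := by
  have e : ∀ l : ZK k, l ≠ 0 → ∀ f g : G → ℂ, mv M 2 b' (pw σ l) (fun y => f y) (fun y => g y) =
      mv M 2 b (pw (σ : G) l) f g := fun l hl => hb.mv_eq h (v := pw σ l) (hm.pw_memD l) (hm.z_le hl)
  by_cases h1 : l' = l ∨ l' = ee k δ * l
  · have h2 := (hm'.fus_pw hb.mx).2 h1
    rw [Finset.sum_congr rfl fun χ _ => by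
      rw [hb.mx.mv_congr (χ.2.isClassFunction.restrict H) hg h2, e l hl, e l hl],
      Finset.sum_congr (s₁ := Finset.univ.filter (· ∈ F)) rfl fun χ _ => by
        rw [hb.mx.mv_congr χ.2.isClassFunction hg h2],
      hb.mx.sum_mv_mul (hm'.pw_memD l), e l hl, h.sum_mv_mul (hm.pw_memD l)]
  · rw [hb.mx.cross (hm'.pw_memD l) (hm'.pw_memD l') fun q => h1 ((hm'.fus_pw hb.mx).1 q),
      Finset.sum_congr rfl fun χ _ => by rw [e l hl, e l' hl']]
    exact h.cross (hm.pw_memD l) (hm.pw_memD l') (fun q => h1 ((hm.fus_pw h).1 q)) _ _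

theorem Dsc.iso {v v' : IrrCharacter H → ℤ} (hv : Van M F b' (urep M b' σ τ) v)
    (hv' : Van M F b' (urep M b' σ τ) v') :
    ∑ χ with χ ∈ B, (∑ ξ with ξ ∈ F, mult (fun y : H => (χ : G → ℂ) y) ξ * v ξ) *
      ∑ ξ with ξ ∈ F, mult (fun y : H => (χ : G → ℂ) y) ξ * v' ξ = ∑ ξ with ξ ∈ F, v ξ * v' ξ := by
  have q : ∀ g, IsGeneralizedCharacter H g → ∀ v, Van M F b' (urep M b' σ τ) v →
      ((∑ ξ with ξ ∈ F, mult g ξ * v ξ : ℤ) : ℂ) = ∑ l with l ≠ 0, cc k δ l / (2 * NN k) *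
        mv M 2 b' (pw σ l) (fun y => extendByZero H (gc F v) y) g := fun g hg v hv => by
    rw [funext (H06.extendByZero_coe H _), ← hv.inner hb.mx hm' hg.isClassFunction,
      classInner_gc_left, Int.cast_sum]
    exact Finset.sum_congr rfl fun ξ _ => by
      rw [← classInner_conj_symm, ← cast_mult hg, map_intCast, Int.cast_mul, mul_comm]
  have q' : ∀ g, IsGeneralizedCharacter H g →
      (((∑ ξ with ξ ∈ F, mult g ξ * v ξ) * ∑ ξ with ξ ∈ F, mult g ξ * v' ξ : ℤ) : ℂ) =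
        ∑ l with l ≠ 0, ∑ l' with l' ≠ 0, cc k δ l / (2 * NN k) * (cc k δ l' / (2 * NN k)) *
          (mv M 2 b' (pw σ l) (fun y => extendByZero H (gc F v) y) g *
            mv M 2 b' (pw σ l') g fun y => extendByZero H (gc F v') y) := fun g hg => by
    have := congrArg conj (q g hg v' hv')
    simp only [map_intCast, map_sum, map_mul, map_div₀, conj_cc, map_ofNat, map_natCast,
      conj_mv] at this
    rw [Int.cast_mul, this, q g hg v hv, Finset.sum_mul_sum]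
    simp only [mul_mul_mul_comm (cc k δ _ / _)]
  have q2 : ∀ v : IrrCharacter H → ℤ, ∀ ξ ∈ Finset.univ.filter (· ∈ F),
      ∑ η with η ∈ F, mult (ξ : H → ℂ) η * v η = v ξ := fun v ξ hξ => by
    rw [Finset.sum_eq_single_of_mem ξ hξ fun η _ e => by simp [mult, classInner_irr, e.symm]]
    simp [mult, classInner_irr]
  refine Int.cast_injective (α := ℂ) ?_
  rw [← Finset.sum_congr rfl fun ξ hξ => congrArg₂ (· * ·) (q2 v ξ hξ) (q2 v' ξ hξ), Int.cast_sum,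
    Int.cast_sum, Finset.sum_congr rfl fun χ _ => q' _ (χ.2.isGeneralizedCharacter.restrict H),
    Finset.sum_congr (s₁ := Finset.univ.filter (· ∈ F)) rfl fun ξ _ =>
      q' _ ξ.2.isGeneralizedCharacter, Finset.sum_comm,
    Finset.sum_comm (s := Finset.univ.filter (· ∈ F))]
  refine Finset.sum_congr rfl fun l hl => ?_
  rw [Finset.sum_comm, Finset.sum_comm (s := Finset.univ.filter (· ∈ F))]
  refine Finset.sum_congr rfl fun l' hl' => ?_
  rw [← Finset.mul_sum, ← Finset.mul_sum, hb.pair_eq h hm hm' (Finset.mem_filter.1 hl).2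
    (Finset.mem_filter.1 hl').2 _
    (funext (H06.extendByZero_coe H _) ▸ (isGen_gc v').isClassFunction)]

end lift

theorem exists_tv (h : Mx M 2 B b) (hm : MC b.1 σ τ k δ) : ∃ (hD : b.1 ≤ 𝐂 ⟪pw σ (hh k)⟫)
    (b' : BrauerPairIdx (𝐂 ⟪pw σ (hh k)⟫)) (R : Finset Bool),
    Dsc M 2 b ⟪pw σ (hh k)⟫ _ (sb M 2 b (pw σ (hh k))) b' ∧
    R.card + (urep M b' ⟨σ, hD hm.σ_mem⟩ ⟨τ, hD hm.τ_mem⟩).card = 2 ∧
    Nat.card B = blockRank 2 B + R.card + 2 ^ (k + 1) + (urep M b σ τ).card ∧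
    Nat.card {χ : IrrCharacter G // χ ∈ B ∧ blockHeight 2 B (χ : G → ℂ) = 0} = 4 ∧
    Nat.card B ≤ 2 ^ (k + 1) + 3 + R.card ∧ (k ≠ 0 →
      Nat.card B = 2 ^ (k + 1) + 3 + R.card ∧ (∀ χ ∈ B, blockHeight 2 B (χ : G → ℂ) = 0 ∨
        blockHeight 2 B (χ : G → ℂ) = 1 ∨ blockHeight 2 B (χ : G → ℂ) = k + 1) ∧
      Nat.card {χ : IrrCharacter G // χ ∈ B ∧ blockHeight 2 B (χ : G → ℂ) = 1} =
        2 ^ (k + 1) - 1) := by
  have hD : b.1 ≤ 𝐂 ⟪pw σ (hh k)⟫ := fun x hx => mem_centralizer_zpowers.2 (hm.z_conj hx)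
  obtain ⟨b', hb⟩ := h.exists_dsc (h.sp_ple (hm.pw_memD (hh k))) le_rfl (centralizer_le_pstab _) hD
    (h.sub (hm.pw_memD _)).blk rfl
  have hm' : MC b'.1 (⟨σ, hD hm.σ_mem⟩ : 𝐂 ⟪pw σ (hh k)⟫) ⟨τ, hD hm.τ_mem⟩ k δ :=
    hb.dp.eq ▸ hm.subgroupOf hD
  obtain ⟨J, R, w, x, s, φ, c, hJ, htv, hc, hR, hl, h1, h2, h3⟩ := exists_st2 hb.mx hm'
    (Subgroup.mem_center_iff.2 fun g => Subtype.ext (by
      have := mem_centralizer_zpowers.1 g.2
      rw [mul_inv_eq_iff_eq_mul] at this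
      exact this))
  have h4 := hm.card_eq h
  obtain ⟨h5, h6, h7⟩ := hm.of_tv h ((Fintype.card_coe J).symm ▸ hJ) (htv.lift
    (fun (χ : IrrCharacter G) ξ => mult (fun y : 𝐂 ⟪pw σ (hh k)⟫ => (χ : G → ℂ) y) ξ) h1 h2 h3
    (fun v v' => hb.iso h hm hm') (fun _ _ => rfl)
    (fun χ hχ ψ hψ => hm.dvd_z h (by simpa using hχ) (by simpa using hψ) (by
      have cl := fun χ : IrrCharacter G => χ.2.isGeneralizedCharacter.restrict (𝐂 ⟪pw σ (hh k)⟫)
      have hz := hm'.pw_memD (hh k)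
      refine (congrArg _ (hb.mv_eq h (v := pw ⟨σ, hD hm.σ_mem⟩ (hh k)) (hm.pw_memD _) le_rfl
        χ ψ).symm).trans ?_
      rw [← hb.mx.mv_blockPart (cl χ).isClassFunction hz, ← gc_mult (cl χ), mv_gc, Finset.mul_sum,
        Int.cast_sum]
      refine Finset.sum_congr rfl fun ξ hξ => ?_
      rw [← conj_mv, ← hb.mx.mv_blockPart (cl ψ).isClassFunction hz, ← gc_mult (cl ψ), mv_gc,
        map_sum, Finset.mul_sum, Finset.mul_sum, Int.cast_sum]
      refine Finset.sum_congr rfl fun η hη => ?_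
      rw [map_mul, conj_mv, map_intCast, Int.cast_mul, Int.cast_mul,
        ← hc ξ (Finset.mem_filter.1 hξ).2 η (Finset.mem_filter.1 hη).2]
      ring))
    ((h.blk.exists_height_zero 2).imp fun χ e => ⟨by simpa using e.1, e.2⟩))
  refine ⟨hD, b', R, hb, hR, by omega, h5, h6, fun hk => ?_⟩
  obtain ⟨h7, h8, h9⟩ := h7 (Or.inl hk)
  exact ⟨h7, fun χ hχ => (h8 χ hχ).imp_right (Or.imp_right And.right), h9 hk⟩

omit hMm in
theorem MC.sq_eq {D : Subgroup G} (hm : MC D σ τ k δ) (hx : x ∈ D) (h1 : x * x ≠ 1)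
    (h2 : x * x * (x * x) = 1) : x * x = pw σ (hh k) := by
  by_cases h3 : x ∈ ⟪σ⟫
  · obtain ⟨l, rfl⟩ := hm.exists_pw h3
    rw [← hm.pw_add, ← two_mul] at h1 h2 ⊢
    rw [← hm.pw_add, ← two_mul, hm.pw_eq_one, two_mul_eq_zero] at h2
    rw [h2.resolve_left fun e => h1 (hm.pw_eq_one.2 e)]
  · exact (hm.out_sq hx h3).resolve_left h1

omit hMm in
theorem MC.card_urep {D : Subgroup G} (hm : MC D σ τ k δ) : (urep M b σ τ).card =
    (if Un M b σ τ then 1 else 0) + if Un M b σ (σ * τ) ∧ ¬ Fus M 2 b τ (σ * τ) then 1 else 0 := by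
  have : σ * τ ≠ τ := fun e => by
    have := hm.ord
    rw [mul_eq_right.1 e, orderOf_one] at this
    exact absurd this (Nat.one_lt_two_pow (by omega)).ne
  rw [urep, Finset.card_filter, Finset.sum_pair this.symm]
  simp [this]

section
variable {b' : BrauerPairIdx (𝐂 ⟪z⟫)} {F : Set (IrrCharacter (𝐂 ⟪z⟫))} {σ τ v w : 𝐂 ⟪z⟫}
  (h : Mx M 2 B b) (hm : MC b.1 σ τ k δ) (hz : pw (σ : G) (hh k) = z) (hb : Dsc M 2 b ⟪z⟫ _ F b')
  (hv : (v : G) ∈ b.1) (h2 : (v : G) * v = z)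
include h hm hz hb hv h2

theorem Dsc.fus_iff : Fus M 2 b v w ↔ Fus M 2 b' v w := by
  have q : ∀ v : G, v * v = z → ⟪z⟫ ≤ ⟪v⟫ := fun v e =>
    Subgroup.zpowers_le.2 (e ▸ mul_mem (Subgroup.mem_zpowers v) (Subgroup.mem_zpowers v))
  refine ⟨fun e => ?_, fun e => hb.fus_up h hv (q _ h2) (q _ ?_) e⟩
  · have hw := e.mem
    obtain ⟨x, h3, h4⟩ := e
    have h5 : (w : G) * w = x * z * x⁻¹ := by rw [← h3, conj_mul, h2]
    have h6 : (w : G) * w = z := (hm.sq_eq hw (by rw [h5, ← hz]; simpa using hm.z_ne)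
      (by rw [h5, conj_mul, ← hz, hm.z_sq]; simp)).trans hz
    exact hb.fus_down h hv (q _ h2) (q _ h6) (mem_centralizer_zpowers.2 (h5 ▸ h6)) h3 h4
  · obtain ⟨x, rfl, -⟩ := e
    show (x : G) * v * (x : G)⁻¹ * ((x : G) * v * (x : G)⁻¹) = z
    rw [conj_mul, h2, mem_centralizer_zpowers.1 x.2]

theorem Dsc.un_iff : Un M b σ v ↔ Un M b' σ v := by
  refine ⟨fun e w ⟨n, hn⟩ q => e w ⟨n, congrArg Subtype.val hn⟩ ((hb.fus_iff h hm hz hv h2).2 q),
    fun e w ⟨n, hn⟩ q => e (σ ^ n) ⟨n, rfl⟩ ((hb.fus_iff h hm hz hv h2).1 ?_)⟩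
  rwa [← hn] at q

end

theorem quaternion_main (h : Mx M 2 B b) (hm : MC b.1 σ τ k 0) (hd : τ * τ ≠ 1) :
    blockRank 2 B ≤ 3 ∧ Nat.card B = blockRank 2 B + 2 ^ (k + 1) + 2 ∧
      Nat.card {χ : IrrCharacter G // χ ∈ B ∧ blockHeight 2 B (χ : G → ℂ) = 0} = 4 ∧
      (∀ χ ∈ B, blockHeight 2 B (χ : G → ℂ) = 0 ∨ blockHeight 2 B (χ : G → ℂ) = 1 ∨
        blockHeight 2 B (χ : G → ℂ) = k + 1) ∧ (k ≠ 0 →
      Nat.card {χ : IrrCharacter G // χ ∈ B ∧ blockHeight 2 B (χ : G → ℂ) = 1} = 2 ^ (k + 1) - 1) := by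
  obtain ⟨hD, b', R, hb, h1, h2, h3, h4, h5⟩ := exists_tv h hm
  have hm' : MC b'.1 _ _ k 0 := hb.dp.eq ▸ hm.subgroupOf hD
  have h6 := (hm.out_sq hm.τ_mem hm.τ_not).resolve_left hd
  have h7 : σ * τ * (σ * τ) = pw σ (hh k) := by
    have := hm.rel
    rw [pow_zero, mul_one, mul_inv_eq_iff_eq_mul] at this
    rw [mul_assoc, ← mul_assoc τ, this, ← h6]; group
  have h8 := mul_mem hm.σ_mem hm.τ_mem
  have hm1 : MC b.1 (⟨σ, hD hm.σ_mem⟩ : 𝐂 ⟪pw σ (hh k)⟫) (⟨τ, hD hm.τ_mem⟩ : 𝐂 ⟪pw σ (hh k)⟫) k 0 := hm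
  rw [hm'.card_urep, ← hb.un_iff h hm1 rfl hm.τ_mem h6, ← hb.un_iff h hm1 rfl h8 h7,
    ← hb.fus_iff h hm1 rfl hm.τ_mem h6] at h1
  have h9 : R.card + (urep M b σ τ).card = 2 := by rw [hm.card_urep]; exact h1
  refine ⟨by omega, by omega, h3, fun χ hχ => ?_, fun hk => (h5 hk).2.2⟩
  rcases eq_or_ne k 0 with rfl | hk
  · have := height_add_two_le h.mod h.blk hχ
    rw [hm.defect h] at this
    omega
  · exact (h5 hk).2.1 χ hχ

theorem semidihedral_main (h : Mx M 2 B b) (hm : MC b.1 σ τ k 1) (hd : τ * τ = 1) :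
    (Nat.card B = 2 ^ (k + 1) + 3 ∨ Nat.card B = 2 ^ (k + 1) + 4) ∧ blockRank 2 B ≤ 3 ∧
      (blockRank 2 B = 3 → Nat.card B = 2 ^ (k + 1) + 4) ∧
      (blockRank 2 B = 1 → Nat.card B = 2 ^ (k + 1) + 3) ∧
      Nat.card {χ : IrrCharacter G // χ ∈ B ∧ blockHeight 2 B (χ : G → ℂ) = 0} = 4 ∧
      Nat.card {χ : IrrCharacter G // χ ∈ B ∧ blockHeight 2 B (χ : G → ℂ) = 1} = 2 ^ (k + 1) - 1 ∧
      ∀ χ ∈ B, blockHeight 2 B (χ : G → ℂ) = 0 ∨ blockHeight 2 B (χ : G → ℂ) = 1 ∨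
        blockHeight 2 B (χ : G → ℂ) = k + 1 := by
  obtain ⟨hD, b', R, hb, h1, h2, h3, h4, h5⟩ := exists_tv h hm
  obtain ⟨h5, h10, h11⟩ := h5 (by have := hm.dl; omega)
  have hm' : MC b'.1 _ _ k 1 := hb.dp.eq ▸ hm.subgroupOf hD
  have h7 : σ * τ * (σ * τ) = pw σ (hh k) := by
    have := hm.rel
    rw [pow_one, mul_inv_eq_iff_eq_mul] at this
    rw [mul_assoc, ← mul_assoc τ, this, pw, val_hh, mul_assoc, hd, mul_one, mul_inv_cancel_left]
  have h8 : ∀ x : G, x * τ * x⁻¹ ≠ σ * τ := fun x e => hm.z_ne (by rw [← h7, ← e, conj_mul, hd]; simp)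
  have h9 : Un M b' ⟨σ, hD hm.σ_mem⟩ ⟨τ, hD hm.τ_mem⟩ := fun w hw ⟨x, e, _⟩ => by
    obtain ⟨l, rfl⟩ := hm'.exists_pw hw
    have e : (x : G) * τ * (x : G)⁻¹ = pw σ l := congrArg Subtype.val e
    have : pw σ (2 * l) = 1 := by rw [two_mul, hm.pw_add, ← e, conj_mul, hd]; simp
    refine hm.τ_not ?_
    rcases two_mul_eq_zero.1 (hm.pw_eq_one.1 this) with rfl | rfl
    · rw [pw_zero, conj_eq_one_iff] at e; exact e ▸ one_mem _
    · exact (mul_left_cancel (mul_right_cancel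
        (e.trans (mem_centralizer_zpowers.1 x.2).symm))).symm ▸ pw_mem σ (hh k)
  have hm1 : MC b.1 (⟨σ, hD hm.σ_mem⟩ : 𝐂 ⟪pw σ (hh k)⟫) (⟨τ, hD hm.τ_mem⟩ : 𝐂 ⟪pw σ (hh k)⟫) k 1 := hm
  rw [hm'.card_urep, if_pos h9, ← hb.un_iff h hm1 rfl (mul_mem hm.σ_mem hm.τ_mem) h7] at h1
  rw [hm.card_urep] at h2
  have q1 : ¬ Fus M 2 b τ (σ * τ) := fun ⟨x, e, _⟩ => h8 x e
  have q2 : ¬ Fus M 2 b' ⟨τ, hD hm.τ_mem⟩ (⟨σ, hD hm.σ_mem⟩ * ⟨τ, hD hm.τ_mem⟩) :=
    fun ⟨x, e, _⟩ => h8 x (congrArg Subtype.val e)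
  simp only [q1, q2, not_false_iff, and_true] at h1 h2
  have h1 : R.card + (1 + if Un M b σ (σ * τ) then 1 else 0) = 2 := h1
  refine ⟨?_, ?_, ?_, ?_, h3, h11, h10⟩ <;> split_ifs at h1 h2 <;> omega

end H21
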