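import Mathlib
import Cfsg.Agent.H21.Tame9

/-!
Tame blocks with three simple modules (namespace H21): `three_main`.
-/

set_option autoImplicit false
set_option linter.unusedSectionVars false
set_option linter.unusedVariables false

namespace H21
open H05 Cfsg H20 MonoidAlgebra Classical
open scoped commutatorElement

local notation:max "⟪" u "⟫" => Subgroup.zpowers u

attribute [-instance] H19.instFintypeSubgroupFrob

variable {M : Ideal AlgInt} [hMm : M.IsMaximal] {G : Type*} [Group G] [Fintype G]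
  {B : Set (IrrCharacter G)} {b : BrauerPairIdx G} {x σ τ : G} {k δ : ℕ}

omit hMm in
theorem MC.z_mem {D K : Subgroup G} (hm : MC D σ τ k δ) [hK : K.Normal] (hx : x ∈ D) (h1 : x ∈ K)
    (h2 : x ≠ 1) : pw σ (hh k) ∈ K := by
  by_cases h3 : x ∈ ⟪σ⟫
  · obtain ⟨l, rfl⟩ := hm.exists_pw h3
    exact Subgroup.zpowers_le.1 ((hm.z_le fun e => h2 (hm.pw_eq_one.2 e)).trans
      (Subgroup.zpowers_le.2 h1))
  · exact (mul_mem_cancel_right h1).1 (hm.y_conj hx h3 ▸ hK.conj_mem x h1 _)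

omit hMm in
theorem MC.exists_inv {D : Subgroup G} (hm : MC D σ τ k δ) (hd : τ * τ = 1) :
    ∃ t ∈ D, t * t = 1 ∧ τ * t ≠ t * τ := by
  have h1 : ∀ l : ZK k, l ≠ 0 ∧ l ≠ hh k → τ * (pw σ l * τ) ≠ pw σ l * τ * τ := fun l hl e => by
    rw [← mul_assoc, mul_left_inj, ← mul_inv_eq_iff_eq_mul] at e
    rcases hm.out_comm hm.τ_mem hm.τ_not (pw_mem σ l) e with e | e
    exacts [hl.1 (hm.pw_eq_one.1 e), hl.2 (hm.pw_inj.1 e)]
  have h2 : ∀ l : ZK k, pw σ l * τ * (pw σ l * τ) = pw σ (l + ee k δ * l) := fun l => by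
    rw [hm.pw_add, ← hm.τ_conj, inv_eq_of_mul_eq_one_right hd]; group
  rcases hm.dl with rfl | ⟨rfl, hk⟩
  · exact ⟨_, mul_mem (hm.pw_memD 1) hm.τ_mem, by simp [h2, ee, pw_zero], h1 1 good_one⟩
  · refine ⟨_, mul_mem (hm.pw_memD (2 * 1)) hm.τ_mem, by rw [h2, ee_two, add_neg_cancel, pw_zero],
      h1 _ ?_⟩
    have := cast_facts (k := k) (i := 2) (j := 2) (by
      have := Nat.pow_lt_pow_right one_lt_two (show 1 < k + 1 by omega)
      simp; omega) (by
      have := Nat.pow_lt_pow_right one_lt_two (show 1 < k + 1 by omega)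
      simp; omega)
    simpa using And.intro this.1 this.2.1

theorem three_main (h : Mx M 2 B b) (hm : MC b.1 σ τ k δ) (hd : τ * τ = 1)
    (hl : blockRank 2 B = 3) : Odd (Nat.card (Subgroup.center G)) ∧ ¬ Group.IsSolvable G := by
  obtain ⟨-, -, R, -, -, h1, -, h2, -⟩ := exists_tv h hm
  have h3 : urep M b σ τ = ∅ := Finset.card_eq_zero.1 (by omega)
  have h4 : ∀ v ∈ b.1, v ≠ 1 → v * v = 1 → ∃ x, x * v * x⁻¹ = pw σ (hh k) := fun v hv e e' => by
    have : ¬ Un M b σ v := fun q => by simpa [h3] using hm.rep_cover h hv q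
    simp only [Un, not_forall, not_not] at this
    obtain ⟨w, hw, x, hx, -⟩ := this
    obtain ⟨l, rfl⟩ := hm.exists_pw hw
    have : pw σ (2 * l) = 1 := by rw [two_mul, hm.pw_add, ← hx, conj_mul, e']; simp
    rcases two_mul_eq_zero.1 (hm.pw_eq_one.1 this) with rfl | rfl
    · rw [pw_zero, conj_eq_one_iff] at hx; exact absurd hx e
    · exact ⟨x, hx⟩
  have h5 : τ ≠ 1 := fun e => hm.τ_not (e ▸ one_mem _)
  obtain ⟨y, hy⟩ := h4 τ hm.τ_mem h5 hd
  refine ⟨Nat.not_even_iff_odd.1 fun e => ?_, fun ⟨n, hn⟩ => ?_⟩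
  · obtain ⟨⟨c, hc⟩, h6⟩ := exists_prime_orderOf_dvd_card' 2 e.two_dvd
    rw [Subgroup.orderOf_mk] at h6
    haveI : (⟪c⟫).Normal := ⟨fun n hn g => by
      rw [Subgroup.mem_center_iff.1 (Subgroup.zpowers_le.2 hc hn) g, mul_inv_cancel_right]; exact hn⟩
    obtain ⟨x, hx⟩ := h4 c ((h.max.isDefectGroup h.mod).normal_le h.mod h.blk
      (IsPGroup.of_card (n := 1) ((Nat.card_zpowers c).trans h6)) (Subgroup.mem_zpowers c))
      (by rintro rfl; simp at h6) (by rw [← sq, ← h6, pow_orderOf_eq_one])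
    rw [Subgroup.mem_center_iff.1 hc x, mul_inv_cancel_right] at hx
    rw [← hx, mul_inv_eq_iff_eq_mul, ← Subgroup.mem_center_iff.1 hc y, mul_right_inj] at hy
    exact hm.τ_not (hy ▸ hx ▸ pw_mem σ _)
  · obtain ⟨t, ht, h6, h7⟩ := hm.exists_inv hd
    obtain ⟨x, hx⟩ := h4 t ht (by rintro rfl; simp at h7) h6
    have : ∀ i, pw σ (hh k) ∈ derivedSeries G i := fun i => by
      induction i with
      | zero => exact Subgroup.mem_top _
      | succ i ih =>
        haveI := derivedSeries_normal G i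
        haveI := derivedSeries_normal G (i + 1)
        have q : ∀ v x : G, x * v * x⁻¹ = pw σ (hh k) → v ∈ derivedSeries G i := fun v x e => by
          simpa [← e, mul_assoc] using ‹(derivedSeries G i).Normal›.conj_mem' _ ih x
        exact hm.z_mem (x := ⁅τ, t⁆) (mul_mem (mul_mem (mul_mem hm.τ_mem ht) (inv_mem hm.τ_mem))
          (inv_mem ht)) (Subgroup.commutator_mem_commutator (q _ _ hy) (q _ _ hx))
          (mt commutatorElement_eq_one_iff_mul_comm.1 h7)
    exact hm.z_ne (by simpa [hn] using this n)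

end H21
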