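import Mathlib

/-! Arithmetic for the semidihedral case with cyclic odd Sylow subgroups. -/

set_option autoImplicit false
set_option linter.unusedVariables false

namespace H21.ZA

theorem aux {s d : ℤ} (h : (s * d).natAbs = 1 ∨ (s * d).natAbs = 3) (h4 : 4 ∣ s + d) (h0 : s + d ≠ 0) :
    s * d = 3 ∧ (s + d) ^ 2 = 16 ∧ (s = 3 * d ∨ d = 3 * s) := by
  have k : ∀ a : ℤ, a ∣ s * d → -3 ≤ a ∧ a ≤ 3 := fun a ha => by
    have : a ∣ 3 := ha.trans (Int.natAbs_dvd_natAbs.1 (by rcases h with h | h <;> simp [h]))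
    have h7 := Int.le_of_dvd (by norm_num) this
    have h8 := Int.le_of_dvd (by norm_num) (neg_dvd.2 this)
    omega
  obtain ⟨a, b⟩ := k s (Dvd.intro _ rfl)
  obtain ⟨c, e⟩ := k d (Dvd.intro_left _ rfl)
  clear k
  interval_cases s <;> interval_cases d <;> simp_all

theorem arithZ {p : ℕ} (hp : p.Prime) {r x y y' : ℤ} {i j c : ℕ} (hr : r = p ∨ r = -p)
    (r4 : r % 4 = 3) (x4 : x % 4 = 3) (hy : y ≠ 0) (hy' : y' ≠ 0) (hy1 : y' ≠ -1) (e : y' = y + x - 1)
    (h1 : (r : ℚ) ^ 2 / y - 1 - 1 / y' + r ^ 2 / x = 0)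
    (h3 : (j : ℤ) ^ 2 * (r - 1) * x * (x - 1) = i * r * (x - r) ^ 2) (j4 : 4 ∣ j) (jp : p ∣ j)
    (j0 : j ≠ 0) (jc : j ∣ c) (hc : p * (p ^ 2 - 1) ∣ c)
    (H : ∀ l : ℕ, l.Prime → l ∣ c → l ∣ i → l = 3 ∧ ¬ 9 ∣ i ∧ ¬ 3 ∣ j) :
    j = 4 * p ∧ 3 ∣ i ∧ ((i : ℤ) = (4 * p - 1) * (4 * p + 3) ∨ (i : ℤ) = (4 * p + 1) * (4 * p - 3)) := by
  have hw : x ≠ 0 := by omega
  have h5 : (y' + 1) * (x * y - r ^ 2 * y') = 0 := by
    have hw' : (x : ℚ) ≠ 0 := by exact_mod_cast hw
    have hy2 : (y : ℚ) ≠ 0 := by exact_mod_cast hy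
    have hy3 : (y' : ℚ) ≠ 0 := by exact_mod_cast hy'
    have e' : (y : ℚ) = y' - x + 1 := by rw [e]; push_cast; ring
    field_simp at h1
    have : ((y' : ℚ) + 1) * (x * y - r ^ 2 * y') = 0 := by
      rw [e'] at h1 ⊢
      linear_combination -h1
    exact_mod_cast this
  have h6 : y * (x - r ^ 2) = r ^ 2 * (x - 1) := by
    rcases mul_eq_zero.1 h5 with h | h
    · exact absurd (by linarith) hy1
    · rw [e] at h; linear_combination h
  have rp : Prime r := by
    rcases hr with rfl | rfl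
    exacts [Nat.prime_iff_prime_int.1 hp, (Nat.prime_iff_prime_int.1 hp).neg]
  have rr : (p : ℤ) ^ 2 = r ^ 2 := by rcases hr with rfl | rfl <;> ring
  have r0 := rp.ne_zero
  have np : ¬ r ∣ i := fun h => by
    have h2 : p ∣ i := by
      rcases hr with rfl | rfl
      exacts [Int.natCast_dvd_natCast.1 h, Int.natCast_dvd_natCast.1 (neg_dvd.1 h)]
    obtain ⟨rfl, -, h4⟩ := H p hp (jp.trans jc) h2
    exact h4 jp
  have i2 : ¬ 2 ∣ i := fun h =>
    absurd (H 2 Nat.prime_two ((by norm_num : 2 ∣ 4).trans (j4.trans jc)) h).1 (by norm_num)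
  have three : ∀ n : ℕ, n ∣ i → (∀ l : ℕ, l.Prime → l ∣ n → l ∣ c) → n = 1 ∨ n = 3 := fun n h1 h2 => by
    have n0 : n ≠ 0 := by rintro rfl; exact i2 (by simp [zero_dvd_iff.1 h1])
    have h4 := Nat.eq_prime_pow_of_unique_prime_dvd (p := 3) n0 fun {l} hl h =>
      (H l hl (h2 l hl h) (h.trans h1)).1
    generalize n.primeFactorsList.length = k at h4
    rcases k with _ | _ | k
    · exact .inl h4
    · exact .inr h4
    · have h7 : 9 ∣ n := ⟨3 ^ k, by rw [h4]; ring⟩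
      have h8 : 3 ∣ n := (by norm_num : 3 ∣ 9).trans h7
      exact absurd (h7.trans h1) (H 3 Nat.prime_three (h2 3 Nat.prime_three h8) (h8.trans h1)).2.1
  obtain ⟨j, rfl⟩ := jp
  obtain ⟨j, rfl⟩ : 4 ∣ j := (Nat.Coprime.pow_left 2 (Nat.coprime_two_left.2
    (hp.odd_of_ne_two (by rintro rfl; omega)))).dvd_of_dvd_mul_left j4
  push_cast at h3
  rw [mul_pow, rr] at h3
  obtain ⟨x, rfl⟩ : r ∣ x := by
    have : r ∣ i * (x - r) ^ 2 := ⟨(4 * j) ^ 2 * (r - 1) * x * (x - 1),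
      mul_left_cancel₀ r0 (by linear_combination -h3)⟩
    simpa using (rp.dvd_of_dvd_pow ((rp.dvd_or_dvd this).resolve_left np)).add (dvd_refl r)
  have e3 : (4 * j) ^ 2 * (r - 1) * x * (r * x - 1) = i * (x - 1) ^ 2 :=
    mul_left_cancel₀ (pow_ne_zero 3 r0) (by linear_combination h3)
  have nx : ¬ r ∣ x - r := fun h => by
    obtain ⟨k, hk⟩ : r ∣ x := by simpa using h.add (dvd_refl r)
    have : r ∣ i * (x - 1) ^ 2 := ⟨(4 * j) ^ 2 * (r - 1) * k * (r * x - 1), by rw [← e3, hk]; ring⟩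
    have := rp.dvd_of_dvd_pow ((rp.dvd_or_dvd this).resolve_left np)
    exact rp.not_dvd_one (by simpa using (Dvd.intro _ hk.symm).sub this)
  obtain ⟨d, rfl⟩ : ∃ d, x = r + d := ⟨x - r, by ring⟩
  rw [add_sub_cancel_left] at nx
  obtain ⟨e, he⟩ : d ∣ r ^ 2 - 1 := (rp.coprime_iff_not_dvd.2 nx).symm.dvd_of_dvd_mul_left
    ⟨y - r ^ 2, mul_left_cancel₀ r0 (by linear_combination -h6)⟩
  have r1 : r - 1 ≠ 0 := by omega
  have d0 : d ≠ 0 := by rintro rfl; exact nx (dvd_zero r)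
  obtain ⟨d', s', hg, hd, hs⟩ := Int.exists_gcd_one (Int.gcd_pos_of_ne_zero_left (r - 1) d0)
  generalize (Int.gcd d (r - 1) : ℤ) = g at hd hs
  have g0 : g ≠ 0 := by rintro rfl; exact d0 (by simpa using hd)
  have e4 : 16 * (j ^ 2 * (s' * d') * (r + d) * (r + e)) = i * (s' + d') ^ 2 := by
    apply mul_left_cancel₀ (pow_ne_zero 2 g0)
    rw [show r * (r + d) - 1 = d * (r + e) by linear_combination he,
      show r + d - 1 = (s' + d') * g by linear_combination hd + hs, hs] at e3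
    nth_rewrite 2 [hd] at e3
    linear_combination e3
  have c1 := Int.isCoprime_iff_gcd_eq_one.2 hg
  have k1 : s' * d' ∣ i := (IsCoprime.pow_right (n := 2) (IsCoprime.mul_left
    (by simpa using c1.symm.add_mul_right_right 1 : IsCoprime s' (d' + s'))
    (by simpa [add_comm] using c1.add_mul_right_right 1))).dvd_of_dvd_mul_right
      ⟨16 * j ^ 2 * (r + d) * (r + e), by linear_combination -e4⟩
  have k2 := three (s' * d').natAbs (Int.natAbs_dvd_natAbs.2 k1) fun l hl h => by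
    refine Dvd.dvd.trans ?_ ((Dvd.intro_left _ rfl).trans hc)
    have h2 : (l : ℤ) ∣ r ^ 2 - 1 := by
      rcases (Nat.prime_iff_prime_int.1 hl).dvd_or_dvd (Int.natCast_dvd.2 h) with h | h
      · exact h.trans ⟨g * (r + 1), by linear_combination (r + 1) * hs⟩
      · exact h.trans ⟨g * e, by rw [he, hd]; ring⟩
    rw [← rr] at h2
    have := Nat.one_le_pow 2 p hp.pos
    zify [this]; exact h2
  have k3 : (4 : ℤ) ∣ s' + d' := (Int.pow_dvd_pow_iff two_ne_zero).1
    ((IsCoprime.pow_left (m := 4) (Int.prime_two.coprime_iff_not_dvd.2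
      (by exact_mod_cast i2))).dvd_of_dvd_mul_left (Dvd.intro _ e4))
  have k4 : s' + d' ≠ 0 := fun h => by
    rw [show r + d - 1 = 0 by linear_combination hd + hs + g * h] at e3
    have : r + d = 1 := by linear_combination hd + hs + g * h
    simp [this, r1] at e3
    simp [e3] at j0
  have k5 := aux k2 k3 k4
  obtain ⟨k5, k6, k7⟩ := k5
  rw [k5, k6] at e4
  have e5 : (i : ℤ) = j ^ 2 * (3 * (r + d) * (r + e)) := mul_left_cancel₀ (by norm_num : (16 : ℤ) ≠ 0) (by linear_combination -e4)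
  have k8 : j ^ 2 ∣ i := by exact_mod_cast Dvd.intro _ e5.symm
  have i3 : 3 ∣ i := Int.natCast_dvd_natCast.1 ⟨j ^ 2 * (r + d) * (r + e), by rw [e5]; push_cast; ring⟩
  obtain rfl : j = 1 := (three j ((dvd_pow_self j two_ne_zero).trans k8) fun l _ h =>
    (h.trans ⟨p * 4, by ring⟩).trans jc).resolve_right (by
      rintro rfl
      exact (H 3 Nat.prime_three ((Dvd.intro (p * 4) (by ring)).trans jc) i3).2.1 k8)
  refine ⟨by ring, i3, ?_⟩
  rcases k7 with rfl | rfl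
  · have a1 : e = 3 * (r + 1) := mul_left_cancel₀ d0 (by
      linear_combination -he + (r + 1) * (hs - 3 * hd))
    have a2 : (i : ℤ) = (4 * r - 1) * (4 * r + 3) := by
      rw [e5, a1]; push_cast; linear_combination (4 * r + 3) * (3 * hd - hs)
    rcases hr with rfl | rfl
    exacts [.inl a2, .inr (by linear_combination a2)]
  · have a1 : 3 * e = r + 1 := mul_left_cancel₀ r1 (by
      linear_combination -he + e * (3 * hs - hd))
    have a2 : (i : ℤ) = (4 * r + 1) * (4 * r - 3) := by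
      rw [e5]; push_cast; linear_combination (r + d) * a1 + (4 * r + 1) * (hd - 3 * hs)
    rcases hr with rfl | rfl
    exacts [.inr a2, .inl (by linear_combination a2)]

end H21.ZA
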